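import Cfsg.Agent.Lib.Helper15.Witt

set_option autoImplicit false

namespace Cfsg.Agent.Lib.Helper15

open Module QuadraticMap

variable {F V : Type*} [Field F] [AddCommGroup V] [Module F V]

/-- hyperbolic pairs -/
structure HPair (Q : QuadraticForm F V) (e f : V) : Prop where
  Qe : Q e = 0
  Qf : Q f = 0
  ef : polar Q e f = 1

/-- orthogonal complement of a pair of vectors -/
def perp2 (Q : QuadraticForm F V) (e f : V) : Submodule F V :=
  LinearMap.BilinForm.orthogonal (polarBilin Q) (Submodule.span F {e, f})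

theorem mem_perp2 (Q : QuadraticForm F V) (e f x : V) :
    x ∈ perp2 Q e f ↔ polar Q e x = 0 ∧ polar Q f x = 0 := by
  unfold perp2
  rw [LinearMap.BilinForm.mem_orthogonal_iff]
  constructor
  · intro ht
    exact ⟨ht e (Submodule.subset_span (by simp)), ht f (Submodule.subset_span (by simp))⟩
  · rintro ⟨h1, h2⟩ n hn'
    rw [Submodule.mem_span_pair] at hn'
    obtain ⟨a, b, rfl⟩ := hn'
    change polar Q (a • e + b • f) x = 0
    rw [polar_add_left, polar_smul_left, polar_smul_left, h1, h2]; simp

namespace HPair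

variable {Q : QuadraticForm F V} {e f : V}

theorem fe (h : HPair Q e f) : polar Q f e = 1 := by rw [polar_comm]; exact h.ef
theorem ee (h : HPair Q e f) : polar Q e e = 0 := by rw [polar_self, h.Qe]; simp
theorem ff (h : HPair Q e f) : polar Q f f = 0 := by rw [polar_self, h.Qf]; simp

theorem e_ne_zero (h : HPair Q e f) : e ≠ 0 := by
  rintro rfl
  have := h.ef
  simp at this

theorem proj_mem (h : HPair Q e f) (x : V) :
    x + (-(polar Q f x)) • e + (-(polar Q e x)) • f ∈ perp2 Q e f := by
  rw [mem_perp2]
  constructor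
  · simp only [polar_add_right, polar_smul_right, h.ee, h.ef, smul_eq_mul]; ring
  · simp only [polar_add_right, polar_smul_right, h.ff, h.fe, smul_eq_mul]; ring

/-- the decomposition `V = ⟨e, f⟩ ⊥ W` -/
def decomp (h : HPair Q e f) : F × F × perp2 Q e f ≃ V where
  toFun p := p.1 • e + p.2.1 • f + (p.2.2 : V)
  invFun x := (polar Q f x, polar Q e x, ⟨_, h.proj_mem x⟩)
  left_inv := by
    rintro ⟨a, b, y, hy⟩
    obtain ⟨h1, h2⟩ := (mem_perp2 Q e f y).1 hy
    have e1 : polar Q f (a • e + b • f + y) = a := by
      simp only [polar_add_right, polar_smul_right, h.ff, h.fe, h2, smul_eq_mul]; ring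
    have e2 : polar Q e (a • e + b • f + y) = b := by
      simp only [polar_add_right, polar_smul_right, h.ee, h.ef, h1, smul_eq_mul]; ring
    ext
    · exact e1
    · exact e2
    · simp only [e1, e2]
      module
  right_inv := by
    intro x
    simp only
    module

theorem decomp_apply (h : HPair Q e f) (a b : F) (y : perp2 Q e f) :
    h.decomp (a, b, y) = a • e + b • f + (y : V) := rfl

theorem Q_decomp (h : HPair Q e f) (a b : F) (y : perp2 Q e f) :
    Q (h.decomp (a, b, y)) = a * b + Q (y : V) := by
  obtain ⟨h1, h2⟩ := (mem_perp2 Q e f y).1 y.2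
  rw [decomp_apply, QuadraticMap.map_add Q, QuadraticMap.map_add Q, QuadraticMap.map_smul,
    QuadraticMap.map_smul, h.Qe, h.Qf, polar_add_left, polar_smul_left, polar_smul_left, polar_smul_left,
    polar_smul_right, h.ef, h1, h2]
  simp

theorem polar_e_decomp (h : HPair Q e f) (a b : F) (y : perp2 Q e f) :
    polar Q e (h.decomp (a, b, y)) = b := by
  obtain ⟨h1, h2⟩ := (mem_perp2 Q e f y).1 y.2
  rw [decomp_apply]
  simp only [polar_add_right, polar_smul_right, h.ee, h.ef, h1, smul_eq_mul]; ring

theorem polar_f_decomp (h : HPair Q e f) (a b : F) (y : perp2 Q e f) :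
    polar Q f (h.decomp (a, b, y)) = a := by
  obtain ⟨h1, h2⟩ := (mem_perp2 Q e f y).1 y.2
  rw [decomp_apply]
  simp only [polar_add_right, polar_smul_right, h.ff, h.fe, h2, smul_eq_mul]; ring

theorem nondeg [FiniteDimensional F V] (h : HPair Q e f) (hQ : (polarBilin Q).Nondegenerate) :
    (polarBilin (Q.comp (perp2 Q e f).subtype)).Nondegenerate :=
  (split_orthogonal Q hQ _ (hyp_plane Q e f h.Qe h.Qf h.ef).1).1

theorem finrank_perp [FiniteDimensional F V] (h : HPair Q e f) (hQ : (polarBilin Q).Nondegenerate) :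
    finrank F (perp2 Q e f) + 2 = finrank F V := by
  have h1 := (split_orthogonal Q hQ _ (hyp_plane Q e f h.Qe h.Qf h.ef).1).2
  have h2 := (hyp_plane Q e f h.Qe h.Qf h.ef).2
  have h3 := Submodule.finrank_le (Submodule.span F {e, f})
  unfold perp2
  omega

theorem card_perp [Finite F] [Finite V] (h : HPair Q e f) :
    Nat.card V = Nat.card F * Nat.card F * Nat.card (perp2 Q e f) := by
  rw [← Nat.card_congr h.decomp, Nat.card_prod, Nat.card_prod, mul_assoc]

end HPair

end Cfsg.Agent.Lib.Helper15
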