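import Mathlib
import Cfsg.Agent.Lib.Helper15.Count1
import Cfsg.Agent.Lib.Helper15.EichOmega

set_option autoImplicit false

namespace Cfsg.Agent.Lib.Helper15

open Module QuadraticMap

section abstract

variable {F V : Type*} [Field F] [AddCommGroup V] [Module F V]

/-- an endomorphism commuting with all Eichler transformations stabilises every singular line -/
theorem eigen_of_commute [FiniteDimensional F V] (Q : QuadraticForm F V) (hQ : (polarBilin Q).Nondegenerate)
    (hn : 3 ≤ finrank F V) (A : Module.End F V)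
    (hA : ∀ y z, Q y = 0 → polar Q y z = 0 → A * eichL Q y z = eichL Q y z * A)
    (u : V) (hu : u ≠ 0) (hQu : Q u = 0) : ∃ c : F, A u = c • u := by
  obtain ⟨f, hQf, huf⟩ := exists_hyp_partner Q hQ u hu hQu
  have h : HPair Q u f := ⟨hQu, hQf, huf⟩
  have hfix : ∀ z, polar Q u z = 0 →
      (polar Q z (A u) - Q z * polar Q u (A u)) • u + (-polar Q u (A u)) • z = 0 := by
    intro z hz
    have h1 : eichL Q u z u = u := by
      rw [eichL_apply, h.ee, polar_comm Q z u, hz]; simp
    have h2 := congrArg (fun T => T u) (hA u z hQu hz)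
    simp only [Module.End.mul_apply] at h2
    rw [h1, eichL_apply, add_assoc] at h2
    exact (left_eq_add.1 h2)
  have hc : polar Q u (A u) = 0 := by
    have hfr := h.finrank_perp hQ
    have hpos : 0 < finrank F (perp2 Q u f) := by omega
    obtain ⟨z, hz⟩ := (Module.finrank_pos_iff_exists_ne_zero).1 hpos
    obtain ⟨hz1, hz2⟩ := (mem_perp2 Q u f z).1 z.2
    have h3 := hfix z hz1
    have h4 := congrArg (fun w => polar Q f w) h3
    simp only [polar_add_right, polar_smul_right, h.fe, hz2, polar_zero_right, smul_eq_mul, mul_one,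
      mul_zero, add_zero] at h4
    rw [h4, zero_smul, zero_add] at h3
    rcases smul_eq_zero.1 h3 with h5 | h5
    · exact neg_eq_zero.1 h5
    · exact absurd (Subtype.ext h5) hz
  have horth : ∀ z, polar Q u z = 0 → polar Q z (A u) = 0 := by
    intro z hz
    have h3 := hfix z hz
    rw [hc] at h3
    simp only [mul_zero, sub_zero, neg_zero, zero_smul, add_zero] at h3
    exact (smul_eq_zero.1 h3).resolve_right hu
  refine ⟨polar Q f (A u), ?_⟩
  rw [← sub_eq_zero]
  apply hQ.1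
  intro x
  show polar Q (A u - polar Q f (A u) • u) x = 0
  have h5 := horth (x - polar Q u x • f) (by rw [polar_sub_right, polar_smul_right, huf]; simp)
  rw [polar_sub_left, polar_smul_left] at h5
  rw [polar_sub_left, polar_smul_left, polar_comm Q (A u) x]
  simp only [smul_eq_mul] at h5 ⊢
  linear_combination h5

/-- propagation of the eigenvalue -/
theorem eigen_propagate (Q : QuadraticForm F V) (A : Module.End F V)
    (heig : ∀ u, u ≠ 0 → Q u = 0 → ∃ c : F, A u = c • u) (l : F) (s e' f' : V) (hs : Q s = 0)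
    (he' : Q e' = 0) (hAe : A e' = l • e') (h1 : polar Q s e' = 0) (h2 : polar Q f' e' = 1)
    (h3 : polar Q f' s = 0) : A s = l • s := by
  by_cases hs0 : s = 0
  · rw [hs0]; simp
  obtain ⟨μ, hμ⟩ := heig s hs0 hs
  have hne : s + e' ≠ 0 := by
    intro h
    have := congrArg (fun w => polar Q f' w) h
    simp only [polar_add_right, h2, h3, polar_zero_right] at this
    exact one_ne_zero ((zero_add (1 : F)).symm.trans this)
  obtain ⟨μ', hμ'⟩ := heig (s + e') hne (by rw [QuadraticMap.map_add Q, hs, he', h1]; simp)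
  rw [map_add, hμ, hAe, smul_add] at hμ'
  have h4 := congrArg (fun w => polar Q f' w) hμ'
  simp only [polar_add_right, polar_smul_right, h2, h3, smul_eq_mul, mul_zero, mul_one, zero_add] at h4
  rw [← h4] at hμ'
  rw [hμ]
  exact add_right_cancel hμ'

theorem scalar_of_eigen (Q : QuadraticForm F V) (A : Module.End F V)
    (heig : ∀ u, u ≠ 0 → Q u = 0 → ∃ c : F, A u = c • u) (e f e₂ f₂ : V) (h : HPair Q e f)
    (h' : HPair Q e₂ f₂) (h1 : polar Q e e₂ = 0) (h2 : polar Q e f₂ = 0) (h3 : polar Q f e₂ = 0)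
    (h4 : polar Q f f₂ = 0) : ∃ c : F, ∀ x, A x = c • x := by
  obtain ⟨l, hl⟩ := heig e h.e_ne_zero h.Qe
  refine ⟨l, ?_⟩
  have he₂ : A e₂ = l • e₂ :=
    eigen_propagate Q A heig l e₂ e f h'.Qe h.Qe hl (by rw [polar_comm]; exact h1) h.fe h3
  have hf₂ : A f₂ = l • f₂ :=
    eigen_propagate Q A heig l f₂ e f h'.Qf h.Qe hl (by rw [polar_comm]; exact h2) h.fe h4
  have hf : A f = l • f :=
    eigen_propagate Q A heig l f e₂ f₂ h.Qf h'.Qe he₂ h3 h'.fe (by rw [polar_comm]; exact h4)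
  intro x
  obtain ⟨y, hy, hye, hyf, hye₂, hyf₂⟩ : ∃ y, x = y + polar Q f x • e + polar Q e x • f + polar Q f₂ x • e₂ +
      polar Q e₂ x • f₂ ∧ polar Q e y = 0 ∧ polar Q f y = 0 ∧ polar Q e₂ y = 0 ∧ polar Q f₂ y = 0 := by
    refine ⟨x - polar Q f x • e - polar Q e x • f - polar Q f₂ x • e₂ - polar Q e₂ x • f₂, by abel,
      ?_, ?_, ?_, ?_⟩
    · simp only [polar_sub_right, polar_smul_right, h.ee, h.ef, h1, h2, smul_eq_mul]; ring
    · simp only [polar_sub_right, polar_smul_right, h.ff, h.fe, h3, h4, smul_eq_mul]; ring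
    · simp only [polar_sub_right, polar_smul_right, h'.ee, h'.ef, polar_comm Q e₂ e, polar_comm Q e₂ f,
        h1, h3, smul_eq_mul]; ring
    · simp only [polar_sub_right, polar_smul_right, h'.ff, h'.fe, polar_comm Q f₂ e, polar_comm Q f₂ f,
        h2, h4, smul_eq_mul]; ring
  have hs : A (y + e + (-Q y) • f) = l • (y + e + (-Q y) • f) := by
    refine eigen_propagate Q A heig l _ e₂ f₂ ?_ h'.Qe he₂ ?_ h'.fe ?_
    · have := Q_add_two Q y e f 1 (-Q y)
      rw [one_smul] at this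
      rw [this, h.Qe, h.Qf, h.ef, polar_comm Q y e, polar_comm Q y f, hye, hyf]; ring
    · simp only [polar_add_left, polar_smul_left, polar_comm Q y e₂, hye₂, h1, h3, smul_eq_mul]; ring
    · simp only [polar_add_right, polar_smul_right, hyf₂, polar_comm Q f₂ e, polar_comm Q f₂ f, h2, h4,
        smul_eq_mul]; ring
  have hy' : A y = l • y := by
    have e1 : y = (y + e + (-Q y) • f) - e + Q y • f := by
      rw [neg_smul]; abel
    rw [e1, map_add, map_sub, hs, map_smul, hl, hf]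
    module
  generalize polar Q f x = a1 at hy
  generalize polar Q e x = a2 at hy
  generalize polar Q f₂ x = a3 at hy
  generalize polar Q e₂ x = a4 at hy
  rw [hy]
  simp only [map_add, map_smul, hy', hl, hf, he₂, hf₂]
  module

theorem exists_two_hpairs [Finite F] [FiniteDimensional F V] (Q : QuadraticForm F V)
    (hQ : (polarBilin Q).Nondegenerate) (hn : 5 ≤ finrank F V) :
    ∃ e f e₂ f₂ : V, HPair Q e f ∧ HPair Q e₂ f₂ ∧ polar Q e e₂ = 0 ∧ polar Q e f₂ = 0 ∧
      polar Q f e₂ = 0 ∧ polar Q f f₂ = 0 := by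
  obtain ⟨e, he, hQe⟩ := exists_isotropic Q (by omega)
  obtain ⟨f, hQf, hef⟩ := exists_hyp_partner Q hQ e he hQe
  have h : HPair Q e f := ⟨hQe, hQf, hef⟩
  have hfr := h.finrank_perp hQ
  obtain ⟨e₂, he₂, hQe₂⟩ := exists_isotropic (Q.comp (perp2 Q e f).subtype) (by omega)
  obtain ⟨f₂, hQf₂, hef₂⟩ := exists_hyp_partner _ (h.nondeg hQ) e₂ he₂ hQe₂
  rw [polar_comp_subtype] at hef₂
  obtain ⟨a1, a2⟩ := (mem_perp2 Q e f e₂).1 e₂.2
  obtain ⟨b1, b2⟩ := (mem_perp2 Q e f f₂).1 f₂.2
  exact ⟨e, f, e₂, f₂, h, ⟨hQe₂, hQf₂, hef₂⟩, a1, b1, a2, b2⟩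

theorem scalar_of_commute_eich [Finite F] [FiniteDimensional F V] (Q : QuadraticForm F V)
    (hQ : (polarBilin Q).Nondegenerate) (hn : 5 ≤ finrank F V) (A : Module.End F V)
    (hA : ∀ y z, Q y = 0 → polar Q y z = 0 → A * eichL Q y z = eichL Q y z * A) :
    ∃ c : F, ∀ x, A x = c • x := by
  obtain ⟨e, f, e₂, f₂, h, h', h1, h2, h3, h4⟩ := exists_two_hpairs Q hQ hn
  exact scalar_of_eigen Q A (eigen_of_commute Q hQ (by omega) A hA) e f e₂ f₂ h h' h1 h2 h3 h4

end abstract

open Cfsg Matrix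

variable {F : Type*} [Field F] {ι : Type} [Fintype ι] [DecidableEq ι]

/-- all Eichler transformations lie in `Ω` -/
theorem eich_mem_Omega [Fintype F] (Q : QuadraticForm F (ι → F))
    (hQ : (QuadraticMap.polarBilin Q).Nondegenerate) (h : Fintype.card F ≠ 2 ∨ Fintype.card ι ≠ 4)
    (y z : ι → F) (hy : Q y = 0) (hyz : polar Q y z = 0) :
    ∃ k : isometryGroup F Q, toEnd Q k = eichL Q y z ∧ k ∈ Omega F Q := by
  have hP : PairClosed Q (fun τ => ∃ k : isometryGroup F Q, toEnd Q k = τ ∧ k ∈ Omega F Q) := by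
    refine ⟨⟨1, map_one _, Subgroup.one_mem _⟩, ?_, ?_⟩
    · rintro a b ⟨k, rfl, hk⟩ ⟨l, rfl, hl⟩
      exact ⟨k * l, map_mul _ _ _, Subgroup.mul_mem _ hk hl⟩
    · intro a b ha hab
      have hb : Q b ≠ 0 := hab ▸ ha
      refine ⟨refl Q a ha * refl Q b hb, by rw [map_mul, toEnd_refl, toEnd_refl], ?_⟩
      exact refl_mul_refl_mem' Q hQ a b ha hb ⟨Q a, by rw [hab]⟩
  have h' : (∃ α : F, α ≠ 0 ∧ α ≠ 1) ∨ finrank F (ι → F) ≠ 4 := by
    rcases h with h | h
    · exact Or.inl (exists_third h)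
    · right; rwa [finrank_fintype_fun_eq_card]
  exact eich_pred Q hQ h' hP y z hy hyz

/-- a matrix commuting with `Ω` is scalar -/
theorem scalar_of_commute_Omega [Fintype F] (Q : QuadraticForm F (ι → F))
    (hQ : (QuadraticMap.polarBilin Q).Nondegenerate) (hn : 5 ≤ Fintype.card ι) (A : Matrix ι ι F)
    (hA : ∀ g : isometryGroup F Q, g ∈ Omega F Q →
      A * ((g : Matrix.GeneralLinearGroup ι F) : Matrix ι ι F) =
        ((g : Matrix.GeneralLinearGroup ι F) : Matrix ι ι F) * A) :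
    ∃ c : F, A = c • (1 : Matrix ι ι F) := by
  obtain ⟨c, hc⟩ := scalar_of_commute_eich Q hQ (by rwa [finrank_fintype_fun_eq_card])
    (Matrix.toLinAlgEquiv' A) (by
      intro y z hy hyz
      obtain ⟨k, hk, hkΩ⟩ := eich_mem_Omega Q hQ (Or.inr (by omega)) y z hy hyz
      rw [← hk]
      have := hA k hkΩ
      refine LinearMap.ext (fun x => ?_)
      simp only [Module.End.mul_apply, toEnd_apply, Matrix.toLinAlgEquiv'_apply, Matrix.mulVec_mulVec]
      rw [this])
  refine ⟨c, ?_⟩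
  apply matrix_ext_mulVec
  intro x
  have := hc x
  rw [Matrix.toLinAlgEquiv'_apply] at this
  rw [this, Matrix.smul_mulVec, Matrix.one_mulVec]

end Cfsg.Agent.Lib.Helper15
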