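import Cfsg.Agent.Lib.Helper15.Count1

set_option autoImplicit false

namespace Cfsg.Agent.Lib.Helper15

open Module QuadraticMap

variable {F V : Type*} [Field F] [AddCommGroup V] [Module F V]

/-- number of zeros of a quadratic form -/
noncomputable def zeros (Q : QuadraticForm F V) : ℕ := Nat.card {x : V // Q x = 0}

theorem sum_ite_mul_add [Fintype F] [DecidableEq F] (a c : F) :
    (∑ b : F, if a * b + c = 0 then 1 else 0) =
      if a = 0 then (if c = 0 then Fintype.card F else 0) else 1 := by
  by_cases ha : a = 0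
  · subst ha
    by_cases hc : c = 0
    · simp [hc]
    · simp [hc]
  · rw [if_neg ha]
    have : ∀ b : F, (a * b + c = 0) ↔ b = -c / a := by
      intro b
      constructor
      · intro h
        field_simp
        linear_combination h
      · rintro rfl
        field_simp
        ring
    simp_rw [this]
    simp

theorem zeros_rec [Fintype F] [Finite V] {Q : QuadraticForm F V} {e f : V} (h : HPair Q e f) :
    zeros Q = Fintype.card F * zeros (Q.comp (perp2 Q e f).subtype) +
      (Fintype.card F - 1) * Nat.card (perp2 Q e f) := by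
  classical
  have := Fintype.ofFinite V
  have := Fintype.ofFinite (perp2 Q e f)
  unfold zeros
  rw [Nat.card_eq_fintype_card, Nat.card_eq_fintype_card, Nat.card_eq_fintype_card, Fintype.card_subtype,
    Fintype.card_subtype, Finset.card_filter, Finset.card_filter, ← Equiv.sum_comp h.decomp]
  simp only [Fintype.sum_prod_type, h.Q_decomp]
  have h1 : ∀ a : F, (∑ b : F, ∑ y : perp2 Q e f, if a * b + Q (y : V) = 0 then 1 else 0) =
      ∑ y : perp2 Q e f, if a = 0 then (if Q (y : V) = 0 then Fintype.card F else 0) else 1 := by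
    intro a
    rw [Finset.sum_comm]
    exact Finset.sum_congr rfl (fun y _ => sum_ite_mul_add a _)
  simp_rw [h1]
  rw [← Finset.add_sum_erase Finset.univ _ (Finset.mem_univ (0 : F))]
  congr 1
  · simp only [if_true, QuadraticMap.comp_apply, Submodule.subtype_apply]
    rw [Finset.mul_sum]
    apply Finset.sum_congr rfl
    intro y _
    by_cases hy : Q (y : V) = 0 <;> simp [hy]
  · rw [Finset.sum_congr rfl (g := fun _ => Fintype.card (perp2 Q e f))]
    · rw [Finset.sum_const, Finset.card_erase_of_mem (Finset.mem_univ _), Finset.card_univ, smul_eq_mul]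
    · intro a ha
      rw [Finset.mem_erase] at ha
      simp [ha.1]

theorem card_partners {Q : QuadraticForm F V} {e f : V} (h : HPair Q e f) :
    Nat.card {g : V // Q g = 0 ∧ polar Q e g = 1} = Nat.card (perp2 Q e f) := by
  symm
  refine Nat.card_congr (Equiv.ofBijective
    (fun y : perp2 Q e f => ⟨h.decomp (-(Q (y : V)), 1, y), by rw [h.Q_decomp]; ring, h.polar_e_decomp _ _ _⟩)
    ⟨?_, ?_⟩)
  · intro y y' hyy
    have h1 := h.decomp.injective (congrArg Subtype.val hyy)
    exact (Prod.ext_iff.1 (Prod.ext_iff.1 h1).2).2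
  · rintro ⟨g, hg1, hg2⟩
    obtain ⟨⟨a, b, y⟩, rfl⟩ := h.decomp.surjective g
    rw [h.polar_e_decomp] at hg2
    rw [h.Q_decomp, hg2] at hg1
    refine ⟨y, Subtype.ext ?_⟩
    show h.decomp (-(Q (y : V)), 1, y) = h.decomp (a, b, y)
    rw [hg2]
    congr 2
    linear_combination -hg1

theorem zeros_eq_succ [Finite V] (Q : QuadraticForm F V) :
    zeros Q = Nat.card {e : V // e ≠ 0 ∧ Q e = 0} + 1 := by
  classical
  haveI := Fintype.ofFinite V
  unfold zeros
  rw [Nat.card_eq_fintype_card, Nat.card_eq_fintype_card, Fintype.card_subtype, Fintype.card_subtype]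
  have : (Finset.univ.filter (fun x : V => Q x = 0)) =
      insert 0 (Finset.univ.filter (fun x : V => x ≠ 0 ∧ Q x = 0)) := by
    ext x
    simp only [Finset.mem_filter, Finset.mem_univ, true_and, Finset.mem_insert]
    constructor
    · intro hx
      by_cases h0 : x = 0
      · exact Or.inl h0
      · exact Or.inr ⟨h0, hx⟩
    · rintro (rfl | hx)
      · simp
      · exact hx.2
  rw [this, Finset.card_insert_of_notMem (by simp)]

theorem card_hpairs [Fintype F] [FiniteDimensional F V] (Q : QuadraticForm F V)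
    (hQ : (polarBilin Q).Nondegenerate) (k : ℕ) (hk : Nat.card V = Fintype.card F ^ (k + 2)) :
    Nat.card {p : V × V // HPair Q p.1 p.2} = (zeros Q - 1) * Fintype.card F ^ k := by
  classical
  haveI : Finite V := Module.finite_of_finite F
  haveI := Fintype.ofFinite V
  have e1 : {p : V × V // HPair Q p.1 p.2} ≃
      Σ e : {e : V // e ≠ 0 ∧ Q e = 0}, {g : V // Q g = 0 ∧ polar Q (e : V) g = 1} :=
    { toFun := fun p => ⟨⟨p.1.1, p.2.e_ne_zero, p.2.Qe⟩, ⟨p.1.2, p.2.Qf, p.2.ef⟩⟩
      invFun := fun s => ⟨(s.1.1, s.2.1), ⟨s.1.2.2, s.2.2.1, s.2.2.2⟩⟩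
      left_inv := fun p => rfl
      right_inv := fun s => rfl }
  rw [Nat.card_congr e1, Nat.card_sigma]
  have h2 : ∀ e : {e : V // e ≠ 0 ∧ Q e = 0},
      Nat.card {g : V // Q g = 0 ∧ polar Q (e : V) g = 1} = Fintype.card F ^ k := by
    rintro ⟨e, he0, hQe⟩
    obtain ⟨f, hf, hef⟩ := exists_hyp_partner Q hQ e he0 hQe
    have h : HPair Q e f := ⟨hQe, hf, hef⟩
    rw [card_partners h]
    have h3 := h.card_perp
    rw [hk, Nat.card_eq_fintype_card (α := F), pow_add, pow_two, mul_comm] at h3
    exact (Nat.eq_of_mul_eq_mul_left (by positivity) h3).symm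
  simp_rw [h2]
  rw [Finset.sum_const, Finset.card_univ, smul_eq_mul, zeros_eq_succ, Nat.add_sub_cancel,
    Nat.card_eq_fintype_card]

end Cfsg.Agent.Lib.Helper15
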