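import Cfsg.Agent.Lib.Helper15.Count2

set_option autoImplicit false

namespace Cfsg.Agent.Lib.Helper15

open Module QuadraticMap

variable {F V : Type*} [Field F] [AddCommGroup V] [Module F V]

/-- number of isometries -/
noncomputable def nIso (Q : QuadraticForm F V) : ℕ := Nat.card {g : Module.End F V // IsIso Q g}

theorem finite_end [Finite V] : Finite (Module.End F V) :=
  Finite.of_injective (fun g : Module.End F V => (g : V → V)) DFunLike.coe_injective

namespace HPair

variable {Q : QuadraticForm F V} {e f : V}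

theorem linearIndependent (h : HPair Q e f) : LinearIndependent F ![e, f] := by
  apply linearIndependent_of_dual (polarBilin Q) _ ![f, e]
  intro i j
  fin_cases i <;> fin_cases j <;> simp [h.ef, h.fe, h.ee, h.ff]

theorem map (h : HPair Q e f) {g : Module.End F V} (hg : IsIso Q g) : HPair Q (g e) (g f) :=
  ⟨by rw [hg, h.Qe], by rw [hg, h.Qf], by rw [hg.polar, h.ef]⟩

theorem exists_iso [FiniteDimensional F V] (hQ : (polarBilin Q).Nondegenerate) (h : HPair Q e f)
    {e' f' : V} (h' : HPair Q e' f') : ∃ τ : Module.End F V, IsIso Q τ ∧ τ e = e' ∧ τ f = f' := by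
  obtain ⟨τ, hτ, hτv⟩ := witt_family Q hQ 2 ![e, f] ![e', f'] h.linearIndependent h'.linearIndependent (by
    intro i; fin_cases i <;> simp [h.Qe, h.Qf, h'.Qe, h'.Qf]) (by
    intro i j; fin_cases i <;> fin_cases j <;>
      simp [h.ef, h.fe, h.ee, h.ff, h'.ef, h'.fe, h'.ee, h'.ff])
  exact ⟨τ, hτ.isIso, hτv 0, hτv 1⟩

/-- the projection onto the orthogonal complement -/
noncomputable def proj (h : HPair Q e f) : V →ₗ[F] perp2 Q e f :=
  LinearMap.codRestrict (perp2 Q e f)
    (LinearMap.id + (-(polarBilin Q f)).smulRight e + (-(polarBilin Q e)).smulRight f) (fun x => by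
      have := h.proj_mem x
      simpa using this)

theorem coe_proj (h : HPair Q e f) (x : V) :
    (h.proj x : V) = x + (-(polar Q f x)) • e + (-(polar Q e x)) • f := by
  simp [proj]

theorem decomp_proj (h : HPair Q e f) (x : V) : h.decomp (polar Q f x, polar Q e x, h.proj x) = x := by
  rw [decomp_apply, coe_proj]; module

theorem proj_of_mem (h : HPair Q e f) (y : perp2 Q e f) : h.proj (y : V) = y := by
  obtain ⟨h1, h2⟩ := (mem_perp2 Q e f y).1 y.2
  apply Subtype.ext
  rw [coe_proj, h1, h2]; simp

/-- extension of an endomorphism of the complement by the identity -/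
noncomputable def extend (h : HPair Q e f) (g' : Module.End F (perp2 Q e f)) : Module.End F V :=
  (polarBilin Q f).smulRight e + (polarBilin Q e).smulRight f + (perp2 Q e f).subtype ∘ₗ g' ∘ₗ h.proj

theorem extend_apply (h : HPair Q e f) (g' : Module.End F (perp2 Q e f)) (x : V) :
    h.extend g' x = h.decomp (polar Q f x, polar Q e x, g' (h.proj x)) := by
  simp [extend, decomp_apply]

theorem extend_isIso (h : HPair Q e f) (g' : Module.End F (perp2 Q e f))
    (hg' : IsIso (Q.comp (perp2 Q e f).subtype) g') : IsIso Q (h.extend g') := by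
  intro x
  rw [extend_apply, Q_decomp]
  have h1 : Q ((g' (h.proj x) : perp2 Q e f) : V) = Q (h.proj x : V) := hg' (h.proj x)
  rw [h1, ← h.Q_decomp, h.decomp_proj]

end HPair

theorem nIso_rec [Fintype F] [FiniteDimensional F V] {Q : QuadraticForm F V}
    (hQ : (polarBilin Q).Nondegenerate) {e f : V} (h : HPair Q e f) :
    nIso Q = Nat.card {p : V × V // HPair Q p.1 p.2} * nIso (Q.comp (perp2 Q e f).subtype) := by
  classical
  have : Finite V := Module.finite_of_finite F
  have : Finite (Module.End F V) := finite_end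
  have := Fintype.ofFinite {p : V × V // HPair Q p.1 p.2}
  set ρ : {g : Module.End F V // IsIso Q g} → {p : V × V // HPair Q p.1 p.2} :=
    fun g => ⟨(g.1 e, g.1 f), h.map g.2⟩ with hρ
  have hfe : ∀ (p : {p : V × V // HPair Q p.1 p.2}) (g : {g // ρ g = p}),
      g.1.1 e = p.1.1 ∧ g.1.1 f = p.1.2 := by
    intro p g
    have h1 : (g.1.1 e, g.1.1 f) = p.1 := congrArg Subtype.val g.2
    exact ⟨congrArg Prod.fst h1, congrArg Prod.snd h1⟩
  have hle : ∀ p p' : {p : V × V // HPair Q p.1 p.2},
      Nat.card {g // ρ g = p} ≤ Nat.card {g // ρ g = p'} := by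
    intro p p'
    obtain ⟨τ, hτ, hτe, hτf⟩ := p.2.exists_iso hQ p'.2
    refine Nat.card_le_card_of_injective
      (fun g => ⟨⟨τ * g.1.1, hτ.mul g.1.2⟩, ?_⟩) ?_
    · have h1 := hfe p g
      apply Subtype.ext
      show ((τ * g.1.1) e, (τ * g.1.1) f) = p'.1
      rw [Module.End.mul_apply, Module.End.mul_apply, h1.1, h1.2, hτe, hτf]
    · intro g g' hgg
      have h1 : τ * g.1.1 = τ * g'.1.1 := congrArg (fun z => z.1.1) hgg
      apply Subtype.ext
      apply Subtype.ext
      refine LinearMap.ext (fun x => ?_)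
      have h2 := congrArg (fun z => z x) h1
      exact hτ.injective hQ h2
  have hfib : Nat.card {g // ρ g = ⟨(e, f), h⟩} = nIso (Q.comp (perp2 Q e f).subtype) := by
    have hmaps : ∀ g : {g // ρ g = ⟨(e, f), h⟩}, ∀ y ∈ perp2 Q e f, g.1.1 y ∈ perp2 Q e f := by
      intro g y hy
      have h1 : g.1.1 e = e ∧ g.1.1 f = f := hfe _ g
      obtain ⟨h2, h3⟩ := (mem_perp2 Q e f y).1 hy
      rw [mem_perp2]
      constructor
      · have := g.1.2.polar e y
        rw [h1.1] at this
        rw [this, h2]
      · have := g.1.2.polar f y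
        rw [h1.2] at this
        rw [this, h3]
    refine Nat.card_congr (Equiv.ofBijective
      (fun g => ⟨LinearMap.restrict g.1.1 (hmaps g), fun y => g.1.2 (y : V)⟩) ⟨?_, ?_⟩)
    · intro g g' hgg
      have h1 : g.1.1 e = e ∧ g.1.1 f = f := hfe _ g
      have h1' : g'.1.1 e = e ∧ g'.1.1 f = f := hfe _ g'
      have h2 : LinearMap.restrict g.1.1 (hmaps g) = LinearMap.restrict g'.1.1 (hmaps g') :=
        congrArg Subtype.val hgg
      apply Subtype.ext
      apply Subtype.ext
      refine LinearMap.ext (fun x => ?_)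
      obtain ⟨⟨a, b, y⟩, rfl⟩ := h.decomp.surjective x
      have h3 : g.1.1 (y : V) = g'.1.1 (y : V) := congrArg (fun z => ((z y : perp2 Q e f) : V)) h2
      rw [HPair.decomp_apply, map_add, map_add, map_smul, map_smul, map_add, map_add, map_smul, map_smul,
        h1.1, h1.2, h1'.1, h1'.2, h3]
    · rintro ⟨g', hg'⟩
      have he : h.extend g' e = e := by
        rw [HPair.extend_apply, h.fe, h.ee, HPair.decomp_apply]
        have : h.proj e = 0 := by
          apply Subtype.ext
          rw [HPair.coe_proj, h.fe, h.ee]; simp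
        rw [this]; simp
      have hf : h.extend g' f = f := by
        rw [HPair.extend_apply, h.ff, h.ef, HPair.decomp_apply]
        have : h.proj f = 0 := by
          apply Subtype.ext
          rw [HPair.coe_proj, h.ff, h.ef]; simp
        rw [this]; simp
      refine ⟨⟨⟨h.extend g', h.extend_isIso g' hg'⟩, ?_⟩, ?_⟩
      · apply Subtype.ext
        show (h.extend g' e, h.extend g' f) = (e, f)
        rw [he, hf]
      · apply Subtype.ext
        refine LinearMap.ext (fun y => ?_)
        apply Subtype.ext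
        obtain ⟨h2, h3⟩ := (mem_perp2 Q e f y).1 y.2
        show h.extend g' (y : V) = g' y
        rw [HPair.extend_apply, h2, h3, h.proj_of_mem, HPair.decomp_apply]; simp
  unfold nIso at *
  rw [← Nat.card_congr (Equiv.sigmaFiberEquiv ρ), Nat.card_sigma]
  have hconst : ∀ p, Nat.card {g // ρ g = p} = Nat.card {g // ρ g = ⟨(e, f), h⟩} :=
    fun p => le_antisymm (hle _ _) (hle _ _)
  simp_rw [hconst]
  rw [Finset.sum_const, Finset.card_univ, smul_eq_mul, hfib,
    Nat.card_eq_fintype_card (α := {p : V × V // HPair Q p.1 p.2})]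

end Cfsg.Agent.Lib.Helper15
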