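import Mathlib
import Cfsg.Agent.Lib.Helper15.Count3

set_option autoImplicit false

namespace Cfsg.Agent.Lib.Helper15

open Module QuadraticMap

universe u v

/-- the recursive count of zeros -/
def zRec (q r : ℕ) : ℕ → ℕ
  | 0 => 1
  | (j + 1) => q * zRec q r j + (q - 1) * q ^ (r + 2 * j)

theorem card_eq_pow_finrank' {F : Type u} {V : Type v} [Field F] [Fintype F] [AddCommGroup V] [Module F V]
    [FiniteDimensional F V] : Nat.card V = Fintype.card F ^ finrank F V := by
  rw [← Nat.card_eq_fintype_card]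
  exact Module.natCard_eq_pow_finrank

/-- the main induction: zeros and isometries of `m` hyperbolic planes plus an anisotropic kernel of
dimension `r`. -/
theorem count_main {F : Type u} [Field F] [Fintype F] (r N₀ : ℕ)
    (hbase : ∀ (V : Type v) [AddCommGroup V] [Module F V] [FiniteDimensional F V] (Q : QuadraticForm F V),
      (polarBilin Q).Nondegenerate → finrank F V = r → (∀ x, Q x = 0 → x = 0) → nIso Q = N₀) :
    ∀ (m : ℕ) (V : Type v) [AddCommGroup V] [Module F V] [FiniteDimensional F V] (Q : QuadraticForm F V)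
      (e f : Fin m → V), (polarBilin Q).Nondegenerate → finrank F V = r + 2 * m → IsHypFamily Q e f →
      (∀ x, (∀ i, polar Q (e i) x = 0 ∧ polar Q (f i) x = 0) → Q x = 0 → x = 0) →
      zeros Q = zRec (Fintype.card F) r m ∧
      nIso Q = N₀ * ∏ j ∈ Finset.range m,
        ((zRec (Fintype.card F) r (j + 1) - 1) * Fintype.card F ^ (r + 2 * j)) := by
  intro m
  induction m with
  | zero =>
    intro V _ _ _ Q e f hQ hr _ hC
    have hC' : ∀ x, Q x = 0 → x = 0 := fun x hx => hC x (fun i => i.elim0) hx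
    refine ⟨?_, ?_⟩
    · show Nat.card {x : V // Q x = 0} = 1
      rw [Nat.card_eq_one_iff_unique]
      refine ⟨⟨fun a b => Subtype.ext ((hC' _ a.2).trans (hC' _ b.2).symm)⟩, ⟨⟨0, map_zero Q⟩⟩⟩
    · rw [hbase V Q hQ (by simpa using hr) hC']; simp
  | succ m ih =>
    intro V _ _ _ Q e f hQ hr hH hC
    obtain ⟨ha, hb, hc⟩ := hH
    have h : HPair Q (e 0) (f 0) := ⟨(ha 0).1, (ha 0).2, by rw [hb]; simp⟩
    have hmem : ∀ i : Fin m, e i.succ ∈ perp2 Q (e 0) (f 0) ∧ f i.succ ∈ perp2 Q (e 0) (f 0) := by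
      intro i
      rw [mem_perp2, mem_perp2]
      refine ⟨⟨(hc _ _).1, ?_⟩, ⟨?_, (hc _ _).2⟩⟩
      · rw [polar_comm, hb, if_neg (Fin.succ_ne_zero i)]
      · rw [hb, if_neg (Fin.succ_ne_zero i).symm]
    have hfr := h.finrank_perp hQ
    obtain ⟨ih1, ih2⟩ := ih (perp2 Q (e 0) (f 0)) (Q.comp (perp2 Q (e 0) (f 0)).subtype)
      (fun i => ⟨e i.succ, (hmem i).1⟩) (fun i => ⟨f i.succ, (hmem i).2⟩) (h.nondeg hQ) (by omega)
      ⟨fun i => ⟨(ha _).1, (ha _).2⟩,
        fun i j => by
          rw [polar_comp_subtype]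
          show polar Q (e i.succ) (f j.succ) = _
          rw [hb]; simp,
        fun i j => by
          rw [polar_comp_subtype, polar_comp_subtype]
          exact hc _ _⟩
      (by
        intro x hx hx0
        apply Subtype.ext
        refine hC x ?_ hx0
        intro i
        refine Fin.cases ?_ (fun i => ?_) i
        · exact (mem_perp2 Q _ _ _).1 x.2
        · have := hx i
          rw [polar_comp_subtype, polar_comp_subtype] at this
          exact this)
    have hcp : Nat.card (perp2 Q (e 0) (f 0)) = Fintype.card F ^ (r + 2 * m) := by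
      rw [card_eq_pow_finrank' (F := F)]; congr 1; omega
    have hz : zeros Q = zRec (Fintype.card F) r (m + 1) := by
      haveI : Finite V := Module.finite_of_finite F
      rw [zeros_rec h, ih1, hcp]; rfl
    refine ⟨hz, ?_⟩
    rw [nIso_rec hQ h, card_hpairs Q hQ (r + 2 * m) (by rw [card_eq_pow_finrank' (F := F), hr]; congr 1),
      ih2, hz, Finset.prod_range_succ]
    ring

end Cfsg.Agent.Lib.Helper15
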