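import Mathlib
import Cfsg.Agent.Lib.Helper15.Count4

set_option autoImplicit false

namespace Cfsg.Agent.Lib.Helper15

open Module QuadraticMap

variable {F V : Type*} [Field F] [AddCommGroup V] [Module F V]

theorem nIso_zero [FiniteDimensional F V] (Q : QuadraticForm F V) (hr : finrank F V = 0) : nIso Q = 1 := by
  have : Subsingleton V := Module.finrank_zero_iff.1 hr
  show Nat.card {g : Module.End F V // IsIso Q g} = 1
  rw [Nat.card_eq_one_iff_unique]
  refine ⟨⟨fun a b => Subtype.ext (LinearMap.ext (fun x => Subsingleton.elim _ _))⟩, ⟨⟨1, IsIso.one Q⟩⟩⟩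

theorem nIso_one [FiniteDimensional F V] (Q : QuadraticForm F V) (hQ : (polarBilin Q).Nondegenerate)
    (hr : finrank F V = 1) : nIso Q = 2 := by
  obtain ⟨v, hv, hspan⟩ := finrank_eq_one_iff'.1 hr
  have hvv : polar Q v v ≠ 0 := by
    intro h
    apply hv
    apply hQ.1 v
    intro x
    obtain ⟨c, rfl⟩ := hspan x
    show polar Q v (c • v) = 0
    rw [polar_smul_right, h, smul_zero]
  have h2Q : (2 : F) * Q v ≠ 0 := by
    rw [polar_self] at hvv
    simpa using hvv
  have h2 : (2 : F) ≠ 0 := left_ne_zero_of_mul h2Q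
  have hQv : Q v ≠ 0 := right_ne_zero_of_mul h2Q
  show Nat.card {g : Module.End F V // IsIso Q g} = 2
  rw [Nat.card_eq_two_iff]
  refine ⟨⟨1, IsIso.one Q⟩, ⟨-1, fun x => by simp⟩, ?_, ?_⟩
  · intro h
    have h0 : (1 : Module.End F V) = -1 := congrArg Subtype.val h
    have h1 : (1 : Module.End F V) v = (-1 : Module.End F V) v := by
      rw [← h0]
    simp only [Module.End.one_apply, LinearMap.neg_apply] at h1
    have h3 : (2 : F) • v = 0 := by
      rw [two_smul]
      nth_rewrite 1 [h1]
      simp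
    rcases smul_eq_zero.1 h3 with h4 | h4
    · exact h2 h4
    · exact hv h4
  · rw [Set.eq_univ_iff_forall]
    rintro ⟨g, hg⟩
    obtain ⟨c, hc⟩ := hspan (g v)
    have h1 := hg v
    rw [← hc, QuadraticMap.map_smul, smul_eq_mul] at h1
    have h3 : c * c = 1 := by
      apply mul_right_cancel₀ hQv
      rw [h1, one_mul]
    have h4 : (c - 1) * (c + 1) = 0 := by linear_combination h3
    rcases mul_eq_zero.1 h4 with h5 | h5
    · left
      apply Subtype.ext
      refine LinearMap.ext (fun x => ?_)
      obtain ⟨d, rfl⟩ := hspan x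
      have : c = 1 := by linear_combination h5
      rw [map_smul, ← hc, this]; simp
    · right
      show (⟨g, hg⟩ : {g : Module.End F V // IsIso Q g}) = _
      apply Subtype.ext
      refine LinearMap.ext (fun x => ?_)
      obtain ⟨d, rfl⟩ := hspan x
      have : c = -1 := by linear_combination h5
      rw [map_smul, ← hc, this]; simp

/-- the orthogonal complement of a non-zero vector in a plane is a line -/
theorem exists_perp_line [FiniteDimensional F V] (Q : QuadraticForm F V) (hQ : (polarBilin Q).Nondegenerate)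
    (hr : finrank F V = 2) (v : V) (hv : v ≠ 0) :
    ∃ u : V, u ≠ 0 ∧ polar Q v u = 0 ∧ ∀ x, polar Q v x = 0 → ∃ t : F, t • u = x := by
  set φ : V →ₗ[F] F := polarBilin Q v with hφ
  have h1 := LinearMap.finrank_range_add_finrank_ker φ
  have h2 : finrank F (LinearMap.range φ) = 1 := by
    have : LinearMap.range φ = ⊤ := by
      apply LinearMap.range_eq_top.2
      apply LinearMap.surjective_of_ne_zero
      intro h
      apply hv
      apply hQ.1 v
      intro x
      show φ x = 0
      rw [h]; rfl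
    rw [this, finrank_top, Module.finrank_self]
  have h3 : finrank F (LinearMap.ker φ) = 1 := by omega
  obtain ⟨u, hu, hspan⟩ := finrank_eq_one_iff'.1 h3
  refine ⟨u, fun h => hu (Subtype.ext h), u.2, fun x hx => ?_⟩
  obtain ⟨t, ht⟩ := hspan ⟨x, hx⟩
  exact ⟨t, congrArg Subtype.val ht⟩

theorem eq_or_eq_of_forall {g a b : Module.End F V} (h : ∀ x, g x = a x ∨ g x = b x) : g = a ∨ g = b := by
  by_contra hcon
  push Not at hcon
  obtain ⟨h1, h2⟩ := hcon
  have h1' : ∃ x, g x ≠ a x := by
    by_contra hc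
    push Not at hc
    exact h1 (LinearMap.ext hc)
  have h2' : ∃ x, g x ≠ b x := by
    by_contra hc
    push Not at hc
    exact h2 (LinearMap.ext hc)
  obtain ⟨x, hx⟩ := h1'
  obtain ⟨y, hy⟩ := h2'
  have hxb : g x = b x := (h x).resolve_left hx
  have hya : g y = a y := (h y).resolve_right hy
  rcases h (x + y) with h3 | h3
  · rw [map_add, map_add, hya] at h3
    exact hx (add_right_cancel h3)
  · rw [map_add, map_add, hxb] at h3
    exact hy (add_left_cancel h3)

theorem stab_card [FiniteDimensional F V] (Q : QuadraticForm F V) (hQ : (polarBilin Q).Nondegenerate)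
    (hr : finrank F V = 2) (han : ∀ x, Q x = 0 → x = 0) (v : V) (hv : v ≠ 0) :
    Nat.card {g : {g : Module.End F V // IsIso Q g} // g.1 v = v} = 2 := by
  obtain ⟨u, hu, hvu, hspan⟩ := exists_perp_line Q hQ hr v hv
  have hQu : Q u ≠ 0 := fun h => hu (han u h)
  rw [Nat.card_eq_two_iff]
  refine ⟨⟨⟨1, IsIso.one Q⟩, rfl⟩, ⟨⟨reflL Q u, reflL_isIso Q u hQu⟩,
    reflL_of_orth Q u v (by rw [polar_comm]; exact hvu)⟩, ?_, ?_⟩
  · intro h
    have h1 : (1 : Module.End F V) = reflL Q u := congrArg (fun z => z.1.1) h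
    apply hu
    apply hQ.1 u
    intro x
    have h2 : (1 : Module.End F V) x = reflL Q u x := by rw [← h1]
    rw [reflL_apply, Module.End.one_apply] at h2
    have h3 : ((Q u)⁻¹ * polar Q u x) • u = 0 := by
      have := sub_eq_zero.2 h2
      simpa using this
    rcases smul_eq_zero.1 h3 with h4 | h4
    · rcases mul_eq_zero.1 h4 with h5 | h5
      · exact absurd (inv_eq_zero.1 h5) hQu
      · exact h5
    · exact absurd h4 hu
  · rw [Set.eq_univ_iff_forall]
    rintro ⟨⟨g, hg⟩, hgv⟩
    have hgv' : g v = v := hgv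
    have key : g = 1 ∨ g = reflL Q u := by
      apply eq_or_eq_of_forall
      intro x
      have h1 : polar Q v (g x - x) = 0 := by
        rw [polar_sub_right]
        have := hg.polar v x
        rw [hgv'] at this
        rw [this, sub_self]
      obtain ⟨t, ht⟩ := hspan _ h1
      have h2 : g x = x + t • u := by rw [ht]; abel
      have h3 := hg x
      rw [h2, Q_add_one] at h3
      have h4 : t * (t * Q u + polar Q x u) = 0 := by linear_combination h3
      rcases mul_eq_zero.1 h4 with h5 | h5
      · left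
        rw [h2, h5]; simp
      · right
        rw [h2, reflL_apply', polar_comm Q u x]
        congr 2
        field_simp
        linear_combination h5
    rcases key with h | h
    · left
      apply Subtype.ext
      apply Subtype.ext
      exact h
    · right
      show (⟨⟨g, hg⟩, hgv⟩ : {g : {g : Module.End F V // IsIso Q g} // g.1 v = v}) = _
      apply Subtype.ext
      apply Subtype.ext
      exact h

theorem reflL_sub_apply (Q : QuadraticForm F V) (x y : V) (h : Q x = Q y) (hxy : Q (x - y) ≠ 0) :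
    reflL Q (x - y) x = y := by
  have h1 : polar Q (x - y) x = Q (x - y) := by
    have h2 : Q (x - y) = Q x + Q y - polar Q x y := by
      have := Q_add_one Q x y (-1)
      rw [neg_one_smul, ← sub_eq_add_neg] at this
      rw [this]; ring
    rw [polar_sub_left, polar_self, h2, polar_comm Q y x, h]
    simp only [smul_eq_mul, nsmul_eq_mul, Nat.cast_ofNat]
    ring
  rw [reflL_apply, h1, inv_mul_cancel₀ hxy, one_smul]
  abel

theorem nIso_eq_two_mul [Fintype F] [FiniteDimensional F V] (Q : QuadraticForm F V)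
    (hQ : (polarBilin Q).Nondegenerate)
    (hr : finrank F V = 2) (han : ∀ x, Q x = 0 → x = 0) (v : V) (hv : v ≠ 0) :
    nIso Q = Nat.card {x : V // Q x = Q v} * 2 := by
  classical
  have : Finite V := Module.finite_of_finite F
  have : Finite (Module.End F V) := finite_end
  have := Fintype.ofFinite {x : V // Q x = Q v}
  set ρ : {g : Module.End F V // IsIso Q g} → {x : V // Q x = Q v} := fun g => ⟨g.1 v, g.2 v⟩ with hρ
  have hle : ∀ p p' : {x : V // Q x = Q v}, Nat.card {g // ρ g = p} ≤ Nat.card {g // ρ g = p'} := by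
    intro p p'
    obtain ⟨τ, hτ, hτp⟩ : ∃ τ : Module.End F V, IsIso Q τ ∧ τ p.1 = p'.1 := by
      by_cases hpp : p.1 = p'.1
      · exact ⟨1, IsIso.one Q, hpp⟩
      · have h1 : Q (p.1 - p'.1) ≠ 0 := fun h => hpp (sub_eq_zero.1 (han _ h))
        exact ⟨reflL Q (p.1 - p'.1), reflL_isIso Q _ h1, reflL_sub_apply Q _ _ (p.2.trans p'.2.symm) h1⟩
    refine Nat.card_le_card_of_injective
      (fun g => ⟨⟨τ * g.1.1, hτ.mul g.1.2⟩, ?_⟩) ?_
    · apply Subtype.ext
      show τ (g.1.1 v) = p'.1
      have : g.1.1 v = p.1 := congrArg Subtype.val g.2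
      rw [this, hτp]
    · intro g g' hgg
      have h1 : τ * g.1.1 = τ * g'.1.1 := congrArg (fun z => z.1.1) hgg
      apply Subtype.ext
      apply Subtype.ext
      refine LinearMap.ext (fun x => ?_)
      have h2 := congrArg (fun z => z x) h1
      exact hτ.injective hQ h2
  have hfib : Nat.card {g // ρ g = ⟨v, rfl⟩} = 2 := by
    rw [← stab_card Q hQ hr han v hv]
    refine Nat.card_congr (Equiv.subtypeEquivRight (fun g => ?_))
    rw [hρ]
    exact Subtype.ext_iff
  unfold nIso
  rw [← Nat.card_congr (Equiv.sigmaFiberEquiv ρ), Nat.card_sigma]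
  have hconst : ∀ p, Nat.card {g // ρ g = p} = Nat.card {g // ρ g = ⟨v, rfl⟩} :=
    fun p => le_antisymm (hle _ _) (hle _ _)
  simp_rw [hconst]
  rw [Finset.sum_const, Finset.card_univ, smul_eq_mul, hfib,
    Nat.card_eq_fintype_card (α := {x : V // Q x = Q v})]

theorem nIso_two [Fintype F] [FiniteDimensional F V] (Q : QuadraticForm F V)
    (hQ : (polarBilin Q).Nondegenerate)
    (hr : finrank F V = 2) (han : ∀ x, Q x = 0 → x = 0) :
    nIso Q = 2 * (Fintype.card F + 1) := by
  classical
  have : Finite V := Module.finite_of_finite F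
  have := Fintype.ofFinite V
  have hN : ∀ c : F, c ≠ 0 → nIso Q = Nat.card {x : V // Q x = c} * 2 := by
    intro c hc
    obtain ⟨v, rfl⟩ := exists_rep Q hQ hr.ge c
    exact nIso_eq_two_mul Q hQ hr han v (fun h => hc (by rw [h, map_zero]))
  have h0 : Nat.card {x : V // Q x = 0} = 1 := by
    rw [Nat.card_eq_one_iff_unique]
    exact ⟨⟨fun a b => Subtype.ext ((han _ a.2).trans (han _ b.2).symm)⟩, ⟨⟨0, map_zero Q⟩⟩⟩
  have htot : Nat.card V = ∑ c : F, Nat.card {x : V // Q x = c} := by
    rw [← Nat.card_congr (Equiv.sigmaFiberEquiv (fun x : V => Q x)), Nat.card_sigma]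
  have hcard : Nat.card V = Fintype.card F ^ 2 := by
    rw [card_eq_pow_finrank' (F := F), hr]
  have h2 : 2 * Nat.card V = 2 + (Fintype.card F - 1) * nIso Q := by
    rw [htot, ← Finset.add_sum_erase _ _ (Finset.mem_univ (0 : F)), h0, mul_add, Finset.mul_sum]
    congr 1
    rw [Finset.sum_congr rfl (fun c hc => by
      rw [mul_comm, ← hN c (Finset.ne_of_mem_erase hc)] : ∀ c ∈ Finset.univ.erase (0 : F),
        2 * Nat.card {x : V // Q x = c} = nIso Q)]
    rw [Finset.sum_const, Finset.card_erase_of_mem (Finset.mem_univ _), Finset.card_univ, smul_eq_mul]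
  rw [hcard] at h2
  have hq : 2 ≤ Fintype.card F := Fintype.one_lt_card
  obtain ⟨k, hk⟩ : ∃ k, Fintype.card F = k + 2 := ⟨Fintype.card F - 2, by omega⟩
  rw [hk] at h2 ⊢
  have h3 : k + 2 - 1 = k + 1 := by omega
  rw [h3] at h2
  have h4 : (k + 1) * nIso Q = (k + 1) * (2 * (k + 2 + 1)) := by nlinarith
  exact Nat.eq_of_mul_eq_mul_left (Nat.succ_pos k) h4

end Cfsg.Agent.Lib.Helper15
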