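import Mathlib
import Cfsg.Agent.Lib.Helper15.Count5
import Cfsg.Agent.Lib.Helper15.Bridge
import Cfsg.Agent.Lib.Helper15.HypPairs
import Cfsg.Agent.Lib.Helper15.Forms
import Cfsg.Agent.Lib.Helper15.PlusLagr
import Cfsg.Agent.Lib.Helper15.MinusForm
import Cfsg.Agent.Lib.Helper15.NotMax3

set_option autoImplicit false
open Cfsg

namespace Cfsg.Agent.Lib.Helper15

open Module QuadraticMap

universe u

variable {ι : Type} [Fintype ι] [DecidableEq ι] {F : Type u} [Field F]

theorem card_isometryGroup (Q : QuadraticForm F (ι → F)) (hQ : (polarBilin Q).Nondegenerate) :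
    Nat.card (isometryGroup F Q) = nIso Q := by
  refine Nat.card_congr (Equiv.ofBijective (fun g => ⟨toEnd Q g, toEnd_isIso Q g⟩) ⟨?_, ?_⟩)
  · intro g h hgh
    exact toEnd_injective Q (congrArg Subtype.val hgh)
  · rintro ⟨f, hf⟩
    exact ⟨ofEnd Q hQ f hf, Subtype.ext (toEnd_ofEnd Q hQ f hf)⟩

/-- coordinate hyperbolic pairs give a hyperbolic family -/
theorem isHypFamily_of_pairs (Q : QuadraticForm F (ι → F)) {m : ℕ} (a b : Fin m → ι)
    (hab : ∀ j, IsHypPair Q (a j) (b j)) (ha : Function.Injective a) (hb : Function.Injective b)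
    (hne : ∀ i j, a i ≠ b j) :
    IsHypFamily Q (fun j => (Pi.single (a j) 1 : ι → F)) (fun j => (Pi.single (b j) 1 : ι → F)) := by
  refine ⟨fun i => ⟨(hab i).2.1, (hab i).2.2.1⟩, fun i j => ?_, fun i j => ⟨?_, ?_⟩⟩
  · rw [(hab i).2.2.2.1]
    show (Pi.single (b j) 1 : ι → F) (b i) = _
    rw [Pi.single_apply]
    by_cases h : i = j
    · simp [h]
    · rw [if_neg h, if_neg (fun h' => h (hb h'))]
  · rw [(hab i).2.2.2.1]
    show (Pi.single (a j) 1 : ι → F) (b i) = _
    rw [Pi.single_apply, if_neg (fun h' => hne j i h'.symm)]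
  · rw [(hab i).2.2.2.2]
    show (Pi.single (b j) 1 : ι → F) (a i) = _
    rw [Pi.single_apply, if_neg (hne i j)]

theorem count_std [Fintype F] (r N₀ : ℕ)
    (hbase : ∀ (V : Type u) [AddCommGroup V] [Module F V] [FiniteDimensional F V] (Q : QuadraticForm F V),
      (polarBilin Q).Nondegenerate → finrank F V = r → (∀ x, Q x = 0 → x = 0) → nIso Q = N₀)
    (Q : QuadraticForm F (ι → F)) (hQ : (polarBilin Q).Nondegenerate) {m : ℕ} (a b : Fin m → ι)
    (hab : ∀ j, IsHypPair Q (a j) (b j)) (ha : Function.Injective a) (hb : Function.Injective b)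
    (hne : ∀ i j, a i ≠ b j) (hcard : Fintype.card ι = r + 2 * m)
    (hC : ∀ x : ι → F, (∀ i, x (a i) = 0 ∧ x (b i) = 0) → Q x = 0 → x = 0) :
    zeros Q = zRec (Fintype.card F) r m ∧
      Nat.card (isometryGroup F Q) = N₀ * ∏ j ∈ Finset.range m,
        ((zRec (Fintype.card F) r (j + 1) - 1) * Fintype.card F ^ (r + 2 * j)) := by
  rw [card_isometryGroup Q hQ]
  refine count_main r N₀ hbase m (ι → F) Q _ _ hQ (by rw [Module.finrank_fintype_fun_eq_card, hcard])
    (isHypFamily_of_pairs Q a b hab ha hb hne) ?_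
  intro x hx hx0
  refine hC x (fun i => ?_) hx0
  have := hx i
  rw [(hab i).2.2.2.1, (hab i).2.2.2.2] at this
  exact ⟨this.2, this.1⟩

theorem zRec_closed (q r m : ℕ) (hq : 1 ≤ q) :
    q * zRec q r m + q ^ (r + m) = q ^ (m + 1) + q ^ (r + 2 * m) := by
  obtain ⟨k, rfl⟩ : ∃ k, q = k + 1 := ⟨q - 1, by omega⟩
  induction m with
  | zero => simp [zRec]
  | succ m ih =>
    have h1 : zRec (k + 1) r (m + 1) = (k + 1) * zRec (k + 1) r m + k * (k + 1) ^ (r + 2 * m) := rfl
    rw [h1]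
    have h2 : (k + 1) ^ (r + (m + 1)) = (k + 1) * (k + 1) ^ (r + m) := by ring
    have h3 : (k + 1) ^ (m + 1 + 1) = (k + 1) * (k + 1) ^ (m + 1) := by ring
    have h4 : (k + 1) ^ (r + 2 * (m + 1)) = (k + 1) * (k + 1) * (k + 1) ^ (r + 2 * m) := by ring
    rw [h2, h3, h4]
    nlinarith [ih]

theorem count_plus [Fintype F] (m : ℕ) :
    zeros (qPlus m F) = zRec (Fintype.card F) 0 m ∧
      Nat.card (isometryGroup F (qPlus m F)) = 1 * ∏ j ∈ Finset.range m,
        ((zRec (Fintype.card F) 0 (j + 1) - 1) * Fintype.card F ^ (0 + 2 * j)) := by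
  refine count_std 0 1 (fun V _ _ _ Q _ hr _ => nIso_zero Q hr) (qPlus m F) (qPlus_nondegenerate m F)
    (fun j => Sum.inl j) (fun j => Sum.inr j) (isHypPair_qPlus m F) Sum.inl_injective Sum.inr_injective
    (fun i j => by simp) (by simp; ring) ?_
  intro x hx _
  ext i
  rcases i with i | i
  · exact (hx i).1
  · exact (hx i).2

theorem count_odd [Fintype F] (h2 : (2 : F) ≠ 0) (m : ℕ) :
    zeros (qOdd m F) = zRec (Fintype.card F) 1 m ∧
      Nat.card (isometryGroup F (qOdd m F)) = 2 * ∏ j ∈ Finset.range m,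
        ((zRec (Fintype.card F) 1 (j + 1) - 1) * Fintype.card F ^ (1 + 2 * j)) := by
  refine count_std 1 2 (fun V _ _ _ Q hQ hr _ => nIso_one Q hQ hr) (qOdd m F) (qOdd_nondegenerate h2 m)
    (fun j => Sum.inr (Sum.inl j)) (fun j => Sum.inr (Sum.inr j)) (isHypPair_qOdd m F)
    (Sum.inr_injective.comp Sum.inl_injective) (Sum.inr_injective.comp Sum.inr_injective)
    (fun i j => by simp) (by simp; ring) ?_
  intro x hx hx0
  rw [coe_qOdd, quadFormOdd] at hx0
  have h1 : ∑ i : Fin m, x (Sum.inr (Sum.inl i)) * x (Sum.inr (Sum.inr i)) = 0 :=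
    Finset.sum_eq_zero (fun i _ => by rw [(hx i).1, zero_mul])
  rw [h1, add_zero] at hx0
  ext i
  rcases i with i | i | i
  · exact pow_eq_zero_iff (two_ne_zero) |>.1 hx0
  · exact (hx i).1
  · exact (hx i).2

theorem count_minus [Fintype F] (m : ℕ) (a c : F)
    (hac : ∀ z₁ z₂ : F, z₁ ^ 2 + a * z₁ * z₂ + c * z₂ ^ 2 = 0 → z₁ = 0 ∧ z₂ = 0) :
    zeros (qMinus m F a c) = zRec (Fintype.card F) 2 m ∧
      Nat.card (isometryGroup F (qMinus m F a c)) = (2 * (Fintype.card F + 1)) * ∏ j ∈ Finset.range m,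
        ((zRec (Fintype.card F) 2 (j + 1) - 1) * Fintype.card F ^ (2 + 2 * j)) := by
  refine count_std 2 (2 * (Fintype.card F + 1)) (fun V _ _ _ Q hQ hr han => nIso_two Q hQ hr han)
    (qMinus m F a c) (qMinus_nondegenerate m a c hac)
    (fun j => Sum.inl (Sum.inl j)) (fun j => Sum.inl (Sum.inr j)) (isHypPair_qMinus m F a c)
    (Sum.inl_injective.comp Sum.inl_injective) (Sum.inl_injective.comp Sum.inr_injective)
    (fun i j => by simp) (by simp; ring) ?_
  intro x hx hx0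
  rw [coe_qMinus, quadFormMinus] at hx0
  have h1 : ∑ i : Fin m, x (Sum.inl (Sum.inl i)) * x (Sum.inl (Sum.inr i)) = 0 :=
    Finset.sum_eq_zero (fun i _ => by rw [(hx i).1, zero_mul])
  rw [h1, zero_add] at hx0
  obtain ⟨h3, h4⟩ := hac _ _ hx0
  ext i
  rcases i with (i | i) | i
  · exact (hx i).1
  · exact (hx i).2
  · fin_cases i
    · exact h3
    · exact h4

end Cfsg.Agent.Lib.Helper15
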