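import Mathlib

set_option autoImplicit false

namespace Cfsg.Agent.Lib.Helper15

open Module

variable {F V : Type*} [Field F] [AddCommGroup V] [Module F V]

/-- the data: an alternating non-degenerate form in characteristic two -/
structure AltForm (f : LinearMap.BilinForm F V) : Prop where
  alt : ∀ x, f x x = 0
  nd : ∀ x, (∀ y, f y x = 0) → x = 0

/-- an involution preserving the form -/
structure InvOn (f : LinearMap.BilinForm F V) (t : Module.End F V) : Prop where
  sq : ∀ x, t (t x) = x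
  pres : ∀ x y, f (t x) (t y) = f x y

/-- product of commuting transvections with independent centres -/
def IsDecT (f : LinearMap.BilinForm F V) (t : Module.End F V) (r : ℕ) (s : Fin r → V) : Prop :=
  LinearIndependent F s ∧ (∀ i j, f (s i) (s j) = 0) ∧ ∀ x, t x = x + ∑ i, f x (s i) • s i

/-- the normal form of the involutions with alternating associated form -/
def IsDecA (f : LinearMap.BilinForm F V) (t : Module.End F V) (r : ℕ) (s : Fin r → V) : Prop :=
  LinearIndependent F s ∧ (∀ i j, f (s i) (s j) = 0) ∧ Even r ∧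
    ∀ x, t x = x + ∑ i, f x (s i) • s i + f x (∑ i, s i) • ∑ i, s i

theorem AltForm.symm [CharP F 2] {f : LinearMap.BilinForm F V} (hf : AltForm f) (x y : V) : f x y = f y x := by
  have h := hf.alt (x + y)
  simp only [map_add, LinearMap.add_apply, hf.alt, zero_add, add_zero] at h
  have h2 : (2 : F) = 0 := CharTwo.two_eq_zero
  linear_combination h - f y x * h2

theorem exists_dual_fam [FiniteDimensional F V] {f : LinearMap.BilinForm F V} (hf : AltForm f) {r : ℕ}
    (s : Fin r → V) (hs : LinearIndependent F s) (c : Fin r → F) : ∃ z, ∀ i, f z (s i) = c i := by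
  classical
  set L : V →ₗ[F] (Fin r → F) := LinearMap.pi (fun i => f.flip (s i)) with hL
  have hsurj : LinearMap.range L = ⊤ := by
    by_contra hne
    obtain ⟨φ, hφ0, hφ⟩ := Submodule.exists_le_ker_of_lt_top _ (lt_top_iff_ne_top.2 hne)
    apply hφ0
    have hz : ∑ i, (φ (Pi.single i 1)) • s i = 0 := by
      apply hf.nd
      intro v
      have h1 : φ (L v) = 0 := hφ ⟨v, rfl⟩
      have h3 : L v = ∑ i, (L v i) • (Pi.single i 1 : Fin r → F) := by
        ext j
        simp [Finset.sum_apply, Pi.single_apply]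
      rw [h3, map_sum] at h1
      rw [map_sum, ← h1]
      refine Finset.sum_congr rfl fun i _ => ?_
      rw [map_smul, map_smul, smul_eq_mul, smul_eq_mul, mul_comm]
      rfl
    have h2 := Fintype.linearIndependent_iff.1 hs _ hz
    apply LinearMap.pi_ext'
    intro i
    ext
    simpa using h2 i
  obtain ⟨z, hz⟩ : c ∈ LinearMap.range L := by rw [hsurj]; trivial
  exact ⟨z, fun i => congrFun hz i⟩

section step

variable [CharP F 2] {f : LinearMap.BilinForm F V} {t : Module.End F V}

omit [CharP F 2] in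
theorem InvOn.adj (ht : InvOn f t) (x y : V) : f (t x) y = f x (t y) := by
  conv_lhs => rw [← ht.sq y]
  rw [ht.pres]

/-- remove a transvection -/
noncomputable def cutT (f : LinearMap.BilinForm F V) (t : Module.End F V) (s₀ : V) : Module.End F V :=
  t + (f.flip s₀).smulRight s₀

omit [CharP F 2] in
theorem cutT_apply (s₀ y : V) : cutT f t s₀ y = t y + f y s₀ • s₀ := rfl

theorem inv_cut (hf : AltForm f) (ht : InvOn f t) (x : V) (hx : f (t x + x) x = 1) :
    InvOn f (cutT f t (t x + x)) ∧ f (t x + x) (t x + x) = 0 ∧ cutT f t (t x + x) (t x + x) = t x + x ∧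
      cutT f t (t x + x) x = x ∧ t x ≠ x ∧ (∀ v, t v = v → cutT f t (t x + x) v = v) := by
  have h2 : (2 : F) = 0 := CharTwo.two_eq_zero
  obtain ⟨s₀, hs₀⟩ : ∃ s₀, s₀ = t x + x := ⟨_, rfl⟩
  rw [← hs₀] at hx ⊢
  have hts : t s₀ = s₀ := by rw [hs₀, map_add, ht.sq, add_comm]
  have hss : f s₀ s₀ = 0 := hf.alt s₀
  have hxs : f x s₀ = 1 := by rw [hf.symm, hx]
  have hfs : ∀ y, f (t y) s₀ = f y s₀ := fun y => by rw [ht.adj, hts]
  refine ⟨⟨fun y => ?_, fun y y' => ?_⟩, hss, ?_, ?_, ?_, ?_⟩
  · rw [cutT_apply, cutT_apply, map_add, map_smul, ht.sq, hts, map_add, LinearMap.add_apply, map_smul,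
      LinearMap.smul_apply, hss, hfs]
    linear_combination (norm := module) (h2 * f y s₀) • s₀
  · rw [cutT_apply, cutT_apply]
    simp only [map_add, map_smul, LinearMap.add_apply, LinearMap.smul_apply, smul_eq_mul, hss, hfs, ht.pres]
    rw [hf.symm s₀ (t y'), hfs]
    linear_combination (f y s₀ * f y' s₀) * h2
  · rw [cutT_apply, hts, hss, zero_smul, add_zero]
  · rw [cutT_apply, hxs, one_smul, hs₀]
    linear_combination (norm := module) h2 • (t x)
  · intro h
    have : s₀ = 0 := by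
      rw [hs₀, h]
      linear_combination (norm := module) h2 • x
    rw [this] at hx
    simp at hx
  · intro v hv
    have : f v s₀ = 0 := by
      rw [hs₀, map_add, ← ht.adj, hv]
      linear_combination f v x * h2
    rw [cutT_apply, hv, this, zero_smul, add_zero]

/-- choice of a good vector -/
theorem exists_good_vec [Fintype F] (hf : AltForm f) (ht : InvOn f t) (hna : ∃ x, f (t x + x) x ≠ 0) :
    ∃ x, f (t x + x) x = 1 ∧ ((∀ y, cutT f t (t x + x) y = y) ∨
      ∃ z, f (cutT f t (t x + x) z + z) z ≠ 0) := by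
  have h2 : (2 : F) = 0 := CharTwo.two_eq_zero
  set β : LinearMap.BilinForm F V := f ∘ₗ (t + LinearMap.id) with hβ
  have hβa : ∀ x y, β x y = f (t x + x) y := fun x y => rfl
  have hβs : ∀ x y, β x y = β y x := by
    intro x y
    rw [hβa, hβa, map_add, map_add, LinearMap.add_apply, LinearMap.add_apply, ht.adj, hf.symm x (t y),
      hf.symm x y]
  have hcut : ∀ x z, f (cutT f t (t x + x) z + z) z = β z z + β z x * β z x := by
    intro x z
    rw [cutT_apply, add_right_comm, map_add, LinearMap.add_apply, map_smul, LinearMap.smul_apply, ← hβa, ← hβa,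
      smul_eq_mul, hf.symm z (t x + x), ← hβa, hβs x z]
  obtain ⟨x₁, hx₁⟩ := hna
  rw [← hβa] at hx₁
  obtain ⟨l, hl⟩ : ∃ l : F, l * l = (β x₁ x₁)⁻¹ := by
    obtain ⟨l, hl⟩ := FiniteField.isSquare_of_char_two (CharP.ringChar_of_prime_eq_zero Nat.prime_two
      (by exact_mod_cast h2)) ((β x₁ x₁)⁻¹)
    exact ⟨l, hl.symm⟩
  obtain ⟨x₀, hx₀d⟩ : ∃ x₀, x₀ = l • x₁ := ⟨_, rfl⟩
  have hx₀ : β x₀ x₀ = 1 := by
    rw [hx₀d]
    simp only [map_smul, LinearMap.smul_apply, smul_eq_mul]
    rw [← mul_assoc, hl, inv_mul_cancel₀ hx₁]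
  by_cases hgood : (∀ y, cutT f t (t x₀ + x₀) y = y) ∨ ∃ z, f (cutT f t (t x₀ + x₀) z + z) z ≠ 0
  · exact ⟨x₀, by rw [← hβa]; exact hx₀, hgood⟩
  push Not at hgood
  obtain ⟨⟨p, hp⟩, hstar⟩ := hgood
  have hstar' : ∀ z, β z z = β z x₀ * β z x₀ := by
    intro z
    have := hstar z
    rw [hcut] at this
    linear_combination this - (β z x₀ * β z x₀) * h2
  obtain ⟨p', hp'⟩ : ∃ p', f (cutT f t (t x₀ + x₀) p + p) p' ≠ 0 := by
    by_contra hcon
    push Not at hcon
    apply hp
    have h0 : cutT f t (t x₀ + x₀) p + p = 0 := by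
      apply hf.nd
      intro y
      rw [hf.symm]; exact hcon y
    linear_combination (norm := module) h0 - h2 • p
  obtain ⟨γ, hγ⟩ : ∃ γ, γ = β p p' + β p x₀ * β p' x₀ := ⟨_, rfl⟩
  have hγ0 : γ ≠ 0 := by
    rw [hγ]
    intro h0
    apply hp'
    rw [cutT_apply, add_right_comm, map_add, LinearMap.add_apply, map_smul, LinearMap.smul_apply, ← hβa, ← hβa,
      smul_eq_mul, hf.symm p (t x₀ + x₀), ← hβa, hβs x₀ p, hβs x₀ p']
    exact h0
  obtain ⟨u, hu⟩ : ∃ u, u = p + β p x₀ • x₀ := ⟨_, rfl⟩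
  obtain ⟨w, hw⟩ : ∃ w, w = γ⁻¹ • (p' + β p' x₀ • x₀) := ⟨_, rfl⟩
  have hux : β u x₀ = 0 := by
    rw [hu, map_add, LinearMap.add_apply, map_smul, LinearMap.smul_apply, hx₀, smul_eq_mul]
    linear_combination β p x₀ * h2
  have hwx : β w x₀ = 0 := by
    rw [hw, map_smul, LinearMap.smul_apply, map_add, LinearMap.add_apply, map_smul, LinearMap.smul_apply, hx₀,
      smul_eq_mul, smul_eq_mul]
    linear_combination γ⁻¹ * β p' x₀ * h2
  have huw : β u w = 1 := by
    rw [hu, hw]
    simp only [map_add, map_smul, LinearMap.add_apply, LinearMap.smul_apply, smul_eq_mul, hx₀, hβs x₀ p']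
    have : γ⁻¹ * (β p p' + β p x₀ * β p' x₀) = 1 := by rw [← hγ]; exact inv_mul_cancel₀ hγ0
    linear_combination this + γ⁻¹ * β p x₀ * β p' x₀ * h2
  have huu : β u u = 0 := by rw [hstar', hux, mul_zero]
  have hww : β w w = 0 := by rw [hstar', hwx, mul_zero]
  refine ⟨x₀ + u, ?_, Or.inr ⟨x₀ + w, ?_⟩⟩
  · rw [← hβa]
    simp only [map_add, LinearMap.add_apply, hx₀, hux, huu, hβs x₀ u]
    ring
  · rw [hcut]
    simp only [map_add, LinearMap.add_apply, hx₀, hux, hwx, hww, hβs x₀ u, hβs x₀ w, hβs w u, huw]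
    intro h
    have : (1 : F) = 0 := by linear_combination h - 2 * h2
    exact one_ne_zero this

end step

end Cfsg.Agent.Lib.Helper15
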