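import Mathlib
import Cfsg.Agent.Lib.Helper15.InvNF1

set_option autoImplicit false

namespace Cfsg.Agent.Lib.Helper15

open Module

variable {F V : Type*} [Field F] [AddCommGroup V] [Module F V] {f : LinearMap.BilinForm F V}
  {t : Module.End F V}

theorem mem_ker_sub_one' (t : Module.End F V) (x : V) : x ∈ LinearMap.ker (t - 1) ↔ t x = x := by
  rw [LinearMap.mem_ker, LinearMap.sub_apply, Module.End.one_apply, sub_eq_zero]

theorem IsDecT.coeff {r : ℕ} {s : Fin r → V} (hs : IsDecT f t r s) (y : V) (hy : t y = y) (i : Fin r) :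
    f y (s i) = 0 := by
  have h3 := hs.2.2 y
  rw [hy] at h3
  have h4 : ∑ i, f y (s i) • s i = 0 := by
    have := h3.symm
    rwa [add_eq_left] at this
  exact Fintype.linearIndependent_iff.1 hs.1 _ h4 i

theorem decT_cons [CharP F 2] (hf : AltForm f) (ht : InvOn f t) (x : V) (hx : f (t x + x) x = 1) {r : ℕ}
    {s : Fin r → V} (hs : IsDecT f (cutT f t (t x + x)) r s) :
    IsDecT f t (r + 1) (Fin.cons (t x + x) s) := by
  have h2 : (2 : F) = 0 := CharTwo.two_eq_zero
  obtain ⟨-, hss, hfix, hfx, -, -⟩ := inv_cut hf ht x hx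
  have hs₀s := hs.coeff _ hfix
  have hxs := hs.coeff _ hfx
  refine ⟨?_, ?_, ?_⟩
  · rw [linearIndependent_finCons]
    refine ⟨hs.1, fun hmem => ?_⟩
    have hle : Submodule.span F (Set.range s) ≤ LinearMap.ker (f x) := by
      rw [Submodule.span_le]
      rintro _ ⟨i, rfl⟩
      exact hxs i
    have : f x (t x + x) = 0 := hle hmem
    rw [hf.symm, hx] at this
    exact one_ne_zero this
  · intro i j
    refine Fin.cases ?_ (fun i => ?_) i <;> refine Fin.cases ?_ (fun j => ?_) j
    · simpa using hss
    · simpa using hs₀s j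
    · simpa using (hf.symm _ _).trans (hs₀s i)
    · simpa using hs.2.1 i j
  · intro y
    rw [Fin.sum_univ_succ]
    simp only [Fin.cons_zero, Fin.cons_succ]
    have h3 := hs.2.2 y
    rw [cutT_apply] at h3
    linear_combination (norm := module) h3 - (h2 * f y (t x + x)) • (t x + x)

theorem exists_decT [Fintype F] [CharP F 2] [FiniteDimensional F V] (hf : AltForm f) :
    ∀ (k : ℕ) (t : Module.End F V), InvOn f t → (∃ x, f (t x + x) x ≠ 0) →
      finrank F V ≤ finrank F (LinearMap.ker (t - 1)) + k → ∃ r, ∃ s : Fin r → V, IsDecT f t r s := by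
  have h2 : (2 : F) = 0 := CharTwo.two_eq_zero
  intro k
  induction k with
  | zero =>
    intro t _ hna hk
    exfalso
    have htop : LinearMap.ker (t - 1) = ⊤ := by
      apply Submodule.eq_top_of_finrank_eq
      have := Submodule.finrank_le (LinearMap.ker (t - 1))
      omega
    obtain ⟨x, hx⟩ := hna
    apply hx
    have : t x = x := by rw [← mem_ker_sub_one', htop]; trivial
    rw [this, map_add, LinearMap.add_apply, hf.alt, add_zero]
  | succ k ih =>
    intro t ht hna hk
    obtain ⟨x, hx, hgood⟩ := exists_good_vec hf ht hna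
    obtain ⟨hinv, -, -, hfx, htx, hker⟩ := inv_cut hf ht x hx
    have hdec : ∃ r, ∃ s : Fin r → V, IsDecT f (cutT f t (t x + x)) r s := by
      rcases hgood with h1 | h1
      · exact ⟨0, Fin.elim0, linearIndependent_empty_type, fun i => i.elim0, fun y => by rw [h1]; simp⟩
      · apply ih _ hinv h1
        have hlt : LinearMap.ker (t - 1) < LinearMap.ker (cutT f t (t x + x) - 1) := by
          refine lt_of_le_of_ne (fun v hv => ?_) (fun he => ?_)
          · rw [mem_ker_sub_one'] at hv ⊢
            exact hker v hv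
          · apply htx
            rw [← mem_ker_sub_one', he, mem_ker_sub_one']
            exact hfx
        have := Submodule.finrank_lt_finrank_of_lt hlt
        omega
    obtain ⟨r, s, hs⟩ := hdec
    exact ⟨r + 1, _, decT_cons hf ht x hx hs⟩

theorem invOn_cutT [CharP F 2] (hf : AltForm f) (ht : InvOn f t) (s₀ : V) (hts : t s₀ = s₀) :
    InvOn f (cutT f t s₀) := by
  have h2 : (2 : F) = 0 := CharTwo.two_eq_zero
  have hss : f s₀ s₀ = 0 := hf.alt s₀
  have hfs : ∀ y, f (t y) s₀ = f y s₀ := fun y => by rw [ht.adj, hts]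
  refine ⟨fun y => ?_, fun y y' => ?_⟩
  · rw [cutT_apply, cutT_apply, map_add, map_smul, ht.sq, hts, map_add, LinearMap.add_apply, map_smul,
      LinearMap.smul_apply, hss, hfs]
    linear_combination (norm := module) (h2 * f y s₀) • s₀
  · rw [cutT_apply, cutT_apply]
    simp only [map_add, map_smul, LinearMap.add_apply, LinearMap.smul_apply, smul_eq_mul, hss, hfs, ht.pres]
    rw [hf.symm s₀ (t y'), hfs]
    linear_combination (f y s₀ * f y' s₀) * h2

theorem sum_sq_char_two [CharP F 2] {r : ℕ} (a : Fin r → F) : ∑ i, a i * a i = (∑ i, a i) * (∑ i, a i) := by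
  have := sum_pow_char 2 Finset.univ a
  simp only [pow_two] at this
  exact this.symm

theorem IsDecT.form [CharP F 2] (hf : AltForm f) {r : ℕ} {s : Fin r → V} (hs : IsDecT f t r s) (v : V) :
    f v (t v) = f v (∑ i, s i) * f v (∑ i, s i) := by
  rw [hs.2.2, map_add, hf.alt, zero_add, map_sum, map_sum, ← sum_sq_char_two]
  apply Finset.sum_congr rfl
  intro i _
  rw [map_smul, smul_eq_mul]

theorem IsDecA.form [CharP F 2] (hf : AltForm f) {r : ℕ} {s : Fin r → V} (hs : IsDecA f t r s) (v : V) :
    f v (t v) = 0 := by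
  have h2 : (2 : F) = 0 := CharTwo.two_eq_zero
  have h1 : f v (∑ i, f v (s i) • s i) = f v (∑ i, s i) * f v (∑ i, s i) := by
    rw [map_sum, map_sum, ← sum_sq_char_two]
    apply Finset.sum_congr rfl
    intro i _
    rw [map_smul, smul_eq_mul]
  rw [hs.2.2.2, map_add, map_add, hf.alt, zero_add, h1, map_smul, smul_eq_mul]
  linear_combination (f v (∑ i, s i) * f v (∑ i, s i)) * h2

theorem exists_decA [Fintype F] [CharP F 2] [FiniteDimensional F V] (hf : AltForm f) (ht : InvOn f t)
    (hall : ∀ x, f (t x + x) x = 0) (hne : ∃ y, t y ≠ y) : ∃ r, ∃ s : Fin r → V, IsDecA f t r s := by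
  have h2 : (2 : F) = 0 := CharTwo.two_eq_zero
  obtain ⟨y, hy⟩ := hne
  obtain ⟨c, hc⟩ : ∃ c, c = t y + y := ⟨_, rfl⟩
  have hc0 : c ≠ 0 := by
    intro h0
    apply hy
    rw [hc] at h0
    linear_combination (norm := module) h0 - h2 • y
  have htc : t c = c := by rw [hc, map_add, ht.sq, add_comm]
  have hinv := invOn_cutT hf ht c htc
  have hq : ∀ z, f (cutT f t c z + z) z = f z c * f z c := by
    intro z
    rw [cutT_apply, add_right_comm, map_add, LinearMap.add_apply, hall, zero_add, map_smul, LinearMap.smul_apply,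
      smul_eq_mul, hf.symm c z]
  obtain ⟨z₀, hz₀⟩ : ∃ z, f z c ≠ 0 := by
    by_contra hcon
    push Not at hcon
    exact hc0 (hf.nd c hcon)
  obtain ⟨r, s, hs⟩ := exists_decT hf (finrank F V) (cutT f t c) hinv
    ⟨z₀, by rw [hq]; exact mul_ne_zero hz₀ hz₀⟩ (by omega)
  have hcσ : c = ∑ i, s i := by
    have h0 : c + ∑ i, s i = 0 := by
      apply hf.nd
      intro z
      have h3 := hs.form hf z
      have h4 : f z (cutT f t c z) = f z c * f z c := by
        have := hq z
        rw [map_add, LinearMap.add_apply, hf.alt, add_zero, hf.symm] at this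
        exact this
      rw [h4] at h3
      have h5 : (f z c + f z (∑ i, s i)) ^ 2 = 0 := by
        linear_combination h3 + (f z (∑ i, s i) * f z (∑ i, s i) + f z c * f z (∑ i, s i)) * h2
      rw [map_add]
      exact pow_eq_zero_iff (by norm_num) |>.1 h5
    linear_combination (norm := module) h0 - h2 • (∑ i, s i)
  have hform : ∀ x, t x = x + ∑ i, f x (s i) • s i + f x (∑ i, s i) • ∑ i, s i := by
    intro x
    have h3 := hs.2.2 x
    rw [cutT_apply, hcσ] at h3
    linear_combination (norm := module) h3 - (h2 * f x (∑ i, s i)) • (∑ i, s i)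
  refine ⟨r, s, hs.1, hs.2.1, ?_, hform⟩
  have h3 : ∑ i, (f y (s i) + f y (∑ i, s i) - 1) • s i = 0 := by
    have h4 := hform y
    have h5 : t y + y = ∑ i, s i := by rw [← hc, hcσ]
    simp only [sub_smul, add_smul, one_smul, Finset.sum_sub_distrib, Finset.sum_add_distrib, ← Finset.smul_sum]
    linear_combination (norm := module) h5 - h4 - h2 • y
  have h4 := Fintype.linearIndependent_iff.1 hs.1 _ h3
  by_contra hodd
  rw [Nat.not_even_iff_odd] at hodd
  obtain ⟨j, hj⟩ := hodd
  have h5 : ∑ i : Fin r, (f y (s i) + f y (∑ i, s i) - 1) = 0 := Finset.sum_eq_zero (fun i _ => h4 i)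
  rw [Finset.sum_sub_distrib, Finset.sum_add_distrib, ← map_sum] at h5
  simp only [Finset.sum_const, Finset.card_univ, Fintype.card_fin, nsmul_eq_mul, mul_one] at h5
  have hr : (r : F) = 1 := by
    rw [hj]; push_cast; linear_combination (j : F) * h2
  rw [hr] at h5
  have : (1 : F) = 0 := by
    linear_combination -h5 + f y (∑ i, s i) * h2
  exact one_ne_zero this

end Cfsg.Agent.Lib.Helper15
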