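import Mathlib
import Cfsg.Agent.Lib.Helper15.InvNF2

set_option autoImplicit false

namespace Cfsg.Agent.Lib.Helper15

open Module

variable {F V : Type*} [Field F] [AddCommGroup V] [Module F V] {f : LinearMap.BilinForm F V}
  {t t' : Module.End F V}

theorem IsDecT.range_eq [FiniteDimensional F V] (hf : AltForm f) {r : ℕ} {s : Fin r → V}
    (hs : IsDecT f t r s) : LinearMap.range (t - 1) = Submodule.span F (Set.range s) := by
  classical
  apply le_antisymm
  · rintro _ ⟨x, rfl⟩
    rw [LinearMap.sub_apply, Module.End.one_apply, hs.2.2, add_sub_cancel_left]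
    exact Submodule.sum_mem _ fun i _ => Submodule.smul_mem _ _ (Submodule.subset_span ⟨i, rfl⟩)
  · rw [Submodule.span_le]
    rintro _ ⟨j, rfl⟩
    obtain ⟨z, hz⟩ := exists_dual_fam hf s hs.1 (fun i => if i = j then 1 else 0)
    refine ⟨z, ?_⟩
    rw [LinearMap.sub_apply, Module.End.one_apply, hs.2.2, add_sub_cancel_left]
    simp [hz]

theorem IsDecT.rank [FiniteDimensional F V] (hf : AltForm f) {r : ℕ} {s : Fin r → V}
    (hs : IsDecT f t r s) : finrank F (LinearMap.range (t - 1)) = r := by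
  rw [hs.range_eq hf, finrank_span_eq_card hs.1, Fintype.card_fin]

theorem IsDecA.range_eq [CharP F 2] [FiniteDimensional F V] (hf : AltForm f) {r : ℕ} {s : Fin r → V}
    (hs : IsDecA f t r s) : LinearMap.range (t - 1) = Submodule.span F (Set.range s) := by
  classical
  have h2 : (2 : F) = 0 := CharTwo.two_eq_zero
  apply le_antisymm
  · rintro _ ⟨x, rfl⟩
    rw [LinearMap.sub_apply, Module.End.one_apply, hs.2.2.2, add_assoc, add_sub_cancel_left]
    refine Submodule.add_mem _ ?_ (Submodule.smul_mem _ _ ?_)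
    · exact Submodule.sum_mem _ fun i _ => Submodule.smul_mem _ _ (Submodule.subset_span ⟨i, rfl⟩)
    · exact Submodule.sum_mem _ fun i _ => (Submodule.subset_span ⟨i, rfl⟩)
  · rw [Submodule.span_le]
    rintro _ ⟨j, rfl⟩
    obtain ⟨z, hz⟩ := exists_dual_fam hf s hs.1 (fun i => (if i = j then 1 else 0) + 1)
    refine ⟨z, ?_⟩
    obtain ⟨k, hk⟩ := hs.2.2.1
    have hr : (r : F) = 0 := by
      rw [hk]; push_cast; linear_combination (k : F) * h2
    have hσ : f z (∑ i, s i) = 1 := by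
      rw [map_sum]
      simp only [hz, Finset.sum_add_distrib, Finset.sum_ite_eq', Finset.mem_univ, if_true, Finset.sum_const,
        Finset.card_univ, Fintype.card_fin, nsmul_eq_mul, mul_one, hr, add_zero]
    rw [LinearMap.sub_apply, Module.End.one_apply, hs.2.2.2, add_assoc, add_sub_cancel_left, hσ]
    simp only [hz, add_smul, one_smul, Finset.sum_add_distrib, ite_smul, zero_smul, Finset.sum_ite_eq',
      Finset.mem_univ, if_true]
    linear_combination (norm := module) h2 • (∑ i, s i)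

theorem IsDecA.rank [CharP F 2] [FiniteDimensional F V] (hf : AltForm f) {r : ℕ} {s : Fin r → V}
    (hs : IsDecA f t r s) : finrank F (LinearMap.range (t - 1)) = r := by
  rw [hs.range_eq hf, finrank_span_eq_card hs.1, Fintype.card_fin]

theorem IsDecT.intertwine {r : ℕ} {s s' : Fin r → V} (hs : IsDecT f t r s) (hs' : IsDecT f t' r s')
    (h : V →ₗ[F] V) (hp : ∀ x y, f (h x) (h y) = f x y) (hm : ∀ i, h (s i) = s' i) (x : V) :
    h (t x) = t' (h x) := by
  rw [hs.2.2, hs'.2.2, map_add, map_sum]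
  congr 1
  refine Finset.sum_congr rfl fun i _ => ?_
  rw [map_smul, hm, ← hm, hp, hm]

theorem IsDecA.intertwine {r : ℕ} {s s' : Fin r → V} (hs : IsDecA f t r s) (hs' : IsDecA f t' r s')
    (h : V →ₗ[F] V) (hp : ∀ x y, f (h x) (h y) = f x y) (hm : ∀ i, h (s i) = s' i) (x : V) :
    h (t x) = t' (h x) := by
  have hσ : h (∑ i, s i) = ∑ i, s' i := by
    rw [map_sum]; exact Finset.sum_congr rfl fun i _ => hm i
  rw [hs.2.2.2, hs'.2.2.2, map_add, map_add, map_sum, map_smul, hσ, ← hσ, hp, hσ]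
  congr 2
  refine Finset.sum_congr rfl fun i _ => ?_
  rw [map_smul, hm, ← hm, hp, hm]

theorem IsDecT.transport {r : ℕ} {s : Fin r → V} (hs : IsDecT f t r s)
    (g : V →ₗ[F] V) (hinj : Function.Injective g) (hsurj : Function.Surjective g)
    (hp : ∀ x y, f (g x) (g y) = f x y) (hc : ∀ x, g (t x) = t' (g x)) :
    IsDecT f t' r (fun i => g (s i)) := by
  refine ⟨hs.1.map' g (LinearMap.ker_eq_bot.2 hinj), fun i j => by rw [hp]; exact hs.2.1 i j, fun y => ?_⟩
  obtain ⟨x, rfl⟩ := hsurj y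
  rw [← hc, hs.2.2, map_add, map_sum]
  congr 1
  refine Finset.sum_congr rfl fun i _ => ?_
  rw [map_smul, hp]

theorem IsDecA.transport {r : ℕ} {s : Fin r → V} (hs : IsDecA f t r s)
    (g : V →ₗ[F] V) (hinj : Function.Injective g) (hsurj : Function.Surjective g)
    (hp : ∀ x y, f (g x) (g y) = f x y) (hc : ∀ x, g (t x) = t' (g x)) :
    IsDecA f t' r (fun i => g (s i)) := by
  refine ⟨hs.1.map' g (LinearMap.ker_eq_bot.2 hinj), fun i j => by rw [hp]; exact hs.2.1 i j, hs.2.2.1,
    fun y => ?_⟩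
  obtain ⟨x, rfl⟩ := hsurj y
  have hσ : g (∑ i, s i) = ∑ i, g (s i) := map_sum _ _ _
  rw [← hc, hs.2.2.2, map_add, map_add, map_sum, map_smul, ← hσ, hp]
  congr 2
  refine Finset.sum_congr rfl fun i _ => ?_
  rw [map_smul, hp]

/-- the dichotomy -/
theorem exists_dec [Fintype F] [CharP F 2] [FiniteDimensional F V] (hf : AltForm f) (ht : InvOn f t)
    (hne : ∃ y, t y ≠ y) :
    ((∃ x, f x (t x) ≠ 0) ∧ ∃ r, ∃ s : Fin r → V, IsDecT f t r s) ∨
    ((∀ x, f x (t x) = 0) ∧ ∃ r, ∃ s : Fin r → V, IsDecA f t r s) := by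
  have hq : ∀ x, f (t x + x) x = f x (t x) := by
    intro x
    rw [map_add, LinearMap.add_apply, hf.alt, add_zero, hf.symm]
  by_cases h : ∃ x, f x (t x) ≠ 0
  · left
    refine ⟨h, exists_decT hf (finrank F V) t ht ?_ (by omega)⟩
    obtain ⟨x, hx⟩ := h
    exact ⟨x, by rw [hq]; exact hx⟩
  · right
    push Not at h
    exact ⟨h, exists_decA hf ht (fun x => by rw [hq]; exact h x) hne⟩

end Cfsg.Agent.Lib.Helper15
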