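import Mathlib
import Cfsg.Agent.Lib.Helper15.InvNF3
import Cfsg.Agent.Lib.Helper14.SpFrames

set_option autoImplicit false

namespace Cfsg.Agent.Lib.Helper15

open Module Matrix Cfsg.Agent.Lib.Helper5 Cfsg.Agent.Lib.Helper14

variable {F : Type*} [Field F] {m : ℕ}

theorem altForm_sympB : AltForm (sympB m F : LinearMap.BilinForm F (Fin m ⊕ Fin m → F)) :=
  ⟨fun x => sympForm_self x, fun x hx => sympB_sepRight x hx⟩

theorem sp_invOn (a : Matrix.symplecticGroup (Fin m) F) (ha : orderOf a = 2) :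
    InvOn (sympB m F : LinearMap.BilinForm F (Fin m ⊕ Fin m → F)) (Matrix.mulVecLin a.1) := by
  refine ⟨fun x => ?_, fun x y => (mem_symplecticGroup_iff_preserves _).1 a.2 x y⟩
  have h1 : a ^ 2 = 1 := by rw [← ha]; exact pow_orderOf_eq_one a
  have h2 : a.1 * a.1 = 1 := by
    have := congrArg Subtype.val h1
    rw [pow_two] at this
    exact this
  rw [Matrix.mulVecLin_apply, Matrix.mulVecLin_apply, Matrix.mulVec_mulVec, h2, Matrix.one_mulVec]

theorem sp_ne_fix (a : Matrix.symplecticGroup (Fin m) F) (ha : orderOf a = 2) :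
    ∃ y, Matrix.mulVecLin a.1 y ≠ y := by
  by_contra hcon
  push Not at hcon
  have h1 : a = 1 := by
    apply Subtype.ext
    apply Matrix.toLin'.injective
    apply LinearMap.ext
    intro y
    have := hcon y
    rw [Matrix.mulVecLin_apply] at this
    rw [Matrix.toLin'_apply, this]
    simp
  rw [h1, orderOf_one] at ha
  omega

theorem rank_sub_one_eq {ι : Type*} [Fintype ι] [DecidableEq ι] (A : Matrix ι ι F) :
    (A - 1).rank = finrank F (LinearMap.range (Matrix.mulVecLin A - 1 : Module.End F (ι → F))) := by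
  have h : (A - 1).mulVecLin = (Matrix.mulVecLin A - 1 : Module.End F (ι → F)) := by
    apply LinearMap.ext
    intro x
    simp [Matrix.sub_mulVec]
  rw [Matrix.rank, h]

theorem sp_dec [Fintype F] [CharP F 2] (a : Matrix.symplecticGroup (Fin m) F) (ha : orderOf a = 2) :
    ((∃ x, Cfsg.sympForm m F x (a.1 *ᵥ x) ≠ 0) ∧ ∃ s : Fin (a.1 - 1).rank → (Fin m ⊕ Fin m → F),
      IsDecT (sympB m F : LinearMap.BilinForm F (Fin m ⊕ Fin m → F)) (Matrix.mulVecLin a.1) _ s) ∨
    ((∀ x, Cfsg.sympForm m F x (a.1 *ᵥ x) = 0) ∧ ∃ s : Fin (a.1 - 1).rank → (Fin m ⊕ Fin m → F),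
      IsDecA (sympB m F : LinearMap.BilinForm F (Fin m ⊕ Fin m → F)) (Matrix.mulVecLin a.1) _ s) := by
  rcases exists_dec altForm_sympB (sp_invOn a ha) (sp_ne_fix a ha) with ⟨h1, r, s, hs⟩ | ⟨h1, r, s, hs⟩
  · left
    refine ⟨h1, ?_⟩
    obtain rfl : r = (a.1 - 1).rank := by rw [rank_sub_one_eq, hs.rank altForm_sympB]
    exact ⟨s, hs⟩
  · right
    refine ⟨h1, ?_⟩
    obtain rfl : r = (a.1 - 1).rank := by rw [rank_sub_one_eq, hs.rank altForm_sympB]
    exact ⟨s, hs⟩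

theorem sp_conj_of_intertwine (a b g : Matrix.symplecticGroup (Fin m) F)
    (h : ∀ x, Matrix.mulVecLin g.1 (Matrix.mulVecLin a.1 x) = Matrix.mulVecLin b.1 (Matrix.mulVecLin g.1 x)) :
    IsConj a b := by
  rw [isConj_iff]
  refine ⟨g, ?_⟩
  rw [mul_inv_eq_iff_eq_mul]
  apply Subtype.ext
  apply Matrix.toLin'.injective
  apply LinearMap.ext
  intro x
  have := h x
  simp only [Matrix.mulVecLin_apply, Matrix.mulVec_mulVec] at this
  rw [Matrix.toLin'_apply, Matrix.toLin'_apply]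
  exact this

theorem sp_conj_T (a b : Matrix.symplecticGroup (Fin m) F) {r : ℕ} {s s' : Fin r → (Fin m ⊕ Fin m → F)}
    (hs : IsDecT (sympB m F : LinearMap.BilinForm F (Fin m ⊕ Fin m → F)) (Matrix.mulVecLin a.1) r s)
    (hs' : IsDecT (sympB m F : LinearMap.BilinForm F (Fin m ⊕ Fin m → F)) (Matrix.mulVecLin b.1) r s') :
    IsConj a b := by
  obtain ⟨g, hg⟩ := sp_transitive_XS (⟨s, hs.1, hs.2.1⟩ : XS F m r) ⟨s', hs'.1, hs'.2.1⟩
  exact sp_conj_of_intertwine a b g (hs.intertwine hs' _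
    (fun x y => (mem_symplecticGroup_iff_preserves _).1 g.2 x y) hg)

theorem sp_conj_A (a b : Matrix.symplecticGroup (Fin m) F) {r : ℕ} {s s' : Fin r → (Fin m ⊕ Fin m → F)}
    (hs : IsDecA (sympB m F : LinearMap.BilinForm F (Fin m ⊕ Fin m → F)) (Matrix.mulVecLin a.1) r s)
    (hs' : IsDecA (sympB m F : LinearMap.BilinForm F (Fin m ⊕ Fin m → F)) (Matrix.mulVecLin b.1) r s') :
    IsConj a b := by
  obtain ⟨g, hg⟩ := sp_transitive_XS (⟨s, hs.1, hs.2.1⟩ : XS F m r) ⟨s', hs'.1, hs'.2.1⟩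
  exact sp_conj_of_intertwine a b g (hs.intertwine hs' _
    (fun x y => (mem_symplecticGroup_iff_preserves _).1 g.2 x y) hg)

end Cfsg.Agent.Lib.Helper15
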