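import Mathlib
import Cfsg.Agent.Lib.Helper15.InvNF4

set_option autoImplicit false

namespace Cfsg.Agent.Lib.Helper15

open Module Matrix Cfsg.Agent.Lib.Helper5 Cfsg.Agent.Lib.Helper14

variable {F : Type*} [Field F] {m : ℕ}

theorem sp_mul_inv_val (g : Matrix.symplecticGroup (Fin m) F) : g.1 * (g⁻¹).1 = 1 := by
  have : (g * g⁻¹).1 = 1 := by rw [mul_inv_cancel]; rfl
  exact this

theorem sp_inv_mul_val (g : Matrix.symplecticGroup (Fin m) F) : (g⁻¹).1 * g.1 = 1 := by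
  have : (g⁻¹ * g).1 = 1 := by rw [inv_mul_cancel]; rfl
  exact this

theorem sp_conj_invariants (a b : Matrix.symplecticGroup (Fin m) F) (h : IsConj a b) :
    (a.1 - 1).rank = (b.1 - 1).rank ∧
      Nat.card {v : Fin m ⊕ Fin m → F // Cfsg.sympForm m F v (a.1 *ᵥ v) = 0} =
        Nat.card {v : Fin m ⊕ Fin m → F // Cfsg.sympForm m F v (b.1 *ᵥ v) = 0} := by
  obtain ⟨g, hg⟩ := isConj_iff.1 h
  have h1 : b.1 = g.1 * a.1 * (g⁻¹).1 := by rw [← hg]; rfl
  have hu : IsUnit g.1.det := by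
    have := congrArg Matrix.det (sp_mul_inv_val g)
    rw [Matrix.det_mul, Matrix.det_one] at this
    exact IsUnit.of_mul_eq_one _ this
  have hu' : IsUnit (g⁻¹).1.det := by
    have := congrArg Matrix.det (sp_inv_mul_val g)
    rw [Matrix.det_mul, Matrix.det_one] at this
    exact IsUnit.of_mul_eq_one _ this
  constructor
  · have h3 : b.1 - 1 = g.1 * (a.1 - 1) * (g⁻¹).1 := by
      rw [h1, mul_sub, sub_mul, mul_one, sp_mul_inv_val]
    rw [h3, Matrix.rank_mul_eq_left_of_isUnit_det _ _ hu', Matrix.rank_mul_eq_right_of_isUnit_det _ _ hu]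
  · let e : (Fin m ⊕ Fin m → F) ≃ (Fin m ⊕ Fin m → F) :=
      { toFun := fun v => g.1 *ᵥ v
        invFun := fun v => (g⁻¹).1 *ᵥ v
        left_inv := fun v => by
          show (g⁻¹).1 *ᵥ (g.1 *ᵥ v) = v
          rw [Matrix.mulVec_mulVec, sp_inv_mul_val, Matrix.one_mulVec]
        right_inv := fun v => by
          show g.1 *ᵥ ((g⁻¹).1 *ᵥ v) = v
          rw [Matrix.mulVec_mulVec, sp_mul_inv_val, Matrix.one_mulVec] }
    apply Nat.card_congr
    refine Equiv.subtypeEquiv e fun v => ?_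
    show _ ↔ Cfsg.sympForm m F (g.1 *ᵥ v) (b.1 *ᵥ (g.1 *ᵥ v)) = 0
    have h4 : b.1 *ᵥ (g.1 *ᵥ v) = g.1 *ᵥ (a.1 *ᵥ v) := by
      rw [h1, Matrix.mulVec_mulVec, Matrix.mul_assoc, sp_inv_mul_val, mul_one, Matrix.mulVec_mulVec]
    rw [h4, (mem_symplecticGroup_iff_preserves _).1 g.2]

theorem card_all_ne [Fintype F] (a b : Matrix.symplecticGroup (Fin m) F)
    (h1 : ∃ x, Cfsg.sympForm m F x (a.1 *ᵥ x) ≠ 0) (h2 : ∀ x, Cfsg.sympForm m F x (b.1 *ᵥ x) = 0) :
    Nat.card {v : Fin m ⊕ Fin m → F // Cfsg.sympForm m F v (a.1 *ᵥ v) = 0} ≠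
        Nat.card {v : Fin m ⊕ Fin m → F // Cfsg.sympForm m F v (b.1 *ᵥ v) = 0} := by
  classical
  obtain ⟨x, hx⟩ := h1
  rw [Nat.card_congr (Equiv.subtypeUnivEquiv h2), Nat.card_eq_fintype_card, Nat.card_eq_fintype_card]
  exact (Fintype.card_subtype_lt (p := fun v : Fin m ⊕ Fin m → F => Cfsg.sympForm m F v (a.1 *ᵥ v) = 0)
    (x := x) hx).ne

theorem sp_involution_conj [Fintype F] [CharP F 2] (a b : Matrix.symplecticGroup (Fin m) F)
    (ha : orderOf a = 2) (hb : orderOf b = 2) :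
    IsConj a b ↔ ((a.1 - 1).rank = (b.1 - 1).rank ∧ (Even (a.1 - 1).rank →
      Nat.card {v : Fin m ⊕ Fin m → F // Cfsg.sympForm m F v (a.1 *ᵥ v) = 0} =
        Nat.card {v : Fin m ⊕ Fin m → F // Cfsg.sympForm m F v (b.1 *ᵥ v) = 0})) := by
  constructor
  · intro h
    exact ⟨(sp_conj_invariants a b h).1, fun _ => (sp_conj_invariants a b h).2⟩
  · rintro ⟨hr, hc⟩
    rcases sp_dec a ha with ⟨h1, s, hs⟩ | ⟨h1, s, hs⟩ <;> rcases sp_dec b hb with ⟨h1', s', hs'⟩ | ⟨h1', s', hs'⟩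
    · revert s'
      rw [← hr]
      intro s' hs'
      exact sp_conj_T a b hs hs'
    · exact absurd (hc (by rw [hr]; exact hs'.2.2.1)) (card_all_ne a b h1 h1')
    · exact absurd (hc hs.2.2.1).symm (card_all_ne b a h1' h1)
    · revert s'
      rw [← hr]
      intro s' hs'
      exact sp_conj_A a b hs hs'

theorem sp_involution_card [Fintype F] [CharP F 2] (a : Matrix.symplecticGroup (Fin m) F)
    (ha : orderOf a = 2) :
    (Nat.card {v : Fin m ⊕ Fin m → F // Cfsg.sympForm m F v (a.1 *ᵥ v) = 0} = Fintype.card F ^ (2 * m) ∨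
      Nat.card {v : Fin m ⊕ Fin m → F // Cfsg.sympForm m F v (a.1 *ᵥ v) = 0} * Fintype.card F =
        Fintype.card F ^ (2 * m)) ∧
    ((∀ v : Fin m ⊕ Fin m → F, Cfsg.sympForm m F v (a.1 *ᵥ v) = 0) → Even (a.1 - 1).rank) := by
  classical
  have hV : Nat.card (Fin m ⊕ Fin m → F) = Fintype.card F ^ (2 * m) := by
    rw [Nat.card_eq_fintype_card, Fintype.card_fun, Fintype.card_sum, Fintype.card_fin, two_mul]
  rcases sp_dec a ha with ⟨⟨x, hx⟩, s, hs⟩ | ⟨h1, s, hs⟩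
  · refine ⟨Or.inr ?_, fun h => absurd (h x) hx⟩
    set φ : (Fin m ⊕ Fin m → F) →ₗ[F] F :=
      (sympB m F : LinearMap.BilinForm F (Fin m ⊕ Fin m → F)).flip (∑ i, s i) with hφ
    have hform : ∀ v, Cfsg.sympForm m F v (a.1 *ᵥ v) = φ v * φ v := fun v => hs.form altForm_sympB v
    have hsurj : Function.Surjective φ := by
      have hne : φ x ≠ 0 := by
        intro h0
        apply hx
        rw [hform, h0, mul_zero]
      intro c
      refine ⟨(c / φ x) • x, ?_⟩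
      rw [map_smul, smul_eq_mul, div_mul_cancel₀ _ hne]
    have h3 : Nat.card {v : Fin m ⊕ Fin m → F // Cfsg.sympForm m F v (a.1 *ᵥ v) = 0} =
        Nat.card (LinearMap.ker φ) := by
      apply Nat.card_congr
      refine Equiv.subtypeEquiv (Equiv.refl _) fun v => ?_
      rw [hform, mul_self_eq_zero]
      rfl
    rw [h3, ← hV, Submodule.card_eq_card_quotient_mul_card (LinearMap.ker φ),
      Nat.card_congr (φ.quotKerEquivOfSurjective hsurj).toEquiv, Nat.card_eq_fintype_card (α := F)]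
  · refine ⟨Or.inl ?_, fun _ => hs.2.2.1⟩
    rw [Nat.card_congr (Equiv.subtypeUnivEquiv h1), hV]

end Cfsg.Agent.Lib.Helper15
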