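import Mathlib
import Cfsg.Agent.Lib.Helper15.InvNF3
import Cfsg.Agent.Lib.Helper15.Bridge

set_option autoImplicit false

namespace Cfsg.Agent.Lib.Helper15

open Module Cfsg QuadraticMap
open scoped Matrix

section gen

variable {F V : Type*} [Field F] [AddCommGroup V] [Module F V] {f : LinearMap.BilinForm F V}
  {t t' : Module.End F V}

theorem IsDecT.exists_pre [FiniteDimensional F V] (hf : AltForm f) {r : ℕ} {s : Fin r → V}
    (hs : IsDecT f t r s) (j : Fin r) : ∃ z, t z = z + s j ∧ f z (s j) = 1 := by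
  classical
  obtain ⟨z, hz⟩ := exists_dual_fam hf s hs.1 (fun i => if i = j then 1 else 0)
  refine ⟨z, ?_, by rw [hz]; simp⟩
  rw [hs.2.2]
  simp [hz]

theorem IsDecA.exists_pre [CharP F 2] [FiniteDimensional F V] (hf : AltForm f) {r : ℕ} {s : Fin r → V}
    (hs : IsDecA f t r s) (j : Fin r) : ∃ z, t z = z + s j ∧ f z (s j) = 0 := by
  classical
  have h2 : (2 : F) = 0 := CharTwo.two_eq_zero
  obtain ⟨z, hz⟩ := exists_dual_fam hf s hs.1 (fun i => (if i = j then 1 else 0) + 1)
  refine ⟨z, ?_, by rw [hz]; simp only [if_true]; linear_combination h2⟩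
  obtain ⟨k, hk⟩ := hs.2.2.1
  have hr : (r : F) = 0 := by
    rw [hk]; push_cast; linear_combination (k : F) * h2
  have hσ : f z (∑ i, s i) = 1 := by
    rw [map_sum]
    simp only [hz, Finset.sum_add_distrib, Finset.sum_ite_eq', Finset.mem_univ, if_true, Finset.sum_const,
      Finset.card_univ, Fintype.card_fin, nsmul_eq_mul, mul_one, hr, add_zero]
  rw [hs.2.2.2, hσ]
  simp only [hz, add_smul, one_smul, Finset.sum_add_distrib, ite_smul, zero_smul, Finset.sum_ite_eq',
    Finset.mem_univ, if_true]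
  linear_combination (norm := module) h2 • (∑ i, s i)

theorem altForm_polar [CharP F 2] (Q : QuadraticForm F V) (hQ : (polarBilin Q).Nondegenerate) :
    AltForm (polarBilin Q) := by
  have h2 : (2 : F) = 0 := CharTwo.two_eq_zero
  refine ⟨fun x => ?_, fun x hx => hQ.2 x hx⟩
  rw [polarBilin_apply_apply, polar_self, two_smul]
  linear_combination Q x * h2

theorem IsDecT.Qval [CharP F 2] [FiniteDimensional F V] (Q : QuadraticForm F V)
    (hQ : (polarBilin Q).Nondegenerate) {r : ℕ} {s : Fin r → V}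
    (hs : IsDecT (polarBilin Q) t r s) (hiso : IsIso Q t) (j : Fin r) : Q (s j) = 1 := by
  have h2 : (2 : F) = 0 := CharTwo.two_eq_zero
  obtain ⟨z, hz1, hz2⟩ := hs.exists_pre (altForm_polar Q hQ) j
  have h3 := hiso z
  rw [hz1, QuadraticMap.map_add Q] at h3
  rw [polarBilin_apply_apply] at hz2
  linear_combination h3 - hz2 - h2

theorem IsDecA.Qval [CharP F 2] [FiniteDimensional F V] (Q : QuadraticForm F V)
    (hQ : (polarBilin Q).Nondegenerate) {r : ℕ} {s : Fin r → V}
    (hs : IsDecA (polarBilin Q) t r s) (hiso : IsIso Q t) (j : Fin r) : Q (s j) = 0 := by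
  obtain ⟨z, hz1, hz2⟩ := hs.exists_pre (altForm_polar Q hQ) j
  have h3 := hiso z
  rw [hz1, QuadraticMap.map_add Q] at h3
  rw [polarBilin_apply_apply] at hz2
  linear_combination h3 - hz2

/-- the generic statement -/
theorem exists_iso_intertwine [Fintype F] [CharP F 2] [FiniteDimensional F V] (Q : QuadraticForm F V)
    (hQ : (polarBilin Q).Nondegenerate) (ht : IsIso Q t) (ht' : IsIso Q t') (hsq : ∀ x, t (t x) = x)
    (hne : ∃ y, t y ≠ y) (g : V →ₗ[F] V) (hinj : Function.Injective g) (hsurj : Function.Surjective g)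
    (hp : ∀ x y, polar Q (g x) (g y) = polar Q x y) (hc : ∀ x, g (t x) = t' (g x)) :
    ∃ τ : Module.End F V, IsIso Q τ ∧ ∀ x, τ (t x) = t' (τ x) := by
  have hf := altForm_polar Q hQ
  have hinv : InvOn (polarBilin Q) t := ⟨hsq, fun x y => ht.polar x y⟩
  rcases exists_dec hf hinv hne with ⟨-, r, s, hs⟩ | ⟨-, r, s, hs⟩
  · have hs' := hs.transport (t' := t') g hinj hsurj hp hc
    obtain ⟨τ, hτ, hτs⟩ := witt_family Q hQ r s (fun i => g (s i)) hs.1 hs'.1
      (fun i => by rw [hs.Qval Q hQ ht, hs'.Qval Q hQ ht'])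
      (fun i j => by rw [hp])
    exact ⟨τ, hτ.isIso, hs.intertwine hs' τ (fun x y => hτ.isIso.polar x y) hτs⟩
  · have hs' := hs.transport (t' := t') g hinj hsurj hp hc
    obtain ⟨τ, hτ, hτs⟩ := witt_family Q hQ r s (fun i => g (s i)) hs.1 hs'.1
      (fun i => by rw [hs.Qval Q hQ ht, hs'.Qval Q hQ ht'])
      (fun i j => by rw [hp])
    exact ⟨τ, hτ.isIso, hs.intertwine hs' τ (fun x y => hτ.isIso.polar x y) hτs⟩

end gen

variable {ι : Type} [Fintype ι] [DecidableEq ι] {F : Type*} [Field F]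

theorem orth_inv_conj [Fintype F] [CharP F 2] (Q : QuadraticForm F (ι → F))
    (hQ : (polarBilin Q).Nondegenerate) (t s : isometryGroup F Q) (ht : orderOf t = 2) :
    IsConj t s ↔ ∃ g ∈ preserving (Units.coeHom (Matrix ι ι F)) (fun u v => Q (u + v) - Q u - Q v),
      g * (t : GL ι F) * g⁻¹ = (s : GL ι F) := by
  constructor
  · intro h
    obtain ⟨c, hc⟩ := isConj_iff.1 h
    refine ⟨c.1, ?_, by rw [← hc]; rfl⟩
    intro u v
    have h1 : ∀ x, Q ((Units.coeHom (Matrix ι ι F)) c.1 *ᵥ x) = Q x := fun x => toEnd_isIso Q c x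
    show Q (_ + _) - Q _ - Q _ = _
    rw [← Matrix.mulVec_add, h1, h1, h1]
  · rintro ⟨g, hg, hgc⟩
    have h1 : t ^ 2 = 1 := by rw [← ht]; exact pow_orderOf_eq_one t
    have hsq : ∀ x, toEnd Q t (toEnd Q t x) = x := by
      intro x
      have : toEnd Q (t ^ 2) x = x := by rw [h1, map_one]; rfl
      rw [pow_two, map_mul] at this
      exact this
    have hne : ∃ y, toEnd Q t y ≠ y := by
      by_contra hcon
      push Not at hcon
      have : t = 1 := by
        apply toEnd_injective Q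
        rw [map_one]
        exact LinearMap.ext hcon
      rw [this, orderOf_one] at ht
      omega
    have hgi : (g⁻¹ : GL ι F).1 * g.1 = 1 := by
      rw [← Units.val_mul, inv_mul_cancel]; rfl
    have hgi' : g.1 * (g⁻¹ : GL ι F).1 = 1 := by
      rw [← Units.val_mul, mul_inv_cancel]; rfl
    obtain ⟨τ, hτ, hτc⟩ := exists_iso_intertwine Q hQ (toEnd_isIso Q t) (toEnd_isIso Q s) hsq hne
      (Matrix.mulVecLin g.1) (by
        intro x y hxy
        have := congrArg (fun v => (g⁻¹ : GL ι F).1 *ᵥ v) hxy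
        simpa only [Matrix.mulVecLin_apply, Matrix.mulVec_mulVec, hgi, Matrix.one_mulVec] using this)
      (by
        intro y
        refine ⟨(g⁻¹ : GL ι F).1 *ᵥ y, ?_⟩
        rw [Matrix.mulVecLin_apply, Matrix.mulVec_mulVec, hgi', Matrix.one_mulVec])
      (fun x y => hg x y)
      (by
        intro x
        have h3 : g * (t : GL ι F) = (s : GL ι F) * g := by rw [← hgc]; group
        have h4 := congrArg (fun A : GL ι F => A.1 *ᵥ x) h3
        simp only [Units.val_mul, ← Matrix.mulVec_mulVec] at h4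
        exact h4)
    rw [isConj_iff]
    refine ⟨ofEnd Q hQ τ hτ, ?_⟩
    rw [mul_inv_eq_iff_eq_mul]
    apply toEnd_injective Q
    rw [map_mul, map_mul, toEnd_ofEnd]
    exact LinearMap.ext hτc

end Cfsg.Agent.Lib.Helper15
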