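import Mathlib
import Cfsg.Agent.Lib.Helper15.MinusForm
import Cfsg.Agent.Lib.Helper15.PlusLagr

set_option autoImplicit false

namespace Cfsg.Agent.Lib.Helper15

open Module Cfsg QuadraticMap
open scoped Matrix

section gen

variable {F V : Type*} [Field F] [AddCommGroup V] [Module F V]

theorem sing_finrank_le [FiniteDimensional F V] {Q : QuadraticForm F V} (hQ : (polarBilin Q).Nondegenerate)
    {U : Submodule F V} (h : ∀ u ∈ U, Q u = 0) : 2 * finrank F U ≤ finrank F V := by
  have h1 : U ≤ LinearMap.BilinForm.orthogonal (polarBilin Q) U := by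
    intro x hx
    rw [LinearMap.BilinForm.mem_orthogonal_iff]
    intro y hy
    exact polar_of_sing h hy hx
  have h2 := Submodule.finrank_mono h1
  rw [LinearMap.BilinForm.finrank_orthogonal hQ] at h2
  have := Submodule.finrank_le U
  omega

theorem inv_fixed_or_lagr [CharP F 2] [FiniteDimensional F V] (Q : QuadraticForm F V)
    (hQ : (polarBilin Q).Nondegenerate) {t : Module.End F V} (hsq : ∀ x, t (t x) = x) :
    (∃ u, t u = u ∧ Q u ≠ 0) ∨ IsLagr Q (LinearMap.range (t - 1)) := by
  have h2 : (2 : F) = 0 := CharTwo.two_eq_zero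
  by_cases h : ∃ u, t u = u ∧ Q u ≠ 0
  · exact Or.inl h
  right
  push Not at h
  have hK : ∀ u ∈ LinearMap.ker (t - 1), Q u = 0 := by
    intro u hu
    apply h
    rwa [LinearMap.mem_ker, LinearMap.sub_apply, Module.End.one_apply, sub_eq_zero] at hu
  have hWK : LinearMap.range (t - 1) ≤ LinearMap.ker (t - 1) := by
    rintro _ ⟨x, rfl⟩
    rw [LinearMap.mem_ker]
    simp only [LinearMap.sub_apply, Module.End.one_apply, map_sub, hsq]
    linear_combination (norm := module) h2 • x - h2 • t x
  refine ⟨fun u hu => hK u (hWK hu), ?_⟩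
  have h3 := LinearMap.finrank_range_add_finrank_ker (t - 1)
  have h4 := Submodule.finrank_mono hWK
  have h5 := sing_finrank_le hQ hK
  omega

end gen

variable {ι : Type} [Fintype ι] [DecidableEq ι] {F : Type*} [Field F]

theorem conj_in_Omega_of_fixed [Fintype F] [CharP F 2] (Q : QuadraticForm F (ι → F))
    (hQ : (polarBilin Q).Nondegenerate) (h : Fintype.card F ≠ 2 ∨ Fintype.card ι ≠ 4)
    (t s : isometryGroup F Q) (hconj : IsConj t s) (u : ι → F) (htu : toEnd Q t u = u) (hu : Q u ≠ 0) :
    ∃ g ∈ Omega F Q, g * t * g⁻¹ = s := by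
  obtain ⟨c, hc⟩ := isConj_iff.1 hconj
  by_cases hcO : c ∈ Omega F Q
  · exact ⟨c, hcO, hc⟩
  have hcomm : refl Q u hu * t = t * refl Q u hu := by
    apply toEnd_injective Q
    rw [map_mul, map_mul, toEnd_refl]
    apply LinearMap.ext
    intro x
    rw [Module.End.mul_apply, Module.End.mul_apply, reflL_apply, reflL_apply, map_sub, map_smul, htu]
    congr 3
    conv_lhs => rw [← htu]
    exact (toEnd_isIso Q t).polar u x
  refine ⟨c * refl Q u hu, ?_, ?_⟩
  · rw [mem_Omega_iff_dickson Q hQ h, ← dickson_apply Q hQ h, map_mul, dickson_refl]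
    rw [mem_Omega_iff_dickson Q hQ h, ← dickson_apply Q hQ h] at hcO
    rcases Int.units_eq_one_or (dickson Q hQ h c) with h1 | h1
    · exact absurd h1 hcO
    · rw [h1]; rfl
  · rw [← hc, _root_.mul_inv_rev, mul_assoc c, hcomm]
    group

end Cfsg.Agent.Lib.Helper15
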