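import Mathlib
import Cfsg.Agent.Lib.Helper15.InvNF7

set_option autoImplicit false

namespace Cfsg.Agent.Lib.Helper15

open Module Cfsg QuadraticMap
open scoped Matrix

variable {ι : Type} [Fintype ι] [DecidableEq ι] {F : Type*} [Field F]

theorem toLin_sub_one_eq (Q : (ι → F) → F) (t : isometryGroup F Q) :
    Matrix.toLin' (((t : GL ι F) : Matrix ι ι F) - 1) = (toEnd Q t - 1 : Module.End F (ι → F)) := by
  apply LinearMap.ext
  intro x
  rw [Matrix.toLin'_apply, Matrix.sub_mulVec, Matrix.one_mulVec, LinearMap.sub_apply, toEnd_apply]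
  rfl

theorem rank_eq_finrank_range (Q : (ι → F) → F) (t : isometryGroup F Q) :
    (((t : GL ι F) : Matrix ι ι F) - 1).rank =
      finrank F (LinearMap.range (toEnd Q t - 1 : Module.End F (ι → F))) := by
  rw [← toLin_sub_one_eq, Matrix.rank, Matrix.toLin'_apply']

theorem range_conj (Q : (ι → F) → F) (t s c : isometryGroup F Q) (hc : c * t * c⁻¹ = s) :
    LinearMap.range (toEnd Q s - 1 : Module.End F (ι → F)) =
      (LinearMap.range (toEnd Q t - 1 : Module.End F (ι → F))).map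
        (Matrix.mulVecLin ((c : GL ι F) : Matrix ι ι F)) := by
  have h1 : ∀ x, toEnd Q s (toEnd Q c x) = toEnd Q c (toEnd Q t x) := by
    intro x
    have : s * c = c * t := by rw [← hc]; group
    have h2 := congrArg (fun g => toEnd Q g x) this
    simpa only [map_mul, Module.End.mul_apply] using h2
  have h3 : ∀ x, toEnd Q c (toEnd Q c⁻¹ x) = x := by
    intro x
    have : toEnd Q (c * c⁻¹) x = x := by rw [mul_inv_cancel, map_one]; rfl
    rwa [map_mul] at this
  apply le_antisymm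
  · rintro _ ⟨x, rfl⟩
    refine ⟨(toEnd Q t - 1 : Module.End F (ι → F)) (toEnd Q c⁻¹ x), ⟨_, rfl⟩, ?_⟩
    show toEnd Q c _ = _
    rw [LinearMap.sub_apply, LinearMap.sub_apply, map_sub, ← h1, Module.End.one_apply, Module.End.one_apply, h3]
  · rintro _ ⟨_, ⟨x, rfl⟩, rfl⟩
    refine ⟨toEnd Q c x, ?_⟩
    show _ = toEnd Q c _
    rw [LinearMap.sub_apply, LinearMap.sub_apply, map_sub, ← h1, Module.End.one_apply, Module.End.one_apply]

theorem mem_Omega_iff_of_conj_lagr [Fintype F] [CharP F 2] (Q : QuadraticForm F (ι → F))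
    (hQ : (polarBilin Q).Nondegenerate) (h : Fintype.card F ≠ 2 ∨ Fintype.card ι ≠ 4)
    (t s c : isometryGroup F Q) (htO : t ∈ Omega F Q) (hc : c * t * c⁻¹ = s)
    (hL : IsLagr Q (LinearMap.range (toEnd Q t - 1 : Module.End F (ι → F)))) :
    c ∈ Omega F Q ↔ Even (finrank F ↥(LinearMap.range (toEnd Q t - 1 : Module.End F (ι → F)) ⊓
      LinearMap.range (toEnd Q s - 1 : Module.End F (ι → F)))) := by
  obtain ⟨vs, hvs, hg⟩ := exists_refl_list Q hQ h c
  have h1 := parity_lagr_mat Q hQ _ _ hL hL c vs hvs hg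
  rw [← range_conj Q t s c hc, inf_idem, ← rank_eq_finrank_range] at h1
  have h2 := (mem_Omega_iff_rank Q hQ h t).1 htO
  rw [mem_Omega_iff_char_two Q hQ h c vs hvs hg]
  rw [Nat.even_iff] at h1 h2 ⊢
  rw [Nat.even_iff]
  omega

theorem orth_split [Fintype F] [CharP F 2] (Q : QuadraticForm F (ι → F))
    (hQ : (polarBilin Q).Nondegenerate) (h : Fintype.card F ≠ 2 ∨ Fintype.card ι ≠ 4) (m : ℕ)
    (hm : Fintype.card ι = 2 * m)
    (t s : isometryGroup F Q) (ht : orderOf t = 2) (htO : t ∈ Omega F Q) (hconj : IsConj t s) :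
    (¬ ((((t : GL ι F) : Matrix ι ι F) - 1).rank = m ∧
        ∀ v : ι → F, Q (v + ((t : GL ι F) : Matrix ι ι F) *ᵥ v) = 0) →
      ∃ g ∈ Omega F Q, g * t * g⁻¹ = s) ∧
    (((((t : GL ι F) : Matrix ι ι F) - 1).rank = m ∧
        ∀ v : ι → F, Q (v + ((t : GL ι F) : Matrix ι ι F) *ᵥ v) = 0) →
      ((∃ g ∈ Omega F Q, g * t * g⁻¹ = s) ↔
        Even (finrank F ↥(LinearMap.range (Matrix.toLin' (((t : GL ι F) : Matrix ι ι F) - 1)) ⊓
          LinearMap.range (Matrix.toLin' (((s : GL ι F) : Matrix ι ι F) - 1)))))) := by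
  have h2 : (2 : F) = 0 := CharTwo.two_eq_zero
  have h1 : t ^ 2 = 1 := by rw [← ht]; exact pow_orderOf_eq_one t
  have hsq : ∀ x, toEnd Q t (toEnd Q t x) = x := by
    intro x
    have : toEnd Q (t ^ 2) x = x := by rw [h1, map_one]; rfl
    rw [pow_two, map_mul] at this
    exact this
  have hv : ∀ v : ι → F, v + ((t : GL ι F) : Matrix ι ι F) *ᵥ v =
      (toEnd Q t - 1 : Module.End F (ι → F)) v := by
    intro v
    rw [LinearMap.sub_apply, Module.End.one_apply, toEnd_apply]
    linear_combination (norm := module) h2 • v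
  have hiff : ((((t : GL ι F) : Matrix ι ι F) - 1).rank = m ∧
        ∀ v : ι → F, Q (v + ((t : GL ι F) : Matrix ι ι F) *ᵥ v) = 0) ↔
      IsLagr Q (LinearMap.range (toEnd Q t - 1 : Module.End F (ι → F))) := by
    constructor
    · rintro ⟨hr, hs⟩
      refine ⟨?_, ?_⟩
      · rintro _ ⟨x, rfl⟩
        rw [← hv]; exact hs x
      · rw [← rank_eq_finrank_range, hr, Module.finrank_fintype_fun_eq_card, hm]
    · intro hL
      refine ⟨?_, fun v => ?_⟩
      · have := hL.dim
        rw [← rank_eq_finrank_range, Module.finrank_fintype_fun_eq_card, hm] at this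
        omega
      · rw [hv]; exact hL.sing _ ⟨v, rfl⟩
  rw [hiff, toLin_sub_one_eq, toLin_sub_one_eq]
  constructor
  · intro hn
    rcases inv_fixed_or_lagr Q hQ hsq with ⟨u, hu1, hu2⟩ | hL
    · exact conj_in_Omega_of_fixed Q hQ h t s hconj u hu1 hu2
    · exact absurd hL hn
  · intro hL
    constructor
    · rintro ⟨g, hg, hgc⟩
      exact (mem_Omega_iff_of_conj_lagr Q hQ h t s g htO hgc hL).1 hg
    · intro he
      obtain ⟨c, hc⟩ := isConj_iff.1 hconj
      exact ⟨c, (mem_Omega_iff_of_conj_lagr Q hQ h t s c htO hc hL).2 he, hc⟩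

end Cfsg.Agent.Lib.Helper15
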