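import Mathlib
import Cfsg.Agent.Lib.Helper15.InvNF8
import Cfsg.Agent.Lib.Helper15.Count6

set_option autoImplicit false

namespace Cfsg.Agent.Lib.Helper15

open Module Cfsg QuadraticMap
open scoped Matrix

universe u v

theorem zeros_of_sing {F : Type u} [Field F] [Fintype F] :
    ∀ (n : ℕ) (V : Type v) [AddCommGroup V] [Module F V] [FiniteDimensional F V] (Q : QuadraticForm F V),
      (polarBilin Q).Nondegenerate → finrank F V = 2 * n → ∀ U : Submodule F V, (∀ u ∈ U, Q u = 0) →
      n ≤ finrank F U → zeros Q = zRec (Fintype.card F) 0 n := by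
  intro n
  induction n with
  | zero =>
    intro V _ _ _ Q _ hr U _ _
    have : Subsingleton V := Module.finrank_zero_iff.1 (by omega)
    show Nat.card {x : V // Q x = 0} = 1
    rw [Nat.card_eq_one_iff_unique]
    exact ⟨inferInstance, ⟨⟨0, map_zero Q⟩⟩⟩
  | succ n ih =>
    intro V _ _ _ Q hQ hr U hU hn
    have hne : U ≠ ⊥ := by
      rintro rfl
      rw [finrank_bot] at hn
      omega
    obtain ⟨e, heU, he0⟩ := Submodule.exists_mem_ne_zero_of_ne_bot hne
    obtain ⟨f, hf, hef⟩ := exists_hyp_partner Q hQ e he0 (hU e heU)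
    have h : HPair Q e f := ⟨hU e heU, hf, hef⟩
    have hfr := h.finrank_perp hQ
    have hle : U ⊓ LinearMap.ker (polarBilin Q f) ≤ perp2 Q e f := by
      rintro x ⟨hx1, hx2⟩
      rw [mem_perp2]
      exact ⟨polar_of_sing hU heU hx1, hx2⟩
    have hdim : n ≤ finrank F ↥(U ⊓ LinearMap.ker (polarBilin Q f)) := by
      have h1 := Submodule.finrank_sup_add_finrank_inf_eq U (LinearMap.ker (polarBilin Q f))
      have h2 := LinearMap.finrank_range_add_finrank_ker (polarBilin Q f)
      have h3 : finrank F ↥(LinearMap.range (polarBilin Q f)) ≤ 1 := by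
        have := Submodule.finrank_le (LinearMap.range (polarBilin Q f))
        rwa [finrank_self] at this
      have h4 := Submodule.finrank_le (U ⊔ LinearMap.ker (polarBilin Q f))
      omega
    have hdim' : n ≤ finrank F ↥((U ⊓ LinearMap.ker (polarBilin Q f)).comap (perp2 Q e f).subtype) := by
      rw [← Submodule.finrank_map_subtype_eq, Submodule.map_comap_subtype, inf_eq_right.2 hle]
      exact hdim
    have ih1 := ih (perp2 Q e f) (Q.comp (perp2 Q e f).subtype) (h.nondeg hQ) (by omega)
      ((U ⊓ LinearMap.ker (polarBilin Q f)).comap (perp2 Q e f).subtype)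
      (fun u hu => hU _ hu.1) hdim'
    have : Finite V := Module.finite_of_finite F
    rw [zeros_rec h, ih1, card_eq_pow_finrank' (F := F) (V := perp2 Q e f)]
    have : finrank F (perp2 Q e f) = 0 + 2 * n := by omega
    rw [this]
    rfl

theorem qMinus_no_lagr {F : Type u} [Field F] [Fintype F] (k : ℕ) (a c : F)
    (hac : ∀ z₁ z₂ : F, z₁ ^ 2 + a * z₁ * z₂ + c * z₂ ^ 2 = 0 → z₁ = 0 ∧ z₂ = 0)
    (U : Submodule F ((Fin k ⊕ Fin k) ⊕ Fin 2 → F)) : ¬ IsLagr (qMinus k F a c) U := by
  intro hL
  have hd := hL.dim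
  rw [Module.finrank_fintype_fun_eq_card] at hd
  simp only [Fintype.card_sum, Fintype.card_fin] at hd
  have h1 := zeros_of_sing (k + 1) _ (qMinus k F a c) (qMinus_nondegenerate k a c hac)
    (by rw [Module.finrank_fintype_fun_eq_card]; simp only [Fintype.card_sum, Fintype.card_fin]; omega)
    U hL.sing (by omega)
  rw [(count_minus k a c hac).1] at h1
  have hq : 1 < Fintype.card F := Fintype.one_lt_card
  have h2 := zRec_closed (Fintype.card F) 2 k hq.le
  have h3 := zRec_closed (Fintype.card F) 0 (k + 1) hq.le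
  rw [h1] at h2
  have h4 : Fintype.card F ^ (k + 1) < Fintype.card F ^ (k + 2) := Nat.pow_lt_pow_right hq (by omega)
  have e1 : 2 + k = k + 2 := by omega
  have e2 : 0 + (k + 1) = k + 1 := by omega
  have e3 : k + 1 + 1 = k + 2 := by omega
  have e4 : 0 + 2 * (k + 1) = 2 + 2 * k := by omega
  rw [e1] at h2
  rw [e2, e3, e4] at h3
  omega

theorem orth_no_split {ι : Type} [Fintype ι] [DecidableEq ι] {F : Type*} [Field F] [Fintype F] [CharP F 2]
    (Q : QuadraticForm F (ι → F))
    (hQ : (polarBilin Q).Nondegenerate) (h : Fintype.card F ≠ 2 ∨ Fintype.card ι ≠ 4)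
    (hno : ∀ U : Submodule F (ι → F), ¬ IsLagr Q U)
    (t s : isometryGroup F Q) (ht : orderOf t = 2) (hconj : IsConj t s) :
    ∃ g ∈ Omega F Q, g * t * g⁻¹ = s := by
  have h1 : t ^ 2 = 1 := by rw [← ht]; exact pow_orderOf_eq_one t
  have hsq : ∀ x, toEnd Q t (toEnd Q t x) = x := by
    intro x
    have : toEnd Q (t ^ 2) x = x := by rw [h1, map_one]; rfl
    rw [pow_two, map_mul] at this
    exact this
  rcases inv_fixed_or_lagr Q hQ hsq with ⟨u, hu1, hu2⟩ | hL
  · exact conj_in_Omega_of_fixed Q hQ h t s hconj u hu1 hu2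
  · exact absurd hL (hno _)

end Cfsg.Agent.Lib.Helper15
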