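import Mathlib
import Cfsg.Prelude.Def_GeometricClasses
import Cfsg.Agent.Lib.Helper14.SLGen

set_option autoImplicit false

namespace Cfsg.Agent.Lib.Helper15

open Module Matrix Cfsg

variable {F : Type*} [Field F] {ι : Type} [Fintype ι] [DecidableEq ι]

theorem gl_ext_mulVec {g g' : GL ι F} (h : ∀ x, (g : Matrix ι ι F) *ᵥ x = (g' : Matrix ι ι F) *ᵥ x) :
    g = g' := by
  apply Units.ext
  apply Matrix.toLin'.injective
  apply LinearMap.ext
  intro x
  simp [Matrix.toLin'_apply, h]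

theorem gl_inv_mulVec (g : GL ι F) (x : ι → F) :
    ((g⁻¹ : GL ι F) : Matrix ι ι F) *ᵥ ((g : Matrix ι ι F) *ᵥ x) = x := by
  rw [Matrix.mulVec_mulVec, ← Units.val_mul, inv_mul_cancel]; simp

theorem gl_mulVec_inv (g : GL ι F) (x : ι → F) :
    (g : Matrix ι ι F) *ᵥ (((g⁻¹ : GL ι F) : Matrix ι ι F) *ᵥ x) = x := by
  rw [Matrix.mulVec_mulVec, ← Units.val_mul, mul_inv_cancel]; simp

theorem gl_mulVec_injective (g : GL ι F) : Function.Injective (Matrix.mulVecLin (g : Matrix ι ι F)) := by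
  intro x y hxy
  simp only [Matrix.mulVecLin_apply] at hxy
  rw [← gl_inv_mulVec g x, hxy, gl_inv_mulVec]

theorem mem_stab_iff' (W : Submodule F (ι → F)) (g : GL ι F) :
    g ∈ Geo.subspaceStabilizer W ↔ ∀ v, v ∈ W ↔ (g : Matrix ι ι F) *ᵥ v ∈ W := Iff.rfl

theorem mem_stab_of_forall (W : Submodule F (ι → F)) (g : GL ι F)
    (h : ∀ w ∈ W, (g : Matrix ι ι F) *ᵥ w ∈ W) : g ∈ Geo.subspaceStabilizer W := by
  rw [mem_stab_iff']
  intro v
  refine ⟨h v, fun hv => ?_⟩
  have h1 : W.map (Matrix.mulVecLin (g : Matrix ι ι F)) = W := by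
    apply Submodule.eq_of_le_of_finrank_eq
    · rintro _ ⟨w, hw, rfl⟩
      exact h w hw
    · exact (Submodule.equivMapOfInjective _ (gl_mulVec_injective g) W).finrank_eq.symm
  rw [← h1] at hv
  obtain ⟨v', hv', he⟩ := hv
  rwa [← gl_mulVec_injective g he]

/-- transvections as elements of `GL` -/
noncomputable def tvGL (φ : Module.Dual F (ι → F)) (v : ι → F) (h : φ v = 0) : GL ι F :=
  Matrix.GeneralLinearGroup.mkOfDetNeZero (LinearMap.toMatrix' (LinearMap.transvection φ v))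
    (by rw [LinearMap.det_toMatrix', LinearMap.transvection.det, h, add_zero]; exact one_ne_zero)

theorem tvGL_mulVec (φ : Module.Dual F (ι → F)) (v : ι → F) (h : φ v = 0) (x : ι → F) :
    (tvGL φ v h : Matrix ι ι F) *ᵥ x = x + φ x • v := by
  change (LinearMap.toMatrix' (LinearMap.transvection φ v)) *ᵥ x = _
  rw [← Matrix.toLin'_apply, Matrix.toLin'_toMatrix']; rfl

theorem tvGL_mem_SL (φ : Module.Dual F (ι → F)) (v : ι → F) (h : φ v = 0) :
    tvGL φ v h ∈ Geo.specialLinear ι F := by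
  rw [Geo.specialLinear, MonoidHom.mem_ker]
  apply Units.ext
  change Matrix.det (LinearMap.toMatrix' (LinearMap.transvection φ v)) = 1
  rw [LinearMap.det_toMatrix', LinearMap.transvection.det, h, add_zero]

/-- all transvections with direction `v` lie in `M` -/
def GoodS (M : Subgroup (GL ι F)) (v : ι → F) : Prop :=
  ∀ (φ : Module.Dual F (ι → F)) (h : φ v = 0), tvGL φ v h ∈ M

theorem GoodS.conj {M : Subgroup (GL ι F)} {v : ι → F} (hv : GoodS M v) (g : GL ι F) (hg : g ∈ M) :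
    GoodS M ((g : Matrix ι ι F) *ᵥ v) := by
  intro φ h
  have h1 : (φ.comp (Matrix.mulVecLin (g : Matrix ι ι F))) v = 0 := h
  have h2 : tvGL φ _ h = g * tvGL _ v h1 * g⁻¹ := by
    apply gl_ext_mulVec
    intro x
    rw [Units.val_mul, Units.val_mul, ← Matrix.mulVec_mulVec, ← Matrix.mulVec_mulVec, tvGL_mulVec, tvGL_mulVec,
      Matrix.mulVec_add, Matrix.mulVec_smul, gl_mulVec_inv]
    congr 2
    change φ x = φ ((g : Matrix ι ι F) *ᵥ _)
    rw [gl_mulVec_inv]
  rw [h2]
  exact M.mul_mem (M.mul_mem hg (hv _ h1)) (M.inv_mem hg)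

theorem GoodS.smul {M : Subgroup (GL ι F)} {v : ι → F} (hv : GoodS M v) (c : F) : GoodS M (c • v) := by
  intro φ h
  have h1 : (c • φ) v = 0 := by
    rw [LinearMap.smul_apply, ← map_smul]; exact h
  have h2 : tvGL φ _ h = tvGL _ v h1 := by
    apply gl_ext_mulVec
    intro x
    rw [tvGL_mulVec, tvGL_mulVec, LinearMap.smul_apply, smul_smul, smul_eq_mul, mul_comm]
  rw [h2]
  exact hv _ h1

omit [DecidableEq ι] in
theorem exists_dual_one (p : Submodule F (ι → F)) (x : ι → F) (hx : x ∉ p) :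
    ∃ f : Module.Dual F (ι → F), f x = 1 ∧ ∀ y ∈ p, f y = 0 := by
  obtain ⟨f, hf, hp⟩ := Submodule.exists_dual_map_eq_bot_of_notMem hx inferInstance
  refine ⟨(f x)⁻¹ • f, ?_, ?_⟩
  · rw [LinearMap.smul_apply, smul_eq_mul, inv_mul_cancel₀ hf]
  · intro y hy
    have : f y ∈ p.map f := Submodule.mem_map_of_mem hy
    rw [hp, Submodule.mem_bot] at this
    rw [LinearMap.smul_apply, this, smul_zero]

theorem SL_le_of_good [Nontrivial ι] {M : Subgroup (GL ι F)} (h : ∀ v, GoodS M v) :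
    Geo.specialLinear ι F ≤ M := by
  have key : ∀ A : Matrix.SpecialLinearGroup ι F, ∀ g : GL ι F, (g : Matrix ι ι F) = A → g ∈ M := by
    intro A
    refine Cfsg.Agent.Lib.Helper14.SL_transvection_induction
      (fun A => ∀ g : GL ι F, (g : Matrix ι ι F) = A → g ∈ M) ?_ ?_ A
    · intro i j hij c g hg
      have h0 : (LinearMap.proj j : Module.Dual F (ι → F)) (Pi.single i c) = 0 := by
        simp [hij.symm]
      have : g = tvGL (LinearMap.proj j) (Pi.single i c) h0 := by
        apply gl_ext_mulVec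
        intro x
        rw [hg, tvGL_mulVec, Matrix.SpecialLinearGroup.transvection_coe, Matrix.add_mulVec, Matrix.one_mulVec]
        congr 1
        ext k
        simp only [LinearMap.proj_apply, Pi.smul_apply, smul_eq_mul, Pi.single_apply, Matrix.mulVec, dotProduct,
          Matrix.single_apply]
        by_cases hk : k = i
        · subst hk
          simp [mul_comm]
        · have : ¬ i = k := fun h => hk h.symm
          simp [hk, this]
      rw [this]
      exact h _ _ h0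
    · intro A B hA hB g hg
      have h1 : g = Matrix.SpecialLinearGroup.toGL A * Matrix.SpecialLinearGroup.toGL B := by
        apply Units.ext
        rw [hg]; rfl
      rw [h1]
      exact M.mul_mem (hA _ rfl) (hB _ rfl)
  intro g hg
  rw [Geo.specialLinear, MonoidHom.mem_ker] at hg
  have hd : Matrix.det (g : Matrix ι ι F) = 1 := congrArg Units.val hg
  exact key ⟨g, hd⟩ g rfl

theorem SL_stab_max [Nontrivial ι] (W : Submodule F (ι → F)) (M : Subgroup (GL ι F))
    (hM : Geo.subspaceStabilizer W ⊓ Geo.specialLinear ι F ≤ M) (hns : ¬ M ≤ Geo.subspaceStabilizer W) :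
    Geo.specialLinear ι F ≤ M := by
  have hgood : ∀ u ∈ W, GoodS M u := by
    intro u hu φ h
    apply hM
    refine ⟨mem_stab_of_forall W _ (fun w hw => ?_), tvGL_mem_SL _ _ _⟩
    rw [tvGL_mulVec]
    exact W.add_mem hw (W.smul_mem _ hu)
  have hfix : ∀ (φ : Module.Dual F (ι → F)) (v : ι → F) (h : φ v = 0), (∀ w ∈ W, φ w = 0) → tvGL φ v h ∈ M := by
    intro φ v h hφ
    apply hM
    refine ⟨mem_stab_of_forall W _ (fun w hw => ?_), tvGL_mem_SL _ _ _⟩
    rw [tvGL_mulVec, hφ w hw, zero_smul, add_zero]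
    exact hw
  obtain ⟨v', hv'W, hv'⟩ : ∃ v', v' ∉ W ∧ GoodS M v' := by
    obtain ⟨x, hxM, hxW⟩ := SetLike.not_le_iff_exists.1 hns
    have : ¬ ∀ w ∈ W, (x : Matrix ι ι F) *ᵥ w ∈ W := fun hc => hxW (mem_stab_of_forall W x hc)
    push Not at this
    obtain ⟨w, hw, hxw⟩ := this
    exact ⟨_, hxw, (hgood w hw).conj x hxM⟩
  apply SL_le_of_good
  intro y
  by_cases hyW : y ∈ W
  · exact hgood y hyW
  obtain ⟨f₀, hf₀, hf₀W⟩ := exists_dual_one W v' hv'W
  by_cases hy : y ∈ W ⊔ Submodule.span F {v'}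
  · obtain ⟨w, hw, z, hz, rfl⟩ := Submodule.mem_sup.1 hy
    obtain ⟨c, rfl⟩ := Submodule.mem_span_singleton.1 hz
    have hc : c ≠ 0 := by
      rintro rfl
      apply hyW
      simpa using hw
    have h0 : (c⁻¹ • f₀) w = 0 := by rw [LinearMap.smul_apply, hf₀W w hw, smul_zero]
    have h1 := (hv'.smul c).conj _ (hgood w hw _ h0)
    rw [tvGL_mulVec, LinearMap.smul_apply, map_smul, hf₀, smul_eq_mul, smul_eq_mul, mul_one,
      inv_mul_cancel₀ hc, one_smul, add_comm] at h1
    exact h1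
  · obtain ⟨f₂, hf₂, hf₂W⟩ := exists_dual_one _ y hy
    set φ := f₀ + (1 - f₀ y) • f₂ with hφ
    have e1 : φ v' = 1 := by
      rw [hφ, LinearMap.add_apply, LinearMap.smul_apply, hf₀,
        hf₂W v' (Submodule.mem_sup_right (Submodule.mem_span_singleton_self _))]
      simp
    have e2 : φ y = 1 := by
      rw [hφ, LinearMap.add_apply, LinearMap.smul_apply, hf₂]
      simp
    have e3 : ∀ w ∈ W, φ w = 0 := by
      intro w hw
      rw [hφ, LinearMap.add_apply, LinearMap.smul_apply, hf₀W w hw, hf₂W w (Submodule.mem_sup_left hw)]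
      simp
    have h0 : φ (y - v') = 0 := by rw [map_sub, e1, e2, sub_self]
    have h1 := hv'.conj _ (hfix φ _ h0 e3)
    rw [tvGL_mulVec, e1, one_smul, add_sub_cancel] at h1
    exact h1

theorem SL_stab_lt (W : Submodule F (ι → F)) (hW0 : W ≠ ⊥) (hW1 : W ≠ ⊤) :
    ∃ g ∈ Geo.specialLinear ι F, g ∉ Geo.subspaceStabilizer W := by
  obtain ⟨w, hw, hw0⟩ := Submodule.exists_mem_ne_zero_of_ne_bot hW0
  obtain ⟨y, hy⟩ : ∃ y, y ∉ W := by
    by_contra hc
    push Not at hc
    exact hW1 (eq_top_iff.2 (fun x _ => hc x))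
  have hwy : w ∉ Submodule.span F {y} := by
    intro hc
    obtain ⟨c, rfl⟩ := Submodule.mem_span_singleton.1 hc
    have hc0 : c ≠ 0 := by
      rintro rfl
      simp at hw0
    exact hy ((W.smul_mem_iff hc0).1 hw)
  obtain ⟨f, hf, hfy⟩ := exists_dual_one _ w hwy
  have h0 : f y = 0 := hfy y (Submodule.mem_span_singleton_self _)
  refine ⟨tvGL f y h0, tvGL_mem_SL _ _ _, fun hc => ?_⟩
  have h1 := ((mem_stab_iff' W _).1 hc w).1 hw
  rw [tvGL_mulVec, hf, one_smul] at h1
  exact hy ((W.add_mem_iff_right hw).1 h1)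

theorem SL_stab_isMaximalIn [Nontrivial ι] (W : Submodule F (ι → F)) (hW0 : W ≠ ⊥) (hW1 : W ≠ ⊤) :
    Geo.IsMaximalIn (Geo.specialLinear ι F) (Geo.subspaceStabilizer W ⊓ Geo.specialLinear ι F) := by
  constructor
  · apply lt_of_le_of_ne inf_le_right
    intro he
    obtain ⟨g, hg, hgW⟩ := SL_stab_lt W hW0 hW1
    rw [← he] at hg
    exact hgW hg.1
  · intro M hM1 hM2
    by_cases hall : M ≤ Geo.subspaceStabilizer W
    · left
      exact le_antisymm (le_inf hall hM2) hM1
    · right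
      exact le_antisymm hM2 (SL_stab_max W M hM1 hall)

end Cfsg.Agent.Lib.Helper15
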