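import Mathlib
import Cfsg.Prelude.Def_GeometricClasses
import Cfsg.Agent.Lib.Helper14.SUComm
import Cfsg.Agent.Lib.Helper15.ParMax2

set_option autoImplicit false

namespace Cfsg.Agent.Lib.Helper15

open Module Matrix Cfsg Cfsg.Agent.Lib.Helper14

variable {F : Type*} [Field F] [Fintype F] {q n : ℕ}

theorem hf_neg_right (hF : Fintype.card F = q ^ 2) (u v : Fin n → F) :
    hermForm n F q u (-v) = - hermForm n F q u v := by
  have : -v = (-1 : F) • v := by simp
  rw [this, hermForm_smul_right, neg_pow_q hF, one_pow]; ring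

theorem hf_sub_right (hF : Fintype.card F = q ^ 2) (u v v' : Fin n → F) :
    hermForm n F q u (v - v') = hermForm n F q u v - hermForm n F q u v' := by
  rw [sub_eq_add_neg, hermForm_add_right hF, hf_neg_right hF]; ring

theorem exists_norm_eq (hF : Fintype.card F = q ^ 2) (μ : F) (hμ : μ ^ q = μ) : ∃ x : F, x ^ (q + 1) = μ := by
  classical
  have h := card_norm_eq hF μ hμ
  have h1 : 0 < Nat.card {x : F // x ^ (q + 1) = μ} := by
    rw [h]; split_ifs <;> omega
  obtain ⟨x⟩ := (Nat.card_pos_iff.1 h1).1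
  exact ⟨x.1, x.2⟩

/-- a non-zero element of trace zero -/
theorem exists_skew (hF : Fintype.card F = q ^ 2) : ∃ z : F, z ≠ 0 ∧ z + z ^ q = 0 := by
  obtain ⟨l, h1, h2⟩ := exists_norm_one_sq_ne_one hF
  refine ⟨l - l ^ q, ?_, ?_⟩
  · intro h
    apply h2
    have : l = l ^ q := sub_eq_zero.1 h
    rw [pow_succ] at h1
    rw [pow_two]
    nth_rewrite 1 [this]
    exact h1
  · rw [sub_pow_q hF, pow_q_q hF]; ring

omit [Fintype F] in
theorem mem_GU_iff (g : GL (Fin n) F) : g ∈ GU n F q ↔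
    ∀ u v, hermForm n F q ((g : Matrix (Fin n) (Fin n) F) *ᵥ u) ((g : Matrix (Fin n) (Fin n) F) *ᵥ v) =
      hermForm n F q u v := Iff.rfl

omit [Fintype F] in
theorem GU_inv_left (g : GL (Fin n) F) (hg : g ∈ GU n F q) (x y : Fin n → F) :
    hermForm n F q (((g⁻¹ : GL (Fin n) F) : Matrix (Fin n) (Fin n) F) *ᵥ x) y =
      hermForm n F q x ((g : Matrix (Fin n) (Fin n) F) *ᵥ y) := by
  rw [← (mem_GU_iff g).1 hg, gl_mulVec_inv]

theorem simple_preserves (hF : Fintype.card F = q ^ 2) (e : F) (d : Fin n → F)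
    (h : e + e ^ q + e * e ^ q * hermForm n F q d d = 0) (x y : Fin n → F) :
    hermForm n F q (r1 q e d d *ᵥ x) (r1 q e d d *ᵥ y) = hermForm n F q x y := by
  rw [r1_mulVec, r1_mulVec]
  simp only [hermForm_add_left, hermForm_add_right hF, hermForm_smul_left, hermForm_smul_right, mul_pow]
  rw [hermForm_swap hF y d]
  linear_combination (hermForm n F q x d * hermForm n F q d y) * h

/-- simple isometries (transvections and quasi-reflections) -/
def IsSimpleU (q : ℕ) (k : GL (Fin n) F) : Prop :=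
  ∃ (d : Fin n → F) (e : F), e + e ^ q + e * e ^ q * hermForm n F q d d = 0 ∧
    ∀ x, (k : Matrix (Fin n) (Fin n) F) *ᵥ x = x + (e * hermForm n F q x d) • d

/-- unitary transvections -/
def IsTvU (q : ℕ) (k : GL (Fin n) F) : Prop :=
  ∃ (a : Fin n → F) (c : F), hermForm n F q a a = 0 ∧ c + c ^ q = 0 ∧
    ∀ x, (k : Matrix (Fin n) (Fin n) F) *ᵥ x = x + (c * hermForm n F q x a) • a

/-- the group generated by the unitary transvections -/
def tvSubU (n : ℕ) (F : Type*) [Field F] [Fintype F] (q : ℕ) : Subgroup (GL (Fin n) F) :=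
  Subgroup.closure {k | IsTvU q k}

theorem exists_simple (hF : Fintype.card F = q ^ 2) (e : F) (d : Fin n → F)
    (h : e + e ^ q + e * e ^ q * hermForm n F q d d = 0) :
    ∃ k : GL (Fin n) F, k ∈ GU n F q ∧ ∀ x, (k : Matrix (Fin n) (Fin n) F) *ᵥ x = x + (e * hermForm n F q x d) • d :=
  ⟨(guMk hF (r1 q e d d) (simple_preserves hF e d h)).1, (guMk hF (r1 q e d d) (simple_preserves hF e d h)).2,
    fun x => r1_mulVec e d d x⟩

theorem exists_tv (hF : Fintype.card F = q ^ 2) (a : Fin n → F) (c : F) (ha : hermForm n F q a a = 0)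
    (hc : c + c ^ q = 0) :
    ∃ k : GL (Fin n) F, k ∈ GU n F q ∧ ∀ x, (k : Matrix (Fin n) (Fin n) F) *ᵥ x = x + (c * hermForm n F q x a) • a :=
  exists_simple hF c a (by rw [ha, mul_zero, add_zero]; exact hc)

theorem IsSimpleU.mem_GU (hF : Fintype.card F = q ^ 2) {k : GL (Fin n) F} (h : IsSimpleU q k) : k ∈ GU n F q := by
  obtain ⟨d, e, h1, h2⟩ := h
  obtain ⟨k', hk', h3⟩ := exists_simple hF e d h1
  have : k = k' := gl_ext_mulVec (fun x => by rw [h2, h3])
  rw [this]; exact hk'

omit [Fintype F] in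
theorem IsTvU.isSimple {k : GL (Fin n) F} (h : IsTvU q k) : IsSimpleU q k := by
  obtain ⟨a, c, h1, h2, h3⟩ := h
  exact ⟨a, c, by rw [h1, mul_zero, add_zero]; exact h2, h3⟩

omit [Fintype F] in
theorem IsTvU.det {k : GL (Fin n) F} (h : IsTvU q k) : (k : Matrix (Fin n) (Fin n) F).det = 1 := by
  obtain ⟨a, c, h1, h2, h3⟩ := h
  have : (k : Matrix (Fin n) (Fin n) F) = r1 q c a a := by
    apply Matrix.toLin'.injective
    apply LinearMap.ext
    intro x
    rw [Matrix.toLin'_apply, Matrix.toLin'_apply, h3, r1_mulVec]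
  rw [this, r1_det, h1]; ring

theorem tvSubU_le_GU (hF : Fintype.card F = q ^ 2) : tvSubU n F q ≤ GU n F q := by
  unfold tvSubU
  rw [Subgroup.closure_le]
  exact fun k hk => (IsTvU.isSimple hk).mem_GU hF

theorem mem_specialLinear_iff' (g : GL (Fin n) F) :
    g ∈ Geo.specialLinear (Fin n) F ↔ (g : Matrix (Fin n) (Fin n) F).det = 1 := by
  unfold Geo.specialLinear
  rw [MonoidHom.mem_ker, Units.ext_iff]
  rfl

theorem tvSubU_le_SL : tvSubU n F q ≤ Geo.specialLinear (Fin n) F := by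
  unfold tvSubU
  rw [Subgroup.closure_le]
  exact fun k hk => (mem_specialLinear_iff' k).2 (IsTvU.det hk)

theorem tvSubU_conj (g : GL (Fin n) F) (hg : g ∈ GU n F q) (t : GL (Fin n) F) (ht : t ∈ tvSubU n F q) :
    g * t * g⁻¹ ∈ tvSubU n F q := by
  unfold tvSubU at ht ⊢
  induction ht using Subgroup.closure_induction with
  | mem k hk =>
    apply Subgroup.subset_closure
    obtain ⟨a, c, h1, h2, h3⟩ := hk
    refine ⟨(g : Matrix (Fin n) (Fin n) F) *ᵥ a, c, by rw [(mem_GU_iff g).1 hg]; exact h1, h2, fun x => ?_⟩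
    rw [Units.val_mul, Units.val_mul, ← Matrix.mulVec_mulVec, ← Matrix.mulVec_mulVec, h3, Matrix.mulVec_add,
      Matrix.mulVec_smul, gl_mulVec_inv, GU_inv_left g hg]
  | one => simp
  | mul x y _ _ hx hy =>
    have : g * (x * y) * g⁻¹ = (g * x * g⁻¹) * (g * y * g⁻¹) := by group
    rw [this]; exact Subgroup.mul_mem _ hx hy
  | inv x _ hx =>
    have : g * x⁻¹ * g⁻¹ = (g * x * g⁻¹)⁻¹ := by group
    rw [this]; exact Subgroup.inv_mem _ hx

/-- the basic computation for moving a vector with one simple isometry -/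
theorem one_step (hF : Fintype.card F = q ^ 2) (v v' : Fin n → F)
    (hvv : hermForm n F q v v = hermForm n F q v' v') (hw : hermForm n F q v (v - v') ≠ 0) :
    ∃ e : F, e + e ^ q + e * e ^ q * hermForm n F q (v - v') (v - v') = 0 ∧
      e * hermForm n F q v (v - v') = -1 ∧
      hermForm n F q (v - v') (v - v') = hermForm n F q v (v - v') + hermForm n F q v (v - v') ^ q := by
  set w := hermForm n F q v (v - v') with hwdef
  have hdd : hermForm n F q (v - v') (v - v') = w + w ^ q := by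
    rw [hwdef, hermForm_swap hF, hermForm_sub_left, hermForm_sub_left, hf_sub_right hF, hf_sub_right hF, hvv]
    ring
  have hwq : w ^ q ≠ 0 := pow_ne_zero _ hw
  refine ⟨-w⁻¹, ?_, ?_, hdd⟩
  · rw [hdd, neg_pow_q hF, inv_pow]
    field_simp
    ring
  · field_simp

theorem exists_one_step (hF : Fintype.card F = q ^ 2) (v v' : Fin n → F)
    (hvv : hermForm n F q v v = hermForm n F q v' v') (hw : hermForm n F q v (v - v') ≠ 0) :
    ∃ k : GL (Fin n) F, IsSimpleU q k ∧ (k : Matrix (Fin n) (Fin n) F) *ᵥ v = v' ∧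
      ∀ x, hermForm n F q x v = 0 → hermForm n F q x v' = 0 → (k : Matrix (Fin n) (Fin n) F) *ᵥ x = x := by
  obtain ⟨e, h1, h2, -⟩ := one_step hF v v' hvv hw
  obtain ⟨k, -, hk⟩ := exists_simple hF e _ h1
  refine ⟨k, ⟨_, e, h1, hk⟩, ?_, fun x hx hx' => ?_⟩
  · rw [hk, h2]; simp
  · rw [hk, hf_sub_right hF, hx, hx']; simp

theorem exists_one_step_tv (hF : Fintype.card F = q ^ 2) (v v' : Fin n → F)
    (hvv : hermForm n F q v v = hermForm n F q v' v') (hw : hermForm n F q v (v - v') ≠ 0)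
    (hw' : hermForm n F q v (v - v') + hermForm n F q v (v - v') ^ q = 0) :
    ∃ k : GL (Fin n) F, IsTvU q k ∧ (k : Matrix (Fin n) (Fin n) F) *ᵥ v = v' := by
  obtain ⟨e, h1, h2, h3⟩ := one_step hF v v' hvv hw
  obtain ⟨k, -, hk⟩ := exists_simple hF e _ h1
  rw [hw'] at h3
  refine ⟨k, ⟨_, e, h3, by rw [h3, mul_zero, add_zero] at h1; exact h1, hk⟩, ?_⟩
  rw [hk, h2]; simp

/-- moving a vector of norm one to another one by simple isometries -/
theorem exists_simple_map (hF : Fintype.card F = q ^ 2) (v v' : Fin n → F)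
    (hv : hermForm n F q v v = 1) (hv' : hermForm n F q v' v' = 1) :
    ∃ s ∈ Subgroup.closure {k : GL (Fin n) F | IsSimpleU q k}, (s : Matrix (Fin n) (Fin n) F) *ᵥ v = v' ∧
      ∀ x, hermForm n F q x v = 0 → hermForm n F q x v' = 0 → (s : Matrix (Fin n) (Fin n) F) *ᵥ x = x := by
  by_cases hw : hermForm n F q v (v - v') = 0
  · obtain ⟨l, hl1, hl2⟩ := exists_norm_one_sq_ne_one hF
    have hl : l ≠ 1 := fun h => hl2 (by rw [h]; ring)
    have hvv' : hermForm n F q v v' = 1 := by
      rw [hf_sub_right hF, hv] at hw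
      linear_combination -hw
    obtain ⟨k₁, -, hk₁⟩ := exists_simple hF (l - 1) v (by
      rw [hv, sub_pow_q hF, one_pow]
      rw [pow_succ] at hl1
      linear_combination hl1)
    obtain ⟨k₂, hk₂, hk₂v, hk₂x⟩ := exists_one_step hF (l • v) v' (by
        rw [hermForm_smul_left, hermForm_smul_right, hv, hv']
        rw [pow_succ] at hl1
        linear_combination hl1) (by
      rw [hf_sub_right hF, hermForm_smul_left, hermForm_smul_left, hermForm_smul_right, hv, hvv']
      rw [pow_succ] at hl1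
      intro h
      apply hl
      linear_combination hl1 - h)
    refine ⟨k₂ * k₁, Subgroup.mul_mem _ (Subgroup.subset_closure hk₂) (Subgroup.subset_closure ⟨v, l - 1, by
      rw [hv, sub_pow_q hF, one_pow]
      rw [pow_succ] at hl1
      linear_combination hl1, hk₁⟩), ?_, fun x hx hx' => ?_⟩
    · rw [Units.val_mul, ← Matrix.mulVec_mulVec, hk₁, hv]
      have : v + ((l - 1) * 1) • v = l • v := by
        rw [mul_one, sub_smul, one_smul]; abel
      rw [this, hk₂v]
    · rw [Units.val_mul, ← Matrix.mulVec_mulVec, hk₁, hx, mul_zero, zero_smul, add_zero]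
      exact hk₂x x (by rw [hermForm_smul_right, hx, mul_zero]) hx'
  · obtain ⟨k, hk, hkv, hkx⟩ := exists_one_step hF v v' (by rw [hv, hv']) hw
    exact ⟨k, Subgroup.subset_closure hk, hkv, hkx⟩

end Cfsg.Agent.Lib.Helper15
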