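import Mathlib
import Cfsg.Agent.Lib.Helper15.Central
import Cfsg.Agent.Lib.Helper15.Parity

set_option autoImplicit false

namespace Cfsg.Agent.Lib.Helper15

open Module QuadraticMap

variable {F V : Type*} [Field F] [AddCommGroup V] [Module F V]

theorem eich_zero (Q : QuadraticForm F V) (y : V) : eichL Q y 0 = 1 := by
  ext x
  rw [eichL_apply]
  simp

theorem eich_zero_left (Q : QuadraticForm F V) (z : V) : eichL Q 0 z = 1 := by
  ext x
  rw [eichL_apply]
  simp

theorem eich_mul_neg (Q : QuadraticForm F V) (y z : V) (hy : Q y = 0) (hyz : polar Q y z = 0) :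
    eichL Q y z * eichL Q y (-z) = 1 := by
  rw [← eich_add Q y z (-z) hy hyz (by rw [polar_neg_right, hyz, neg_zero]), add_neg_cancel, eich_zero]

theorem eich_neg_mul (Q : QuadraticForm F V) (y z : V) (hy : Q y = 0) (hyz : polar Q y z = 0) :
    eichL Q y (-z) * eichL Q y z = 1 := by
  rw [← eich_add Q y (-z) z hy (by rw [polar_neg_right, hyz, neg_zero]) hyz, neg_add_cancel, eich_zero]

theorem eich_smul_left (Q : QuadraticForm F V) (y z : V) (c : F) : eichL Q (c • y) z = eichL Q y (c • z) := by
  ext x
  rw [eichL_apply, eichL_apply]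
  simp only [polar_smul_left, QuadraticMap.map_smul, smul_eq_mul]
  match_scalars <;> ring

theorem eich_conj (Q : QuadraticForm F V) (g g' : Module.End F V) (hg : IsIso Q g) (h1 : g * g' = 1)
    (y z : V) : g * eichL Q y z * g' = eichL Q (g y) (g z) := by
  have hx : ∀ x, g (g' x) = x := fun x => by
    have := congrArg (fun T : Module.End F V => T x) h1
    simpa using this
  ext x
  simp only [Module.End.mul_apply]
  rw [eichL_apply, eichL_apply, map_add, map_add, map_smul, map_smul, hx, hg z]
  have e1 : polar Q (g z) x = polar Q z (g' x) := by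
    conv_lhs => rw [← hx x]
    exact hg.polar z (g' x)
  have e2 : polar Q (g y) x = polar Q y (g' x) := by
    conv_lhs => rw [← hx x]
    exact hg.polar y (g' x)
  rw [e1, e2]

theorem eich_fix_self (Q : QuadraticForm F V) (y z : V) (hy : Q y = 0) (hyz : polar Q y z = 0) :
    eichL Q y z y = y := by
  rw [eichL_apply, polar_self, hy, polar_comm Q z y, hyz]
  simp

/-- the link formula: `T(y)` is transitive on the singular vectors with prescribed product with `y` -/
theorem eich_link (Q : QuadraticForm F V) (y x x' : V) (hx : Q x = 0) (hx' : Q x' = 0) (p : F) (hp : p ≠ 0)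
    (h1 : polar Q y x = p) (h2 : polar Q y x' = p) :
    polar Q y ((-p⁻¹) • (x' - x)) = 0 ∧ eichL Q y ((-p⁻¹) • (x' - x)) x = x' := by
  constructor
  · rw [polar_smul_right, polar_sub_right, h1, h2]; simp
  · rw [eichL_apply, h1, QuadraticMap.map_smul, polar_smul_left, polar_sub_left, polar_self, hx]
    have hq : Q (x' - x) = - polar Q x' x := by
      have := Q_add_one Q x' x (-1)
      rw [neg_one_smul, ← sub_eq_add_neg] at this
      rw [this, hx, hx']; ring
    rw [hq]
    simp only [smul_eq_mul, nsmul_zero, sub_zero]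
    have e1 : -p⁻¹ * polar Q x' x - -p⁻¹ * -p⁻¹ * -polar Q x' x * p = 0 := by
      field_simp; ring
    rw [e1, zero_smul, add_zero, smul_smul]
    have e2 : -p * -p⁻¹ = 1 := by field_simp
    rw [e2, one_smul]; abel

/-- in a subspace containing a hyperbolic pair every vector is a sum of three singular vectors -/
theorem sum_three_singular (Q : QuadraticForm F V) (U : Submodule F V) (e f : V) (h : HPair Q e f)
    (he : e ∈ U) (hf : f ∈ U) (x : V) (hx : x ∈ U) :
    ∃ d₁ d₂ d₃ : V, d₁ ∈ U ∧ d₂ ∈ U ∧ d₃ ∈ U ∧ Q d₁ = 0 ∧ Q d₂ = 0 ∧ Q d₃ = 0 ∧ x = d₁ + d₂ + d₃ := by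
  set w := x - polar Q f x • e - polar Q e x • f with hw
  have hwU : w ∈ U := U.sub_mem (U.sub_mem hx (U.smul_mem _ he)) (U.smul_mem _ hf)
  have hwe : polar Q e w = 0 := by
    simp only [hw, polar_sub_right, polar_smul_right, h.ee, h.ef, smul_eq_mul]; ring
  have hwf : polar Q f w = 0 := by
    simp only [hw, polar_sub_right, polar_smul_right, h.ff, h.fe, smul_eq_mul]; ring
  refine ⟨w + e + (-Q w) • f, (polar Q f x - 1) • e, (polar Q e x + Q w) • f,
    U.add_mem (U.add_mem hwU he) (U.smul_mem _ hf), U.smul_mem _ he, U.smul_mem _ hf, ?_, ?_, ?_, ?_⟩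
  · have := Q_add_two Q w e f 1 (-Q w)
    rw [one_smul] at this
    rw [this, h.Qe, h.Qf, h.ef, polar_comm Q w e, polar_comm Q w f, hwe, hwf]; ring
  · rw [QuadraticMap.map_smul, h.Qe, smul_zero]
  · rw [QuadraticMap.map_smul, h.Qf, smul_zero]
  · rw [hw]; module

theorem finrank_le_inf_ker [FiniteDimensional F V] (K : Submodule F V) (φ : V →ₗ[F] F) :
    finrank F K ≤ finrank F ↥(K ⊓ LinearMap.ker φ) + 1 := by
  by_cases h : K ≤ LinearMap.ker φ
  · rw [inf_eq_left.2 h]; omega
  · rw [finrank_inf_ker K φ h]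

theorem exists_mem_notMem_of_finrank_lt [FiniteDimensional F V] (S K : Submodule F V)
    (h : finrank F S < finrank F K) : ∃ e ∈ K, e ∉ S := by
  by_contra hcon
  push Not at hcon
  have : K ≤ S := hcon
  have := Submodule.finrank_mono this
  omega

/-- singular vectors in a big subspace avoiding a small one -/
theorem exists_sing_avoid [Finite F] [FiniteDimensional F V] (Q : QuadraticForm F V) (S K : Submodule F V)
    (h : finrank F S + 3 ≤ finrank F K) : ∃ e ∈ K, e ∉ S ∧ Q e = 0 := by
  obtain ⟨S', hS'⟩ := Submodule.exists_isCompl S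
  have h1 := Submodule.finrank_sup_add_finrank_inf_eq K S'
  have h3 := Submodule.finrank_add_eq_of_isCompl hS'
  have h4 : finrank F ↥(K ⊔ S') ≤ finrank F V := Submodule.finrank_le _
  have h5 : 3 ≤ finrank F ↥(K ⊓ S') := by omega
  obtain ⟨e, he0, hQe⟩ := exists_isotropic (Q.comp (K ⊓ S').subtype) h5
  refine ⟨e, e.2.1, ?_, hQe⟩
  intro heS
  apply he0
  have : (e : V) ∈ S ⊓ S' := ⟨heS, e.2.2⟩
  rw [hS'.inf_eq_bot, Submodule.mem_bot] at this
  exact Subtype.ext this

theorem finrank_span_pair_le (a b : V) : finrank F (Submodule.span F {a, b}) ≤ 2 := by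
  classical
  have := finrank_span_finset_le_card (R := F) ({a, b} : Finset V)
  have h2 : ({a, b} : Finset V).card ≤ 2 := Finset.card_le_two
  unfold Set.finrank at this
  rw [Finset.coe_insert, Finset.coe_singleton] at this
  omega

theorem finrank_span_singleton_le (a : V) : finrank F (Submodule.span F {a}) ≤ 1 := by
  classical
  have := finrank_span_finset_le_card (R := F) ({a} : Finset V)
  unfold Set.finrank at this
  rw [Finset.coe_singleton, Finset.card_singleton] at this
  exact this

/-- a hyperbolic pair orthogonal to a given vector -/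
theorem exists_hpair_orth [Finite F] [FiniteDimensional F V] (Q : QuadraticForm F V)
    (hQ : (polarBilin Q).Nondegenerate) (hn : 5 ≤ finrank F V) (a : V) :
    ∃ e f, HPair Q e f ∧ polar Q a e = 0 ∧ polar Q a f = 0 := by
  have h1 := finrank_le_inf_ker (⊤ : Submodule F V) (polarBilin Q a)
  rw [finrank_top] at h1
  have h3 := finrank_span_singleton_le (F := F) a
  obtain ⟨e, heK, heS, hQe⟩ := exists_sing_avoid Q (Submodule.span F {a}) (⊤ ⊓ LinearMap.ker (polarBilin Q a))
    (by omega)
  have hae : polar Q a e = 0 := heK.2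
  obtain ⟨z, hz, hez⟩ := exists_orth_sep Q hQ (Submodule.span F {a}) e heS
  have haz : polar Q a z = 0 := hz a (Submodule.mem_span_singleton_self a)
  refine ⟨e, z + (-Q z) • e, ⟨hQe, ?_, ?_⟩, hae, ?_⟩
  · rw [Q_add_one, hQe, polar_comm Q z e, hez]; ring
  · rw [polar_add_right, polar_smul_right, polar_self, hQe, hez]; simp
  · rw [polar_add_right, polar_smul_right, haz, hae]; simp

end Cfsg.Agent.Lib.Helper15
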