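import Mathlib
import Cfsg.Agent.Lib.Helper15.SUGen1
import Cfsg.Agent.Lib.Helper15.Simp1

set_option autoImplicit false

namespace Cfsg.Agent.Lib.Helper15

open Module Matrix Cfsg Cfsg.Agent.Lib.Helper14

variable {F : Type*} [Field F] [Fintype F] {q n : ℕ}

theorem hf_single_single (hF : Fintype.card F = q ^ 2) (i j : Fin n) :
    hermForm n F q (Pi.single i 1) (Pi.single j 1) = if i = j then 1 else 0 := by
  rw [hermForm_single_right (q_ne_zero hF), Pi.single_apply]
  simp [eq_comm]

/-- the unitary group is generated by simple isometries -/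
theorem GU_le_simple (hF : Fintype.card F = q ^ 2) :
    GU n F q ≤ Subgroup.closure {k : GL (Fin n) F | IsSimpleU q k} := by
  have key : ∀ m : ℕ, ∀ g ∈ GU n F q, (∀ i : Fin n, i.val + m < n →
      (g : Matrix (Fin n) (Fin n) F) *ᵥ (Pi.single i 1) = Pi.single i 1) →
      g ∈ Subgroup.closure {k : GL (Fin n) F | IsSimpleU q k} := by
    intro m
    induction m with
    | zero =>
      intro g _ h
      have : g = 1 := by
        apply Units.ext
        ext a b
        have := congrFun (h b (by simp)) a
        rw [Matrix.mulVec_single_one] at this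
        simpa [Matrix.one_apply, Pi.single_apply] using this
      rw [this]; exact Subgroup.one_mem _
    | succ m ih =>
      intro g hg h
      by_cases hm : m < n
      · set k : Fin n := ⟨n - m - 1, by omega⟩ with hk
        have hgu := (mem_GU_iff g).1 hg
        obtain ⟨s, hs, hsv, hsx⟩ := exists_simple_map hF ((g : Matrix (Fin n) (Fin n) F) *ᵥ (Pi.single k 1))
          (Pi.single k 1) (by rw [hgu, hf_single_single hF]; simp) (by rw [hf_single_single hF]; simp)
        have hsGU : s ∈ GU n F q := by
          have : Subgroup.closure {k : GL (Fin n) F | IsSimpleU q k} ≤ GU n F q := by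
            rw [Subgroup.closure_le]
            exact fun k hk => IsSimpleU.mem_GU hF hk
          exact this hs
        have h1 : s * g ∈ Subgroup.closure {k : GL (Fin n) F | IsSimpleU q k} := by
          apply ih _ ((GU n F q).mul_mem hsGU hg)
          intro i hi
          rw [Units.val_mul, ← Matrix.mulVec_mulVec]
          by_cases hik : i = k
          · rw [hik, hsv]
          · have hik' : i.val ≠ n - m - 1 := fun h => hik (Fin.ext h)
            have hlt : i.val + (m + 1) < n := by omega
            rw [h i hlt]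
            apply hsx
            · rw [← h i hlt, hgu, hf_single_single hF, if_neg hik]
            · rw [hf_single_single hF, if_neg hik]
        have : g = s⁻¹ * (s * g) := by group
        rw [this]
        exact Subgroup.mul_mem _ (Subgroup.inv_mem _ hs) h1
      · exact ih g hg (fun i hi => absurd hi (by omega))
  intro g hg
  exact key n g hg (fun i hi => absurd hi (by omega))

/-- a subspace all of whose vectors are isotropic is totally isotropic -/
theorem hf_polarize (hF : Fintype.card F = q ^ 2) (K : Submodule F (Fin n → F))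
    (h : ∀ y ∈ K, hermForm n F q y y = 0) : ∀ x ∈ K, ∀ y ∈ K, hermForm n F q x y = 0 := by
  intro x hx y hy
  by_contra hb
  obtain ⟨t, ht⟩ := exists_trace_eq hF _ hb 1 (one_pow q)
  have h1 := h (x + t • y) (K.add_mem hx (K.smul_mem _ hy))
  rw [hermForm_add_left, hermForm_add_right hF, hermForm_add_right hF, h x hx, hermForm_smul_left,
    hermForm_smul_left, hermForm_smul_right, hermForm_smul_right, h y hy, ← hermForm_swap hF x y] at h1
  apply one_ne_zero (α := F)
  rw [← ht]
  linear_combination h1

theorem finrank_ker_hermL (hF : Fintype.card F = q ^ 2) {k : ℕ} (x : Fin k → Fin n → F)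
    (hx : LinearIndependent F x) : finrank F (LinearMap.ker (hermL q x)) + k = n := by
  have h1 := LinearMap.finrank_range_add_finrank_ker (hermL q x)
  rw [LinearMap.range_eq_top.2 (hermL_surjective hF x hx), finrank_top] at h1
  simp only [finrank_fintype_fun_eq_card, Fintype.card_fin] at h1
  omega

/-- totally isotropic subspaces have dimension at most `n / 2` -/
theorem finrank_le_of_isotropic (hF : Fintype.card F = q ^ 2) (K : Submodule F (Fin n → F))
    (h : ∀ x ∈ K, ∀ y ∈ K, hermForm n F q x y = 0) : 2 * finrank F K ≤ n := by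
  set b := Module.finBasis F K
  set x : Fin (finrank F K) → Fin n → F := fun i => (b i : Fin n → F) with hx
  have hli : LinearIndependent F x := by
    have := b.linearIndependent.map' K.subtype (Submodule.ker_subtype K)
    exact this
  have h1 := finrank_ker_hermL hF x hli
  have h2 : K ≤ LinearMap.ker (hermL q x) := by
    intro y hy
    rw [LinearMap.mem_ker]
    ext i
    exact h y hy _ (b i).2
  have h3 := Submodule.finrank_mono h2
  omega

theorem exists_norm_in (hF : Fintype.card F = q ^ 2) (K : Submodule F (Fin n → F)) (hK : n < 2 * finrank F K)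
    (c : F) (hc : c ^ q = c) : ∃ y ∈ K, hermForm n F q y y = c := by
  obtain ⟨y, hy, hyy⟩ : ∃ y ∈ K, hermForm n F q y y ≠ 0 := by
    by_contra hcon
    push Not at hcon
    have := finrank_le_of_isotropic hF K (hf_polarize hF K hcon)
    omega
  obtain ⟨l, hl⟩ := exists_norm_eq hF (c / hermForm n F q y y) (by rw [div_pow, hc, hermForm_self_pow hF])
  refine ⟨l • y, K.smul_mem _ hy, ?_⟩
  rw [hermForm_smul_left, hermForm_smul_right]
  rw [pow_succ] at hl
  field_simp at hl
  linear_combination hl

/-- vectors with prescribed norm and prescribed products with an independent family -/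
theorem exists_prescribed (hF : Fintype.card F = q ^ 2) {r : ℕ} (z : Fin r → Fin n → F)
    (hz : LinearIndependent F z) (γ : Fin r → F) (c : F) (hc : c ^ q = c) (hn : 2 * r + 2 < n) :
    ∃ x, (∀ i, hermForm n F q x (z i) = γ i) ∧ hermForm n F q x x = c := by
  obtain ⟨x₀, hx₀⟩ := hermL_surjective hF z hz γ
  have h1 := finrank_ker_hermL hF z hz
  have h2 := finrank_le_inf_ker (LinearMap.ker (hermL q z)) (hermLin q x₀)
  obtain ⟨y, hy, hyy⟩ := exists_norm_in hF (LinearMap.ker (hermL q z) ⊓ LinearMap.ker (hermLin q x₀)) (by omega)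
    (c - hermForm n F q x₀ x₀) (by rw [sub_pow_q hF, hc, hermForm_self_pow hF])
  have hy1 : ∀ i, hermForm n F q y (z i) = 0 := fun i => congrFun (LinearMap.mem_ker.1 hy.1) i
  have hy2 : hermForm n F q y x₀ = 0 := LinearMap.mem_ker.1 hy.2
  refine ⟨x₀ + y, fun i => ?_, ?_⟩
  · rw [hermForm_add_left, hy1, add_zero]
    exact congrFun hx₀ i
  · rw [hermForm_add_left, hermForm_add_right hF, hermForm_add_right hF, hy2,
      hermForm_eq_zero_symm hF _ _ hy2, hyy]
    ring

theorem tv_map_of_perp (hF : Fintype.card F = q ^ 2) (hn : 7 ≤ n) (v v' : Fin n → F)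
    (hv : hermForm n F q v v = 1) (hv' : hermForm n F q v' v' = 1) (hvv' : hermForm n F q v v' = 0) :
    ∃ s ∈ tvSubU n F q, (s : Matrix (Fin n) (Fin n) F) *ᵥ v = v' := by
  obtain ⟨ζ, hζ0, hζ⟩ := exists_skew hF
  have hv'v := hermForm_eq_zero_symm hF _ _ hvv'
  have hli : LinearIndependent F ![v, v'] := by
    rw [LinearIndependent.pair_iff]
    intro a b hab
    have h1 := congrArg (fun z => hermForm n F q z v) hab
    have h2 := congrArg (fun z => hermForm n F q z v') hab
    simp only [hermForm_add_left, hermForm_smul_left, hv, hv', hvv', hv'v, hermForm_zero_left] at h1 h2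
    exact ⟨by simpa using h1, by simpa using h2⟩
  obtain ⟨x, hx, hxx⟩ := exists_prescribed hF ![v, v'] hli ![1 + ζ, 1 + ζ] 1 (one_pow q) (by omega)
  have hxv : hermForm n F q x v = 1 + ζ := hx 0
  have hxv' : hermForm n F q x v' = 1 + ζ := hx 1
  have hvx : hermForm n F q v x = 1 + ζ ^ q := by
    rw [← hermForm_swap hF, hxv, add_pow_q hF, one_pow]
  obtain ⟨k₁, hk₁, hk₁v⟩ := exists_one_step_tv hF v x (by rw [hv, hxx])
    (by rw [hf_sub_right hF, hv, hvx]; simpa using pow_ne_zero q hζ0)
    (by rw [hf_sub_right hF, hv, hvx, sub_pow_q hF, add_pow_q hF, pow_q_q hF, one_pow]; linear_combination -hζ)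
  obtain ⟨k₂, hk₂, hk₂v⟩ := exists_one_step_tv hF x v' (by rw [hv', hxx])
    (by rw [hf_sub_right hF, hxx, hxv']; simpa using hζ0)
    (by rw [hf_sub_right hF, hxx, hxv', sub_pow_q hF, add_pow_q hF, one_pow]; linear_combination -hζ)
  refine ⟨k₂ * k₁, Subgroup.mul_mem _ (Subgroup.subset_closure hk₂) (Subgroup.subset_closure hk₁), ?_⟩
  rw [Units.val_mul, ← Matrix.mulVec_mulVec, hk₁v, hk₂v]

/-- the transvection group is transitive on the vectors of norm one -/
theorem tv_transitive_norm_one (hF : Fintype.card F = q ^ 2) (hn : 7 ≤ n) (v v' : Fin n → F)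
    (hv : hermForm n F q v v = 1) (hv' : hermForm n F q v' v' = 1) :
    ∃ s ∈ tvSubU n F q, (s : Matrix (Fin n) (Fin n) F) *ᵥ v = v' := by
  have h1 := finrank_le_inf_ker (⊤ : Submodule F (Fin n → F)) (hermLin q v)
  have h2 := finrank_le_inf_ker (⊤ ⊓ LinearMap.ker (hermLin q v)) (hermLin q v')
  rw [finrank_top, finrank_fintype_fun_eq_card, Fintype.card_fin] at h1
  obtain ⟨y, hy, hyy⟩ := exists_norm_in hF ((⊤ ⊓ LinearMap.ker (hermLin q v)) ⊓ LinearMap.ker (hermLin q v'))
    (by omega) 1 (one_pow q)
  have hyv : hermForm n F q y v = 0 := LinearMap.mem_ker.1 hy.1.2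
  have hyv' : hermForm n F q y v' = 0 := LinearMap.mem_ker.1 hy.2
  obtain ⟨s₁, hs₁, hs₁v⟩ := tv_map_of_perp hF hn v y hv hyy (hermForm_eq_zero_symm hF _ _ hyv)
  obtain ⟨s₂, hs₂, hs₂v⟩ := tv_map_of_perp hF hn y v' hyy hv' hyv'
  refine ⟨s₂ * s₁, Subgroup.mul_mem _ hs₂ hs₁, ?_⟩
  rw [Units.val_mul, ← Matrix.mulVec_mulVec, hs₁v, hs₂v]

end Cfsg.Agent.Lib.Helper15
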