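import Mathlib
import Cfsg.Agent.Lib.Helper15.SUGen2

set_option autoImplicit false

namespace Cfsg.Agent.Lib.Helper15

open Module Matrix Cfsg Cfsg.Agent.Lib.Helper14

variable {F : Type*} [Field F] [Fintype F] {q n : ℕ}

/-- isometries fixing all the standard basis vectors but one -/
def InDU (q : ℕ) (i₀ : Fin n) (g : GL (Fin n) F) : Prop :=
  g ∈ GU n F q ∧ ∀ j, j ≠ i₀ → (g : Matrix (Fin n) (Fin n) F) *ᵥ (Pi.single j 1) = Pi.single j 1

omit [Fintype F] in
theorem InDU.mul {i₀ : Fin n} {g g' : GL (Fin n) F} (h : InDU q i₀ g) (h' : InDU q i₀ g') : InDU q i₀ (g * g') :=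
  ⟨(GU n F q).mul_mem h.1 h'.1, fun j hj => by
    rw [Units.val_mul, ← Matrix.mulVec_mulVec, h'.2 j hj, h.2 j hj]⟩

omit [Fintype F] in
theorem InDU.inv {i₀ : Fin n} {g : GL (Fin n) F} (h : InDU q i₀ g) : InDU q i₀ g⁻¹ :=
  ⟨(GU n F q).inv_mem h.1, fun j hj => by
    conv_lhs => rw [← h.2 j hj]
    rw [gl_inv_mulVec]⟩

theorem InDU.eq_one (hF : Fintype.card F = q ^ 2) {i₀ : Fin n} {g : GL (Fin n) F} (h : InDU q i₀ g)
    (hdet : (g : Matrix (Fin n) (Fin n) F).det = 1) : g = 1 := by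
  have hgu := (mem_GU_iff g).1 h.1
  have h1 : (g : Matrix (Fin n) (Fin n) F) =
      Matrix.diagonal (Function.update (fun _ => (1 : F)) i₀ ((g : Matrix (Fin n) (Fin n) F) i₀ i₀)) := by
    ext a b
    by_cases hb : b = i₀
    · subst hb
      by_cases ha : a = b
      · subst ha; simp
      · have h2 := hgu (Pi.single b 1) (Pi.single a 1)
        rw [h.2 a ha, hermForm_single_right (q_ne_zero hF), hf_single_single hF, if_neg (Ne.symm ha),
          Matrix.mulVec_single_one] at h2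
        rw [Matrix.diagonal_apply_ne _ ha]
        exact h2
    · have h2 := congrFun (h.2 b hb) a
      rw [Matrix.mulVec_single_one] at h2
      have h3 : (g : Matrix (Fin n) (Fin n) F) a b = (Pi.single b 1 : Fin n → F) a := h2
      rw [h3, Matrix.diagonal_apply, Pi.single_apply]
      by_cases hab : a = b
      · subst hab; simp [hb]
      · simp [hab]
  have h2 : (g : Matrix (Fin n) (Fin n) F) i₀ i₀ = 1 := by
    rw [h1, Matrix.det_diagonal, Finset.prod_update_of_mem (Finset.mem_univ _)] at hdet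
    simpa using hdet
  apply Units.ext
  rw [h1, h2]
  simp

/-- every isometry is the product of an element of a fixed one-parameter group and of transvections -/
theorem GU_decomp (hF : Fintype.card F = q ^ 2) (hn : 7 ≤ n) (i₀ : Fin n) (g : GL (Fin n) F) (hg : g ∈ GU n F q) :
    ∃ ρ t : GL (Fin n) F, InDU q i₀ ρ ∧ t ∈ tvSubU n F q ∧ g = ρ * t := by
  have hg' := GU_le_simple hF hg
  induction hg' using Subgroup.closure_induction with
  | mem k hk =>
    have hkGU := IsSimpleU.mem_GU hF hk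
    obtain ⟨d, e, h1, h2⟩ := hk
    by_cases hd : hermForm n F q d d = 0
    · refine ⟨1, k, ⟨(GU n F q).one_mem, fun j _ => by rw [Units.val_one, Matrix.one_mulVec]⟩, Subgroup.subset_closure ⟨d, e, hd, ?_, h2⟩, by simp⟩
      rw [hd, mul_zero, add_zero] at h1
      exact h1
    · obtain ⟨l, hl⟩ := exists_norm_eq hF (hermForm n F q d d)⁻¹ (by rw [inv_pow, hermForm_self_pow hF])
      obtain ⟨s, hs, hsv⟩ := tv_transitive_norm_one hF hn (Pi.single i₀ 1) (l • d)
        (by rw [hf_single_single hF]; simp) (by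
          rw [hermForm_smul_left, hermForm_smul_right]
          rw [pow_succ] at hl
          field_simp at hl
          linear_combination hl)
      have hsGU := tvSubU_le_GU hF hs
      have hρ : InDU q i₀ (s⁻¹ * k * s) := by
        refine ⟨(GU n F q).mul_mem ((GU n F q).mul_mem ((GU n F q).inv_mem hsGU) hkGU) hsGU, fun j hj => ?_⟩
        rw [Units.val_mul, Units.val_mul, ← Matrix.mulVec_mulVec, ← Matrix.mulVec_mulVec, h2]
        have h3 : hermForm n F q ((s : Matrix (Fin n) (Fin n) F) *ᵥ (Pi.single j 1)) (l • d) = 0 := by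
          rw [← hsv, (mem_GU_iff s).1 hsGU, hf_single_single hF, if_neg hj]
        rw [hermForm_smul_right] at h3
        have hl0 : l ^ q ≠ 0 := by
          apply pow_ne_zero
          rintro rfl
          rw [zero_pow (Nat.succ_ne_zero q)] at hl
          exact inv_ne_zero hd hl.symm
        rw [(mul_eq_zero.1 h3).resolve_left hl0, mul_zero, zero_smul, add_zero, gl_inv_mulVec]
      refine ⟨s⁻¹ * k * s, (s⁻¹ * k * s)⁻¹ * s * (s⁻¹ * k * s) * s⁻¹, hρ, ?_, by group⟩
      apply Subgroup.mul_mem _ _ (Subgroup.inv_mem _ hs)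
      have := tvSubU_conj (s⁻¹ * k * s)⁻¹ hρ.inv.1 s hs
      rwa [inv_inv] at this
  | one => exact ⟨1, 1, ⟨(GU n F q).one_mem, fun j _ => by rw [Units.val_one, Matrix.one_mulVec]⟩, Subgroup.one_mem _, by simp⟩
  | mul x y hx hy ihx ihy =>
    have hle : Subgroup.closure {k : GL (Fin n) F | IsSimpleU q k} ≤ GU n F q := by
      rw [Subgroup.closure_le]
      exact fun k hk => IsSimpleU.mem_GU hF hk
    obtain ⟨ρ₁, t₁, h1, h2, rfl⟩ := ihx (hle hx)
    obtain ⟨ρ₂, t₂, h3, h4, rfl⟩ := ihy (hle hy)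
    refine ⟨ρ₁ * ρ₂, (ρ₂⁻¹ * t₁ * ρ₂) * t₂, h1.mul h3, Subgroup.mul_mem _ ?_ h4, by group⟩
    have := tvSubU_conj ρ₂⁻¹ h3.inv.1 t₁ h2
    rwa [inv_inv] at this
  | inv x hx ihx =>
    have hle : Subgroup.closure {k : GL (Fin n) F | IsSimpleU q k} ≤ GU n F q := by
      rw [Subgroup.closure_le]
      exact fun k hk => IsSimpleU.mem_GU hF hk
    obtain ⟨ρ₁, t₁, h1, h2, rfl⟩ := ihx (hle hx)
    exact ⟨ρ₁⁻¹, ρ₁ * t₁⁻¹ * ρ₁⁻¹, h1.inv, tvSubU_conj ρ₁ h1.1 _ (Subgroup.inv_mem _ h2), by group⟩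

/-- the special unitary group is generated by the unitary transvections -/
theorem SU_le_tvSubU (hF : Fintype.card F = q ^ 2) (hn : 7 ≤ n) :
    GU n F q ⊓ Geo.specialLinear (Fin n) F ≤ tvSubU n F q := by
  rintro g ⟨hg, hdet⟩
  obtain ⟨ρ, t, h1, h2, rfl⟩ := GU_decomp hF hn ⟨0, by omega⟩ g hg
  have h3 := (mem_specialLinear_iff' _).1 hdet
  have h4 := (mem_specialLinear_iff' _).1 (tvSubU_le_SL h2)
  rw [Units.val_mul, Matrix.det_mul, h4, mul_one] at h3
  rw [h1.eq_one hF h3, one_mul]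
  exact h2

/-- all the transvections with a given centre lie in `M` -/
def GoodU (q : ℕ) (M : Subgroup (GL (Fin n) F)) (a : Fin n → F) : Prop :=
  ∀ (c : F) (k : GL (Fin n) F), c + c ^ q = 0 →
    (∀ x, (k : Matrix (Fin n) (Fin n) F) *ᵥ x = x + (c * hermForm n F q x a) • a) → k ∈ M

theorem SU_le_of_good (hF : Fintype.card F = q ^ 2) (hn : 7 ≤ n) {M : Subgroup (GL (Fin n) F)}
    (h : ∀ a, hermForm n F q a a = 0 → GoodU q M a) : GU n F q ⊓ Geo.specialLinear (Fin n) F ≤ M := by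
  refine le_trans (SU_le_tvSubU hF hn) ?_
  unfold tvSubU
  rw [Subgroup.closure_le]
  rintro k ⟨a, c, h1, h2, h3⟩
  exact h a h1 c k h2 h3

end Cfsg.Agent.Lib.Helper15
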