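import Mathlib
import Cfsg.Agent.Lib.Helper15.SUGen3

set_option autoImplicit false

namespace Cfsg.Agent.Lib.Helper15

open Module Matrix Cfsg Cfsg.Agent.Lib.Helper14

variable {F : Type*} [Field F] [Fintype F] {q n : ℕ}

theorem mem_subfield_iff_pow (hF : Fintype.card F = q ^ 2) (F₀ : Subfield F)
    (hcard : Fintype.card F = Nat.card F₀ ^ 2) (x : F) : x ∈ F₀ ↔ x ^ q = x := by
  haveI : Fintype F₀ := Fintype.ofFinite F₀
  have hq : Fintype.card F₀ = q := by
    rw [hF, Nat.card_eq_fintype_card] at hcard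
    exact (Nat.pow_left_injective (n := 2) (by omega) hcard).symm
  constructor
  · intro hx
    have := FiniteField.pow_card (⟨x, hx⟩ : F₀)
    rw [hq] at this
    exact congrArg Subtype.val this
  · intro hx
    obtain ⟨y, rfl⟩ := mem_range_algebraMap_of_pow_card (F := F₀) (K := F) x (by rw [hq]; exact hx)
    exact y.2

theorem exists_not_fixed (hF : Fintype.card F = q ^ 2) : ∃ θ : F, θ ^ q ≠ θ := by
  obtain ⟨l, h1, h2⟩ := exists_norm_one_sq_ne_one hF
  refine ⟨l, fun h => h2 ?_⟩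
  rw [pow_succ, h] at h1
  rw [pow_two]; exact h1

theorem fix_decomp (hF : Fintype.card F = q ^ 2) (θ : F) (hθ : θ ^ q ≠ θ) (y : F) :
    ∃ α β : F, α ^ q = α ∧ β ^ q = β ∧ y = α + θ * β := by
  have h1 : θ - θ ^ q ≠ 0 := sub_ne_zero.2 (Ne.symm hθ)
  have h2 : θ ^ q - θ ≠ 0 := sub_ne_zero.2 hθ
  have hβ : ((y - y ^ q) / (θ - θ ^ q)) ^ q = (y - y ^ q) / (θ - θ ^ q) := by
    rw [div_pow, sub_pow_q hF, sub_pow_q hF, pow_q_q hF, pow_q_q hF]
    field_simp
    ring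
  refine ⟨y - θ * ((y - y ^ q) / (θ - θ ^ q)), (y - y ^ q) / (θ - θ ^ q), ?_, hβ, by ring⟩
  rw [sub_pow_q hF, mul_pow, hβ]
  field_simp
  ring

theorem fix_unique (hF : Fintype.card F = q ^ 2) (θ : F) (hθ : θ ^ q ≠ θ) (α β : F) (hα : α ^ q = α)
    (hβ : β ^ q = β) (h : α + θ * β = 0) : α = 0 ∧ β = 0 := by
  have hβ0 : β = 0 := by
    by_contra hb
    apply hθ
    have : θ = -α / β := by field_simp; linear_combination h
    rw [this, div_pow, hβ, neg_pow_q hF, hα]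
  rw [hβ0, mul_zero, add_zero] at h
  exact ⟨h, hβ0⟩

/-- the vectors of the rational structure defined by `P` -/
def RatV (q : ℕ) (P : GL (Fin n) F) (a : Fin n → F) : Prop :=
  ∃ u : Fin n → F, (∀ i, u i ^ q = u i) ∧ a = (P : Matrix (Fin n) (Fin n) F) *ᵥ u

namespace RatV

variable {P : GL (Fin n) F} {a b : Fin n → F}

theorem zero (hF : Fintype.card F = q ^ 2) : RatV q P 0 :=
  ⟨0, fun i => by simp [q_ne_zero hF], by simp⟩

theorem add (hF : Fintype.card F = q ^ 2) (ha : RatV q P a) (hb : RatV q P b) : RatV q P (a + b) := by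
  obtain ⟨u, hu, rfl⟩ := ha
  obtain ⟨v, hv, rfl⟩ := hb
  exact ⟨u + v, fun i => by rw [Pi.add_apply, add_pow_q hF, hu, hv], by rw [Matrix.mulVec_add]⟩

omit [Fintype F] in
theorem smul (ha : RatV q P a) (κ : F) (hκ : κ ^ q = κ) : RatV q P (κ • a) := by
  obtain ⟨u, hu, rfl⟩ := ha
  exact ⟨κ • u, fun i => by rw [Pi.smul_apply, smul_eq_mul, mul_pow, hu, hκ], by rw [Matrix.mulVec_smul]⟩

theorem neg (hF : Fintype.card F = q ^ 2) (ha : RatV q P a) : RatV q P (-a) := by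
  have := ha.smul (-1) (by rw [neg_pow_q hF, one_pow])
  simpa using this

theorem sub (hF : Fintype.card F = q ^ 2) (ha : RatV q P a) (hb : RatV q P b) : RatV q P (a - b) := by
  rw [sub_eq_add_neg]; exact ha.add hF (hb.neg hF)

theorem single (hF : Fintype.card F = q ^ 2) (P : GL (Fin n) F) (j : Fin n) :
    RatV q P ((P : Matrix (Fin n) (Fin n) F) *ᵥ Pi.single j 1) :=
  ⟨Pi.single j 1, fun i => by
    by_cases h : i = j
    · subst h; simp
    · simp [Pi.single_apply, h, q_ne_zero hF], rfl⟩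

theorem decomp (hF : Fintype.card F = q ^ 2) (P : GL (Fin n) F) (θ : F) (hθ : θ ^ q ≠ θ) (x : Fin n → F) :
    ∃ x₁ x₂, RatV q P x₁ ∧ RatV q P x₂ ∧ x = x₁ + θ • x₂ := by
  set y := ((P⁻¹ : GL (Fin n) F) : Matrix (Fin n) (Fin n) F) *ᵥ x with hy
  choose α β hα hβ hαβ using fun i => fix_decomp hF θ hθ (y i)
  refine ⟨_, _, ⟨α, hα, rfl⟩, ⟨β, hβ, rfl⟩, ?_⟩
  rw [← Matrix.mulVec_smul, ← Matrix.mulVec_add]
  have : α + θ • β = y := by
    ext i
    rw [hαβ i]; rfl
  rw [this, hy, gl_mulVec_inv]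

theorem unique (hF : Fintype.card F = q ^ 2) (θ : F) (hθ : θ ^ q ≠ θ) (ha : RatV q P a) (hb : RatV q P b)
    (h : a + θ • b = 0) : a = 0 ∧ b = 0 := by
  obtain ⟨u, hu, rfl⟩ := ha
  obtain ⟨v, hv, rfl⟩ := hb
  rw [← Matrix.mulVec_smul, ← Matrix.mulVec_add] at h
  have h1 : u + θ • v = 0 := by
    have := congrArg (fun z => ((P⁻¹ : GL (Fin n) F) : Matrix (Fin n) (Fin n) F) *ᵥ z) h
    simpa [gl_inv_mulVec] using this
  have h2 : ∀ i, u i = 0 ∧ v i = 0 := fun i => fix_unique hF θ hθ _ _ (hu i) (hv i) (congrFun h1 i)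
  have hu0 : u = 0 := funext fun i => (h2 i).1
  have hv0 : v = 0 := funext fun i => (h2 i).2
  rw [hu0, hv0]; simp

/-- uniqueness of the decomposition -/
theorem unique' (hF : Fintype.card F = q ^ 2) (θ : F) (hθ : θ ^ q ≠ θ) {a' b' : Fin n → F} (ha : RatV q P a)
    (hb : RatV q P b) (ha' : RatV q P a') (hb' : RatV q P b') (h : a + θ • b = a' + θ • b') : a = a' ∧ b = b' := by
  have := unique hF θ hθ (ha.sub hF ha') (hb.sub hF hb') (by
    rw [smul_sub]
    have : a - a' + (θ • b - θ • b') = (a + θ • b) - (a' + θ • b') := by abel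
    rw [this, h, sub_self])
  exact ⟨sub_eq_zero.1 this.1, sub_eq_zero.1 this.2⟩

theorem scalar (hF : Fintype.card F = q ^ 2) (ha : RatV q P a) (ν : F) (hb : RatV q P (ν • a)) (ha0 : a ≠ 0) :
    ν ^ q = ν := by
  obtain ⟨θ, hθ⟩ := exists_not_fixed hF
  obtain ⟨α, β, hα, hβ, rfl⟩ := fix_decomp hF θ hθ ν
  have h1 := unique' hF θ hθ hb (zero hF) (ha.smul α hα) (ha.smul β hβ) (by
    rw [smul_zero, add_zero, add_smul, mul_smul])
  have h2 : β = 0 := by
    rcases smul_eq_zero.1 h1.2.symm with h | h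
    · exact h
    · exact absurd h ha0
  rw [h2, mul_zero, add_zero]; exact hα

end RatV

end Cfsg.Agent.Lib.Helper15
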