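import Mathlib
import Cfsg.Agent.Lib.Helper15.SUSub1

set_option autoImplicit false

namespace Cfsg.Agent.Lib.Helper15

open Module Matrix Cfsg Cfsg.Agent.Lib.Helper14

variable {F : Type*} [Field F] [Fintype F] {q n : ℕ}

theorem mem_subfieldSubgroup_of (hF : Fintype.card F = q ^ 2) (F₀ : Subfield F) (hfix : ∀ x, x ∈ F₀ ↔ x ^ q = x)
    (P g : GL (Fin n) F) (l : F) (hl : l ≠ 0)
    (h : ∀ a, RatV q P a → ∃ b, RatV q P b ∧ (g : Matrix (Fin n) (Fin n) F) *ᵥ a = l • b) :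
    g ∈ Geo.subfieldSubgroup F₀ P := by
  set A : Matrix (Fin n) (Fin n) F := l⁻¹ • (((P⁻¹ * g * P : GL (Fin n) F)) : Matrix (Fin n) (Fin n) F) with hA
  have hent : ∀ i j, A i j ∈ F₀ := by
    intro i j
    obtain ⟨b, ⟨u, hu, rfl⟩, hb⟩ := h _ (RatV.single hF P j)
    have h1 : A *ᵥ Pi.single j 1 = u := by
      rw [hA, Matrix.smul_mulVec, Units.val_mul, Units.val_mul, ← Matrix.mulVec_mulVec, ← Matrix.mulVec_mulVec, hb,
        Matrix.mulVec_smul, gl_inv_mulVec, smul_smul, inv_mul_cancel₀ hl, one_smul]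
    have h2 : A i j = u i := by
      rw [← h1, Matrix.mulVec_single_one]; rfl
    rw [h2, hfix]; exact hu i
  set A₀ : Matrix (Fin n) (Fin n) F₀ := fun i j => ⟨A i j, hent i j⟩ with hA₀
  have hmap : A₀.map F₀.subtype = A := by
    ext i j; rfl
  have hdetA : A.det ≠ 0 := by
    rw [hA, Matrix.det_smul]
    apply mul_ne_zero (pow_ne_zero _ (inv_ne_zero hl))
    exact (Matrix.isUnit_iff_isUnit_det _).1 (Units.isUnit _) |>.ne_zero
  have hdet : A₀.det ≠ 0 := by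
    intro h0
    apply hdetA
    rw [← hmap, ← RingHom.mapMatrix_apply, ← RingHom.map_det, h0, map_zero]
  set g₀ : GL (Fin n) F₀ := Matrix.GeneralLinearGroup.mkOfDetNeZero A₀ hdet with hg₀
  set sc : GL (Fin n) F := Units.map (Matrix.scalar (Fin n) : F →+* Matrix (Fin n) (Fin n) F).toMonoidHom
    (Units.mk0 l hl) with hsc
  have hscv : (sc : Matrix (Fin n) (Fin n) F) = l • (1 : Matrix (Fin n) (Fin n) F) := by
    simp [hsc, Matrix.smul_one_eq_diagonal]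
  refine ⟨Matrix.GeneralLinearGroup.map (F₀.subtype : F₀ →+* F) g₀ * sc,
    Subgroup.mul_mem_sup ⟨g₀, rfl⟩ ⟨Units.mk0 l hl, rfl⟩, ?_⟩
  apply Units.ext
  have h3 : ((Matrix.GeneralLinearGroup.map (F₀.subtype : F₀ →+* F) g₀ : GL (Fin n) F) :
      Matrix (Fin n) (Fin n) F) = A := hmap
  simp only [MulEquiv.coe_toMonoidHom, MulAut.conj_apply, Units.val_mul]
  rw [h3, hscv, hA, Units.val_mul, Units.val_mul]
  simp only [Matrix.smul_mul, Matrix.mul_smul, Matrix.mul_one, smul_smul, mul_inv_cancel₀ hl, one_smul]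
  rw [← Units.val_mul, ← Units.val_mul, ← Units.val_mul, ← Units.val_mul]
  congr 1
  group

theorem exists_of_mem_subfieldSubgroup (F₀ : Subfield F) (hfix : ∀ x, x ∈ F₀ ↔ x ^ q = x)
    (P g : GL (Fin n) F) (hg : g ∈ Geo.subfieldSubgroup F₀ P) :
    ∃ l : F, l ≠ 0 ∧ ∀ a, RatV q P a → ∃ b, RatV q P b ∧ (g : Matrix (Fin n) (Fin n) F) *ᵥ a = l • b := by
  obtain ⟨x, hx, rfl⟩ := hg
  obtain ⟨y, ⟨g₀, rfl⟩, z, hz, rfl⟩ := Subgroup.mem_sup_of_normal_right.1 hx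
  obtain ⟨c, hc⟩ := (Geo.mem_scalars_iff z).1 hz
  refine ⟨c, c.ne_zero, ?_⟩
  rintro _ ⟨u, hu, rfl⟩
  refine ⟨_, ⟨((Matrix.GeneralLinearGroup.map (F₀.subtype : F₀ →+* F) g₀ : GL (Fin n) F) :
      Matrix (Fin n) (Fin n) F) *ᵥ u, fun i => ?_, rfl⟩, ?_⟩
  · rw [← hfix]
    have : (((Matrix.GeneralLinearGroup.map (F₀.subtype : F₀ →+* F) g₀ : GL (Fin n) F) :
      Matrix (Fin n) (Fin n) F) *ᵥ u) i = ∑ j, ((g₀ : Matrix (Fin n) (Fin n) F₀) i j : F) * u j := rfl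
    rw [this]
    exact F₀.sum_mem (fun j _ => F₀.mul_mem (Subtype.mem _) ((hfix _).2 (hu j)))
  · simp only [MulEquiv.coe_toMonoidHom, MulAut.conj_apply, Units.val_mul]
    rw [← Matrix.mulVec_mulVec, gl_inv_mulVec, ← Matrix.mulVec_mulVec, ← Matrix.mulVec_mulVec, hc,
      Matrix.smul_mulVec, Matrix.one_mulVec, Matrix.mulVec_smul, Matrix.mulVec_smul]

end Cfsg.Agent.Lib.Helper15
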