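import Mathlib
import Cfsg.Agent.Lib.Helper15.SUSub2

set_option autoImplicit false

namespace Cfsg.Agent.Lib.Helper15

open Module Matrix Cfsg Cfsg.Agent.Lib.Helper14

variable {F : Type*} [Field F] [Fintype F] {q n : ℕ}

theorem GoodU.conj {M : Subgroup (GL (Fin n) F)} {a : Fin n → F} (ha : GoodU q M a) (g : GL (Fin n) F)
    (hg : g ∈ M) (hgu : g ∈ GU n F q) : GoodU q M ((g : Matrix (Fin n) (Fin n) F) *ᵥ a) := by
  intro c k hc hk
  have h1 : g⁻¹ * k * g ∈ M := by
    apply ha c _ hc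
    intro x
    rw [Units.val_mul, Units.val_mul, ← Matrix.mulVec_mulVec, ← Matrix.mulVec_mulVec, hk, Matrix.mulVec_add,
      Matrix.mulVec_smul, gl_inv_mulVec, gl_inv_mulVec, (mem_GU_iff g).1 hgu]
  have : k = g * (g⁻¹ * k * g) * g⁻¹ := by group
  rw [this]
  exact M.mul_mem (M.mul_mem hg h1) (M.inv_mem hg)

theorem GoodU.smul (hF : Fintype.card F = q ^ 2) {M : Subgroup (GL (Fin n) F)} {a : Fin n → F}
    (ha : GoodU q M a) (l : F) : GoodU q M (l • a) := by
  intro c k hc hk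
  apply ha (c * (l ^ q * l)) k
  · rw [mul_pow, mul_pow, pow_q_q hF]
    linear_combination (l ^ q * l) * hc
  · intro x
    rw [hk, hermForm_smul_right, smul_smul]
    congr 1
    ring

/-- a rational structure on which (a multiple of) the hermitian form is alternating -/
structure SpStr (q : ℕ) (P : GL (Fin n) F) (ζ : F) : Prop where
  card : Fintype.card F = q ^ 2
  ne : ζ ≠ 0
  skew : ζ + ζ ^ q = 0
  rat : ∀ a b, RatV q P a → RatV q P b → (ζ * hermForm n F q a b) ^ q = ζ * hermForm n F q a b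
  alt : ∀ a, RatV q P a → hermForm n F q a a = 0

namespace SpStr

variable {P : GL (Fin n) F} {ζ : F}

theorem swap (S : SpStr q P ζ) {a b : Fin n → F} (ha : RatV q P a) (hb : RatV q P b) :
    hermForm n F q b a = - hermForm n F q a b := by
  have h := S.alt _ (ha.add S.card hb)
  rw [hermForm_add_left, hermForm_add_right S.card, hermForm_add_right S.card, S.alt a ha, S.alt b hb] at h
  linear_combination h

/-- quotients of values of the form are rational -/
theorem div_fixed (S : SpStr q P ζ) {a b a' b' : Fin n → F} (ha : RatV q P a) (hb : RatV q P b)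
    (ha' : RatV q P a') (hb' : RatV q P b') :
    (hermForm n F q a b / hermForm n F q a' b') ^ q = hermForm n F q a b / hermForm n F q a' b' := by
  have h1 := S.rat a b ha hb
  have h2 := S.rat a' b' ha' hb'
  have h3 : hermForm n F q a b / hermForm n F q a' b' =
      (ζ * hermForm n F q a b) / (ζ * hermForm n F q a' b') := by
    rw [mul_div_mul_left _ _ S.ne]
  rw [h3, div_pow, h1, h2]

theorem exists_ne (S : SpStr q P ζ) (b : Fin n → F) (hb : b ≠ 0) : ∃ a, RatV q P a ∧ hermForm n F q a b ≠ 0 := by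
  by_contra hcon
  push Not at hcon
  apply hb
  apply eq_zero_of_hermForm_right S.card
  intro y
  obtain ⟨θ, hθ⟩ := exists_not_fixed S.card
  obtain ⟨y₁, y₂, h1, h2, rfl⟩ := RatV.decomp S.card P θ hθ y
  rw [hermForm_add_left, hermForm_smul_left, hcon _ h1, hcon _ h2]; ring

/-- a transvection with rational centre preserves the rational structure -/
theorem tv_rat (S : SpStr q P ζ) {a b : Fin n → F} (ha : RatV q P a) (hb : RatV q P b) (c : F)
    (hc : c + c ^ q = 0) : RatV q P (b + (c * hermForm n F q b a) • a) := by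
  apply hb.add S.card (ha.smul _ _)
  have h1 := S.rat b a hb ha
  have h2 : c * hermForm n F q b a = (c / ζ) * (ζ * hermForm n F q b a) := by
    have := S.ne
    field_simp
  have hζq : ζ ^ q = -ζ := by linear_combination S.skew
  have hcq : c ^ q = -c := by linear_combination hc
  rw [h2, mul_pow, h1, div_pow, hζq, hcq, neg_div_neg_eq]

end SpStr

/-- elements of `M` which are isometries preserving the rational structure -/
def RTU (q : ℕ) (M : Subgroup (GL (Fin n) F)) (P : GL (Fin n) F) (s : GL (Fin n) F) : Prop :=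
  s ∈ M ∧ s ∈ GU n F q ∧ ∀ b, RatV q P b → RatV q P ((s : Matrix (Fin n) (Fin n) F) *ᵥ b)

omit [Fintype F] in
theorem RTU.mul {M : Subgroup (GL (Fin n) F)} {P s s' : GL (Fin n) F} (h : RTU q M P s) (h' : RTU q M P s') :
    RTU q M P (s * s') :=
  ⟨M.mul_mem h.1 h'.1, (GU n F q).mul_mem h.2.1 h'.2.1, fun b hb => by
    rw [Units.val_mul, ← Matrix.mulVec_mulVec]
    exact h.2.2 _ (h'.2.2 b hb)⟩

namespace SpStr

variable {P : GL (Fin n) F} {ζ : F} {M : Subgroup (GL (Fin n) F)}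

theorem step_one (S : SpStr q P ζ) (hgood : ∀ a, RatV q P a → GoodU q M a) {u v : Fin n → F}
    (hu : RatV q P u) (hv : RatV q P v) (huv : hermForm n F q u v ≠ 0) :
    ∃ s, RTU q M P s ∧ (s : Matrix (Fin n) (Fin n) F) *ᵥ u = v ∧
      ∀ z, hermForm n F q z u = 0 → hermForm n F q z v = 0 → (s : Matrix (Fin n) (Fin n) F) *ᵥ z = z := by
  have hd := hv.sub S.card hu
  have hc : (hermForm n F q u v)⁻¹ + ((hermForm n F q u v)⁻¹) ^ q = 0 := by
    have h1 := S.rat u v hu hv
    have hζq : ζ ^ q = -ζ := by linear_combination S.skew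
    rw [mul_pow, hζq] at h1
    have h2 : hermForm n F q u v ^ q = - hermForm n F q u v := by
      have := S.ne
      apply mul_left_cancel₀ this
      linear_combination -h1
    rw [inv_pow, h2]
    field_simp
    ring
  obtain ⟨k, hkGU, hk⟩ := exists_tv S.card (v - u) _ (S.alt _ hd) hc
  refine ⟨k, ⟨hgood _ hd _ k hc hk, hkGU, fun b hb => ?_⟩, ?_, fun z hz hz' => ?_⟩
  · rw [hk]; exact S.tv_rat hd hb _ hc
  · rw [hk, hf_sub_right S.card, S.alt u hu, sub_zero, inv_mul_cancel₀ huv, one_smul]; abel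
  · rw [hk, hf_sub_right S.card, hz, hz']; simp

theorem exists_sep (S : SpStr q P ζ) {z u : Fin n → F} (hz : RatV q P z) (hu : RatV q P u)
    (h : ∀ κ : F, κ ^ q = κ → u ≠ κ • z) :
    ∃ w, RatV q P w ∧ hermForm n F q w z = 0 ∧ hermForm n F q w u ≠ 0 := by
  by_contra hcon
  push Not at hcon
  by_cases hz0 : z = 0
  · have hu0 : u ≠ 0 := by
      have := h 0 (by simp [q_ne_zero S.card])
      simpa using this
    obtain ⟨a, ha, hau⟩ := S.exists_ne u hu0
    exact hau (hcon a ha (by rw [hz0, hermForm_zero_right S.card]))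
  · obtain ⟨p, hp, hpz⟩ := S.exists_ne z hz0
    set κ := hermForm n F q p u / hermForm n F q p z with hκ
    have hκq : κ ^ q = κ := S.div_fixed hp hu hp hz
    apply h κ hκq
    by_contra hne
    obtain ⟨w, hw, hwn⟩ := S.exists_ne (u - κ • z) (sub_ne_zero.2 hne)
    apply hwn
    have h1 := hcon (w - (hermForm n F q w z / hermForm n F q p z) • p)
      (hw.sub S.card (hp.smul _ (S.div_fixed hw hz hp hz))) (by
        rw [hermForm_sub_left, hermForm_smul_left]; field_simp; ring)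
    rw [hermForm_sub_left, hermForm_smul_left] at h1
    rw [hf_sub_right S.card, hermForm_smul_right, hκq, hκ]
    field_simp
    field_simp at h1
    linear_combination h1

/-- the analogue of Witt's lemma for the rational transvections -/
theorem tk (S : SpStr q P ζ) (hgood : ∀ a, RatV q P a → GoodU q M a) {z u v : Fin n → F}
    (hz : RatV q P z) (hu : RatV q P u) (hv : RatV q P v) (huz : hermForm n F q u z = 0)
    (hvz : hermForm n F q v z = 0) (hu' : ∀ κ : F, κ ^ q = κ → u ≠ κ • z)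
    (hv' : ∀ κ : F, κ ^ q = κ → v ≠ κ • z) :
    ∃ s, RTU q M P s ∧ (s : Matrix (Fin n) (Fin n) F) *ᵥ z = z ∧ (s : Matrix (Fin n) (Fin n) F) *ᵥ u = v := by
  have hzu := hermForm_eq_zero_symm S.card _ _ huz
  have hzv := hermForm_eq_zero_symm S.card _ _ hvz
  by_cases huv : hermForm n F q u v = 0
  · obtain ⟨w, hw, hwz, hwu, hwv⟩ : ∃ w, RatV q P w ∧ hermForm n F q w z = 0 ∧ hermForm n F q w u ≠ 0 ∧
        hermForm n F q w v ≠ 0 := by
      obtain ⟨w₁, hw₁, h1, h2⟩ := S.exists_sep hz hu hu'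
      obtain ⟨w₂, hw₂, h3, h4⟩ := S.exists_sep hz hv hv'
      by_cases h5 : hermForm n F q w₁ v = 0
      · by_cases h6 : hermForm n F q w₂ u = 0
        · refine ⟨w₁ + w₂, hw₁.add S.card hw₂, ?_, ?_, ?_⟩
          · rw [hermForm_add_left, h1, h3, add_zero]
          · rw [hermForm_add_left, h6, add_zero]; exact h2
          · rw [hermForm_add_left, h5, zero_add]; exact h4
        · exact ⟨w₂, hw₂, h3, h6, h4⟩
      · exact ⟨w₁, hw₁, h1, h2, h5⟩
    have huw : hermForm n F q u w ≠ 0 := fun h => hwu (hermForm_eq_zero_symm S.card _ _ h)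
    have hzw := hermForm_eq_zero_symm S.card _ _ hwz
    obtain ⟨s₁, hs₁, h1, h2⟩ := S.step_one hgood hu hw huw
    obtain ⟨s₂, hs₂, h3, h4⟩ := S.step_one hgood hw hv hwv
    refine ⟨s₂ * s₁, hs₂.mul hs₁, ?_, ?_⟩
    · rw [Units.val_mul, ← Matrix.mulVec_mulVec, h2 z hzu hzw, h4 z hzw hzv]
    · rw [Units.val_mul, ← Matrix.mulVec_mulVec, h1, h3]
  · obtain ⟨s, hs, h1, h2⟩ := S.step_one hgood hu hv huv
    exact ⟨s, hs, h2 z hzu hzv, h1⟩

/-- transitivity on the pairs of independent orthogonal rational vectors -/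
theorem pair_trans (S : SpStr q P ζ) (hgood : ∀ a, RatV q P a → GoodU q M a) {x₁ x₂ y₁ y₂ : Fin n → F}
    (hx₁ : RatV q P x₁) (hx₂ : RatV q P x₂) (hy₁ : RatV q P y₁) (hy₂ : RatV q P y₂)
    (hx : hermForm n F q x₂ x₁ = 0) (hy : hermForm n F q y₂ y₁ = 0) (hx0 : x₁ ≠ 0) (hy0 : y₁ ≠ 0)
    (hx' : ∀ κ : F, κ ^ q = κ → x₂ ≠ κ • x₁) (hy' : ∀ κ : F, κ ^ q = κ → y₂ ≠ κ • y₁) :
    ∃ s, RTU q M P s ∧ (s : Matrix (Fin n) (Fin n) F) *ᵥ x₁ = y₁ ∧ (s : Matrix (Fin n) (Fin n) F) *ᵥ x₂ = y₂ := by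
  obtain ⟨s₁, hs₁, -, h1⟩ := S.tk hgood (RatV.zero S.card) hx₁ hy₁ (hermForm_zero_right S.card _)
    (hermForm_zero_right S.card _) (fun κ _ => by simpa using hx0) (fun κ _ => by simpa using hy0)
  obtain ⟨s₂, hs₂, h2, h3⟩ := S.tk hgood hy₁ (hs₁.2.2 _ hx₂) hy₂
    (by rw [← h1, (mem_GU_iff s₁).1 hs₁.2.1]; exact hx) hy (fun κ hκ h => by
      apply hx' κ hκ
      rw [← h1, ← Matrix.mulVec_smul] at h
      have := congrArg (fun z => ((s₁⁻¹ : GL (Fin n) F) : Matrix (Fin n) (Fin n) F) *ᵥ z) h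
      simpa [gl_inv_mulVec] using this) hy'
  refine ⟨s₂ * s₁, hs₂.mul hs₁, ?_, ?_⟩
  · rw [Units.val_mul, ← Matrix.mulVec_mulVec, h1, h2]
  · rw [Units.val_mul, ← Matrix.mulVec_mulVec, h3]

end SpStr

end Cfsg.Agent.Lib.Helper15
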