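import Mathlib
import Cfsg.Agent.Lib.Helper15.SUSub3

set_option autoImplicit false

namespace Cfsg.Agent.Lib.Helper15

open Module Matrix Cfsg Cfsg.Agent.Lib.Helper14

variable {F : Type*} [Field F] [Fintype F] {q n : ℕ}

namespace SpStr

variable {P : GL (Fin n) F} {ζ : F} {M : Subgroup (GL (Fin n) F)}

/-- the shape of the vectors which are not multiples of rational vectors -/
theorem nonrat_shape (S : SpStr q P ζ) (θ : F) (hθ : θ ^ q ≠ θ) {x₁ x₂ : Fin n → F} (hx₁ : RatV q P x₁)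
    (hx₂ : RatV q P x₂) (hiso : hermForm n F q (x₁ + θ • x₂) (x₁ + θ • x₂) = 0)
    (hnr : ∀ (l : F) (b : Fin n → F), RatV q P b → x₁ + θ • x₂ ≠ l • b) :
    hermForm n F q x₂ x₁ = 0 ∧ x₁ ≠ 0 ∧ ∀ κ : F, κ ^ q = κ → x₂ ≠ κ • x₁ := by
  refine ⟨?_, ?_, ?_⟩
  · rw [hermForm_add_left, hermForm_add_right S.card, hermForm_add_right S.card, hermForm_smul_left,
      hermForm_smul_left, hermForm_smul_right, hermForm_smul_right, S.alt _ hx₁, S.alt _ hx₂,
      S.swap hx₂ hx₁] at hiso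
    have h1 : (θ - θ ^ q) * hermForm n F q x₂ x₁ = 0 := by linear_combination hiso
    rcases mul_eq_zero.1 h1 with h | h
    · exact absurd (sub_eq_zero.1 h).symm hθ
    · exact h
  · rintro rfl
    exact hnr θ x₂ hx₂ (by rw [zero_add])
  · intro κ _ h
    exact hnr (1 + θ * κ) x₁ hx₁ (by rw [h, add_smul, one_smul, mul_smul])

theorem core (S : SpStr q P ζ) (hn : 7 ≤ n) (hgood : ∀ a, RatV q P a → GoodU q M a) (x : Fin n → F)
    (hx : GoodU q M x) (hiso : hermForm n F q x x = 0)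
    (hnr : ∀ (l : F) (b : Fin n → F), RatV q P b → x ≠ l • b) :
    GU n F q ⊓ Geo.specialLinear (Fin n) F ≤ M := by
  apply SU_le_of_good S.card hn
  intro a ha
  by_cases hr : ∃ (l : F) (b : Fin n → F), RatV q P b ∧ a = l • b
  · obtain ⟨l, b, hb, rfl⟩ := hr
    exact (hgood b hb).smul S.card l
  · push Not at hr
    obtain ⟨θ, hθ⟩ := exists_not_fixed S.card
    obtain ⟨x₁, x₂, hx₁, hx₂, rfl⟩ := RatV.decomp S.card P θ hθ x
    obtain ⟨a₁, a₂, ha₁, ha₂, rfl⟩ := RatV.decomp S.card P θ hθ a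
    obtain ⟨h1, h2, h3⟩ := S.nonrat_shape θ hθ hx₁ hx₂ hiso hnr
    obtain ⟨h4, h5, h6⟩ := S.nonrat_shape θ hθ ha₁ ha₂ ha hr
    obtain ⟨s, hs, hs1, hs2⟩ := S.pair_trans hgood hx₁ hx₂ ha₁ ha₂ h1 h4 h2 h5 h3 h6
    have := hx.conj s hs.1 hs.2.1
    rwa [Matrix.mulVec_add, Matrix.mulVec_smul, hs1, hs2] at this

end SpStr

/-- an element mapping rational points to rational points lies in the subfield group -/
theorem uniform_scalar (hF : Fintype.card F = q ^ 2) (hn : 1 ≤ n) (P g : GL (Fin n) F)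
    (h : ∀ a, RatV q P a → ∃ (l : F) (b : Fin n → F), RatV q P b ∧ (g : Matrix (Fin n) (Fin n) F) *ᵥ a = l • b) :
    ∃ l₀ : F, l₀ ≠ 0 ∧ ∀ a, RatV q P a → ∃ b, RatV q P b ∧ (g : Matrix (Fin n) (Fin n) F) *ᵥ a = l₀ • b := by
  have hinj : ∀ (k : GL (Fin n) F) (y : Fin n → F), (k : Matrix (Fin n) (Fin n) F) *ᵥ y = 0 → y = 0 := by
    intro k y hy
    rw [← gl_inv_mulVec k y, hy, Matrix.mulVec_zero]
  set a₀ := (P : Matrix (Fin n) (Fin n) F) *ᵥ Pi.single (⟨0, by omega⟩ : Fin n) 1 with ha₀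
  have ha₀r : RatV q P a₀ := RatV.single hF P _
  have ha₀0 : a₀ ≠ 0 := by
    intro h0
    have := hinj P _ h0
    have h1 := congrFun this ⟨0, by omega⟩
    simp at h1
  obtain ⟨l₀, b₀, hb₀, hg₀⟩ := h a₀ ha₀r
  have hga₀ : (g : Matrix (Fin n) (Fin n) F) *ᵥ a₀ ≠ 0 := fun h0 => ha₀0 (hinj g _ h0)
  have hl₀ : l₀ ≠ 0 := by
    rintro rfl
    rw [zero_smul] at hg₀
    exact hga₀ hg₀
  refine ⟨l₀, hl₀, ?_⟩
  intro a ha
  by_cases hdep : ∃ κ : F, κ ^ q = κ ∧ a = κ • a₀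
  · obtain ⟨κ, hκ, rfl⟩ := hdep
    exact ⟨κ • b₀, hb₀.smul κ hκ, by rw [Matrix.mulVec_smul, hg₀, smul_comm]⟩
  push Not at hdep
  have ha0 : a ≠ 0 := by
    have := hdep 0 (by simp [q_ne_zero hF])
    simpa using this
  obtain ⟨l, b, hb, hg⟩ := h a ha
  obtain ⟨μ, c, hc, hgc⟩ := h (a + a₀) (ha.add hF ha₀r)
  have hga : (g : Matrix (Fin n) (Fin n) F) *ᵥ a ≠ 0 := fun h0 => ha0 (hinj g _ h0)
  have hl : l ≠ 0 := by
    rintro rfl
    rw [zero_smul] at hg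
    exact hga hg
  have hb0 : b ≠ 0 := by
    rintro rfl
    rw [smul_zero] at hg
    exact hga hg
  obtain ⟨θ, hθ⟩ := exists_not_fixed hF
  obtain ⟨α, β, hα, hβ, hαβ⟩ := fix_decomp hF θ hθ (l / l₀)
  obtain ⟨α', β', hα', hβ', hαβ'⟩ := fix_decomp hF θ hθ (μ / l₀)
  have e1 : l • b + l₀ • b₀ = μ • c := by rw [← hg, ← hg₀, ← hgc, Matrix.mulVec_add]
  have e2 : (α • b + b₀) + θ • (β • b) = α' • c + θ • (β' • c) := by
    have h1 : (l / l₀) • b + b₀ = (μ / l₀) • c := by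
      have := congrArg (fun z => l₀⁻¹ • z) e1
      simp only [smul_add, smul_smul, inv_mul_cancel₀ hl₀, one_smul] at this
      rw [div_eq_inv_mul, div_eq_inv_mul]; exact this
    rw [hαβ, hαβ', add_smul, add_smul, mul_smul, mul_smul] at h1
    rw [← h1]; abel
  obtain ⟨e3, e4⟩ := RatV.unique' hF θ hθ ((hb.smul α hα).add hF hb₀) (hb.smul β hβ) (hc.smul α' hα')
    (hc.smul β' hβ') e2
  by_cases hβ0 : β = 0
  · refine ⟨α • b, hb.smul α hα, ?_⟩
    rw [hg, smul_smul]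
    congr 1
    rw [hβ0, mul_zero, add_zero] at hαβ
    rw [← hαβ]; field_simp
  · exfalso
    have hβ'0 : β' ≠ 0 := by
      rintro rfl
      rw [zero_smul] at e4
      rcases smul_eq_zero.1 e4 with h | h
      · exact hβ0 h
      · exact hb0 h
    have hc' : c = (β / β') • b := by
      rw [div_eq_inv_mul, mul_smul, e4, smul_smul, inv_mul_cancel₀ hβ'0, one_smul]
    have hb₀' : b₀ = (α' * (β / β') - α) • b := by
      rw [sub_smul, mul_smul, ← hc', ← e3]; abel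
    set κ' := α' * (β / β') - α with hκ'
    have e5 : (g : Matrix (Fin n) (Fin n) F) *ᵥ a₀ = (g : Matrix (Fin n) (Fin n) F) *ᵥ ((l₀ * κ' / l) • a) := by
      rw [Matrix.mulVec_smul, hg, hg₀, hb₀', smul_smul, smul_smul]
      congr 1
      field_simp
    have e6 : a₀ = (l₀ * κ' / l) • a := by
      rw [← gl_inv_mulVec g a₀, e5, gl_inv_mulVec]
    have hν := RatV.scalar hF ha (l₀ * κ' / l) (by rw [← e6]; exact ha₀r) ha0
    have hν0 : l₀ * κ' / l ≠ 0 := by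
      intro h0
      rw [h0, zero_smul] at e6
      exact ha₀0 e6
    apply hdep (l₀ * κ' / l)⁻¹ (by rw [inv_pow, hν])
    rw [e6, smul_smul, inv_mul_cancel₀ hν0, one_smul]

end Cfsg.Agent.Lib.Helper15
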