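import Mathlib
import Cfsg.Agent.Lib.Helper15.SUSub4

set_option autoImplicit false

namespace Cfsg.Agent.Lib.Helper15

open Module Matrix Cfsg Cfsg.Agent.Lib.Helper14

variable {F : Type*} [Field F] [Fintype F] {q n : ℕ}

theorem tv_mem_SU (hF : Fintype.card F = q ^ 2) (a : Fin n → F) (c : F) (ha : hermForm n F q a a = 0)
    (hc : c + c ^ q = 0) (k : GL (Fin n) F)
    (hk : ∀ x, (k : Matrix (Fin n) (Fin n) F) *ᵥ x = x + (c * hermForm n F q x a) • a) :
    k ∈ GU n F q ⊓ Geo.specialLinear (Fin n) F :=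
  ⟨(IsTvU.isSimple ⟨a, c, ha, hc, hk⟩).mem_GU hF, (mem_specialLinear_iff' k).2 (IsTvU.det ⟨a, c, ha, hc, hk⟩)⟩

namespace SpStr

variable {P : GL (Fin n) F} {ζ : F} {M : Subgroup (GL (Fin n) F)}

theorem good_of_le (S : SpStr q P ζ) (F₀ : Subfield F) (hfix : ∀ x, x ∈ F₀ ↔ x ^ q = x)
    (hM : Geo.subfieldSubgroup F₀ P ⊓ (GU n F q ⊓ Geo.specialLinear (Fin n) F) ≤ M) :
    ∀ a, RatV q P a → GoodU q M a := by
  intro a ha c k hc hk
  apply hM
  refine ⟨mem_subfieldSubgroup_of S.card F₀ hfix P k 1 one_ne_zero (fun b hb => ?_),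
    tv_mem_SU S.card a c (S.alt a ha) hc k hk⟩
  exact ⟨_, S.tv_rat ha hb c hc, by rw [hk, one_smul]⟩

theorem nonrat_of_indep (S : SpStr q P ζ) (θ : F) (hθ : θ ^ q ≠ θ) {x₁ x₂ : Fin n → F} (hx₁ : RatV q P x₁)
    (hx₂ : RatV q P x₂) (h0 : x₁ ≠ 0) (h : ∀ κ : F, κ ^ q = κ → x₂ ≠ κ • x₁) :
    ∀ (l : F) (b : Fin n → F), RatV q P b → x₁ + θ • x₂ ≠ l • b := by
  intro l b hb he
  obtain ⟨α, β, hα, hβ, rfl⟩ := fix_decomp S.card θ hθ l
  rw [add_smul, mul_smul] at he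
  obtain ⟨e1, e2⟩ := RatV.unique' S.card θ hθ hx₁ hx₂ (hb.smul α hα) (hb.smul β hβ) he
  have hα0 : α ≠ 0 := by
    rintro rfl
    rw [zero_smul] at e1
    exact h0 e1
  apply h (β / α) (by rw [div_pow, hα, hβ])
  rw [e2, e1, smul_smul]
  congr 1
  field_simp

theorem exists_pair (S : SpStr q P ζ) (hn : 3 ≤ n) : ∃ x₁ x₂, RatV q P x₁ ∧ RatV q P x₂ ∧ x₁ ≠ 0 ∧
    hermForm n F q x₂ x₁ = 0 ∧ ∀ κ : F, κ ^ q = κ → x₂ ≠ κ • x₁ := by
  have hinj : ∀ (y : Fin n → F), (P : Matrix (Fin n) (Fin n) F) *ᵥ y = 0 → y = 0 := by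
    intro y hy
    rw [← gl_inv_mulVec P y, hy, Matrix.mulVec_zero]
  set i0 : Fin n := ⟨0, by omega⟩
  set i1 : Fin n := ⟨1, by omega⟩
  set i2 : Fin n := ⟨2, by omega⟩
  have h01 : i0 ≠ i1 := by simp [i0, i1, Fin.ext_iff]
  have h02 : i0 ≠ i2 := by simp [i0, i2, Fin.ext_iff]
  have h12 : i1 ≠ i2 := by simp [i1, i2, Fin.ext_iff]
  set p0 := (P : Matrix (Fin n) (Fin n) F) *ᵥ Pi.single i0 1 with hp0
  set p1 := (P : Matrix (Fin n) (Fin n) F) *ᵥ Pi.single i1 1 with hp1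
  set p2 := (P : Matrix (Fin n) (Fin n) F) *ᵥ Pi.single i2 1 with hp2
  have r0 : RatV q P p0 := RatV.single S.card P _
  have r1' : RatV q P p1 := RatV.single S.card P _
  have r2 : RatV q P p2 := RatV.single S.card P _
  have hp00 : p0 ≠ 0 := by
    intro h0
    have h1 := congrFun (hinj _ h0) i0
    simp at h1
  by_cases h1 : hermForm n F q p1 p0 = 0
  · refine ⟨p0, p1, r0, r1', hp00, h1, fun κ _ he => ?_⟩
    have h2 : (P : Matrix (Fin n) (Fin n) F) *ᵥ (Pi.single i1 1 - κ • Pi.single i0 1) = 0 := by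
      rw [Matrix.mulVec_sub, Matrix.mulVec_smul, ← hp0, ← hp1, he, sub_self]
    have h3 := congrFun (hinj _ h2) i1
    simp [Pi.single_apply, h01.symm] at h3
  · refine ⟨p0, p2 - (hermForm n F q p2 p0 / hermForm n F q p1 p0) • p1, r0,
      r2.sub S.card (r1'.smul _ (S.div_fixed r2 r0 r1' r0)), hp00, ?_, fun κ _ he => ?_⟩
    · rw [hermForm_sub_left, hermForm_smul_left]; field_simp; ring
    · have h2 : (P : Matrix (Fin n) (Fin n) F) *ᵥ (Pi.single i2 1 -
          (hermForm n F q p2 p0 / hermForm n F q p1 p0) • Pi.single i1 1 - κ • Pi.single i0 1) = 0 := by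
        rw [Matrix.mulVec_sub, Matrix.mulVec_sub, Matrix.mulVec_smul, Matrix.mulVec_smul, ← hp0, ← hp1, ← hp2, he,
          sub_self]
      have h3 := congrFun (hinj _ h2) i2
      simp [Pi.single_apply, h02.symm, h12.symm] at h3

theorem isMaximalIn (S : SpStr q P ζ) (hn : 7 ≤ n) (F₀ : Subfield F) (hfix : ∀ x, x ∈ F₀ ↔ x ^ q = x) :
    Geo.IsMaximalIn (GU n F q ⊓ Geo.specialLinear (Fin n) F)
      (Geo.subfieldSubgroup F₀ P ⊓ (GU n F q ⊓ Geo.specialLinear (Fin n) F)) := by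
  have hF := S.card
  constructor
  · apply lt_of_le_of_ne inf_le_right
    intro he
    obtain ⟨θ, hθ⟩ := exists_not_fixed hF
    obtain ⟨x₁, x₂, hx₁, hx₂, h0, hperp, hind⟩ := S.exists_pair (by omega)
    have hnr := S.nonrat_of_indep θ hθ hx₁ hx₂ h0 hind
    set x := x₁ + θ • x₂ with hx
    have hperp' := hermForm_eq_zero_symm hF _ _ hperp
    have hx₁x : hermForm n F q x₁ x = 0 := by
      rw [hx, hermForm_add_right hF, hermForm_smul_right, S.alt _ hx₁, hperp']; ring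
    have hx₂x : hermForm n F q x₂ x = 0 := by
      rw [hx, hermForm_add_right hF, hermForm_smul_right, S.alt _ hx₂, hperp]; ring
    have hiso : hermForm n F q x x = 0 := by
      conv_lhs => rw [hx]
      rw [hermForm_add_left, hermForm_smul_left, hx₁x, hx₂x]; ring
    obtain ⟨c, hc0, hc⟩ := exists_skew hF
    obtain ⟨k, -, hk⟩ := exists_tv hF x c hiso hc
    have hkG := tv_mem_SU hF x c hiso hc k hk
    rw [← he] at hkG
    obtain ⟨l, hl, hlk⟩ := exists_of_mem_subfieldSubgroup F₀ hfix P k hkG.1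
    have hlq : l ^ q = l := by
      obtain ⟨b, hb, hkb⟩ := hlk x₁ hx₁
      rw [hk, hx₁x, mul_zero, zero_smul, add_zero] at hkb
      have h1 : b = l⁻¹ • x₁ := by rw [hkb, smul_smul, inv_mul_cancel₀ hl, one_smul]
      have h2 := RatV.scalar hF hx₁ l⁻¹ (by rw [← h1]; exact hb) h0
      rw [inv_pow] at h2
      exact inv_injective h2
    have hx0 : x ≠ 0 := fun h => hnr 0 0 (RatV.zero hF) (by rw [h, smul_zero])
    obtain ⟨a, ha, hax⟩ := S.exists_ne x hx0
    obtain ⟨b, hb, hkb⟩ := hlk a ha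
    rw [hk] at hkb
    apply hnr (c * hermForm n F q a x)⁻¹ (l • b - a) ((hb.smul l hlq).sub hF ha)
    rw [← hkb, add_sub_cancel_left, smul_smul, inv_mul_cancel₀ (mul_ne_zero hc0 hax), one_smul]
  · intro M hM1 hM2
    by_cases hall : M ≤ Geo.subfieldSubgroup F₀ P
    · left
      exact le_antisymm (le_inf hall hM2) hM1
    · right
      apply le_antisymm hM2
      obtain ⟨g, hgM, hgn⟩ := SetLike.not_le_iff_exists.1 hall
      have hgood := S.good_of_le F₀ hfix hM1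
      obtain ⟨a, ha, hnr⟩ : ∃ a, RatV q P a ∧ ∀ (l : F) (b : Fin n → F), RatV q P b →
          (g : Matrix (Fin n) (Fin n) F) *ᵥ a ≠ l • b := by
        by_contra hcon
        push Not at hcon
        obtain ⟨l₀, hl₀, h1⟩ := uniform_scalar hF (by omega) P g hcon
        exact hgn (mem_subfieldSubgroup_of hF F₀ hfix P g l₀ hl₀ h1)
      have hgGU : g ∈ GU n F q := (hM2 hgM).1
      exact S.core hn hgood _ ((hgood a ha).conj g hgM hgGU)
        (by rw [(mem_GU_iff g).1 hgGU]; exact S.alt a ha) hnr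

end SpStr

end Cfsg.Agent.Lib.Helper15
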