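import Mathlib
import Cfsg.Agent.Lib.Helper15.Simp1

set_option autoImplicit false

namespace Cfsg.Agent.Lib.Helper15

open Module

variable {F V : Type*} [Field F] [AddCommGroup V] [Module F V]

theorem bil_exists_sep [FiniteDimensional F V] (B : LinearMap.BilinForm F V) (hB : B.Nondegenerate)
    (hr : B.IsRefl) (S : Submodule F V) (a : V) (ha : a ∉ S) : ∃ z, (∀ s ∈ S, B s z = 0) ∧ B a z = 1 := by
  have h1 := LinearMap.BilinForm.orthogonal_orthogonal hB hr S
  rw [← h1, LinearMap.BilinForm.mem_orthogonal_iff] at ha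
  push Not at ha
  obtain ⟨z, hz, hza⟩ := ha
  rw [LinearMap.BilinForm.mem_orthogonal_iff] at hz
  have hza' : B z a ≠ 0 := hza
  have haz : B a z ≠ 0 := fun h => hza' (hr _ _ h)
  refine ⟨(B a z)⁻¹ • z, fun s hs => ?_, ?_⟩
  · rw [map_smul, smul_eq_mul, show B s z = 0 from hz s hs, mul_zero]
  · rw [map_smul, smul_eq_mul, inv_mul_cancel₀ haz]

/-- a pair of complementary totally isotropic subspaces -/
structure TPair (B : LinearMap.BilinForm F V) (U U' : Submodule F V) : Prop where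
  iso : ∀ x ∈ U, ∀ y ∈ U, B x y = 0
  iso' : ∀ x ∈ U', ∀ y ∈ U', B x y = 0
  sup : U ⊔ U' = ⊤

namespace TPair

variable {B : LinearMap.BilinForm F V} {U U' : Submodule F V}

theorem symm (h : TPair B U U') : TPair B U' U := ⟨h.iso', h.iso, by rw [sup_comm]; exact h.sup⟩

theorem split (h : TPair B U U') (x : V) : ∃ a ∈ U, ∃ b ∈ U', x = a + b := by
  have : x ∈ U ⊔ U' := by rw [h.sup]; trivial
  obtain ⟨a, ha, b, hb, rfl⟩ := Submodule.mem_sup.1 this
  exact ⟨a, ha, b, hb, rfl⟩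

theorem zero_of_perp (h : TPair B U U') (hB : B.Nondegenerate) (x : V) (hx : x ∈ U)
    (hp : ∀ y ∈ U', B x y = 0) : x = 0 := by
  apply hB.1 x
  intro y
  obtain ⟨a, ha, b, hb, rfl⟩ := h.split y
  rw [map_add, h.iso x hx a ha, hp b hb, add_zero]

theorem inf_zero (h : TPair B U U') (hB : B.Nondegenerate) (x : V) (hx : x ∈ U) (hx' : x ∈ U') : x = 0 :=
  h.zero_of_perp hB x hx (fun y hy => h.iso' x hx' y hy)

theorem mem_right (h : TPair B U U') (hB : B.Nondegenerate) (hr : B.IsRefl) (x : V)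
    (hp : ∀ y ∈ U', B y x = 0) : x ∈ U' := by
  obtain ⟨a, ha, b, hb, rfl⟩ := h.split x
  have : a = 0 := h.zero_of_perp hB a ha (fun y hy => by
    have h1 := hp y hy
    rw [map_add, h.iso' y hy b hb, add_zero] at h1
    exact hr _ _ h1)
  rw [this, zero_add]; exact hb

theorem mem_left (h : TPair B U U') (hB : B.Nondegenerate) (hr : B.IsRefl) (x : V)
    (hp : ∀ y ∈ U, B y x = 0) : x ∈ U := h.symm.mem_right hB hr x hp

end TPair

/-- the choice of the second root element -/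
theorem tpair_step [FiniteDimensional F V] (B : LinearMap.BilinForm F V) (hB : B.Nondegenerate) (hr : B.IsRefl)
    {X X' : Submodule F V} (hX : TPair B X X') (hdim : 5 ≤ finrank F X) (u₁ z₁ : V) (hu₁ : u₁ ∉ X')
    (hz₁ : z₁ ∉ X' ⊔ Submodule.span F {u₁}) :
    ∃ u₂ ∈ X, ∃ z₂ ∈ X', u₂ ≠ 0 ∧ B u₂ z₂ = 0 ∧ B u₁ u₂ = 0 ∧ B u₁ z₂ = 0 ∧ B z₁ u₂ = 0 ∧ B z₁ z₂ = 1 ∧
      u₁ ∉ X' ⊔ Submodule.span F {u₂} := by
  obtain ⟨a, ha, a', ha', rfl⟩ := hX.split u₁
  obtain ⟨c, hc, c', hc', rfl⟩ := hX.split z₁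
  have ha0 : a ≠ 0 := by
    rintro rfl
    rw [zero_add] at hu₁
    exact hu₁ ha'
  have hca : c ∉ Submodule.span F {a} := by
    intro h
    obtain ⟨t, rfl⟩ := Submodule.mem_span_singleton.1 h
    apply hz₁
    have : t • a + c' = (c' - t • a') + t • (a + a') := by rw [smul_add]; abel
    rw [this]
    exact Submodule.add_mem _ (Submodule.mem_sup_left (X'.sub_mem hc' (X'.smul_mem _ ha')))
      (Submodule.mem_sup_right (Submodule.smul_mem _ _ (Submodule.mem_span_singleton_self _)))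
  set K := (X ⊓ LinearMap.ker (B a')) ⊓ LinearMap.ker (B c') with hK
  have h1 := finrank_le_inf_ker X (B a')
  have h2 : finrank F ↥(X ⊓ LinearMap.ker (B a')) ≤ finrank F K + 1 :=
    finrank_le_inf_ker (X ⊓ LinearMap.ker (B a')) (B c')
  have h3 : finrank F (Submodule.span F {a, c}) ≤ 2 := finrank_span_pair_le (F := F) a c
  obtain ⟨u₂, hu₂K, hu₂S⟩ := exists_mem_notMem_of_finrank_lt (Submodule.span F {a, c}) K (by omega)
  have hu₂X : u₂ ∈ X := hu₂K.1.1
  have ha'u₂ : B a' u₂ = 0 := hu₂K.1.2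
  have hc'u₂ : B c' u₂ = 0 := hu₂K.2
  have hu₂0 : u₂ ≠ 0 := by
    rintro rfl
    exact hu₂S (Submodule.zero_mem _)
  have hnot : c ∉ X' ⊔ Submodule.span F {u₂, a} := by
    intro h
    obtain ⟨x', hx', s, hs, hsum⟩ := Submodule.mem_sup.1 h
    obtain ⟨α, β, rfl⟩ := Submodule.mem_span_pair.1 hs
    have hx'0 : x' = 0 := by
      apply hX.inf_zero hB x' _ hx'
      have : x' = c - (α • u₂ + β • a) := by rw [← hsum]; abel
      rw [this]; exact X.sub_mem hc (X.add_mem (X.smul_mem _ hu₂X) (X.smul_mem _ ha))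
    rw [hx'0, zero_add] at hsum
    by_cases hα : α = 0
    · rw [hα, zero_smul, zero_add] at hsum
      exact hca (by rw [← hsum]; exact Submodule.smul_mem _ _ (Submodule.mem_span_singleton_self _))
    · apply hu₂S
      have : u₂ = α⁻¹ • c - (α⁻¹ * β) • a := by
        rw [← hsum, smul_add, smul_smul, smul_smul, inv_mul_cancel₀ hα, one_smul]; abel
      rw [this]
      exact Submodule.sub_mem _ (Submodule.smul_mem _ _ (Submodule.subset_span (by simp)))
        (Submodule.smul_mem _ _ (Submodule.subset_span (by simp)))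
  obtain ⟨z₂, hz₂S, hcz₂⟩ := bil_exists_sep B hB hr _ c hnot
  have hz₂X : z₂ ∈ X' := hX.mem_right hB hr z₂ (fun y hy => hz₂S y (Submodule.mem_sup_left hy))
  have hu₂z₂ : B u₂ z₂ = 0 := hz₂S u₂ (Submodule.mem_sup_right (Submodule.subset_span (by simp)))
  have haz₂ : B a z₂ = 0 := hz₂S a (Submodule.mem_sup_right (Submodule.subset_span (by simp)))
  refine ⟨u₂, hu₂X, z₂, hz₂X, hu₂0, hu₂z₂, ?_, ?_, ?_, ?_, ?_⟩
  · rw [map_add, LinearMap.add_apply, hX.iso a ha u₂ hu₂X, ha'u₂, add_zero]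
  · rw [map_add, LinearMap.add_apply, haz₂, hX.iso' a' ha' z₂ hz₂X, add_zero]
  · rw [map_add, LinearMap.add_apply, hX.iso c hc u₂ hu₂X, hc'u₂, add_zero]
  · rw [map_add, LinearMap.add_apply, hcz₂, hX.iso' c' hc' z₂ hz₂X, add_zero]
  · intro h
    obtain ⟨x', hx', s, hs, hsum⟩ := Submodule.mem_sup.1 h
    obtain ⟨t, rfl⟩ := Submodule.mem_span_singleton.1 hs
    have e1 : a - t • u₂ = 0 := by
      apply hX.inf_zero hB _ (X.sub_mem ha (X.smul_mem _ hu₂X))
      have : a - t • u₂ = x' - a' := by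
        have : a = x' + t • u₂ - a' := by rw [hsum]; abel
        rw [this]; abel
      rw [this]; exact X'.sub_mem hx' ha'
    have ht : t ≠ 0 := by
      rintro rfl
      rw [zero_smul, sub_zero] at e1
      exact ha0 e1
    apply hu₂S
    have : u₂ = t⁻¹ • a := by rw [sub_eq_zero.1 e1, smul_smul, inv_mul_cancel₀ ht, one_smul]
    rw [this]
    exact Submodule.smul_mem _ _ (Submodule.subset_span (by simp))

theorem le_or_le_of_forall_mem (Z U U' : Submodule F V) (h : ∀ x ∈ Z, x ∈ U ∨ x ∈ U') : Z ≤ U ∨ Z ≤ U' := by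
  by_contra hc
  push Not at hc
  obtain ⟨h1, h2⟩ := hc
  obtain ⟨x, hx, hxU⟩ := SetLike.not_le_iff_exists.1 h1
  obtain ⟨y, hy, hyU⟩ := SetLike.not_le_iff_exists.1 h2
  have hxU' := (h x hx).resolve_left hxU
  have hyU' := (h y hy).resolve_right hyU
  rcases h (x + y) (Z.add_mem hx hy) with h3 | h3
  · exact hxU ((U.add_mem_iff_left hyU').1 h3)
  · exact hyU ((U'.add_mem_iff_right hxU').1 h3)

/-- half of the analysis of the exceptional configurations -/
theorem tpair_geom_half [FiniteDimensional F V] (B : LinearMap.BilinForm F V) (hB : B.Nondegenerate)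
    {U U' Z Z' : Submodule F V} (hU : TPair B U U') (hdim : 4 ≤ finrank F Z')
    (h1 : ∀ u₁ ∈ Z, u₁ ∉ U' → ∀ z₁ ∈ Z', B u₁ z₁ = 0 → z₁ ∈ U' ⊔ Submodule.span F {u₁})
    (h2 : ∀ u₁ ∈ Z, u₁ ∉ U → ∀ z₁ ∈ Z', B u₁ z₁ = 0 → z₁ ∈ U ⊔ Submodule.span F {u₁}) :
    Z ≤ U ∨ Z ≤ U' := by
  apply le_or_le_of_forall_mem
  intro u₁ hu₁
  by_contra hc
  push Not at hc
  obtain ⟨hn1, hn2⟩ := hc
  obtain ⟨a, ha, a', ha', rfl⟩ := hU.split u₁
  have f1 := finrank_le_inf_ker Z' (B (a + a'))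
  have f2 : Z' ⊓ LinearMap.ker (B (a + a')) ≤ Submodule.span F {a, a'} := by
    intro z hz
    have m1 := h1 _ hu₁ hn2 z hz.1 hz.2
    have m2 := h2 _ hu₁ hn1 z hz.1 hz.2
    obtain ⟨x', hx', s, hs, hsum⟩ := Submodule.mem_sup.1 m1
    obtain ⟨α, rfl⟩ := Submodule.mem_span_singleton.1 hs
    obtain ⟨x, hx, s, hs, hsum2⟩ := Submodule.mem_sup.1 m2
    obtain ⟨β, rfl⟩ := Submodule.mem_span_singleton.1 hs
    have e1 : x' + α • a' - β • a' = 0 := by
      apply hU.inf_zero hB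
      · have : x' + α • a' - β • a' = x + β • a - α • a := by
          have h3 : x' + α • (a + a') = x + β • (a + a') := by rw [hsum, hsum2]
          rw [smul_add, smul_add] at h3
          have h4 : x' + α • a' = x + (β • a + β • a') - α • a := by rw [← h3]; abel
          rw [h4]; abel
        rw [this]
        exact U.sub_mem (U.add_mem hx (U.smul_mem _ ha)) (U.smul_mem _ ha)
      · exact U'.sub_mem (U'.add_mem hx' (U'.smul_mem _ ha')) (U'.smul_mem _ ha')
    have e2 : z = α • a + β • a' := by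
      rw [← hsum, smul_add]
      have : x' = β • a' - α • a' := by
        have := sub_eq_zero.1 e1
        rw [← this]; abel
      rw [this]; abel
    rw [e2]
    exact Submodule.add_mem _ (Submodule.smul_mem _ _ (Submodule.subset_span (by simp)))
      (Submodule.smul_mem _ _ (Submodule.subset_span (by simp)))
  have f3 := Submodule.finrank_mono f2
  have f4 : finrank F (Submodule.span F {a, a'}) ≤ 2 := finrank_span_pair_le (F := F) a a'
  omega

end Cfsg.Agent.Lib.Helper15
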