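import Mathlib
import Cfsg.Agent.Lib.Helper15.SUGen3
import Cfsg.Agent.Lib.Helper15.PairGeo

set_option autoImplicit false

namespace Cfsg.Agent.Lib.Helper15

open Module Matrix Cfsg Cfsg.Agent.Lib.Helper14

variable {F : Type*} [Field F] [Fintype F] {q n : ℕ}

/-- every linear form is given by the hermitian form -/
theorem hf_riesz (hF : Fintype.card F = q ^ 2) (φ : (Fin n → F) →ₗ[F] F) :
    ∃ z, ∀ x, hermForm n F q x z = φ x := by
  refine ⟨fun i => φ (Pi.single i 1) ^ q, fun x => ?_⟩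
  have h3 : x = ∑ i, x i • (Pi.single i 1 : Fin n → F) := by
    ext j
    simp [Finset.sum_apply, Pi.single_apply]
  conv_rhs => rw [h3, map_sum]
  unfold hermForm
  refine Finset.sum_congr rfl fun i _ => ?_
  rw [pow_q_q hF, map_smul, smul_eq_mul]

theorem hf_exists_sep (hF : Fintype.card F = q ^ 2) (S : Submodule F (Fin n → F)) (a : Fin n → F) (ha : a ∉ S) :
    ∃ z, (∀ s ∈ S, hermForm n F q s z = 0) ∧ hermForm n F q a z = 1 := by
  obtain ⟨φ, hφa, hφS⟩ := Submodule.exists_dual_map_eq_bot_of_notMem ha inferInstance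
  obtain ⟨z, hz⟩ := hf_riesz hF ((φ a)⁻¹ • φ)
  refine ⟨z, fun s hs => ?_, ?_⟩
  · rw [hz, LinearMap.smul_apply]
    have : φ s ∈ S.map φ := ⟨s, hs, rfl⟩
    rw [hφS, Submodule.mem_bot] at this
    rw [this, smul_zero]
  · rw [hz, LinearMap.smul_apply, smul_eq_mul, inv_mul_cancel₀ hφa]

/-- a pair of complementary totally isotropic subspaces -/
structure TPairU (q : ℕ) (U U' : Submodule F (Fin n → F)) : Prop where
  iso : ∀ x ∈ U, ∀ y ∈ U, hermForm n F q x y = 0
  iso' : ∀ x ∈ U', ∀ y ∈ U', hermForm n F q x y = 0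
  sup : U ⊔ U' = ⊤

namespace TPairU

variable {U U' : Submodule F (Fin n → F)}

omit [Fintype F] in
theorem symm (h : TPairU q U U') : TPairU q U' U := ⟨h.iso', h.iso, by rw [sup_comm]; exact h.sup⟩

omit [Fintype F] in
theorem split (h : TPairU q U U') (x : Fin n → F) : ∃ a ∈ U, ∃ b ∈ U', x = a + b := by
  have : x ∈ U ⊔ U' := by rw [h.sup]; trivial
  obtain ⟨a, ha, b, hb, rfl⟩ := Submodule.mem_sup.1 this
  exact ⟨a, ha, b, hb, rfl⟩

theorem zero_of_perp (h : TPairU q U U') (hF : Fintype.card F = q ^ 2) (x : Fin n → F) (hx : x ∈ U)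
    (hp : ∀ y ∈ U', hermForm n F q y x = 0) : x = 0 := by
  apply eq_zero_of_hermForm_right hF
  intro y
  obtain ⟨a, ha, b, hb, rfl⟩ := h.split y
  rw [hermForm_add_left, h.iso a ha x hx, hp b hb, add_zero]

theorem inf_zero (h : TPairU q U U') (hF : Fintype.card F = q ^ 2) (x : Fin n → F) (hx : x ∈ U) (hx' : x ∈ U') :
    x = 0 :=
  h.zero_of_perp hF x hx (fun y hy => h.iso' y hy x hx')

theorem mem_right (h : TPairU q U U') (hF : Fintype.card F = q ^ 2) (x : Fin n → F)
    (hp : ∀ y ∈ U', hermForm n F q y x = 0) : x ∈ U' := by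
  obtain ⟨a, ha, b, hb, rfl⟩ := h.split x
  have : a = 0 := h.zero_of_perp hF a ha (fun y hy => by
    have h1 := hp y hy
    rwa [hermForm_add_right hF, h.iso' y hy b hb, add_zero] at h1)
  rw [this, zero_add]; exact hb

theorem mem_left (h : TPairU q U U') (hF : Fintype.card F = q ^ 2) (x : Fin n → F)
    (hp : ∀ y ∈ U, hermForm n F q y x = 0) : x ∈ U := h.symm.mem_right hF x hp

theorem isCompl (h : TPairU q U U') (hF : Fintype.card F = q ^ 2) : IsCompl U U' := by
  refine ⟨?_, codisjoint_iff.2 h.sup⟩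
  rw [Submodule.disjoint_def]
  exact fun x hx hx' => h.inf_zero hF x hx hx'

end TPairU

/-- the choice of the second root element -/
theorem tpairU_step (hF : Fintype.card F = q ^ 2) {X X' : Submodule F (Fin n → F)} (hX : TPairU q X X')
    (hdim : 5 ≤ finrank F X) (u₁ z₁ : Fin n → F) (hu₁ : u₁ ∉ X')
    (hz₁ : z₁ ∉ X' ⊔ Submodule.span F {u₁}) :
    ∃ u₂ ∈ X, ∃ z₂ ∈ X', u₂ ≠ 0 ∧ hermForm n F q u₂ z₂ = 0 ∧ hermForm n F q u₂ u₁ = 0 ∧
      hermForm n F q u₁ z₂ = 0 ∧ hermForm n F q u₂ z₁ = 0 ∧ hermForm n F q z₁ z₂ = 1 ∧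
      u₁ ∉ X' ⊔ Submodule.span F {u₂} := by
  obtain ⟨a, ha, a', ha', rfl⟩ := hX.split u₁
  obtain ⟨c, hc, c', hc', rfl⟩ := hX.split z₁
  have ha0 : a ≠ 0 := by
    rintro rfl
    rw [zero_add] at hu₁
    exact hu₁ ha'
  have hca : c ∉ Submodule.span F {a} := by
    intro h
    obtain ⟨t, rfl⟩ := Submodule.mem_span_singleton.1 h
    apply hz₁
    have : t • a + c' = (c' - t • a') + t • (a + a') := by rw [smul_add]; abel
    rw [this]
    exact Submodule.add_mem _ (Submodule.mem_sup_left (X'.sub_mem hc' (X'.smul_mem _ ha')))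
      (Submodule.mem_sup_right (Submodule.smul_mem _ _ (Submodule.mem_span_singleton_self _)))
  set K := (X ⊓ LinearMap.ker (hermLin q a')) ⊓ LinearMap.ker (hermLin q c') with hK
  have h1 := finrank_le_inf_ker X (hermLin q a')
  have h2 : finrank F ↥(X ⊓ LinearMap.ker (hermLin q a')) ≤ finrank F K + 1 :=
    finrank_le_inf_ker (X ⊓ LinearMap.ker (hermLin q a')) (hermLin q c')
  have h3 : finrank F (Submodule.span F {a, c}) ≤ 2 := finrank_span_pair_le (F := F) a c
  obtain ⟨u₂, hu₂K, hu₂S⟩ := exists_mem_notMem_of_finrank_lt (Submodule.span F {a, c}) K (by omega)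
  have hu₂X : u₂ ∈ X := hu₂K.1.1
  have ha'u₂ : hermForm n F q u₂ a' = 0 := hu₂K.1.2
  have hc'u₂ : hermForm n F q u₂ c' = 0 := hu₂K.2
  have hu₂0 : u₂ ≠ 0 := by
    rintro rfl
    exact hu₂S (Submodule.zero_mem _)
  have hnot : c ∉ X' ⊔ Submodule.span F {u₂, a} := by
    intro h
    obtain ⟨x', hx', s, hs, hsum⟩ := Submodule.mem_sup.1 h
    obtain ⟨α, β, rfl⟩ := Submodule.mem_span_pair.1 hs
    have hx'0 : x' = 0 := by
      apply hX.inf_zero hF x' _ hx'
      have : x' = c - (α • u₂ + β • a) := by rw [← hsum]; abel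
      rw [this]; exact X.sub_mem hc (X.add_mem (X.smul_mem _ hu₂X) (X.smul_mem _ ha))
    rw [hx'0, zero_add] at hsum
    by_cases hα : α = 0
    · rw [hα, zero_smul, zero_add] at hsum
      exact hca (by rw [← hsum]; exact Submodule.smul_mem _ _ (Submodule.mem_span_singleton_self _))
    · apply hu₂S
      have : u₂ = α⁻¹ • c - (α⁻¹ * β) • a := by
        rw [← hsum, smul_add, smul_smul, smul_smul, inv_mul_cancel₀ hα, one_smul]; abel
      rw [this]
      exact Submodule.sub_mem _ (Submodule.smul_mem _ _ (Submodule.subset_span (by simp)))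
        (Submodule.smul_mem _ _ (Submodule.subset_span (by simp)))
  obtain ⟨z₂, hz₂S, hcz₂⟩ := hf_exists_sep hF _ c hnot
  have hz₂X : z₂ ∈ X' := hX.mem_right hF z₂ (fun y hy => hz₂S y (Submodule.mem_sup_left hy))
  have hu₂z₂ : hermForm n F q u₂ z₂ = 0 := hz₂S u₂ (Submodule.mem_sup_right (Submodule.subset_span (by simp)))
  have haz₂ : hermForm n F q a z₂ = 0 := hz₂S a (Submodule.mem_sup_right (Submodule.subset_span (by simp)))
  refine ⟨u₂, hu₂X, z₂, hz₂X, hu₂0, hu₂z₂, ?_, ?_, ?_, ?_, ?_⟩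
  · rw [hermForm_add_right hF, hX.iso u₂ hu₂X a ha, ha'u₂, add_zero]
  · rw [hermForm_add_left, haz₂, hX.iso' a' ha' z₂ hz₂X, add_zero]
  · rw [hermForm_add_right hF, hX.iso u₂ hu₂X c hc, hc'u₂, add_zero]
  · rw [hermForm_add_left, hcz₂, hX.iso' c' hc' z₂ hz₂X, add_zero]
  · intro h
    obtain ⟨x', hx', s, hs, hsum⟩ := Submodule.mem_sup.1 h
    obtain ⟨t, rfl⟩ := Submodule.mem_span_singleton.1 hs
    have e1 : a - t • u₂ = 0 := by
      apply hX.inf_zero hF _ (X.sub_mem ha (X.smul_mem _ hu₂X))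
      have : a - t • u₂ = x' - a' := by
        have : a = x' + t • u₂ - a' := by rw [hsum]; abel
        rw [this]; abel
      rw [this]; exact X'.sub_mem hx' ha'
    have ht : t ≠ 0 := by
      rintro rfl
      rw [zero_smul, sub_zero] at e1
      exact ha0 e1
    apply hu₂S
    have : u₂ = t⁻¹ • a := by rw [sub_eq_zero.1 e1, smul_smul, inv_mul_cancel₀ ht, one_smul]
    rw [this]
    exact Submodule.smul_mem _ _ (Submodule.subset_span (by simp))

/-- half of the analysis of the exceptional configurations -/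
theorem tpairU_geom_half (hF : Fintype.card F = q ^ 2) {U U' Z Z' : Submodule F (Fin n → F)}
    (hU : TPairU q U U') (hdim : 4 ≤ finrank F Z')
    (h1 : ∀ u₁ ∈ Z, u₁ ∉ U' → ∀ z₁ ∈ Z', hermForm n F q z₁ u₁ = 0 → z₁ ∈ U' ⊔ Submodule.span F {u₁})
    (h2 : ∀ u₁ ∈ Z, u₁ ∉ U → ∀ z₁ ∈ Z', hermForm n F q z₁ u₁ = 0 → z₁ ∈ U ⊔ Submodule.span F {u₁}) :
    Z ≤ U ∨ Z ≤ U' := by
  apply le_or_le_of_forall_mem
  intro u₁ hu₁
  by_contra hc
  push Not at hc
  obtain ⟨hn1, hn2⟩ := hc
  obtain ⟨a, ha, a', ha', rfl⟩ := hU.split u₁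
  have f1 := finrank_le_inf_ker Z' (hermLin q (a + a'))
  have f2 : Z' ⊓ LinearMap.ker (hermLin q (a + a')) ≤ Submodule.span F {a, a'} := by
    intro z hz
    have m1 := h1 _ hu₁ hn2 z hz.1 hz.2
    have m2 := h2 _ hu₁ hn1 z hz.1 hz.2
    obtain ⟨x', hx', s, hs, hsum⟩ := Submodule.mem_sup.1 m1
    obtain ⟨α, rfl⟩ := Submodule.mem_span_singleton.1 hs
    obtain ⟨x, hx, s, hs, hsum2⟩ := Submodule.mem_sup.1 m2
    obtain ⟨β, rfl⟩ := Submodule.mem_span_singleton.1 hs
    have e1 : x' + α • a' - β • a' = 0 := by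
      apply hU.inf_zero hF
      · have : x' + α • a' - β • a' = x + β • a - α • a := by
          have h3 : x' + α • (a + a') = x + β • (a + a') := by rw [hsum, hsum2]
          rw [smul_add, smul_add] at h3
          have h4 : x' + α • a' = x + (β • a + β • a') - α • a := by rw [← h3]; abel
          rw [h4]; abel
        rw [this]
        exact U.sub_mem (U.add_mem hx (U.smul_mem _ ha)) (U.smul_mem _ ha)
      · exact U'.sub_mem (U'.add_mem hx' (U'.smul_mem _ ha')) (U'.smul_mem _ ha')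
    have e2 : z = α • a + β • a' := by
      rw [← hsum, smul_add]
      have : x' = β • a' - α • a' := by
        have := sub_eq_zero.1 e1
        rw [← this]; abel
      rw [this]; abel
    rw [e2]
    exact Submodule.add_mem _ (Submodule.smul_mem _ _ (Submodule.subset_span (by simp)))
      (Submodule.smul_mem _ _ (Submodule.subset_span (by simp)))
  have f3 := Submodule.finrank_mono f2
  have f4 : finrank F (Submodule.span F {a, a'}) ≤ 2 := finrank_span_pair_le (F := F) a a'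
  omega

end Cfsg.Agent.Lib.Helper15
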