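import Mathlib
import Cfsg.Agent.Lib.Helper15.PairGeoU

set_option autoImplicit false

namespace Cfsg.Agent.Lib.Helper15

open Module Matrix Cfsg Cfsg.Agent.Lib.Helper14

variable {F : Type*} [Field F] [Fintype F] {q n : ℕ}

theorem hf_adjoint (hF : Fintype.card F = q ^ 2) (A : Matrix (Fin n) (Fin n) F) (x y : Fin n → F) :
    hermForm n F q ((A.map (fun z => z ^ q))ᵀ *ᵥ x) y = hermForm n F q x (A *ᵥ y) := by
  unfold hermForm
  simp only [Matrix.mulVec, dotProduct, Matrix.transpose_apply, Matrix.map_apply, sum_pow_q hF, mul_pow,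
    Finset.sum_mul, Finset.mul_sum]
  rw [Finset.sum_comm]
  refine Finset.sum_congr rfl fun i _ => Finset.sum_congr rfl fun j _ => ?_
  ring

/-- an isometry interchanging two complementary totally isotropic subspaces -/
theorem tpairU_exists_swap₀ (hF : Fintype.card F = q ^ 2) {U U' : Submodule F (Fin n → F)} (hU : TPairU q U U')
    (hfr : finrank F U = finrank F U') :
    ∃ s : (Fin n → F) →ₗ[F] (Fin n → F), (∀ x y, hermForm n F q (s x) (s y) = hermForm n F q x y) ∧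
      (∀ x ∈ U, s x ∈ U') ∧ (∀ x ∈ U', s x ∈ U) := by
  have hc := hU.isCompl hF
  let φ : U ≃ₗ[F] U' := LinearEquiv.ofFinrankEq U U' hfr
  let t : (Fin n → F) →ₗ[F] (Fin n → F) :=
    LinearMap.ofIsCompl hc (U'.subtype ∘ₗ φ.toLinearMap) (U.subtype ∘ₗ φ.symm.toLinearMap)
  have ht1 : ∀ x (hx : x ∈ U), t x = φ ⟨x, hx⟩ := fun x hx =>
    LinearMap.ofIsCompl_apply_left hc (⟨x, hx⟩ : U)
  have ht2 : ∀ x (hx : x ∈ U'), t x = φ.symm ⟨x, hx⟩ := fun x hx =>
    LinearMap.ofIsCompl_apply_right hc (⟨x, hx⟩ : U')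
  have ht1' : ∀ x ∈ U, t x ∈ U' := fun x hx => by rw [ht1 x hx]; exact (φ ⟨x, hx⟩).2
  have htt : ∀ x ∈ U, t (t x) = x := by
    intro x hx
    rw [ht1 x hx, ht2 _ (φ ⟨x, hx⟩).2]
    simp
  let td : (Fin n → F) →ₗ[F] (Fin n → F) := Matrix.toLin' (((LinearMap.toMatrix' t).map (fun z => z ^ q))ᵀ)
  have htd : ∀ x y, hermForm n F q (td x) y = hermForm n F q x (t y) := by
    intro x y
    show hermForm n F q (Matrix.toLin' (((LinearMap.toMatrix' t).map (fun z => z ^ q))ᵀ) x) y = _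
    rw [Matrix.toLin'_apply, hf_adjoint hF, LinearMap.toMatrix'_mulVec]
  have htd' : ∀ x ∈ U', td x ∈ U := by
    intro x hx
    apply hU.mem_left hF
    intro y hy
    apply hermForm_eq_zero_symm hF
    rw [htd]
    exact hU.iso' x hx _ (ht1' y hy)
  let s : (Fin n → F) →ₗ[F] (Fin n → F) := LinearMap.ofIsCompl hc (t ∘ₗ U.subtype) (td ∘ₗ U'.subtype)
  have hs1 : ∀ x ∈ U, s x = t x := fun x hx => LinearMap.ofIsCompl_apply_left hc (⟨x, hx⟩ : U)
  have hs2 : ∀ x ∈ U', s x = td x := fun x hx => LinearMap.ofIsCompl_apply_right hc (⟨x, hx⟩ : U')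
  refine ⟨s, ?_, fun x hx => by rw [hs1 x hx]; exact ht1' x hx, fun x hx => by rw [hs2 x hx]; exact htd' x hx⟩
  intro x y
  obtain ⟨a, ha, a', ha', rfl⟩ := hU.split x
  obtain ⟨b, hb, b', hb', rfl⟩ := hU.split y
  rw [map_add s, map_add s, hs1 a ha, hs1 b hb, hs2 a' ha', hs2 b' hb']
  simp only [hermForm_add_left, hermForm_add_right hF]
  rw [hU.iso' _ (ht1' a ha) _ (ht1' b hb), hU.iso _ (htd' a' ha') _ (htd' b' hb'), htd a' (t b), htt b hb,
    ← hermForm_swap hF (td b') (t a), htd b' (t a), htt a ha, hermForm_swap hF, hU.iso a ha b hb,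
    hU.iso' a' ha' b' hb']

/-- isometries of prescribed determinant stabilising both members of the pair -/
theorem tpairU_exists_det (hF : Fintype.card F = q ^ 2) {U U' : Submodule F (Fin n → F)} (hU : TPairU q U U')
    (hne : U ≠ ⊥) (l : F) (hl : l ^ (q + 1) = 1) :
    ∃ d : GL (Fin n) F, d ∈ GU n F q ∧ (d : Matrix (Fin n) (Fin n) F).det = l ∧
      (∀ x ∈ U, (d : Matrix (Fin n) (Fin n) F) *ᵥ x ∈ U) ∧ (∀ x ∈ U', (d : Matrix (Fin n) (Fin n) F) *ᵥ x ∈ U') := by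
  obtain ⟨w, hwU, hw0⟩ := Submodule.exists_mem_ne_zero_of_ne_bot hne
  obtain ⟨y₀, hy₀, hy₀w⟩ : ∃ y ∈ U', hermForm n F q y w ≠ 0 := by
    by_contra hc
    push Not at hc
    exact hw0 (hU.zero_of_perp hF w hwU hc)
  set y := (hermForm n F q y₀ w)⁻¹ • y₀ with hy
  have hyU : y ∈ U' := U'.smul_mem _ hy₀
  have hyw : hermForm n F q y w = 1 := by rw [hy, hermForm_smul_left, inv_mul_cancel₀ hy₀w]
  have hwy : hermForm n F q w y = 1 := by rw [← hermForm_swap hF, hyw, one_pow]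
  have hww := hU.iso w hwU w hwU
  have hyy := hU.iso' y hyU y hyU
  obtain ⟨μ, hμ0, hμ⟩ := exists_hilbert90 hF l hl
  have hμq : μ ^ q ≠ 0 := pow_ne_zero _ hμ0
  have hab : (1 + (μ - 1) ^ q) * (1 + ((μ ^ q)⁻¹ - 1)) = 1 := by
    rw [sub_pow_q hF, one_pow]
    field_simp
    ring
  refine ⟨(guMk hF (r1 q (μ - 1) w y * r1 q ((μ ^ q)⁻¹ - 1) y w) (hyp_preserves hF w y hww hyy hyw _ _ hab)).1,
    (guMk hF _ _).2, ?_, ?_, ?_⟩
  · change (r1 q (μ - 1) w y * r1 q ((μ ^ q)⁻¹ - 1) y w).det = l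
    rw [Matrix.det_mul, r1_det, r1_det, hwy, hyw]
    field_simp
    linear_combination hμ
  · intro x hx
    change (r1 q (μ - 1) w y * r1 q ((μ ^ q)⁻¹ - 1) y w) *ᵥ x ∈ U
    rw [← Matrix.mulVec_mulVec, r1_mulVec, r1_mulVec, hU.iso x hx w hwU, mul_zero, zero_smul, add_zero]
    exact U.add_mem hx (U.smul_mem _ hwU)
  · intro x hx
    change (r1 q (μ - 1) w y * r1 q ((μ ^ q)⁻¹ - 1) y w) *ᵥ x ∈ U'
    rw [← Matrix.mulVec_mulVec, r1_mulVec, r1_mulVec, hermForm_add_left, hermForm_smul_left, hyy,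
      hU.iso' x hx y hyU, mul_zero, add_zero, mul_zero, zero_smul, add_zero]
    exact U'.add_mem hx (U'.smul_mem _ hyU)

/-- an element of the special unitary group interchanging the members of the pair -/
theorem tpairU_exists_swap (hF : Fintype.card F = q ^ 2) {U U' : Submodule F (Fin n → F)} (hU : TPairU q U U')
    (hfr : finrank F U = finrank F U') (hne : U ≠ ⊥) :
    ∃ s : GL (Fin n) F, s ∈ GU n F q ⊓ Geo.specialLinear (Fin n) F ∧
      (∀ x ∈ U, (s : Matrix (Fin n) (Fin n) F) *ᵥ x ∈ U') ∧ (∀ x ∈ U', (s : Matrix (Fin n) (Fin n) F) *ᵥ x ∈ U) := by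
  obtain ⟨s₀, hs₀, h01, h10⟩ := tpairU_exists_swap₀ hF hU hfr
  have hA : ∀ u v, hermForm n F q (LinearMap.toMatrix' s₀ *ᵥ u) (LinearMap.toMatrix' s₀ *ᵥ v) =
      hermForm n F q u v := by
    intro u v
    rw [LinearMap.toMatrix'_mulVec, LinearMap.toMatrix'_mulVec]
    exact hs₀ u v
  have hδ := det_pow_eq_one hF _ hA
  obtain ⟨d, hdGU, hdet, hd0, hd1⟩ := tpairU_exists_det hF hU hne (LinearMap.toMatrix' s₀).det⁻¹
    (by rw [inv_pow, hδ, inv_one])
  have hδ0 : (LinearMap.toMatrix' s₀).det ≠ 0 := det_ne_zero_of_preserves hF _ hA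
  refine ⟨d * (guMk hF _ hA).1, ⟨(GU n F q).mul_mem hdGU (guMk hF _ hA).2, ?_⟩, ?_, ?_⟩
  · apply (mem_specialLinear_iff' _).2
    rw [Units.val_mul, Matrix.det_mul, hdet]
    change (LinearMap.toMatrix' s₀).det⁻¹ * (LinearMap.toMatrix' s₀).det = 1
    exact inv_mul_cancel₀ hδ0
  · intro x hx
    rw [Units.val_mul, ← Matrix.mulVec_mulVec]
    apply hd1
    change LinearMap.toMatrix' s₀ *ᵥ x ∈ U'
    rw [LinearMap.toMatrix'_mulVec]
    exact h01 x hx
  · intro x hx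
    rw [Units.val_mul, ← Matrix.mulVec_mulVec]
    apply hd0
    change LinearMap.toMatrix' s₀ *ᵥ x ∈ U
    rw [LinearMap.toMatrix'_mulVec]
    exact h10 x hx

end Cfsg.Agent.Lib.Helper15
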