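import Mathlib
import Cfsg.Agent.Lib.Helper15.SUGen3

set_option autoImplicit false

namespace Cfsg.Agent.Lib.Helper15

open Module Matrix Cfsg Cfsg.Agent.Lib.Helper14

variable {F : Type*} [Field F] [Fintype F] {q n : ℕ}

/-- a non-zero subspace admitting an orthogonal projection represents every scalar of the fixed field -/
theorem exists_norm_of_proj (hF : Fintype.card F = q ^ 2) (K : Submodule F (Fin n → F))
    (π : (Fin n → F) → (Fin n → F)) (hπK : ∀ z, π z ∈ K)
    (hπ : ∀ z, ∀ y ∈ K, hermForm n F q (π z) y = hermForm n F q z y) (hK : K ≠ ⊥)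
    (c : F) (hc : c ^ q = c) : ∃ x ∈ K, hermForm n F q x x = c := by
  obtain ⟨y₀, hy₀, hy₀0⟩ := Submodule.exists_mem_ne_zero_of_ne_bot hK
  obtain ⟨z, hz⟩ : ∃ z, hermForm n F q z y₀ ≠ 0 := by
    by_contra hcon
    push Not at hcon
    exact hy₀0 (eq_zero_of_hermForm_right hF y₀ hcon)
  obtain ⟨y, hy, hyy⟩ : ∃ y ∈ K, hermForm n F q y y ≠ 0 := by
    by_contra hcon
    push Not at hcon
    apply hz
    rw [← hπ z y₀ hy₀]
    exact hf_polarize hF K hcon _ (hπK z) _ hy₀
  obtain ⟨l, hl⟩ := exists_norm_eq hF (c / hermForm n F q y y) (by rw [div_pow, hc, hermForm_self_pow hF])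
  refine ⟨l • y, K.smul_mem _ hy, ?_⟩
  rw [hermForm_smul_left, hermForm_smul_right]
  rw [pow_succ] at hl
  field_simp at hl
  linear_combination hl

/-- vectors of prescribed norm orthogonal to two orthogonal anisotropic vectors -/
theorem exists_norm_perp_two (hF : Fintype.card F = q ^ 2) (hn : 3 ≤ n) (v w : Fin n → F)
    (hv : hermForm n F q v v ≠ 0) (hw : hermForm n F q w w ≠ 0) (hvw : hermForm n F q v w = 0)
    (c : F) (hc : c ^ q = c) :
    ∃ x, hermForm n F q x v = 0 ∧ hermForm n F q x w = 0 ∧ hermForm n F q x x = c := by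
  have hwv := hermForm_eq_zero_symm hF _ _ hvw
  have h1 := finrank_le_inf_ker (⊤ : Submodule F (Fin n → F)) (hermLin q v)
  have h2 := finrank_le_inf_ker (⊤ ⊓ LinearMap.ker (hermLin q v)) (hermLin q w)
  rw [finrank_top, finrank_fintype_fun_eq_card, Fintype.card_fin] at h1
  obtain ⟨x, hx, hxx⟩ := exists_norm_of_proj hF ((⊤ ⊓ LinearMap.ker (hermLin q v)) ⊓ LinearMap.ker (hermLin q w))
    (fun z => z - (hermForm n F q z v / hermForm n F q v v) • v - (hermForm n F q z w / hermForm n F q w w) • w)
    (fun z => by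
      refine ⟨⟨trivial, ?_⟩, ?_⟩
      · show hermForm n F q _ v = 0
        rw [hermForm_sub_left, hermForm_sub_left, hermForm_smul_left, hermForm_smul_left, hwv]
        field_simp
        ring
      · show hermForm n F q _ w = 0
        rw [hermForm_sub_left, hermForm_sub_left, hermForm_smul_left, hermForm_smul_left, hvw]
        field_simp
        ring)
    (fun z y hy => by
      have hyv : hermForm n F q y v = 0 := LinearMap.mem_ker.1 hy.1.2
      have hyw : hermForm n F q y w = 0 := LinearMap.mem_ker.1 hy.2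
      rw [hermForm_sub_left, hermForm_sub_left, hermForm_smul_left, hermForm_smul_left,
        hermForm_eq_zero_symm hF _ _ hyv, hermForm_eq_zero_symm hF _ _ hyw]
      ring)
    (by
      intro h0
      rw [h0, finrank_bot] at h2
      omega) c hc
  exact ⟨x, LinearMap.mem_ker.1 hx.1.2, LinearMap.mem_ker.1 hx.2, hxx⟩

/-- vectors of prescribed norm orthogonal to an anisotropic vector -/
theorem exists_norm_perp_one (hF : Fintype.card F = q ^ 2) (hn : 2 ≤ n) (v : Fin n → F)
    (hv : hermForm n F q v v ≠ 0) (c : F) (hc : c ^ q = c) :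
    ∃ x, hermForm n F q x v = 0 ∧ hermForm n F q x x = c := by
  have h1 := finrank_le_inf_ker (⊤ : Submodule F (Fin n → F)) (hermLin q v)
  rw [finrank_top, finrank_fintype_fun_eq_card, Fintype.card_fin] at h1
  obtain ⟨x, hx, hxx⟩ := exists_norm_of_proj hF (⊤ ⊓ LinearMap.ker (hermLin q v))
    (fun z => z - (hermForm n F q z v / hermForm n F q v v) • v)
    (fun z => by
      refine ⟨trivial, ?_⟩
      show hermForm n F q _ v = 0
      rw [hermForm_sub_left, hermForm_smul_left]
      field_simp
      ring)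
    (fun z y hy => by
      have hyv : hermForm n F q y v = 0 := LinearMap.mem_ker.1 hy.2
      rw [hermForm_sub_left, hermForm_smul_left, hermForm_eq_zero_symm hF _ _ hyv]
      ring)
    (by
      intro h0
      rw [h0, finrank_bot] at h1
      omega) c hc
  exact ⟨x, LinearMap.mem_ker.1 hx.2, hxx⟩

/-- vectors of prescribed norm orthogonal to an anisotropic vector and to a hyperbolic pair -/
theorem exists_norm_perp_three (hF : Fintype.card F = q ^ 2) (hn : 4 ≤ n) (v u w : Fin n → F)
    (hv : hermForm n F q v v = 1) (hu : hermForm n F q u u = 0) (huv : hermForm n F q u v = 0)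
    (hwv : hermForm n F q w v = 0) (hwu : hermForm n F q w u = 1) (c : F) (hc : c ^ q = c) :
    ∃ x, hermForm n F q x v = 0 ∧ hermForm n F q x u = 0 ∧ hermForm n F q x x = c := by
  have hvu := hermForm_eq_zero_symm hF _ _ huv
  have hvw := hermForm_eq_zero_symm hF _ _ hwv
  have huw : hermForm n F q u w = 1 := by rw [← hermForm_swap hF, hwu, one_pow]
  have h1 := finrank_le_inf_ker (⊤ : Submodule F (Fin n → F)) (hermLin q v)
  have h2 := finrank_le_inf_ker (⊤ ⊓ LinearMap.ker (hermLin q v)) (hermLin q u)
  have h3 := finrank_le_inf_ker ((⊤ ⊓ LinearMap.ker (hermLin q v)) ⊓ LinearMap.ker (hermLin q u)) (hermLin q w)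
  rw [finrank_top, finrank_fintype_fun_eq_card, Fintype.card_fin] at h1
  obtain ⟨x, hx, hxx⟩ := exists_norm_of_proj hF
    (((⊤ ⊓ LinearMap.ker (hermLin q v)) ⊓ LinearMap.ker (hermLin q u)) ⊓ LinearMap.ker (hermLin q w))
    (fun z => z - hermForm n F q z v • v -
      (hermForm n F q z w - hermForm n F q z u * hermForm n F q w w) • u - hermForm n F q z u • w)
    (fun z => by
      refine ⟨⟨⟨trivial, ?_⟩, ?_⟩, ?_⟩
      · show hermForm n F q _ v = 0
        simp only [hermForm_sub_left, hermForm_smul_left, hv, huv, hwv]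
        ring
      · show hermForm n F q _ u = 0
        simp only [hermForm_sub_left, hermForm_smul_left, hvu, hu, hwu]
        ring
      · show hermForm n F q _ w = 0
        simp only [hermForm_sub_left, hermForm_smul_left, hvw, huw]
        ring)
    (fun z y hy => by
      have hyv : hermForm n F q y v = 0 := LinearMap.mem_ker.1 hy.1.1.2
      have hyu : hermForm n F q y u = 0 := LinearMap.mem_ker.1 hy.1.2
      have hyw : hermForm n F q y w = 0 := LinearMap.mem_ker.1 hy.2
      simp only [hermForm_sub_left, hermForm_smul_left, hermForm_eq_zero_symm hF _ _ hyv,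
        hermForm_eq_zero_symm hF _ _ hyu, hermForm_eq_zero_symm hF _ _ hyw]
      ring)
    (by
      intro h0
      rw [h0, finrank_bot] at h3
      omega) c hc
  exact ⟨x, LinearMap.mem_ker.1 hx.1.1.2, LinearMap.mem_ker.1 hx.1.2, hxx⟩

/-- a non-zero element of trace zero different from `-1` -/
theorem exists_skew_ne (hF : Fintype.card F = q ^ 2) (hq : q ≠ 2) :
    ∃ θ : F, θ ≠ 0 ∧ θ + θ ^ q = 0 ∧ 1 + θ ≠ 0 := by
  classical
  obtain ⟨ζ, hζ0, hζ⟩ := exists_skew hF
  by_cases h1 : 1 + ζ = 0
  · have hζ1 : ζ = -1 := by linear_combination h1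
    have h2 : (2 : F) = 0 := by
      rw [hζ1, neg_pow_q hF, one_pow] at hζ
      linear_combination -hζ
    obtain ⟨x, hx0, hx1⟩ : ∃ x : F, x ≠ 0 ∧ x ^ (q + 1) ≠ 1 := by
      by_contra hcon
      push Not at hcon
      obtain ⟨g, hg⟩ := IsCyclic.exists_generator (α := Fˣ)
      have ho : orderOf g = Fintype.card Fˣ := by
        rw [← Nat.card_eq_fintype_card]
        exact orderOf_eq_card_of_forall_mem_zpowers hg
      rw [Fintype.card_units, hF] at ho
      have h3 : g ^ (q + 1) = 1 := by
        apply Units.ext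
        rw [Units.val_pow_eq_pow_val, Units.val_one]
        exact hcon _ g.ne_zero
      have h4 := orderOf_dvd_of_pow_eq_one h3
      rw [ho] at h4
      have h5 := Nat.le_of_dvd (by omega) h4
      have hq0 := q_ne_zero hF
      have hq1 : q ≠ 1 := by
        rintro rfl
        have := Fintype.one_lt_card (α := F)
        omega
      have hq3 : 3 ≤ q := by omega
      have h6 : 3 * q ≤ q ^ 2 := by nlinarith
      omega
    refine ⟨x ^ (q + 1), pow_ne_zero _ hx0, ?_, ?_⟩
    · have : (x ^ (q + 1)) ^ q = x ^ (q + 1) := by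
        rw [pow_succ, mul_pow, pow_q_q hF, mul_comm]
      rw [this]
      linear_combination (x ^ (q + 1)) * h2
    · intro h
      apply hx1
      linear_combination h - h2
  · exact ⟨ζ, hζ0, hζ, h1⟩

end Cfsg.Agent.Lib.Helper15
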