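import Mathlib
import Cfsg.Agent.Lib.Helper15.SUSmall1

set_option autoImplicit false

namespace Cfsg.Agent.Lib.Helper15

open Module Matrix Cfsg Cfsg.Agent.Lib.Helper14

variable {F : Type*} [Field F] [Fintype F] {q n : ℕ}

theorem tv_map_of_perp' (hF : Fintype.card F = q ^ 2) (hn : 3 ≤ n) (v v' : Fin n → F)
    (hv : hermForm n F q v v = 1) (hv' : hermForm n F q v' v' = 1) (hvv' : hermForm n F q v v' = 0) :
    ∃ s ∈ tvSubU n F q, (s : Matrix (Fin n) (Fin n) F) *ᵥ v = v' := by
  obtain ⟨ζ, hζ0, hζ⟩ := exists_skew hF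
  have hv'v := hermForm_eq_zero_symm hF _ _ hvv'
  obtain ⟨y, hyv, hyv', hyy⟩ := exists_norm_perp_two hF hn v v' (by rw [hv]; exact one_ne_zero)
    (by rw [hv']; exact one_ne_zero) hvv' (1 - 2 * ((1 + ζ) * (1 + ζ ^ q))) (by
      simp only [sub_pow_q hF, mul_pow, add_pow_q hF, pow_q_q hF, one_pow]
      have : (2 : F) ^ q = 2 := by
        have : (2 : F) = 1 + 1 := by norm_num
        rw [this, add_pow_q hF, one_pow]
      rw [this]
      ring)
  have hvy := hermForm_eq_zero_symm hF _ _ hyv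
  have hv'y := hermForm_eq_zero_symm hF _ _ hyv'
  set x := (1 + ζ) • v + (1 + ζ) • v' + y with hx
  have hxv : hermForm n F q x v = 1 + ζ := by
    simp only [hx, hermForm_add_left, hermForm_smul_left, hv, hv'v, hyv]
    ring
  have hxv' : hermForm n F q x v' = 1 + ζ := by
    simp only [hx, hermForm_add_left, hermForm_smul_left, hv', hvv', hyv']
    ring
  have hxx : hermForm n F q x x = 1 := by
    simp only [hx, hermForm_add_left, hermForm_add_right hF, hermForm_smul_left, hermForm_smul_right, hv, hv',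
      hvv', hv'v, hyv, hyv', hvy, hv'y, hyy, add_pow_q hF, one_pow]
    ring
  have hvx : hermForm n F q v x = 1 + ζ ^ q := by
    rw [← hermForm_swap hF, hxv, add_pow_q hF, one_pow]
  obtain ⟨k₁, hk₁, hk₁v⟩ := exists_one_step_tv hF v x (by rw [hv, hxx])
    (by rw [hf_sub_right hF, hv, hvx]; simpa using pow_ne_zero q hζ0)
    (by rw [hf_sub_right hF, hv, hvx, sub_pow_q hF, add_pow_q hF, pow_q_q hF, one_pow]; linear_combination -hζ)
  obtain ⟨k₂, hk₂, hk₂v⟩ := exists_one_step_tv hF x v' (by rw [hv', hxx])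
    (by rw [hf_sub_right hF, hxx, hxv']; simpa using hζ0)
    (by rw [hf_sub_right hF, hxx, hxv', sub_pow_q hF, add_pow_q hF, one_pow]; linear_combination -hζ)
  refine ⟨k₂ * k₁, Subgroup.mul_mem _ (Subgroup.subset_closure hk₂) (Subgroup.subset_closure hk₁), ?_⟩
  rw [Units.val_mul, ← Matrix.mulVec_mulVec, hk₁v, hk₂v]

/-- the transvection group is transitive on the vectors of norm one -/
theorem tv_transitive_norm_one' (hF : Fintype.card F = q ^ 2) (hn : 3 ≤ n) (h32 : ¬ (n = 3 ∧ q = 2))
    (v v' : Fin n → F) (hv : hermForm n F q v v = 1) (hv' : hermForm n F q v' v' = 1) :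
    ∃ s ∈ tvSubU n F q, (s : Matrix (Fin n) (Fin n) F) *ᵥ v = v' := by
  -- it suffices to find a common orthogonal vector of norm one
  have key : ∀ x, hermForm n F q x x = 1 → hermForm n F q x v = 0 → hermForm n F q x v' = 0 →
      ∃ s ∈ tvSubU n F q, (s : Matrix (Fin n) (Fin n) F) *ᵥ v = v' := by
    intro x hxx hxv hxv'
    obtain ⟨s₁, hs₁, hs₁v⟩ := tv_map_of_perp' hF hn v x hv hxx (hermForm_eq_zero_symm hF _ _ hxv)
    obtain ⟨s₂, hs₂, hs₂v⟩ := tv_map_of_perp' hF hn x v' hxx hv' hxv'
    refine ⟨s₂ * s₁, Subgroup.mul_mem _ hs₂ hs₁, ?_⟩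
    rw [Units.val_mul, ← Matrix.mulVec_mulVec, hs₁v, hs₂v]
  set β := hermForm n F q v' v with hβ
  set u := v' - β • v with hu
  have hv'u : v' = β • v + u := by rw [hu]; abel
  have huv : hermForm n F q u v = 0 := by
    rw [hu, hermForm_sub_left, hermForm_smul_left, hv, ← hβ]; ring
  have hvu := hermForm_eq_zero_symm hF _ _ huv
  have hv1 : hermForm n F q v v ≠ 0 := by rw [hv]; exact one_ne_zero
  by_cases hu0 : u = 0
  · obtain ⟨x, hxv, hxx⟩ := exists_norm_perp_one hF (by omega) v hv1 1 (one_pow q)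
    refine key x hxx hxv ?_
    rw [hv'u, hu0, add_zero, hermForm_smul_right, hxv, mul_zero]
  by_cases huu : hermForm n F q u u = 0
  · obtain ⟨w₀, hw₀u, -⟩ := exists_hyperbolic_partner hF u hu0 huu
    set w := w₀ - hermForm n F q w₀ v • v with hw
    have hwv : hermForm n F q w v = 0 := by
      rw [hw, hermForm_sub_left, hermForm_smul_left, hv]; ring
    have hwu : hermForm n F q w u = 1 := by
      rw [hw, hermForm_sub_left, hermForm_smul_left, hvu, hw₀u]; ring
    have huw : hermForm n F q u w = 1 := by rw [← hermForm_swap hF, hwu, one_pow]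
    by_cases hq : q = 2
    · obtain ⟨x, hxv, hxu, hxx⟩ := exists_norm_perp_three hF (by
        by_contra h; exact h32 ⟨by omega, hq⟩) v u w hv huu huv hwv hwu 1 (one_pow q)
      refine key x hxx hxv ?_
      rw [hv'u, hermForm_add_right hF, hermForm_smul_right, hxv, hxu]; ring
    · obtain ⟨θ, hθ0, hθ, hθ1⟩ := exists_skew_ne hF hq
      obtain ⟨a, ha⟩ := exists_trace_eq hF (1 + θ) hθ1
        (1 - (1 + θ) * (1 + θ) ^ q * hermForm n F q w w) (by
          rw [sub_pow_q hF, mul_pow, mul_pow, pow_q_q hF, hermForm_self_pow hF, one_pow]; ring)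
      set x := a • u + (1 + θ) • w with hx
      have hxv : hermForm n F q x v = 0 := by
        rw [hx, hermForm_add_left, hermForm_smul_left, hermForm_smul_left, huv, hwv]; ring
      have hxu : hermForm n F q x u = 1 + θ := by
        rw [hx, hermForm_add_left, hermForm_smul_left, hermForm_smul_left, huu, hwu]; ring
      have hxx : hermForm n F q x x = 1 := by
        simp only [hx, hermForm_add_left, hermForm_add_right hF, hermForm_smul_left, hermForm_smul_right, huu,
          hwu, huw]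
        linear_combination ha
      have hxv' : hermForm n F q x v' = 1 + θ := by
        rw [hv'u, hermForm_add_right hF, hermForm_smul_right, hxv, hxu]; ring
      obtain ⟨s₁, hs₁, hs₁v⟩ := tv_map_of_perp' hF hn v x hv hxx (hermForm_eq_zero_symm hF _ _ hxv)
      obtain ⟨k₂, hk₂, hk₂v⟩ := exists_one_step_tv hF x v' (by rw [hv', hxx])
        (by rw [hf_sub_right hF, hxx, hxv']; simpa using hθ0)
        (by rw [hf_sub_right hF, hxx, hxv', sub_pow_q hF, add_pow_q hF, one_pow]; linear_combination -hθ)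
      refine ⟨k₂ * s₁, Subgroup.mul_mem _ (Subgroup.subset_closure hk₂) hs₁, ?_⟩
      rw [Units.val_mul, ← Matrix.mulVec_mulVec, hs₁v, hk₂v]
  · obtain ⟨x, hxv, hxu, hxx⟩ := exists_norm_perp_two hF hn v u hv1 huu hvu 1 (one_pow q)
    refine key x hxx hxv ?_
    rw [hv'u, hermForm_add_right hF, hermForm_smul_right, hxv, hxu]; ring

end Cfsg.Agent.Lib.Helper15
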