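import Mathlib
import Cfsg.Agent.Lib.Helper15.SUSmall2
import Cfsg.Agent.Lib.Helper14.SUComm

set_option autoImplicit false

namespace Cfsg.Agent.Lib.Helper15

open Module Matrix Cfsg Cfsg.Agent.Lib.Helper14

variable {F : Type*} [Field F] [Fintype F] {q n : ℕ}

/-- every isometry is the product of an element of a fixed one-parameter group and of transvections -/
theorem GU_decomp' (hF : Fintype.card F = q ^ 2) (hn : 3 ≤ n) (h32 : ¬ (n = 3 ∧ q = 2)) (i₀ : Fin n) (g : GL (Fin n) F) (hg : g ∈ GU n F q) :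
    ∃ ρ t : GL (Fin n) F, InDU q i₀ ρ ∧ t ∈ tvSubU n F q ∧ g = ρ * t := by
  have hg' := GU_le_simple hF hg
  induction hg' using Subgroup.closure_induction with
  | mem k hk =>
    have hkGU := IsSimpleU.mem_GU hF hk
    obtain ⟨d, e, h1, h2⟩ := hk
    by_cases hd : hermForm n F q d d = 0
    · refine ⟨1, k, ⟨(GU n F q).one_mem, fun j _ => by rw [Units.val_one, Matrix.one_mulVec]⟩, Subgroup.subset_closure ⟨d, e, hd, ?_, h2⟩, by simp⟩
      rw [hd, mul_zero, add_zero] at h1
      exact h1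
    · obtain ⟨l, hl⟩ := exists_norm_eq hF (hermForm n F q d d)⁻¹ (by rw [inv_pow, hermForm_self_pow hF])
      obtain ⟨s, hs, hsv⟩ := tv_transitive_norm_one' hF hn h32 (Pi.single i₀ 1) (l • d)
        (by rw [hf_single_single hF]; simp) (by
          rw [hermForm_smul_left, hermForm_smul_right]
          rw [pow_succ] at hl
          field_simp at hl
          linear_combination hl)
      have hsGU := tvSubU_le_GU hF hs
      have hρ : InDU q i₀ (s⁻¹ * k * s) := by
        refine ⟨(GU n F q).mul_mem ((GU n F q).mul_mem ((GU n F q).inv_mem hsGU) hkGU) hsGU, fun j hj => ?_⟩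
        rw [Units.val_mul, Units.val_mul, ← Matrix.mulVec_mulVec, ← Matrix.mulVec_mulVec, h2]
        have h3 : hermForm n F q ((s : Matrix (Fin n) (Fin n) F) *ᵥ (Pi.single j 1)) (l • d) = 0 := by
          rw [← hsv, (mem_GU_iff s).1 hsGU, hf_single_single hF, if_neg hj]
        rw [hermForm_smul_right] at h3
        have hl0 : l ^ q ≠ 0 := by
          apply pow_ne_zero
          rintro rfl
          rw [zero_pow (Nat.succ_ne_zero q)] at hl
          exact inv_ne_zero hd hl.symm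
        rw [(mul_eq_zero.1 h3).resolve_left hl0, mul_zero, zero_smul, add_zero, gl_inv_mulVec]
      refine ⟨s⁻¹ * k * s, (s⁻¹ * k * s)⁻¹ * s * (s⁻¹ * k * s) * s⁻¹, hρ, ?_, by group⟩
      apply Subgroup.mul_mem _ _ (Subgroup.inv_mem _ hs)
      have := tvSubU_conj (s⁻¹ * k * s)⁻¹ hρ.inv.1 s hs
      rwa [inv_inv] at this
  | one => exact ⟨1, 1, ⟨(GU n F q).one_mem, fun j _ => by rw [Units.val_one, Matrix.one_mulVec]⟩, Subgroup.one_mem _, by simp⟩
  | mul x y hx hy ihx ihy =>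
    have hle : Subgroup.closure {k : GL (Fin n) F | IsSimpleU q k} ≤ GU n F q := by
      rw [Subgroup.closure_le]
      exact fun k hk => IsSimpleU.mem_GU hF hk
    obtain ⟨ρ₁, t₁, h1, h2, rfl⟩ := ihx (hle hx)
    obtain ⟨ρ₂, t₂, h3, h4, rfl⟩ := ihy (hle hy)
    refine ⟨ρ₁ * ρ₂, (ρ₂⁻¹ * t₁ * ρ₂) * t₂, h1.mul h3, Subgroup.mul_mem _ ?_ h4, by group⟩
    have := tvSubU_conj ρ₂⁻¹ h3.inv.1 t₁ h2
    rwa [inv_inv] at this
  | inv x hx ihx =>
    have hle : Subgroup.closure {k : GL (Fin n) F | IsSimpleU q k} ≤ GU n F q := by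
      rw [Subgroup.closure_le]
      exact fun k hk => IsSimpleU.mem_GU hF hk
    obtain ⟨ρ₁, t₁, h1, h2, rfl⟩ := ihx (hle hx)
    exact ⟨ρ₁⁻¹, ρ₁ * t₁⁻¹ * ρ₁⁻¹, h1.inv, tvSubU_conj ρ₁ h1.1 _ (Subgroup.inv_mem _ h2), by group⟩

/-- the special unitary group is generated by the unitary transvections -/
theorem SU_le_tvSubU' (hF : Fintype.card F = q ^ 2) (hn : 3 ≤ n) (h32 : ¬ (n = 3 ∧ q = 2)) :
    GU n F q ⊓ Geo.specialLinear (Fin n) F ≤ tvSubU n F q := by
  rintro g ⟨hg, hdet⟩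
  obtain ⟨ρ, t, h1, h2, rfl⟩ := GU_decomp' hF hn h32 ⟨0, by omega⟩ g hg
  have h3 := (mem_specialLinear_iff' _).1 hdet
  have h4 := (mem_specialLinear_iff' _).1 (tvSubU_le_SL h2)
  rw [Units.val_mul, Matrix.det_mul, h4, mul_one] at h3
  rw [h1.eq_one hF h3, one_mul]
  exact h2

/-- the embedding of the special unitary group in the general linear group -/
noncomputable def suToGL (n : ℕ) (F : Type*) [Field F] (q : ℕ) : ↥(SU n F q) →* GL (Fin n) F :=
  (Matrix.SpecialLinearGroup.toGL).comp (SU n F q).subtype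

omit [Fintype F] in
theorem suToGL_val (A : ↥(SU n F q)) :
    ((suToGL n F q A : GL (Fin n) F) : Matrix (Fin n) (Fin n) F) =
      ((A : Matrix.SpecialLinearGroup (Fin n) F) : Matrix (Fin n) (Fin n) F) := rfl

omit [Fintype F] in
theorem suToGL_injective : Function.Injective (suToGL n F q) := by
  intro A B h
  apply Subtype.ext
  apply Subtype.ext
  have := congrArg (fun g : GL (Fin n) F => (g : Matrix (Fin n) (Fin n) F)) h
  exact this

theorem suToGL_mem (A : ↥(SU n F q)) : suToGL n F q A ∈ GU n F q ⊓ Geo.specialLinear (Fin n) F :=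
  ⟨A.2, (mem_specialLinear_iff' _).2 A.1.2⟩

theorem exists_suToGL (g : GL (Fin n) F) (hg : g ∈ GU n F q ⊓ Geo.specialLinear (Fin n) F) :
    ∃ A : ↥(SU n F q), suToGL n F q A = g :=
  ⟨⟨⟨g, (mem_specialLinear_iff' _).1 hg.2⟩, hg.1⟩, Units.ext rfl⟩

/-- the special unitary group is generated by the unitary transvections -/
theorem su_closure_transvections (hF : Fintype.card F = q ^ 2) (hn : 3 ≤ n) (h32 : ¬ (n = 3 ∧ q = 2)) :
    Subgroup.closure {A : ↥(SU n F q) | ∃ (v : Fin n → F) (c : F), hermForm n F q v v = 0 ∧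
      ((A : Matrix.SpecialLinearGroup (Fin n) F) : Matrix (Fin n) (Fin n) F) = unitaryTransvection n q v c} = ⊤ := by
  set S := {A : ↥(SU n F q) | ∃ (v : Fin n → F) (c : F), hermForm n F q v v = 0 ∧
      ((A : Matrix.SpecialLinearGroup (Fin n) F) : Matrix (Fin n) (Fin n) F) = unitaryTransvection n q v c} with hS
  have h1 : tvSubU n F q ≤ (Subgroup.closure S).map (suToGL n F q) := by
    unfold tvSubU
    rw [Subgroup.closure_le]
    intro k hk
    have hk' : k ∈ GU n F q ⊓ Geo.specialLinear (Fin n) F :=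
      ⟨(IsTvU.isSimple hk).mem_GU hF, (mem_specialLinear_iff' k).2 (IsTvU.det hk)⟩
    obtain ⟨A, hA⟩ := exists_suToGL k hk'
    obtain ⟨a, c, h1, h2, h3⟩ := hk
    refine ⟨A, Subgroup.subset_closure ⟨a, c, h1, ?_⟩, hA⟩
    rw [← suToGL_val, hA, unitaryTransvection_eq_r1]
    apply Matrix.toLin'.injective
    apply LinearMap.ext
    intro x
    rw [Matrix.toLin'_apply, Matrix.toLin'_apply, h3, r1_mulVec]
  rw [eq_top_iff]
  intro A _
  obtain ⟨A', hA', he⟩ := h1 (SU_le_tvSubU' hF hn h32 (suToGL_mem A))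
  rwa [← suToGL_injective he]

end Cfsg.Agent.Lib.Helper15
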