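import Mathlib
import Cfsg.Agent.Lib.Helper15.SUSmall3
import Cfsg.Agent.Lib.Helper15.PairGeoU2

set_option autoImplicit false

namespace Cfsg.Agent.Lib.Helper15

open Module Matrix Cfsg Cfsg.Agent.Lib.Helper14

variable {F : Type*} [Field F] [Fintype F] {q n : ℕ}

/-- Witt's theorem for families -/
theorem gu_witt (hF : Fintype.card F = q ^ 2) {r : ℕ} (x y : Fin r → Fin n → F)
    (hx : LinearIndependent F x) (hy : LinearIndependent F y)
    (hg : ∀ i j, hermForm n F q (x i) (x j) = hermForm n F q (y i) (y j)) :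
    ∃ g : GL (Fin n) F, g ∈ GU n F q ∧ ∀ i, (g : Matrix (Fin n) (Fin n) F) *ᵥ x i = y i := by
  set X := Submodule.span F (Set.range x) with hX
  set Y := Submodule.span F (Set.range y) with hY
  let bX : Basis (Fin r) F X := Basis.span hx
  let bY : Basis (Fin r) F Y := Basis.span hy
  let φ : X ≃ₗ[F] Y := bX.equiv bY (Equiv.refl _)
  have hbX : ∀ i, ((bX i : X) : Fin n → F) = x i := fun i => congrArg Subtype.val (Basis.span_apply hx i)
  have hbY : ∀ i, ((bY i : Y) : Fin n → F) = y i := fun i => congrArg Subtype.val (Basis.span_apply hy i)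
  have hφb : ∀ i, φ (bX i) = bY i := fun i => by simp [φ]
  have c1 : ∀ j (a : X), hermForm n F q (φ a : Fin n → F) (y j) = hermForm n F q (a : Fin n → F) (x j) := by
    intro j
    have : (hermLin q (y j)) ∘ₗ Y.subtype ∘ₗ φ.toLinearMap = (hermLin q (x j)) ∘ₗ X.subtype := by
      apply bX.ext
      intro i
      show hermForm n F q (φ (bX i) : Fin n → F) (y j) = hermForm n F q (bX i : Fin n → F) (x j)
      rw [hφb, hbX, hbY, hg]
    intro a
    exact congrArg (fun l : X →ₗ[F] F => l a) this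
  have c2 : ∀ a b : X, hermForm n F q (φ a : Fin n → F) (φ b : Fin n → F) =
      hermForm n F q (a : Fin n → F) (b : Fin n → F) := by
    intro a b
    have : (hermLin q (φ b : Fin n → F)) ∘ₗ Y.subtype ∘ₗ φ.toLinearMap =
        (hermLin q (b : Fin n → F)) ∘ₗ X.subtype := by
      apply bX.ext
      intro i
      show hermForm n F q (φ (bX i) : Fin n → F) (φ b : Fin n → F) =
        hermForm n F q (bX i : Fin n → F) (b : Fin n → F)
      rw [hφb, hbX, hbY, ← hermForm_swap hF, c1, hermForm_swap hF]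
    exact congrArg (fun l : X →ₗ[F] F => l a) this
  obtain ⟨g₀, hg₀⟩ := exists_gu_extending hF X Y φ c2
  refine ⟨g₀.1, g₀.2, fun i => ?_⟩
  have := hg₀ (bX i)
  rw [hφb, hbX, hbY] at this
  exact this

/-- hyperbolic rotations of prescribed determinant -/
theorem exists_hyp_rot (hF : Fintype.card F = q ^ 2) (w y : Fin n → F) (hww : hermForm n F q w w = 0)
    (hyy : hermForm n F q y y = 0) (hyw : hermForm n F q y w = 1) (l : F) (hl : l ^ (q + 1) = 1) :
    ∃ d : GL (Fin n) F, d ∈ GU n F q ∧ (d : Matrix (Fin n) (Fin n) F).det = l ∧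
      (∃ α : F, α ≠ 0 ∧ (d : Matrix (Fin n) (Fin n) F) *ᵥ w = α • w) ∧
      (∃ β : F, β ≠ 0 ∧ (d : Matrix (Fin n) (Fin n) F) *ᵥ y = β • y) := by
  have hwy : hermForm n F q w y = 1 := by rw [← hermForm_swap hF, hyw, one_pow]
  obtain ⟨μ, hμ0, hμ⟩ := exists_hilbert90 hF l hl
  have hμq : μ ^ q ≠ 0 := pow_ne_zero _ hμ0
  have hab : (1 + (μ - 1) ^ q) * (1 + ((μ ^ q)⁻¹ - 1)) = 1 := by
    rw [sub_pow_q hF, one_pow]
    field_simp
    ring
  refine ⟨(guMk hF (r1 q (μ - 1) w y * r1 q ((μ ^ q)⁻¹ - 1) y w) (hyp_preserves hF w y hww hyy hyw _ _ hab)).1,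
    (guMk hF _ _).2, ?_, ⟨μ, hμ0, ?_⟩, ⟨(μ ^ q)⁻¹, inv_ne_zero hμq, ?_⟩⟩
  · change (r1 q (μ - 1) w y * r1 q ((μ ^ q)⁻¹ - 1) y w).det = l
    rw [Matrix.det_mul, r1_det, r1_det, hwy, hyw]
    field_simp
    linear_combination hμ
  · change (r1 q (μ - 1) w y * r1 q ((μ ^ q)⁻¹ - 1) y w) *ᵥ w = _
    rw [← Matrix.mulVec_mulVec, r1_mulVec ((μ ^ q)⁻¹ - 1) y w w, hww, mul_zero, zero_smul, add_zero, r1_mulVec,
      hwy]
    module
  · change (r1 q (μ - 1) w y * r1 q ((μ ^ q)⁻¹ - 1) y w) *ᵥ y = _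
    rw [← Matrix.mulVec_mulVec, r1_mulVec, r1_mulVec, hermForm_add_left, hermForm_smul_left, hyy, hyw]
    module

theorem indep_of_hyp (hF : Fintype.card F = q ^ 2) (v x : Fin n → F) (hv : hermForm n F q v v = 0)
    (hxv : hermForm n F q x v ≠ 0) : LinearIndependent F ![v, x] := by
  have hv0 : v ≠ 0 := by
    rintro rfl
    exact hxv (hermForm_zero_right hF x)
  apply (LinearIndependent.pair_iff' hv0).2
  intro a ha
  apply hxv
  rw [← ha, hermForm_smul_left, hv, mul_zero]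

/-- the special unitary group is transitive on the pairs of non-orthogonal isotropic points -/
theorem su_hyp_trans (hF : Fintype.card F = q ^ 2) (v x v' u : Fin n → F) (hv : hermForm n F q v v = 0)
    (hx : hermForm n F q x x = 0) (hv' : hermForm n F q v' v' = 0) (hu : hermForm n F q u u = 0)
    (hxv : hermForm n F q x v ≠ 0) (huv' : hermForm n F q u v' ≠ 0) :
    ∃ k : GL (Fin n) F, k ∈ GU n F q ⊓ Geo.specialLinear (Fin n) F ∧
      (∃ α : F, α ≠ 0 ∧ (k : Matrix (Fin n) (Fin n) F) *ᵥ v = α • v') ∧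
      (∃ β : F, β ≠ 0 ∧ (k : Matrix (Fin n) (Fin n) F) *ᵥ x = β • u) := by
  set x₁ := (hermForm n F q x v)⁻¹ • x with hx₁
  set u₁ := (hermForm n F q u v')⁻¹ • u with hu₁
  have e1 : hermForm n F q x₁ v = 1 := by rw [hx₁, hermForm_smul_left, inv_mul_cancel₀ hxv]
  have e2 : hermForm n F q u₁ v' = 1 := by rw [hu₁, hermForm_smul_left, inv_mul_cancel₀ huv']
  have e3 : hermForm n F q x₁ x₁ = 0 := by rw [hx₁, hermForm_smul_left, hermForm_smul_right, hx]; ring
  have e4 : hermForm n F q u₁ u₁ = 0 := by rw [hu₁, hermForm_smul_left, hermForm_smul_right, hu]; ring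
  have e5 : hermForm n F q v x₁ = 1 := by rw [← hermForm_swap hF, e1, one_pow]
  have e6 : hermForm n F q v' u₁ = 1 := by rw [← hermForm_swap hF, e2, one_pow]
  obtain ⟨g, hg, hgx⟩ := gu_witt hF ![v, x₁] ![v', u₁]
    (indep_of_hyp hF v x₁ hv (by rw [e1]; exact one_ne_zero))
    (indep_of_hyp hF v' u₁ hv' (by rw [e2]; exact one_ne_zero)) (by
      intro i j
      fin_cases i <;> fin_cases j <;> simp [hv, hv', e1, e2, e3, e4, e5, e6])
  have h0 : (g : Matrix (Fin n) (Fin n) F) *ᵥ v = v' := hgx 0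
  have h1 : (g : Matrix (Fin n) (Fin n) F) *ᵥ x₁ = u₁ := hgx 1
  have hδ := det_pow_eq_one hF _ ((mem_GU_iff g).1 hg)
  have hδ0 : (g : Matrix (Fin n) (Fin n) F).det ≠ 0 := det_ne_zero_of_preserves hF _ ((mem_GU_iff g).1 hg)
  obtain ⟨d, hd, hdet, ⟨α, hα0, hα⟩, ⟨β, hβ0, hβ⟩⟩ := exists_hyp_rot hF v' u₁ hv' e4 e2
    (g : Matrix (Fin n) (Fin n) F).det⁻¹ (by rw [inv_pow, hδ, inv_one])
  refine ⟨d * g, ⟨(GU n F q).mul_mem hd hg, ?_⟩, ⟨α, hα0, ?_⟩,
    ⟨hermForm n F q x v * β * (hermForm n F q u v')⁻¹, mul_ne_zero (mul_ne_zero hxv hβ0) (inv_ne_zero huv'), ?_⟩⟩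
  · apply (mem_specialLinear_iff' _).2
    rw [Units.val_mul, Matrix.det_mul, hdet, inv_mul_cancel₀ hδ0]
  · rw [Units.val_mul, ← Matrix.mulVec_mulVec, h0, hα]
  · have hxx₁ : x = hermForm n F q x v • x₁ := by
      rw [hx₁, smul_smul, mul_inv_cancel₀ hxv, one_smul]
    conv_lhs => rw [hxx₁]
    rw [Units.val_mul, ← Matrix.mulVec_mulVec, Matrix.mulVec_smul, h1, Matrix.mulVec_smul, hβ, hu₁]
    module

/-- an isotropic vector with prescribed products with two orthogonal independent vectors,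
the first one isotropic -/
theorem exists_iso_prescribed_two (hF : Fintype.card F = q ^ 2) (x u : Fin n → F)
    (hx : hermForm n F q x x = 0) (hxu : hermForm n F q x u = 0) (hind : LinearIndependent F ![x, u]) (γ : F) :
    ∃ y, hermForm n F q y y = 0 ∧ hermForm n F q y x = 1 ∧ hermForm n F q y u = γ := by
  obtain ⟨z, hz⟩ := hermL_surjective hF ![x, u] hind ![1, γ]
  have hzx : hermForm n F q z x = 1 := congrFun hz 0
  have hzu : hermForm n F q z u = γ := congrFun hz 1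
  have hxz : hermForm n F q x z = 1 := by rw [← hermForm_swap hF, hzx, one_pow]
  obtain ⟨a, ha⟩ := exists_trace_eq hF 1 one_ne_zero (-hermForm n F q z z) (by
    rw [neg_pow_q hF, hermForm_self_pow hF])
  rw [one_pow, mul_one, mul_one] at ha
  refine ⟨z + a • x, ?_, ?_, ?_⟩
  · simp only [hermForm_add_left, hermForm_add_right hF, hermForm_smul_left, hermForm_smul_right, hx, hzx, hxz]
    linear_combination ha
  · rw [hermForm_add_left, hermForm_smul_left, hx, hzx]; ring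
  · rw [hermForm_add_left, hermForm_smul_left, hxu, hzu]; ring

end Cfsg.Agent.Lib.Helper15
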