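import Mathlib
import Cfsg.Agent.Lib.Helper15.SUTrans1
import Cfsg.Agent.Lib.Helper15.SUSub5
import Cfsg.Prelude.Def_SporadicB

set_option autoImplicit false

namespace Cfsg.Agent.Lib.Helper15

open Module Matrix Cfsg Cfsg.Agent.Lib.Helper14

variable {F : Type*} [Field F] [Fintype F] {n : ℕ}

/-- the matrix of an element of the special unitary group -/
abbrev suMat {q : ℕ} (A : ↥(SU n F q)) : Matrix (Fin n) (Fin n) F :=
  ((A : Matrix.SpecialLinearGroup (Fin n) F) : Matrix (Fin n) (Fin n) F)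

omit [Fintype F] in
theorem su_ext {q : ℕ} {A B : ↥(SU n F q)} (h : ∀ x, suMat A *ᵥ x = suMat B *ᵥ x) : A = B := by
  apply Subtype.ext
  apply Subtype.ext
  apply Matrix.toLin'.injective
  apply LinearMap.ext
  intro x
  rw [Matrix.toLin'_apply, Matrix.toLin'_apply]
  exact h x

omit [Fintype F] in
theorem suMat_mul {q : ℕ} (A B : ↥(SU n F q)) (x : Fin n → F) :
    suMat (A * B) *ᵥ x = suMat A *ᵥ (suMat B *ᵥ x) := by
  rw [Matrix.mulVec_mulVec]; rfl

omit [Fintype F] in
theorem suMat_inv_mul {q : ℕ} (A : ↥(SU n F q)) (x : Fin n → F) : suMat A⁻¹ *ᵥ (suMat A *ᵥ x) = x := by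
  rw [← suMat_mul, inv_mul_cancel]
  exact Matrix.one_mulVec x

omit [Fintype F] in
theorem suMat_mul_inv {q : ℕ} (A : ↥(SU n F q)) (x : Fin n → F) : suMat A *ᵥ (suMat A⁻¹ *ᵥ x) = x := by
  rw [← suMat_mul, mul_inv_cancel]
  exact Matrix.one_mulVec x

omit [Fintype F] in
theorem suMat_pres {q : ℕ} (A : ↥(SU n F q)) (x y : Fin n → F) :
    hermForm n F q (suMat A *ᵥ x) (suMat A *ᵥ y) = hermForm n F q x y := A.2 x y

/-- `A` is the unitary transvection with centre `a` over the field with four elements -/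
def IsT (A : ↥(SU n F 2)) (a : Fin n → F) : Prop :=
  a ≠ 0 ∧ hermForm n F 2 a a = 0 ∧ ∀ x, suMat A *ᵥ x = x + hermForm n F 2 x a • a

theorem four_two (hF : Fintype.card F = 2 ^ 2) : (2 : F) = 0 := by
  have := add_pow_q hF (1 : F) 1
  linear_combination this

theorem four_cube (hF : Fintype.card F = 2 ^ 2) (l : F) (hl : l ≠ 0) : l * l ^ 2 = 1 := by
  have := FiniteField.pow_card_sub_one_eq_one l hl
  rw [hF] at this
  linear_combination this

omit [Fintype F] in
theorem IsT.unique {A B : ↥(SU n F 2)} {a : Fin n → F} (hA : IsT A a) (hB : IsT B a) : A = B :=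
  su_ext (fun x => by rw [hA.2.2, hB.2.2])

omit [Fintype F] in
theorem IsT.conj {A : ↥(SU n F 2)} {a : Fin n → F} (hA : IsT A a) (g : ↥(SU n F 2)) :
    IsT (g * A * g⁻¹) (suMat g *ᵥ a) := by
  refine ⟨?_, ?_, fun x => ?_⟩
  · intro h0
    apply hA.1
    rw [← suMat_inv_mul g a, h0, Matrix.mulVec_zero]
  · rw [suMat_pres]; exact hA.2.1
  · rw [suMat_mul, suMat_mul, hA.2.2, Matrix.mulVec_add, Matrix.mulVec_smul, suMat_mul_inv]
    congr 2
    conv_rhs => rw [← suMat_mul_inv g x]
    rw [suMat_pres]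

theorem IsT.smul (hF : Fintype.card F = 2 ^ 2) {A : ↥(SU n F 2)} {a : Fin n → F} (hA : IsT A a) (l : F)
    (hl : l ≠ 0) : IsT A (l • a) := by
  refine ⟨smul_ne_zero hl hA.1, ?_, fun x => ?_⟩
  · rw [hermForm_smul_left, hermForm_smul_right, hA.2.1]; ring
  · rw [hA.2.2, hermForm_smul_right, smul_smul]
    congr 2
    linear_combination (-hermForm n F 2 x a) * four_cube hF l hl

theorem IsT.mul_self (hF : Fintype.card F = 2 ^ 2) {A : ↥(SU n F 2)} {a : Fin n → F} (hA : IsT A a) :
    A * A = 1 := by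
  apply su_ext
  intro x
  rw [suMat_mul, hA.2.2, hA.2.2, hermForm_add_left, hermForm_smul_left, hA.2.1]
  have : suMat (1 : ↥(SU n F 2)) *ᵥ x = x := Matrix.one_mulVec x
  rw [this]
  have h2 := four_two hF
  have : x + hermForm n F 2 x a • a + (hermForm n F 2 x a + hermForm n F 2 x a * 0) • a =
      x + ((2 : F) * hermForm n F 2 x a) • a := by module
  rw [this, h2, zero_mul, zero_smul, add_zero]

theorem IsT.ne_one (hF : Fintype.card F = 2 ^ 2) {A : ↥(SU n F 2)} {a : Fin n → F} (hA : IsT A a) : A ≠ 1 := by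
  rintro rfl
  obtain ⟨y, hy, -⟩ := exists_hyperbolic_partner hF a hA.1 hA.2.1
  have := hA.2.2 y
  have h1 : suMat (1 : ↥(SU n F 2)) *ᵥ y = y := Matrix.one_mulVec y
  rw [h1, hy, one_smul] at this
  exact hA.1 (by simpa using this)

theorem exists_isT (hF : Fintype.card F = 2 ^ 2) (a : Fin n → F) (ha0 : a ≠ 0) (ha : hermForm n F 2 a a = 0) :
    ∃ A : ↥(SU n F 2), IsT A a := by
  have hc : (1 : F) + 1 ^ 2 = 0 := by linear_combination four_two hF
  obtain ⟨k, -, hk⟩ := exists_tv hF a 1 ha hc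
  obtain ⟨A, hA⟩ := exists_suToGL k (tv_mem_SU hF a 1 ha hc k hk)
  refine ⟨A, ha0, ha, fun x => ?_⟩
  have : suMat A = (k : Matrix (Fin n) (Fin n) F) := by rw [← hA]; rfl
  rw [this, hk, one_mul]

/-- products of two transvections have order at most three -/
theorem IsT.mul_pow (hF : Fintype.card F = 2 ^ 2) {A B : ↥(SU n F 2)} {a b : Fin n → F} (hA : IsT A a)
    (hB : IsT B b) : (A * B) ^ 2 = 1 ∨ (A * B) ^ 3 = 1 := by
  have hAA := hA.mul_self hF
  have hBB := hB.mul_self hF
  have hAi : A⁻¹ = A := inv_eq_of_mul_eq_one_left hAA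
  have hBi : B⁻¹ = B := inv_eq_of_mul_eq_one_left hBB
  by_cases h : hermForm n F 2 b a = 0
  · left
    have h1 := hB.conj A
    rw [hA.2.2, h, zero_smul, add_zero, hAi] at h1
    have h2 : A * B * A = B := h1.unique hB
    calc (A * B) ^ 2 = (A * B * A) * B := by rw [pow_two]; group
      _ = 1 := by rw [h2, hBB]
  · right
    have h1 := hB.conj A
    have h2 := hA.conj B
    rw [hA.2.2, hAi] at h1
    rw [hB.2.2, hBi] at h2
    have h3 := h2.smul hF (hermForm n F 2 b a) h
    have e : hermForm n F 2 b a • (a + hermForm n F 2 a b • b) = b + hermForm n F 2 b a • a := by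
      have : hermForm n F 2 b a * hermForm n F 2 a b = 1 := by
        rw [← hermForm_swap hF b a]
        exact four_cube hF _ h
      rw [smul_add, smul_smul, this, one_smul, add_comm]
    rw [e] at h3
    have h4 : A * B * A = B * A * B := h1.unique h3
    calc (A * B) ^ 3 = (A * B * A) * (B * A * B) := by rw [pow_succ, pow_two]; group
      _ = (B * A * B) * (B * A * B) := by rw [h4]
      _ = B * A * (B * B) * A * B := by group
      _ = B * (A * A) * B := by rw [hBB]; group
      _ = 1 := by rw [hAA, mul_one, hBB]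

end Cfsg.Agent.Lib.Helper15
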