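import Mathlib
import Cfsg.Agent.Lib.Helper15.Simp1
import Cfsg.Agent.Lib.Helper15.Rank1

set_option autoImplicit false

namespace Cfsg.Agent.Lib.Helper15

open Module QuadraticMap

variable {F V : Type*} [Field F] [AddCommGroup V] [Module F V]

structure MulClosed (P : Module.End F V → Prop) : Prop where
  one : P 1
  mul : ∀ a b, P a → P b → P (a * b)

/-- Eichler transformations are products of Siegel transformations (with singular second vector) -/
theorem eich_of_siegel [Finite F] [FiniteDimensional F V] (Q : QuadraticForm F V)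
    (hQ : (polarBilin Q).Nondegenerate) (hn : 5 ≤ finrank F V) {P : Module.End F V → Prop} (hP : MulClosed P)
    (hs : ∀ y z, Q y = 0 → Q z = 0 → polar Q y z = 0 → P (eichL Q y z))
    (y z : V) (hy : Q y = 0) (hyz : polar Q y z = 0) : P (eichL Q y z) := by
  obtain ⟨e, f, h, he, hf⟩ := exists_hpair_orth Q hQ hn y
  obtain ⟨d₁, d₂, d₃, h1, h2, h3, q1, q2, q3, rfl⟩ :=
    sum_three_singular Q (LinearMap.ker (polarBilin Q y)) e f h he hf z hyz
  have h1' : polar Q y d₁ = 0 := h1
  have h2' : polar Q y d₂ = 0 := h2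
  have h3' : polar Q y d₃ = 0 := h3
  rw [eich_add Q y _ _ hy (by rw [polar_add_right, h1', h2', add_zero]) h3', eich_add Q y _ _ hy h1' h2']
  exact hP.mul _ _ (hP.mul _ _ (hs y d₁ hy q1 h1') (hs y d₂ hy q2 h2')) (hs y d₃ hy q3 h3')

theorem reflL_smul (Q : QuadraticForm F V) (a : V) (t : F) (ht : t ≠ 0) : reflL Q (t • a) = reflL Q a := by
  ext x
  rw [reflL_apply, reflL_apply, QuadraticMap.map_smul, polar_smul_left, smul_smul]
  congr 2
  simp only [smul_eq_mul]
  by_cases hq : Q a = 0
  · simp [hq]
  · field_simp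

/-- the direct case -/
theorem refl_pair_direct (Q : QuadraticForm F V) {P : Module.End F V → Prop}
    (he : ∀ y z, Q y = 0 → polar Q y z = 0 → P (eichL Q y z))
    (a a' : V) (ha : Q a ≠ 0) (haa : Q a = Q a') (hB : polar Q a a' = 2 * Q a) :
    P (reflL Q a * reflL Q a') := by
  set y := (Q a)⁻¹ • (a - a') with hy
  have hQy : Q y = 0 := by
    have h1 := Q_add_one Q a a' (-1)
    rw [neg_one_smul, ← sub_eq_add_neg] at h1
    rw [hy, QuadraticMap.map_smul, h1, hB, ← haa]
    simp only [smul_eq_mul]
    ring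
  have hya : polar Q y a = 0 := by
    rw [hy, polar_smul_left, polar_sub_left, polar_self', polar_comm Q a' a, hB]
    simp
  have h1 := eich_eq_refl_mul Q y a hQy hya ha
  have h3 : a + (-Q a) • y = a' := by
    rw [hy, smul_smul]
    have : -Q a * (Q a)⁻¹ = -1 := by field_simp
    rw [this]; module
  rw [h3] at h1
  rw [← h1]
  exact he y a hQy hya

/-- a product of two reflections of equal norm is a product of Eichler transformations -/
theorem refl_pair_of_eich [Finite F] [FiniteDimensional F V] (Q : QuadraticForm F V)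
    (hQ : (polarBilin Q).Nondegenerate) (hn : 5 ≤ finrank F V) {P : Module.End F V → Prop} (hP : MulClosed P)
    (he : ∀ y z, Q y = 0 → polar Q y z = 0 → P (eichL Q y z))
    (a a' : V) (ha : Q a ≠ 0) (haa : Q a = Q a') : P (reflL Q a * reflL Q a') := by
  by_cases hspan : a' ∈ Submodule.span F {a}
  · obtain ⟨t, rfl⟩ := Submodule.mem_span_singleton.1 hspan
    have ht : t ≠ 0 := by
      rintro rfl
      rw [zero_smul, map_zero] at haa
      exact ha haa
    rw [reflL_smul Q a t ht, reflL_mul_self Q a ha]
    exact hP.one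
  by_cases ht : polar Q a a' = 2 * Q a
  · exact refl_pair_direct Q he a a' ha haa ht
  -- a singular vector orthogonal to `a` but not to `a'`
  obtain ⟨d, hQd, had, ha'd⟩ : ∃ d, Q d = 0 ∧ polar Q a d = 0 ∧ polar Q a' d ≠ 0 := by
    obtain ⟨e, f, h, hae, haf⟩ := exists_hpair_orth Q hQ hn a
    by_cases h1 : polar Q a' e = 0
    swap
    · exact ⟨e, h.Qe, hae, h1⟩
    by_cases h3 : polar Q a' f = 0
    swap
    · exact ⟨f, h.Qf, haf, h3⟩
    have hnot : a' ∉ Submodule.span F {a, e, f} := by
      intro hmem
      rw [Submodule.mem_span_insert] at hmem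
      obtain ⟨α, w, hw, rfl⟩ := hmem
      rw [Submodule.mem_span_pair] at hw
      obtain ⟨β, γ, rfl⟩ := hw
      simp only [polar_add_left, polar_smul_left, hae, haf, h.ee, h.ff, h.ef, h.fe, smul_eq_mul,
        mul_zero, mul_one, zero_add, add_zero] at h1 h3
      apply hspan
      rw [h1, h3]
      simp only [zero_smul, add_zero]
      exact Submodule.smul_mem _ _ (Submodule.mem_span_singleton_self a)
    obtain ⟨w, hw, ha'w⟩ := exists_orth_sep Q hQ _ a' hnot
    have hwa : polar Q a w = 0 := hw a (Submodule.subset_span (by simp))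
    have hwe : polar Q e w = 0 := hw e (Submodule.subset_span (by simp))
    have hwf : polar Q f w = 0 := hw f (Submodule.subset_span (by simp))
    refine ⟨w + e + (-Q w) • f, ?_, ?_, ?_⟩
    · have := Q_add_two Q w e f 1 (-Q w)
      rw [one_smul] at this
      rw [this, h.Qe, h.Qf, h.ef, polar_comm Q w e, polar_comm Q w f, hwe, hwf]; ring
    · rw [polar_add_right, polar_add_right, polar_smul_right, hwa, hae, haf]; simp
    · rw [polar_add_right, polar_add_right, polar_smul_right, ha'w, h1, h3]; simp
  set t := 2 * Q a - polar Q a a' with htdef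
  set a'' := a + (t / polar Q a' d) • d with ha''
  have hQa'' : Q a'' = Q a := by
    rw [ha'', Q_add_one, hQd, had]; ring
  have hB1 : polar Q a a'' = 2 * Q a := by
    rw [ha'', polar_add_right, polar_smul_right, had, polar_self']; simp
  have hB2 : polar Q a'' a' = 2 * Q a'' := by
    rw [hQa'', ha'', polar_add_left, polar_smul_left, polar_comm Q d a', smul_eq_mul,
      div_mul_cancel₀ _ ha'd, htdef]
    ring
  have hne : Q a'' ≠ 0 := by rw [hQa'']; exact ha
  have e1 : reflL Q a * reflL Q a' = (reflL Q a * reflL Q a'') * (reflL Q a'' * reflL Q a') := by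
    rw [mul_assoc, ← mul_assoc (reflL Q a'') (reflL Q a''), reflL_mul_self Q a'' hne, one_mul]
  rw [e1]
  exact hP.mul _ _ (refl_pair_direct Q he a a'' ha hQa''.symm hB1)
    (refl_pair_direct Q he a'' a' hne (hQa''.trans haa) hB2)

end Cfsg.Agent.Lib.Helper15
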