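import Mathlib
import Cfsg.Agent.Lib.Helper15.Simp2
import Cfsg.Agent.Lib.Helper15.EichOmega
import Cfsg.Agent.Lib.Helper15.OmegaIndex

set_option autoImplicit false

namespace Cfsg.Agent.Lib.Helper15

open Module QuadraticMap Cfsg Matrix

theorem commutator_le_of_gens {G : Type*} [Group G] (S : Set G) (hS : Subgroup.closure S = ⊤)
    (N : Subgroup G) [N.Normal] (h : ∀ s ∈ S, ∀ t ∈ S, s * t * s⁻¹ * t⁻¹ ∈ N) : commutator G ≤ N := by
  have hcl : Subgroup.closure ((QuotientGroup.mk' N) '' S) = ⊤ := by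
    rw [← MonoidHom.map_closure, hS, ← MonoidHom.range_eq_map,
      MonoidHom.range_eq_top.2 (QuotientGroup.mk'_surjective N)]
  have hcomm := Subgroup.isMulCommutative_closure (k := (QuotientGroup.mk' N) '' S) (by
    rintro _ ⟨s, hs, rfl⟩ _ ⟨t, ht, rfl⟩
    have h1 := (QuotientGroup.eq_one_iff (N := N) _).2 (h s hs t ht)
    have h2 : (QuotientGroup.mk' N s) * (QuotientGroup.mk' N t) * (QuotientGroup.mk' N s)⁻¹ *
        (QuotientGroup.mk' N t)⁻¹ = 1 := h1
    calc (QuotientGroup.mk' N s) * (QuotientGroup.mk' N t)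
        = ((QuotientGroup.mk' N s) * (QuotientGroup.mk' N t) * (QuotientGroup.mk' N s)⁻¹ *
          (QuotientGroup.mk' N t)⁻¹) * ((QuotientGroup.mk' N t) * (QuotientGroup.mk' N s)) := by group
      _ = (QuotientGroup.mk' N t) * (QuotientGroup.mk' N s) := by rw [h2, one_mul])
  have hall : ∀ x y : G ⧸ N, x * y = y * x := by
    intro x y
    have hx : x ∈ Subgroup.closure ((QuotientGroup.mk' N) '' S) := by rw [hcl]; trivial
    have hy : y ∈ Subgroup.closure ((QuotientGroup.mk' N) '' S) := by rw [hcl]; trivial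
    exact Subtype.ext_iff.1 (hcomm.is_comm.comm ⟨x, hx⟩ ⟨y, hy⟩)
  rw [commutator_eq_closure, Subgroup.closure_le]
  rintro _ ⟨g, k, rfl⟩
  change g * k * g⁻¹ * k⁻¹ ∈ N
  rw [← QuotientGroup.eq_one_iff]
  change (QuotientGroup.mk' N) (g * k * g⁻¹ * k⁻¹) = 1
  rw [map_mul, map_mul, map_mul, map_inv, map_inv, hall (QuotientGroup.mk' N g)]
  group

theorem normal_closure_of_conj {G : Type*} [Group G] (S : Set G) (h : ∀ s ∈ S, ∀ g : G, g * s * g⁻¹ ∈ S) :
    (Subgroup.closure S).Normal := by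
  constructor
  intro n hn g
  induction hn using Subgroup.closure_induction with
  | mem x hx => exact Subgroup.subset_closure (h x hx g)
  | one => simp
  | mul x y _ _ ihx ihy =>
    have : g * (x * y) * g⁻¹ = (g * x * g⁻¹) * (g * y * g⁻¹) := by group
    rw [this]; exact Subgroup.mul_mem _ ihx ihy
  | inv x _ ih =>
    have : g * x⁻¹ * g⁻¹ = (g * x * g⁻¹)⁻¹ := by group
    rw [this]; exact Subgroup.inv_mem _ ih

variable {F : Type*} [Field F] {ι : Type} [Fintype ι] [DecidableEq ι]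

/-- the isometries that are Siegel transformations -/
def siegGens (Q : QuadraticForm F (ι → F)) : Set (isometryGroup F Q) :=
  {k | ∃ y z, Q y = 0 ∧ Q z = 0 ∧ polar Q y z = 0 ∧ toEnd Q k = eichL Q y z}

theorem toEnd_mul_inv (Q : (ι → F) → F) (g : isometryGroup F Q) : toEnd Q g * toEnd Q g⁻¹ = 1 := by
  rw [← map_mul, mul_inv_cancel, map_one]

theorem toEnd_conj_eich (Q : QuadraticForm F (ι → F)) (g k : isometryGroup F Q) (y z : ι → F)
    (hk : toEnd Q k = eichL Q y z) : toEnd Q (g * k * g⁻¹) = eichL Q (toEnd Q g y) (toEnd Q g z) := by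
  rw [map_mul, map_mul, hk]
  exact eich_conj Q _ _ (toEnd_isIso Q g) (toEnd_mul_inv Q g) y z

theorem siegGens_normal (Q : QuadraticForm F (ι → F)) : (Subgroup.closure (siegGens Q)).Normal := by
  apply normal_closure_of_conj
  rintro k ⟨y, z, hy, hz, hyz, hk⟩ g
  refine ⟨toEnd Q g y, toEnd Q g z, ?_, ?_, ?_, toEnd_conj_eich Q g k y z hk⟩
  · rw [toEnd_isIso Q g y, hy]
  · rw [toEnd_isIso Q g z, hz]
  · rw [(toEnd_isIso Q g).polar, hyz]

theorem Omega_eq_closure_sieg [Fintype F] (Q : QuadraticForm F (ι → F))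
    (hQ : (polarBilin Q).Nondegenerate) (hn : 5 ≤ Fintype.card ι) :
    Omega F Q = Subgroup.closure (siegGens Q) := by
  have hfr : 5 ≤ finrank F (ι → F) := by rwa [finrank_fintype_fun_eq_card]
  apply le_antisymm
  · have := siegGens_normal Q
    set N := Subgroup.closure (siegGens Q) with hN
    have hP : MulClosed (fun τ : Module.End F (ι → F) => ∃ k ∈ N, toEnd Q k = τ) := by
      refine ⟨⟨1, N.one_mem, map_one _⟩, ?_⟩
      rintro a b ⟨k, hk, rfl⟩ ⟨l, hl, rfl⟩
      exact ⟨k * l, N.mul_mem hk hl, map_mul _ _ _⟩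
    have hs : ∀ y z, Q y = 0 → Q z = 0 → polar Q y z = 0 → ∃ k ∈ N, toEnd Q k = eichL Q y z := by
      intro y z hy hz hyz
      refine ⟨ofEnd Q hQ (eichL Q y z) (eichL_isIso Q y z hy hyz), ?_, toEnd_ofEnd Q hQ _ _⟩
      exact Subgroup.subset_closure ⟨y, z, hy, hz, hyz, toEnd_ofEnd Q hQ _ _⟩
    have he := fun y z => eich_of_siegel Q hQ hfr hP hs y z
    have hpair := fun a a' => refl_pair_of_eich Q hQ hfr hP he a a'
    apply commutator_le_of_gens (reflSet Q) (closure_refl_eq_top Q hQ (Or.inr (by omega))) N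
    rintro s ⟨a, ha, hs'⟩ t ⟨b, hb, ht'⟩
    rw [eq_refl_of_coe Q s a ha hs', eq_refl_of_coe Q t b hb ht']
    have hb' : Q ((((refl Q b hb : isometryGroup F Q) : Matrix.GeneralLinearGroup ι F) : Matrix ι ι F) *ᵥ a) ≠ 0 := by
      rw [isometry_apply Q]; exact ha
    have e1 : refl Q a ha * refl Q b hb * (refl Q a ha)⁻¹ * (refl Q b hb)⁻¹ =
        refl Q a ha * refl Q _ hb' := by
      rw [← conj_refl Q (refl Q b hb) a ha hb', refl_inv Q a ha]
      group
    rw [e1]
    obtain ⟨k, hk, hk'⟩ := hpair a _ ha (isometry_apply Q (refl Q b hb) a).symm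
    have : k = refl Q a ha * refl Q _ hb' := by
      apply toEnd_injective Q
      rw [hk', map_mul, toEnd_refl, toEnd_refl]
    rw [← this]; exact hk
  · rw [Subgroup.closure_le]
    rintro k ⟨y, z, hy, hz, hyz, hk⟩
    obtain ⟨k', hk', hkΩ⟩ := eich_mem_Omega Q hQ (Or.inr (by omega)) y z hy hyz
    rw [← hk] at hk'
    rw [← toEnd_injective Q hk']
    exact hkΩ

end Cfsg.Agent.Lib.Helper15
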