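import Mathlib
import Cfsg.Agent.Lib.Helper15.Simp3

set_option autoImplicit false

namespace Cfsg.Agent.Lib.Helper15

open Module QuadraticMap Cfsg Matrix

section abstract

variable {F V : Type*} [Field F] [AddCommGroup V] [Module F V]

theorem eich_comm_identity (Q : QuadraticForm F V) (y y₂ w z : V) (hy : Q y = 0) (hy₂ : Q y₂ = 0)
    (h1 : polar Q y y₂ = 0) (h2 : polar Q y w = 0) (h3 : polar Q y₂ w = 0) (h4 : polar Q y z = 0)
    (h5 : polar Q y₂ z = 1) (h6 : polar Q w z = - Q w) :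
    eichL Q y₂ (-w) * eichL Q y z * eichL Q y₂ w * eichL Q y (-z) = eichL Q y w := by
  have h3' : polar Q y₂ (-w) = 0 := by rw [polar_neg_right, h3, neg_zero]
  rw [eich_conj Q (eichL Q y₂ (-w)) (eichL Q y₂ w) (eichL_isIso Q y₂ (-w) hy₂ h3')
    (eich_neg_mul Q y₂ w hy₂ h3) y z]
  have e1 : eichL Q y₂ (-w) y = y := by
    rw [eichL_apply, polar_neg_left, polar_comm Q w y, h2, polar_comm Q y₂ y, h1]; simp
  have e2 : eichL Q y₂ (-w) z = z + w := by
    rw [eichL_apply, polar_neg_left, h6, h5, QuadraticMap.map_neg]; simp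
  rw [e1, e2, ← eich_add Q y _ _ hy (by rw [polar_add_right, h4, h2, add_zero])
    (by rw [polar_neg_right, h4, neg_zero])]
  congr 1
  abel

theorem exists_comm_data [Finite F] [FiniteDimensional F V] (Q : QuadraticForm F V)
    (hQ : (polarBilin Q).Nondegenerate) (hn : 7 ≤ finrank F V) (y w : V)
    (hw : w ∉ Submodule.span F {y}) :
    ∃ y₂ z, Q y₂ = 0 ∧ polar Q y y₂ = 0 ∧ polar Q y₂ w = 0 ∧ polar Q y z = 0 ∧ polar Q y₂ z = 1 ∧
      polar Q w z = - Q w := by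
  have k1 := finrank_le_inf_ker (⊤ : Submodule F V) (polarBilin Q y)
  have k2 := finrank_le_inf_ker ((⊤ : Submodule F V) ⊓ LinearMap.ker (polarBilin Q y)) (polarBilin Q w)
  rw [finrank_top] at k1
  have k3 := finrank_span_pair_le (F := F) y w
  obtain ⟨y₂, hK, hS, hQy₂⟩ := exists_sing_avoid Q (Submodule.span F {y, w})
    ((⊤ : Submodule F V) ⊓ LinearMap.ker (polarBilin Q y) ⊓ LinearMap.ker (polarBilin Q w)) (by omega)
  have hyy₂ : polar Q y y₂ = 0 := hK.1.2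
  have hwy₂ : polar Q w y₂ = 0 := hK.2
  obtain ⟨z₁, hz₁, hz₁'⟩ := exists_orth_sep Q hQ _ y₂ hS
  have a1 : polar Q y z₁ = 0 := hz₁ y (Submodule.subset_span (by simp))
  have a2 : polar Q w z₁ = 0 := hz₁ w (Submodule.subset_span (by simp))
  have hw' : w ∉ Submodule.span F {y, y₂} := by
    intro hmem
    rw [Submodule.mem_span_pair] at hmem
    obtain ⟨α, β, hαβ⟩ := hmem
    by_cases hβ : β = 0
    · apply hw
      rw [← hαβ, hβ, zero_smul, add_zero]
      exact Submodule.smul_mem _ _ (Submodule.mem_span_singleton_self y)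
    · apply hS
      rw [Submodule.mem_span_pair]
      refine ⟨-(β⁻¹ * α), β⁻¹, ?_⟩
      rw [← hαβ, smul_add, smul_smul, smul_smul, inv_mul_cancel₀ hβ]
      module
  obtain ⟨z₂, hz₂, hz₂'⟩ := exists_orth_sep Q hQ _ w hw'
  have b1 : polar Q y z₂ = 0 := hz₂ y (Submodule.subset_span (by simp))
  have b2 : polar Q y₂ z₂ = 0 := hz₂ y₂ (Submodule.subset_span (by simp))
  refine ⟨y₂, z₁ + (-Q w) • z₂, hQy₂, hyy₂, by rw [polar_comm]; exact hwy₂, ?_, ?_, ?_⟩
  · rw [polar_add_right, polar_smul_right, a1, b1]; simp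
  · rw [polar_add_right, polar_smul_right, hz₁', b2]; simp
  · rw [polar_add_right, polar_smul_right, a2, hz₂']; simp

end abstract

variable {F : Type*} [Field F] {ι : Type} [Fintype ι] [DecidableEq ι]

theorem toEnd_inv_of_mul (Q : (ι → F) → F) (g : isometryGroup F Q) (τ : Module.End F (ι → F))
    (h : toEnd Q g * τ = 1) : toEnd Q g⁻¹ = τ := by
  calc toEnd Q g⁻¹ = toEnd Q g⁻¹ * (toEnd Q g * τ) := by rw [h, mul_one]
    _ = τ := by rw [← mul_assoc, ← map_mul, inv_mul_cancel, map_one, one_mul]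

theorem Omega_perfect [Fintype F] (Q : QuadraticForm F (ι → F))
    (hQ : (polarBilin Q).Nondegenerate) (hn : 7 ≤ Fintype.card ι) :
    commutator (Omega F Q) = ⊤ := by
  have hfr : 7 ≤ finrank F (ι → F) := by rwa [finrank_fintype_fun_eq_card]
  have hcase : Fintype.card F ≠ 2 ∨ Fintype.card ι ≠ 4 := Or.inr (by omega)
  have key : Subgroup.closure (siegGens Q) ≤ (commutator (Omega F Q)).map (Omega F Q).subtype := by
    rw [Subgroup.closure_le]
    rintro k ⟨y, w, hy, -, hyw, hk⟩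
    by_cases hw : w ∈ Submodule.span F {y}
    · obtain ⟨c, rfl⟩ := Submodule.mem_span_singleton.1 hw
      rw [eich_smul_self Q y c hy, ← map_one (toEnd Q)] at hk
      rw [toEnd_injective Q hk]
      exact Subgroup.one_mem _
    obtain ⟨y₂, z, hy₂, h1, h3, h4, h5, h6⟩ := exists_comm_data Q hQ hfr y w hw
    obtain ⟨g, hg, hgΩ⟩ := eich_mem_Omega Q hQ hcase y₂ (-w) hy₂ (by rw [polar_neg_right, h3, neg_zero])
    obtain ⟨h, hh, hhΩ⟩ := eich_mem_Omega Q hQ hcase y z hy h4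
    have hg' : toEnd Q g⁻¹ = eichL Q y₂ w :=
      toEnd_inv_of_mul Q g _ (by rw [hg]; exact eich_neg_mul Q y₂ w hy₂ h3)
    have hh' : toEnd Q h⁻¹ = eichL Q y (-z) :=
      toEnd_inv_of_mul Q h _ (by rw [hh]; exact eich_mul_neg Q y z hy h4)
    have hkk : k = g * h * g⁻¹ * h⁻¹ := by
      apply toEnd_injective Q
      rw [map_mul, map_mul, map_mul, hg, hh, hg', hh', hk]
      exact (eich_comm_identity Q y y₂ w z hy hy₂ h1 hyw h3 h4 h5 h6).symm
    refine ⟨(⟨g, hgΩ⟩ : Omega F Q) * ⟨h, hhΩ⟩ * (⟨g, hgΩ⟩ : Omega F Q)⁻¹ * (⟨h, hhΩ⟩ : Omega F Q)⁻¹, ?_, ?_⟩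
    · rw [SetLike.mem_coe, commutator_eq_closure]
      exact Subgroup.subset_closure ⟨⟨g, hgΩ⟩, ⟨h, hhΩ⟩, rfl⟩
    · rw [hkk]; rfl
  rw [← Omega_eq_closure_sieg Q hQ (by omega)] at key
  rw [eq_top_iff]
  intro ω _
  obtain ⟨ω', hω', hωω⟩ := key ω.2
  have : ω' = ω := Subtype.ext hωω
  rw [← this]; exact hω'

end Cfsg.Agent.Lib.Helper15
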