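import Mathlib
import Cfsg.Agent.Lib.Helper15.Simp4

set_option autoImplicit false

namespace Cfsg.Agent.Lib.Helper15

open Module QuadraticMap Cfsg Matrix
open scoped Pointwise

section abstract

variable {F V : Type*} [Field F] [AddCommGroup V] [Module F V]

theorem exists_sing_nonorth_both [FiniteDimensional F V] (Q : QuadraticForm F V)
    (hQ : (polarBilin Q).Nondegenerate) (x u : V) (hx0 : x ≠ 0) (hu0 : u ≠ 0) (hx : Q x = 0) (hu : Q u = 0)
    (hxu : polar Q x u = 0) : ∃ v, Q v = 0 ∧ polar Q v x ≠ 0 ∧ polar Q v u ≠ 0 := by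
  obtain ⟨y₁, hy₁, hxy₁⟩ := exists_hyp_partner Q hQ x hx0 hx
  by_cases h1 : polar Q u y₁ = 0
  swap
  · exact ⟨y₁, hy₁, by rw [polar_comm, hxy₁]; exact one_ne_zero, by rw [polar_comm]; exact h1⟩
  have hnot : u ∉ Submodule.span F {x, y₁} := by
    intro hmem
    rw [Submodule.mem_span_pair] at hmem
    obtain ⟨α, β, rfl⟩ := hmem
    have hxx : polar Q x x = 0 := by rw [polar_self, hx]; simp
    have hyy : polar Q y₁ y₁ = 0 := by rw [polar_self, hy₁]; simp
    simp only [polar_add_left, polar_add_right, polar_smul_left, polar_smul_right, hxy₁, hxx, hyy,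
      smul_eq_mul, mul_zero, mul_one, zero_add, add_zero] at h1 hxu
    apply hu0
    rw [h1, hxu]; simp
  obtain ⟨z₀, hz₀, huz₀⟩ := exists_orth_sep Q hQ _ u hnot
  have a1 : polar Q x z₀ = 0 := hz₀ x (Submodule.subset_span (by simp))
  have a2 : polar Q y₁ z₀ = 0 := hz₀ y₁ (Submodule.subset_span (by simp))
  have huu : polar Q u u = 0 := by rw [polar_self, hu]; simp
  refine ⟨y₁ + z₀ + (-Q z₀) • u, ?_, ?_, ?_⟩
  · have := Q_add_two Q y₁ z₀ u 1 (-Q z₀)
    rw [one_smul] at this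
    rw [this, hy₁, hu, a2, polar_comm Q y₁ u, h1, polar_comm Q z₀ u, huz₀]; ring
  · rw [polar_add_left, polar_add_left, polar_smul_left, polar_comm Q y₁ x, hxy₁, polar_comm Q z₀ x, a1,
      polar_comm Q u x, hxu]
    simp
  · rw [polar_add_left, polar_add_left, polar_smul_left, polar_comm Q y₁ u, h1, polar_comm Q z₀ u, huz₀, huu]
    simp

theorem exists_move_data [FiniteDimensional F V] (Q : QuadraticForm F V)
    (hQ : (polarBilin Q).Nondegenerate) (hn : 5 ≤ finrank F V) (x x' : V) (hx : Q x = 0)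
    (hxx' : polar Q x x' = 0) (hind : x ∉ Submodule.span F {x'}) :
    ∃ y z, Q y = 0 ∧ polar Q y z = 0 ∧ polar Q y x' = 0 ∧ polar Q z x' = 0 ∧ polar Q y x = 1 ∧ Q z ≠ 0 := by
  obtain ⟨y₀, hy₀, hxy₀⟩ := exists_orth_sep Q hQ _ x hind
  have a1 : polar Q x' y₀ = 0 := hy₀ x' (Submodule.mem_span_singleton_self x')
  have hxx : polar Q x x = 0 := by rw [polar_self, hx]; simp
  set y := y₀ + (-Q y₀) • x with hy
  have hQy : Q y = 0 := by rw [hy, Q_add_one, hx, polar_comm Q y₀ x, hxy₀]; ring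
  have hyx' : polar Q y x' = 0 := by
    rw [hy, polar_add_left, polar_smul_left, polar_comm Q y₀ x', a1, hxx']; simp
  have hyx : polar Q y x = 1 := by
    rw [hy, polar_add_left, polar_smul_left, polar_comm Q y₀ x, hxy₀, hxx]; simp
  have k1 := finrank_le_inf_ker (⊤ : Submodule F V) (polarBilin Q y)
  have k2 := finrank_le_inf_ker ((⊤ : Submodule F V) ⊓ LinearMap.ker (polarBilin Q y)) (polarBilin Q x')
  rw [finrank_top] at k1
  have k3 := finrank_span_pair_le (F := F) y x'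
  obtain ⟨u, huK, huS⟩ := exists_mem_notMem_of_finrank_lt (Submodule.span F {y, x'})
    ((⊤ : Submodule F V) ⊓ LinearMap.ker (polarBilin Q y) ⊓ LinearMap.ker (polarBilin Q x')) (by omega)
  have b1 : polar Q y u = 0 := huK.1.2
  have b2 : polar Q x' u = 0 := huK.2
  obtain ⟨z', hz', huz'⟩ := exists_orth_sep Q hQ _ u huS
  have c1 : polar Q y z' = 0 := hz' y (Submodule.subset_span (by simp))
  have c2 : polar Q x' z' = 0 := hz' x' (Submodule.subset_span (by simp))
  by_cases h1 : Q u = 0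
  swap
  · exact ⟨y, u, hQy, b1, hyx', by rw [polar_comm]; exact b2, hyx, h1⟩
  by_cases h3 : Q z' = 0
  swap
  · exact ⟨y, z', hQy, c1, hyx', by rw [polar_comm]; exact c2, hyx, h3⟩
  refine ⟨y, u + z', hQy, by rw [polar_add_right, b1, c1, add_zero], hyx', ?_, hyx, ?_⟩
  · rw [polar_add_left, polar_comm Q u x', b2, polar_comm Q z' x', c2, add_zero]
  · rw [QuadraticMap.map_add Q, h1, h3, huz']; simp

end abstract

variable {F : Type*} [Field F] {ι : Type} [Fintype ι] [DecidableEq ι]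

/-- the singular points -/
def SPt (Q : QuadraticForm F (ι → F)) : Type _ :=
  {W : Submodule F (ι → F) // ∃ x, x ≠ 0 ∧ Q x = 0 ∧ W = Submodule.span F {x}}

def mkPt (Q : QuadraticForm F (ι → F)) (x : ι → F) (hx0 : x ≠ 0) (hx : Q x = 0) : SPt Q :=
  ⟨Submodule.span F {x}, x, hx0, hx, rfl⟩

theorem toEnd_ne_zero (Q : (ι → F) → F) (g : isometryGroup F Q) (x : ι → F) (hx : x ≠ 0) : toEnd Q g x ≠ 0 := by
  intro h
  apply hx
  have : toEnd Q g⁻¹ (toEnd Q g x) = x := by
    rw [← Module.End.mul_apply, ← map_mul, inv_mul_cancel, map_one]; rfl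
  rw [← this, h, map_zero]

noncomputable instance instMulActionSPt (Q : QuadraticForm F (ι → F)) : MulAction (Omega F Q) (SPt Q) where
  smul g W := ⟨W.1.map (toEnd Q (g : isometryGroup F Q)), by
    obtain ⟨x, hx0, hx, hW⟩ := W.2
    refine ⟨toEnd Q (g : isometryGroup F Q) x, toEnd_ne_zero Q _ x hx0, ?_, ?_⟩
    · rw [toEnd_isIso Q (g : isometryGroup F Q) x, hx]
    · rw [hW, Submodule.map_span, Set.image_singleton]⟩
  one_smul W := by
    apply Subtype.ext
    change W.1.map (toEnd Q ((1 : Omega F Q) : isometryGroup F Q)) = W.1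
    rw [Subgroup.coe_one, map_one]
    exact Submodule.map_id _
  mul_smul g h W := by
    apply Subtype.ext
    change W.1.map (toEnd Q ((g * h : Omega F Q) : isometryGroup F Q)) =
      (W.1.map (toEnd Q (h : isometryGroup F Q))).map (toEnd Q (g : isometryGroup F Q))
    rw [Subgroup.coe_mul, map_mul, ← Submodule.map_comp]
    rfl

theorem smul_mkPt (Q : QuadraticForm F (ι → F)) (g : Omega F Q) (x : ι → F) (hx0 : x ≠ 0) (hx : Q x = 0) :
    g • mkPt Q x hx0 hx = mkPt Q (toEnd Q (g : isometryGroup F Q) x) (toEnd_ne_zero Q _ x hx0)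
      (by rw [toEnd_isIso Q (g : isometryGroup F Q) x, hx]) := by
  apply Subtype.ext
  change (Submodule.span F {x}).map (toEnd Q (g : isometryGroup F Q)) = _
  rw [Submodule.map_span, Set.image_singleton]
  rfl

theorem mkPt_congr (Q : QuadraticForm F (ι → F)) {x x' : ι → F} (h : x = x') (hx0 : x ≠ 0) (hx : Q x = 0) :
    mkPt Q x hx0 hx = mkPt Q x' (h ▸ hx0) (h ▸ hx) := by
  subst h; rfl

theorem mkPt_smul (Q : QuadraticForm F (ι → F)) (x : ι → F) (hx0 : x ≠ 0) (hx : Q x = 0) (c : F) (hc : c ≠ 0) :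
    mkPt Q (c • x) (smul_ne_zero hc hx0) (by rw [QuadraticMap.map_smul, hx, smul_zero]) = mkPt Q x hx0 hx := by
  apply Subtype.ext
  exact Submodule.span_singleton_smul_eq (IsUnit.mk0 c hc) x

theorem exists_mkPt (Q : QuadraticForm F (ι → F)) (P : SPt Q) : ∃ x hx0 hx, P = mkPt Q x hx0 hx := by
  obtain ⟨x, hx0, hx, hW⟩ := P.2
  exact ⟨x, hx0, hx, Subtype.ext hW⟩

/-- `T(v)` moves a point not orthogonal to `v` to any other such point, fixing `v` -/
theorem exists_link [Fintype F] (Q : QuadraticForm F (ι → F)) (hQ : (polarBilin Q).Nondegenerate)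
    (hn : 5 ≤ Fintype.card ι) (v x u : ι → F) (hv : Q v = 0) (hx0 : x ≠ 0) (hx : Q x = 0) (hu0 : u ≠ 0)
    (hu : Q u = 0) (hvx : polar Q v x ≠ 0) (hvu : polar Q v u ≠ 0) :
    ∃ k : Omega F Q, toEnd Q (k : isometryGroup F Q) v = v ∧ k • mkPt Q x hx0 hx = mkPt Q u hu0 hu := by
  set p := polar Q v x with hp
  set c := p / polar Q v u with hc
  have hc0 : c ≠ 0 := div_ne_zero hvx hvu
  have hQu₁ : Q (c • u) = 0 := by rw [QuadraticMap.map_smul, hu, smul_zero]
  have hvu₁ : polar Q v (c • u) = p := by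
    rw [polar_smul_right, smul_eq_mul, hc, div_mul_cancel₀ _ hvu]
  obtain ⟨h1, h3⟩ := eich_link Q v x (c • u) hx hQu₁ p hvx rfl hvu₁
  obtain ⟨k, hk, hkΩ⟩ := eich_mem_Omega Q hQ (Or.inr (by omega)) v _ hv h1
  refine ⟨⟨k, hkΩ⟩, ?_, ?_⟩
  · change toEnd Q k v = v
    rw [hk]; exact eich_fix_self Q v _ hv h1
  · rw [smul_mkPt, ← mkPt_smul Q u hu0 hu c hc0]
    apply mkPt_congr
    change toEnd Q k x = c • u
    rw [hk, h3]

theorem omega_pretransitive [Fintype F] (Q : QuadraticForm F (ι → F)) (hQ : (polarBilin Q).Nondegenerate)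
    (hn : 5 ≤ Fintype.card ι) : MulAction.IsPretransitive (Omega F Q) (SPt Q) := by
  have hfr : 5 ≤ finrank F (ι → F) := by rwa [finrank_fintype_fun_eq_card]
  have orth : ∀ (x u : ι → F) (hx0 : x ≠ 0) (hx : Q x = 0) (hu0 : u ≠ 0) (hu : Q u = 0), polar Q x u = 0 →
      ∃ k : Omega F Q, k • mkPt Q x hx0 hx = mkPt Q u hu0 hu := by
    intro x u hx0 hx hu0 hu hxu
    obtain ⟨v, hv, hvx, hvu⟩ := exists_sing_nonorth_both Q hQ x u hx0 hu0 hx hu hxu
    obtain ⟨k, -, hk⟩ := exists_link Q hQ hn v x u hv hx0 hx hu0 hu hvx hvu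
    exact ⟨k, hk⟩
  constructor
  intro P P'
  obtain ⟨x, hx0, hx, rfl⟩ := exists_mkPt Q P
  obtain ⟨u, hu0, hu, rfl⟩ := exists_mkPt Q P'
  by_cases hxu : polar Q x u = 0
  · exact orth x u hx0 hx hu0 hu hxu
  · have k1 := finrank_le_inf_ker (⊤ : Submodule F (ι → F)) (polarBilin Q x)
    have k2 := finrank_le_inf_ker ((⊤ : Submodule F (ι → F)) ⊓ LinearMap.ker (polarBilin Q x)) (polarBilin Q u)
    rw [finrank_top] at k1
    obtain ⟨w, hwK, hwS, hw⟩ := exists_sing_avoid Q (⊥ : Submodule F (ι → F))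
      ((⊤ : Submodule F (ι → F)) ⊓ LinearMap.ker (polarBilin Q x) ⊓ LinearMap.ker (polarBilin Q u))
      (by rw [finrank_bot]; omega)
    have hw0 : w ≠ 0 := fun h => hwS (by rw [h]; exact Submodule.zero_mem _)
    have b1 : polar Q x w = 0 := hwK.1.2
    have b2 : polar Q u w = 0 := hwK.2
    obtain ⟨k, hk⟩ := orth x w hx0 hx hw0 hw b1
    obtain ⟨k', hk'⟩ := orth w u hw0 hw hu0 hu (by rw [polar_comm]; exact b2)
    exact ⟨k' * k, by rw [mul_smul, hk, hk']⟩

theorem omega_preprimitive [Fintype F] (Q : QuadraticForm F (ι → F)) (hQ : (polarBilin Q).Nondegenerate)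
    (hn : 5 ≤ Fintype.card ι) : MulAction.IsPreprimitive (Omega F Q) (SPt Q) := by
  have hfr : 5 ≤ finrank F (ι → F) := by rwa [finrank_fintype_fun_eq_card]
  have htr := omega_pretransitive Q hQ hn
  refine { toIsPretransitive := htr, isTrivialBlock_of_isBlock := ?_ }
  intro B hB
  by_cases hsub : B.Subsingleton
  · exact Or.inl hsub
  right
  -- moving inside a block
  have move : ∀ (k : Omega F Q) (P R : SPt Q), P ∈ B → k • P = P → R ∈ B → k • R ∈ B := by
    intro k P R hP hkP hR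
    have h1 : k • B = B := hB.smul_eq_of_mem hP (by rw [hkP]; exact hP)
    rw [← h1]
    exact Set.smul_mem_smul_set hR
  have step : ∀ (x x' u : ι → F) (hx0 : x ≠ 0) (hx : Q x = 0) (hx'0 : x' ≠ 0) (hx' : Q x' = 0) (hu0 : u ≠ 0)
      (hu : Q u = 0), mkPt Q x hx0 hx ∈ B → mkPt Q x' hx'0 hx' ∈ B → polar Q x x' ≠ 0 → polar Q x u ≠ 0 →
      mkPt Q u hu0 hu ∈ B := by
    intro x x' u hx0 hx hx'0 hx' hu0 hu hxB hx'B h1 h3
    obtain ⟨k, hkx, hk⟩ := exists_link Q hQ hn x x' u hx hx'0 hx' hu0 hu h1 h3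
    rw [← hk]
    apply move k _ _ hxB _ hx'B
    rw [smul_mkPt]
    exact mkPt_congr Q hkx _ _
  have case1 : ∀ (x x' : ι → F) (hx0 : x ≠ 0) (hx : Q x = 0) (hx'0 : x' ≠ 0) (hx' : Q x' = 0),
      mkPt Q x hx0 hx ∈ B → mkPt Q x' hx'0 hx' ∈ B → polar Q x x' ≠ 0 → B = Set.univ := by
    intro x x' hx0 hx hx'0 hx' hxB hx'B h1
    rw [Set.eq_univ_iff_forall]
    intro R
    obtain ⟨u, hu0, hu, rfl⟩ := exists_mkPt Q R
    by_cases h3 : polar Q x u = 0
    swap
    · exact step x x' u hx0 hx hx'0 hx' hu0 hu hxB hx'B h1 h3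
    obtain ⟨v, hv, hvx, hvu⟩ := exists_sing_nonorth_both Q hQ x u hx0 hu0 hx hu h3
    have hv0 : v ≠ 0 := by
      rintro rfl
      simp at hvx
    have hvB := step x x' v hx0 hx hx'0 hx' hv0 hv hxB hx'B h1 (by rw [polar_comm]; exact hvx)
    exact step v x u hv0 hv hx0 hx hu0 hu hvB hxB hvx hvu
  rw [Set.not_subsingleton_iff] at hsub
  obtain ⟨P, hP, P', hP', hne⟩ := hsub
  obtain ⟨x, hx0, hx, rfl⟩ := exists_mkPt Q P
  obtain ⟨x', hx'0, hx', rfl⟩ := exists_mkPt Q P'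
  by_cases h1 : polar Q x x' = 0
  swap
  · exact case1 x x' hx0 hx hx'0 hx' hP hP' h1
  have hind : x ∉ Submodule.span F {x'} := by
    intro hmem
    obtain ⟨c, rfl⟩ := Submodule.mem_span_singleton.1 hmem
    have hc : c ≠ 0 := by
      rintro rfl
      simp at hx0
    exact hne (mkPt_smul Q x' hx'0 hx' c hc)
  obtain ⟨y, z, hy, hyz, hyx', hzx', hyx, hz⟩ := exists_move_data Q hQ hfr x x' hx h1 hind
  obtain ⟨k, hk, hkΩ⟩ := eich_mem_Omega Q hQ (Or.inr (by omega)) y z hy hyz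
  have hkx' : toEnd Q k x' = x' := by
    rw [hk, eichL_apply, hyx', hzx']; simp
  have hmv := move ⟨k, hkΩ⟩ _ _ hP' (by rw [smul_mkPt]; exact mkPt_congr Q hkx' _ _) hP
  rw [smul_mkPt] at hmv
  apply case1 x _ hx0 hx _ _ hP hmv
  change polar Q x (toEnd Q k x) ≠ 0
  have hxx : polar Q x x = 0 := by rw [polar_self, hx]; simp
  rw [hk, eichL_apply, hyx, polar_add_right, polar_add_right, polar_smul_right, polar_smul_right, hxx,
    polar_comm Q x y, hyx, polar_comm Q x z]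
  simp only [smul_eq_mul]
  intro h
  apply hz
  linear_combination -h

end Cfsg.Agent.Lib.Helper15
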