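import Mathlib
import Cfsg.Agent.Lib.Helper15.Simp5

set_option autoImplicit false

namespace Cfsg.Agent.Lib.Helper15

open Module QuadraticMap Cfsg Matrix
open scoped Pointwise

/-- Iwasawa criterion for the quotient by the centre. -/
theorem simple_quotient_center_of_iwasawa {G α : Type*} [Group G] [MulAction G α]
    [MulAction.IsQuasiPreprimitive G α] (I : MulAction.IwasawaStructure G α)
    (hperf : commutator G = ⊤) (hker : ∀ g : G, (∀ x : α, g • x = x) → g ∈ Subgroup.center G)
    (hnt : Subgroup.center G ≠ ⊤) : IsSimpleGroup (G ⧸ Subgroup.center G) := by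
  have : Nontrivial (G ⧸ Subgroup.center G) := by
    by_contra hcon
    rw [not_nontrivial_iff_subsingleton] at hcon
    apply hnt
    rw [eq_top_iff]
    intro g _
    rw [← QuotientGroup.eq_one_iff]
    exact Subsingleton.elim _ _
  refine ⟨fun N hN => ?_⟩
  set N' : Subgroup G := N.comap (QuotientGroup.mk' (Subgroup.center G)) with hN'
  have : N'.Normal := hN.comap _
  by_cases hfix : MulAction.fixedPoints N' α = Set.univ
  · left
    rw [eq_bot_iff]
    intro x hx
    obtain ⟨g, rfl⟩ := QuotientGroup.mk_surjective x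
    rw [Subgroup.mem_bot, QuotientGroup.eq_one_iff]
    apply hker
    intro a
    have : a ∈ MulAction.fixedPoints N' α := by rw [hfix]; trivial
    exact this ⟨g, hx⟩
  · right
    have h1 := I.commutator_le N' hfix
    rw [hperf, top_le_iff] at h1
    rw [eq_top_iff]
    intro x _
    obtain ⟨g, rfl⟩ := QuotientGroup.mk_surjective x
    have : g ∈ N' := by rw [h1]; trivial
    exact this

variable {F : Type*} [Field F] {ι : Type} [Fintype ι] [DecidableEq ι]

/-- membership in the root group of a point -/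
def InT (Q : QuadraticForm F (ι → F)) (W : Submodule F (ι → F)) (g : Omega F Q) : Prop :=
  ∃ x ∈ W, ∃ z, Q x = 0 ∧ polar Q x z = 0 ∧ toEnd Q (g : isometryGroup F Q) = eichL Q x z

theorem inT_span_iff (Q : QuadraticForm F (ι → F)) (x₀ : ι → F) (hx₀ : Q x₀ = 0) (g : Omega F Q) :
    InT Q (Submodule.span F {x₀}) g ↔
      ∃ z, polar Q x₀ z = 0 ∧ toEnd Q (g : isometryGroup F Q) = eichL Q x₀ z := by
  constructor
  · rintro ⟨x, hx, z, -, hxz, hg⟩
    obtain ⟨c, rfl⟩ := Submodule.mem_span_singleton.1 hx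
    refine ⟨c • z, ?_, ?_⟩
    · rw [polar_smul_right, ← polar_smul_left]; exact hxz
    · rw [hg, eich_smul_left]
  · rintro ⟨z, hz, hg⟩
    exact ⟨x₀, Submodule.mem_span_singleton_self x₀, z, hx₀, hz, hg⟩

/-- the root group of a singular point -/
def rootT (Q : QuadraticForm F (ι → F)) (P : SPt Q) : Subgroup (Omega F Q) where
  carrier := {g | InT Q P.1 g}
  one_mem' := ⟨0, Submodule.zero_mem _, 0, by simp, by simp, by
    rw [eich_zero, Subgroup.coe_one, map_one]⟩
  mul_mem' := by
    intro a b ha hb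
    obtain ⟨x₀, -, hx₀, hW⟩ := P.2
    simp only [Set.mem_ofPred_eq] at ha hb ⊢
    rw [hW, inT_span_iff Q x₀ hx₀] at ha hb ⊢
    obtain ⟨z, hz, ha⟩ := ha
    obtain ⟨z', hz', hb⟩ := hb
    refine ⟨z + z', by rw [polar_add_right, hz, hz', add_zero], ?_⟩
    rw [Subgroup.coe_mul, map_mul, ha, hb, eich_add Q x₀ z z' hx₀ hz hz']
  inv_mem' := by
    intro a ha
    obtain ⟨x₀, -, hx₀, hW⟩ := P.2
    simp only [Set.mem_ofPred_eq] at ha ⊢
    rw [hW, inT_span_iff Q x₀ hx₀] at ha ⊢
    obtain ⟨z, hz, ha⟩ := ha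
    refine ⟨-z, by rw [polar_neg_right, hz, neg_zero], ?_⟩
    rw [Subgroup.coe_inv]
    exact toEnd_inv_of_mul Q _ _ (by rw [ha]; exact eich_mul_neg Q x₀ z hx₀ hz)

theorem mem_rootT (Q : QuadraticForm F (ι → F)) (P : SPt Q) (g : Omega F Q) : g ∈ rootT Q P ↔ InT Q P.1 g :=
  Iff.rfl

theorem inT_conj (Q : QuadraticForm F (ι → F)) (W : Submodule F (ι → F)) (g h : Omega F Q) (hh : InT Q W h) :
    InT Q (W.map (toEnd Q (g : isometryGroup F Q))) (g * h * g⁻¹) := by
  obtain ⟨x, hx, z, hQx, hxz, hh⟩ := hh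
  refine ⟨toEnd Q (g : isometryGroup F Q) x, Submodule.mem_map_of_mem hx, toEnd Q (g : isometryGroup F Q) z,
    ?_, ?_, ?_⟩
  · rw [toEnd_isIso Q (g : isometryGroup F Q) x, hQx]
  · rw [(toEnd_isIso Q (g : isometryGroup F Q)).polar, hxz]
  · exact toEnd_conj_eich Q g h x z hh

noncomputable def omegaIwasawa [Fintype F] (Q : QuadraticForm F (ι → F)) (hQ : (polarBilin Q).Nondegenerate)
    (hn : 5 ≤ Fintype.card ι) : MulAction.IwasawaStructure (Omega F Q) (SPt Q) where
  T := rootT Q
  is_comm P := by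
    refine ⟨⟨fun a b => ?_⟩⟩
    obtain ⟨x₀, -, hx₀, hW⟩ := P.2
    have ha := a.2
    have hb := b.2
    rw [mem_rootT, hW, inT_span_iff Q x₀ hx₀] at ha hb
    obtain ⟨z, hz, ha⟩ := ha
    obtain ⟨z', hz', hb⟩ := hb
    apply Subtype.ext
    apply Subtype.ext
    apply toEnd_injective Q
    change toEnd Q (((a : Omega F Q) : isometryGroup F Q) * ((b : Omega F Q) : isometryGroup F Q)) =
      toEnd Q (((b : Omega F Q) : isometryGroup F Q) * ((a : Omega F Q) : isometryGroup F Q))
    rw [map_mul, map_mul, ha, hb, ← eich_add Q x₀ z z' hx₀ hz hz', ← eich_add Q x₀ z' z hx₀ hz' hz, add_comm]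
  is_conj g P := by
    ext h
    rw [Subgroup.mem_pointwise_smul_iff_inv_smul_mem, mem_rootT, mem_rootT]
    have e1 : (MulAut.conj g)⁻¹ • h = g⁻¹ * h * g := by
      rw [MulAut.smul_def, MulAut.conj_inv_apply]
    rw [e1]
    constructor
    · intro hh
      have := inT_conj Q _ g⁻¹ h hh
      have e2 : ((g • P : SPt Q).1).map (toEnd Q ((g⁻¹ : Omega F Q) : isometryGroup F Q)) = P.1 := by
        have : g⁻¹ • (g • P) = P := inv_smul_smul g P
        exact congrArg Subtype.val this
      rw [e2, inv_inv] at this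
      exact this
    · intro hh
      have := inT_conj Q _ g _ hh
      have e2 : g * (g⁻¹ * h * g) * g⁻¹ = h := by group
      rw [e2] at this
      exact this
  is_generator := by
    rw [eq_top_iff]
    have key : Subgroup.closure (siegGens Q) ≤ (iSup (rootT Q)).map (Omega F Q).subtype := by
      rw [Subgroup.closure_le]
      intro k hk
      have hkΩ : k ∈ Omega F Q := by
        rw [Omega_eq_closure_sieg Q hQ hn]; exact Subgroup.subset_closure hk
      obtain ⟨y, z, hy, -, hyz, hk⟩ := hk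
      by_cases hy0 : y = 0
      · rw [hy0, eich_zero_left, ← map_one (toEnd Q)] at hk
        rw [toEnd_injective Q hk]
        exact Subgroup.one_mem _
      · refine ⟨⟨k, hkΩ⟩, ?_, rfl⟩
        apply Subgroup.mem_iSup_of_mem (mkPt Q y hy0 hy)
        exact ⟨y, Submodule.mem_span_singleton_self y, z, hy, hyz, hk⟩
    rw [← Omega_eq_closure_sieg Q hQ hn] at key
    intro ω _
    obtain ⟨ω', hω', hωω⟩ := key ω.2
    have : ω' = ω := Subtype.ext hωω
    rw [← this]; exact hω'

theorem omega_kernel_le_center [Fintype F] (Q : QuadraticForm F (ι → F)) (hQ : (polarBilin Q).Nondegenerate)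
    (hn : 5 ≤ Fintype.card ι) (g : Omega F Q) (hg : ∀ P : SPt Q, g • P = P) :
    g ∈ Subgroup.center (Omega F Q) := by
  have hfr : 5 ≤ finrank F (ι → F) := by rwa [finrank_fintype_fun_eq_card]
  obtain ⟨e, f, e₂, f₂, h, h', h1, h2, h3, h4⟩ := exists_two_hpairs Q hQ hfr
  obtain ⟨c, hc⟩ := scalar_of_eigen Q (toEnd Q (g : isometryGroup F Q)) (by
    intro u hu0 hu
    have h5 := hg (mkPt Q u hu0 hu)
    rw [smul_mkPt] at h5
    have h6 : Submodule.span F {toEnd Q (g : isometryGroup F Q) u} = Submodule.span F {u} :=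
      congrArg Subtype.val h5
    have h7 : toEnd Q (g : isometryGroup F Q) u ∈ Submodule.span F {u} := by
      rw [← h6]; exact Submodule.mem_span_singleton_self _
    obtain ⟨c, hc⟩ := Submodule.mem_span_singleton.1 h7
    exact ⟨c, hc.symm⟩) e f e₂ f₂ h h' h1 h2 h3 h4
  rw [Subgroup.mem_center_iff]
  intro k
  apply Subtype.ext
  apply toEnd_injective Q
  change toEnd Q ((k : isometryGroup F Q) * (g : isometryGroup F Q)) =
    toEnd Q ((g : isometryGroup F Q) * (k : isometryGroup F Q))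
  rw [map_mul, map_mul]
  refine LinearMap.ext (fun x => ?_)
  rw [Module.End.mul_apply, Module.End.mul_apply, hc, hc, map_smul]

theorem omega_center_ne_top [Fintype F] (Q : QuadraticForm F (ι → F)) (hQ : (polarBilin Q).Nondegenerate)
    (hn : 7 ≤ Fintype.card ι) : Subgroup.center (Omega F Q) ≠ ⊤ := by
  have hfr : 5 ≤ finrank F (ι → F) := by rw [finrank_fintype_fun_eq_card]; omega
  intro hc
  rw [← commutator_eq_bot_iff_center_eq_top, Omega_perfect Q hQ hn] at hc
  obtain ⟨e, f, e₂, f₂, h, h', h1, h2, h3, h4⟩ := exists_two_hpairs Q hQ hfr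
  obtain ⟨k, hk, hkΩ⟩ := eich_mem_Omega Q hQ (Or.inr (by omega)) e e₂ h.Qe h1
  have hk1 : (⟨k, hkΩ⟩ : Omega F Q) = 1 := by
    have : (⟨k, hkΩ⟩ : Omega F Q) ∈ (⊤ : Subgroup (Omega F Q)) := trivial
    rw [hc] at this
    exact this
  have hk2 : k = 1 := congrArg Subtype.val hk1
  rw [hk2, map_one] at hk
  have h5 := congrArg (fun T : Module.End F (ι → F) => T f) hk
  simp only [Module.End.one_apply] at h5
  rw [eichL_apply, h.ef, h'.Qe, polar_comm Q e₂ f, h3] at h5
  apply h'.e_ne_zero
  have h6 : (-1 : F) • e₂ = 0 := by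
    have : f = f + (-1 : F) • e₂ := by simpa using h5
    exact left_eq_add.1 this
  simpa using h6

theorem POmega_simple [Fintype F] (Q : QuadraticForm F (ι → F)) (hQ : (polarBilin Q).Nondegenerate)
    (hn : 7 ≤ Fintype.card ι) : IsSimpleGroup (POmega F Q) := by
  have := omega_preprimitive Q hQ (by omega)
  exact simple_quotient_center_of_iwasawa (omegaIwasawa Q hQ (by omega)) (Omega_perfect Q hQ hn)
    (omega_kernel_le_center Q hQ (by omega)) (omega_center_ne_top Q hQ hn)

end Cfsg.Agent.Lib.Helper15
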