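import Mathlib
import Cfsg.Agent.Lib.Helper15.SU3T
import Cfsg.Agent.Lib.Helper15.SUSmall3
import Cfsg.Agent.Lib.Helper15.Simp6

set_option autoImplicit false

namespace Cfsg.Agent.Lib.Helper15

open Module Matrix Cfsg Cfsg.Agent.Lib.Helper14
open scoped Pointwise

variable {F : Type*} [Field F] [Fintype F] {n q : ℕ}

theorem exists_isotropic_ne_zero (hF : Fintype.card F = q ^ 2) (hn : 2 ≤ n) :
    ∃ a₀ : Fin n → F, a₀ ≠ 0 ∧ hermForm n F q a₀ a₀ = 0 := by
  have h1 : hermForm n F q (Pi.single (⟨0, by omega⟩ : Fin n) 1) (Pi.single (⟨0, by omega⟩ : Fin n) 1) = 1 := by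
    rw [hf_single_single hF, if_pos rfl]
  obtain ⟨x, hxv, hxx⟩ := exists_norm_perp_one hF (by omega) (Pi.single (⟨0, by omega⟩ : Fin n) 1)
    (by rw [h1]; exact one_ne_zero) (-1) (by rw [neg_pow_q hF, one_pow])
  refine ⟨Pi.single (⟨0, by omega⟩ : Fin n) 1 + x, ?_, ?_⟩
  · intro h0
    have := congrArg (fun t => hermForm n F q t (Pi.single (⟨0, by omega⟩ : Fin n) 1)) h0
    simp only [hermForm_add_left, h1, hxv, hermForm_zero_left] at this
    simp at this
  · simp only [hermForm_add_left, hermForm_add_right hF, h1, hxv, hxx, hermForm_eq_zero_symm hF _ _ hxv]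
    ring

theorem herm_ne_symm (hF : Fintype.card F = q ^ 2) {x y : Fin n → F} (h : hermForm n F q x y ≠ 0) :
    hermForm n F q y x ≠ 0 := fun h0 => h (hermForm_eq_zero_symm hF _ _ h0)

theorem scalar_of_isotropic_eigen' (hF : Fintype.card F = q ^ 2) (v₀ : Fin n → F) (hv₀0 : v₀ ≠ 0)
    (hv₀ : hermForm n F q v₀ v₀ = 0) (A : (Fin n → F) →ₗ[F] (Fin n → F))
    (hA : ∀ v, hermForm n F q v v = 0 → ∃ l : F, A v = l • v) : ∃ l : F, ∀ x, A x = l • x := by
  obtain ⟨c₀, hc₀, hc₀'⟩ := exists_skew hF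
  obtain ⟨l₀, hl₀⟩ := hA v₀ hv₀
  have c1 : ∀ y, hermForm n F q y y = 0 → hermForm n F q y v₀ ≠ 0 → A y = l₀ • y := by
    intro y hyy hy
    set a := hermForm n F q y v₀ with ha
    have hvy : hermForm n F q v₀ y = a ^ q := by rw [ha, hermForm_swap hF]
    have haq : a ^ q ≠ 0 := pow_ne_zero _ hy
    obtain ⟨ly, hly⟩ := hA y hyy
    have hiso : hermForm n F q (v₀ + (c₀ / a) • y) (v₀ + (c₀ / a) • y) = 0 := by
      simp only [hermForm_add_left, hermForm_add_right hF, hermForm_smul_left, hermForm_smul_right, hv₀, hyy,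
        hvy, ← ha, div_pow]
      field_simp
      linear_combination (a * a ^ q) * hc₀'
    obtain ⟨l', hl'⟩ := hA _ hiso
    rw [map_add, map_smul, hl₀, hly] at hl'
    have h1 := congrArg (fun t => hermForm n F q t v₀) hl'
    have h2 := congrArg (fun t => hermForm n F q t y) hl'
    simp only [hermForm_add_left, hermForm_smul_left, hv₀, hyy, hvy, ← ha] at h1 h2
    have e1 : ly = l' := by
      have : (c₀ / a * a) * (ly - l') = 0 := by linear_combination h1
      rcases mul_eq_zero.1 this with h | h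
      · exfalso
        rw [div_mul_cancel₀ _ hy] at h
        exact hc₀ h
      · exact sub_eq_zero.1 h
    have e2 : l₀ = l' := by
      have : a ^ q * (l₀ - l') = 0 := by linear_combination h2
      rcases mul_eq_zero.1 this with h | h
      · exact absurd h haq
      · exact sub_eq_zero.1 h
    rw [hly, e1, e2]
  obtain ⟨w₀, hw₀v, hw₀⟩ := exists_hyperbolic_partner hF v₀ hv₀0 hv₀
  have hAw := c1 w₀ hw₀ (by rw [hw₀v]; exact one_ne_zero)
  refine ⟨l₀, fun x => ?_⟩
  obtain ⟨t, ht⟩ : ∃ t : F, t = 1 - hermForm n F q x v₀ := ⟨_, rfl⟩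
  obtain ⟨x', hx'⟩ : ∃ x' : Fin n → F, x' = x + t • w₀ := ⟨_, rfl⟩
  have hx'v : hermForm n F q x' v₀ = 1 := by
    rw [hx', hermForm_add_left, hermForm_smul_left, hw₀v, ht]; ring
  have hvx' : hermForm n F q v₀ x' = 1 := by rw [← hermForm_swap hF, hx'v, one_pow]
  obtain ⟨s, hs⟩ := exists_trace_eq hF 1 one_ne_zero (-hermForm n F q x' x')
    (by rw [neg_pow_q hF, hermForm_self_pow hF])
  rw [one_pow, mul_one, mul_one] at hs
  have hy := c1 (x' + s • v₀) (by
    simp only [hermForm_add_left, hermForm_add_right hF, hermForm_smul_left, hermForm_smul_right, hv₀, hx'v, hvx']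
    linear_combination hs) (by
    rw [hermForm_add_left, hermForm_smul_left, hv₀, hx'v]; simp)
  have e : A x = A (x' + s • v₀) - s • A v₀ - t • A w₀ := by
    rw [← map_smul, ← map_smul, ← map_sub, ← map_sub]
    congr 1
    rw [hx']; abel
  rw [e, hy, hl₀, hAw, hx']
  module

/-- the isotropic points -/
def UPt (n : ℕ) (F : Type*) [Field F] (q : ℕ) : Type _ :=
  {W : Submodule F (Fin n → F) // ∃ x, x ≠ 0 ∧ hermForm n F q x x = 0 ∧ W = Submodule.span F {x}}

omit [Fintype F] in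
/-- the point spanned by an isotropic vector -/
def mkU (x : Fin n → F) (hx0 : x ≠ 0) (hx : hermForm n F q x x = 0) : UPt n F q :=
  ⟨Submodule.span F {x}, x, hx0, hx, rfl⟩

omit [Fintype F] in
theorem suMat_ne_zero (g : ↥(SU n F q)) (x : Fin n → F) (hx : x ≠ 0) : suMat g *ᵥ x ≠ 0 := by
  intro h
  apply hx
  rw [← suMat_inv_mul g x, h, Matrix.mulVec_zero]

noncomputable instance instMulActionUPt : MulAction ↥(SU n F q) (UPt n F q) where
  smul g W := ⟨W.1.map (Matrix.mulVecLin (suMat g)), by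
    obtain ⟨x, hx0, hx, hW⟩ := W.2
    refine ⟨suMat g *ᵥ x, suMat_ne_zero g x hx0, ?_, ?_⟩
    · rw [suMat_pres, hx]
    · rw [hW, Submodule.map_span, Set.image_singleton]; rfl⟩
  one_smul W := by
    apply Subtype.ext
    change W.1.map (Matrix.mulVecLin (suMat (1 : ↥(SU n F q)))) = W.1
    have : Matrix.mulVecLin (suMat (1 : ↥(SU n F q))) = LinearMap.id := Matrix.mulVecLin_one
    rw [this]; exact Submodule.map_id _
  mul_smul g h W := by
    apply Subtype.ext
    change W.1.map (Matrix.mulVecLin (suMat (g * h))) =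
      (W.1.map (Matrix.mulVecLin (suMat h))).map (Matrix.mulVecLin (suMat g))
    rw [← Submodule.map_comp, ← Matrix.mulVecLin_mul]
    rfl

omit [Fintype F] in
theorem smul_mkU (g : ↥(SU n F q)) (x : Fin n → F) (hx0 : x ≠ 0) (hx : hermForm n F q x x = 0) :
    g • mkU x hx0 hx = mkU (suMat g *ᵥ x) (suMat_ne_zero g x hx0) (by rw [suMat_pres, hx]) := by
  apply Subtype.ext
  change (Submodule.span F {x}).map (Matrix.mulVecLin (suMat g)) = _
  rw [Submodule.map_span, Set.image_singleton]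
  rfl

omit [Fintype F] in
theorem mkU_congr {x x' : Fin n → F} (h : x = x') (hx0 : x ≠ 0) (hx : hermForm n F q x x = 0) :
    mkU x hx0 hx = mkU x' (h ▸ hx0) (h ▸ hx) := by
  subst h; rfl

omit [Fintype F] in
theorem mkU_smul (x : Fin n → F) (hx0 : x ≠ 0) (hx : hermForm n F q x x = 0) (c : F) (hc : c ≠ 0) :
    mkU (c • x) (smul_ne_zero hc hx0) (by rw [hermForm_smul_left, hermForm_smul_right, hx]; ring) =
      mkU x hx0 hx := by
  apply Subtype.ext
  exact Submodule.span_singleton_smul_eq (IsUnit.mk0 c hc) x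

omit [Fintype F] in
theorem exists_mkU (P : UPt n F q) : ∃ x hx0 hx, P = mkU x hx0 hx := by
  obtain ⟨x, hx0, hx, hW⟩ := P.2
  exact ⟨x, hx0, hx, Subtype.ext hW⟩

theorem exists_su_of_gl (k : GL (Fin n) F) (hk : k ∈ GU n F q ⊓ Geo.specialLinear (Fin n) F) :
    ∃ K : ↥(SU n F q), suMat K = (k : Matrix (Fin n) (Fin n) F) := by
  obtain ⟨K, hK⟩ := exists_suToGL k hk
  exact ⟨K, by rw [← hK]; rfl⟩

theorem exists_linkU (hF : Fintype.card F = q ^ 2) (v x v' u : Fin n → F) (hv0 : v ≠ 0)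
    (hv : hermForm n F q v v = 0) (hx0 : x ≠ 0) (hx : hermForm n F q x x = 0) (hv'0 : v' ≠ 0)
    (hv' : hermForm n F q v' v' = 0) (hu0 : u ≠ 0)
    (hu : hermForm n F q u u = 0) (hxv : hermForm n F q x v ≠ 0) (huv : hermForm n F q u v' ≠ 0) :
    ∃ k : ↥(SU n F q), k • mkU v hv0 hv = mkU v' hv'0 hv' ∧ k • mkU x hx0 hx = mkU u hu0 hu := by
  obtain ⟨k, hk, ⟨α, hα0, hα⟩, ⟨β, hβ0, hβ⟩⟩ := su_hyp_trans hF v x v' u hv hx hv' hu hxv huv
  obtain ⟨K, hK⟩ := exists_su_of_gl k hk
  refine ⟨K, ?_, ?_⟩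
  · rw [smul_mkU, ← mkU_smul v' hv'0 hv' α hα0]
    apply mkU_congr
    rw [hK, hα]
  · rw [smul_mkU, ← mkU_smul u hu0 hu β hβ0]
    apply mkU_congr
    rw [hK, hβ]

theorem su_pretransitive (hF : Fintype.card F = q ^ 2) :
    MulAction.IsPretransitive ↥(SU n F q) (UPt n F q) := by
  constructor
  intro P P'
  obtain ⟨x, hx0, hx, rfl⟩ := exists_mkU P
  obtain ⟨u, hu0, hu, rfl⟩ := exists_mkU P'
  by_cases hxu : hermForm n F q x u = 0
  · by_cases hdep : ∃ a : F, a • x = u
    · obtain ⟨a, rfl⟩ := hdep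
      have ha : a ≠ 0 := by
        rintro rfl
        simp at hu0
      exact ⟨1, by rw [one_smul]; exact (mkU_smul x hx0 hx a ha).symm⟩
    · push Not at hdep
      have hind := (LinearIndependent.pair_iff' hx0).2 hdep
      obtain ⟨y, hy, hyx, hyu⟩ := exists_iso_prescribed_two hF x u hx hxu hind 1
      have hy0 : y ≠ 0 := by
        rintro rfl
        rw [hermForm_zero_left] at hyx
        exact zero_ne_one hyx
      obtain ⟨k, -, hk⟩ := exists_linkU hF y x y u hy0 hy hx0 hx hy0 hy hu0 hu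
        (herm_ne_symm hF (by rw [hyx]; exact one_ne_zero)) (herm_ne_symm hF (by rw [hyu]; exact one_ne_zero))
      exact ⟨k, hk⟩
  · obtain ⟨k, -, hk⟩ := exists_linkU hF u x x u hu0 hu hx0 hx hx0 hx hu0 hu hxu (herm_ne_symm hF hxu)
    exact ⟨k, hk⟩

theorem su_preprimitive (hF : Fintype.card F = q ^ 2) :
    MulAction.IsPreprimitive ↥(SU n F q) (UPt n F q) := by
  have htr := su_pretransitive (n := n) hF
  refine { toIsPretransitive := htr, isTrivialBlock_of_isBlock := ?_ }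
  intro B hB
  by_cases hsub : B.Subsingleton
  · exact Or.inl hsub
  right
  have move : ∀ (k : ↥(SU n F q)) (P R : UPt n F q), P ∈ B → k • P = P → R ∈ B → k • R ∈ B := by
    intro k P R hP hkP hR
    have h1 : k • B = B := hB.smul_eq_of_mem hP (by rw [hkP]; exact hP)
    rw [← h1]
    exact Set.smul_mem_smul_set hR
  have step : ∀ (x x' u : Fin n → F) (hx0 : x ≠ 0) (hx : hermForm n F q x x = 0) (hx'0 : x' ≠ 0)
      (hx' : hermForm n F q x' x' = 0) (hu0 : u ≠ 0) (hu : hermForm n F q u u = 0),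
      mkU x hx0 hx ∈ B → mkU x' hx'0 hx' ∈ B → hermForm n F q x' x ≠ 0 → hermForm n F q u x ≠ 0 →
      mkU u hu0 hu ∈ B := by
    intro x x' u hx0 hx hx'0 hx' hu0 hu hxB hx'B h1 h3
    obtain ⟨k, hkx, hk⟩ := exists_linkU hF x x' x u hx0 hx hx'0 hx' hx0 hx hu0 hu h1 h3
    rw [← hk]
    exact move k _ _ hxB hkx hx'B
  have case1 : ∀ (x x' : Fin n → F) (hx0 : x ≠ 0) (hx : hermForm n F q x x = 0) (hx'0 : x' ≠ 0)
      (hx' : hermForm n F q x' x' = 0), mkU x hx0 hx ∈ B → mkU x' hx'0 hx' ∈ B →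
      hermForm n F q x' x ≠ 0 → B = Set.univ := by
    intro x x' hx0 hx hx'0 hx' hxB hx'B h1
    rw [Set.eq_univ_iff_forall]
    intro R
    obtain ⟨u, hu0, hu, rfl⟩ := exists_mkU R
    by_cases h3 : hermForm n F q x u = 0
    swap
    · exact step x x' u hx0 hx hx'0 hx' hu0 hu hxB hx'B h1 (herm_ne_symm hF h3)
    by_cases hdep : ∃ a : F, a • x = u
    · obtain ⟨a, rfl⟩ := hdep
      have ha : a ≠ 0 := by
        rintro rfl
        simp at hu0
      rw [mkU_smul x hx0 hx a ha]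
      exact hxB
    · push Not at hdep
      have hind := (LinearIndependent.pair_iff' hx0).2 hdep
      obtain ⟨y, hy, hyx, hyu⟩ := exists_iso_prescribed_two hF x u hx h3 hind 1
      have hy0 : y ≠ 0 := by
        rintro rfl
        rw [hermForm_zero_left] at hyx
        exact zero_ne_one hyx
      have hyB := step x x' y hx0 hx hx'0 hx' hy0 hy hxB hx'B h1 (by rw [hyx]; exact one_ne_zero)
      exact step y x u hy0 hy hx0 hx hu0 hu hyB hxB (herm_ne_symm hF (by rw [hyx]; exact one_ne_zero))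
        (herm_ne_symm hF (by rw [hyu]; exact one_ne_zero))
  rw [Set.not_subsingleton_iff] at hsub
  obtain ⟨P, hP, P', hP', hne⟩ := hsub
  obtain ⟨x, hx0, hx, rfl⟩ := exists_mkU P
  obtain ⟨x', hx'0, hx', rfl⟩ := exists_mkU P'
  by_cases h1 : hermForm n F q x x' = 0
  swap
  · exact case1 x x' hx0 hx hx'0 hx' hP hP' (herm_ne_symm hF h1)
  have hind : LinearIndependent F ![x, x'] := by
    apply (LinearIndependent.pair_iff' hx0).2
    rintro a rfl
    have ha : a ≠ 0 := by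
      rintro rfl
      simp at hx'0
    exact hne (mkU_smul x hx0 hx a ha).symm
  obtain ⟨y, hy, hyx, hyx'⟩ := exists_iso_prescribed_two hF x x' hx h1 hind 0
  obtain ⟨c₀, hc₀, hc₀'⟩ := exists_skew hF
  obtain ⟨k, -, hk⟩ := exists_tv hF y c₀ hy hc₀'
  obtain ⟨K, hK⟩ := exists_su_of_gl k (tv_mem_SU hF y c₀ hy hc₀' k hk)
  have hKx' : suMat K *ᵥ x' = x' := by
    rw [hK, hk, hermForm_eq_zero_symm hF _ _ hyx']; simp
  have hmv := move K _ _ hP' (by rw [smul_mkU]; exact mkU_congr hKx' _ _) hP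
  rw [smul_mkU] at hmv
  apply case1 x _ hx0 hx _ _ hP hmv
  have hxy : hermForm n F q x y = 1 := by rw [← hermForm_swap hF, hyx, one_pow]
  rw [hK, hk, hermForm_add_left, hermForm_smul_left, hx, hyx, hxy]
  simpa using hc₀

end Cfsg.Agent.Lib.Helper15
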