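import Mathlib
import Cfsg.Agent.S2162
import Cfsg.Agent.Lib.Helper14.SLGen
import Cfsg.Prelude.Def_RootSubgroups

set_option autoImplicit false

namespace Cfsg.Agent.Lib.Helper15

open Module Matrix Cfsg

variable {F : Type*} [Field F] {N : ℕ}

/-- the matrix of an element of the special linear group -/
abbrev slM (A : Matrix.SpecialLinearGroup (Fin N) F) : Matrix (Fin N) (Fin N) F := A

theorem sl_ext {A B : Matrix.SpecialLinearGroup (Fin N) F} (h : ∀ x, slM A *ᵥ x = slM B *ᵥ x) : A = B := by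
  apply Subtype.ext
  apply Matrix.toLin'.injective
  apply LinearMap.ext
  intro x
  rw [Matrix.toLin'_apply, Matrix.toLin'_apply]
  exact h x

theorem slM_mul (A B : Matrix.SpecialLinearGroup (Fin N) F) (x : Fin N → F) :
    slM (A * B) *ᵥ x = slM A *ᵥ (slM B *ᵥ x) := by
  rw [Matrix.mulVec_mulVec]; rfl

theorem slM_one (x : Fin N → F) : slM (1 : Matrix.SpecialLinearGroup (Fin N) F) *ᵥ x = x :=
  Matrix.one_mulVec x

theorem slM_inv_mul (A : Matrix.SpecialLinearGroup (Fin N) F) (x : Fin N → F) :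
    slM A⁻¹ *ᵥ (slM A *ᵥ x) = x := by
  rw [← slM_mul, inv_mul_cancel, slM_one]

theorem slM_mul_inv (A : Matrix.SpecialLinearGroup (Fin N) F) (x : Fin N → F) :
    slM A *ᵥ (slM A⁻¹ *ᵥ x) = x := by
  rw [← slM_mul, mul_inv_cancel, slM_one]

/-- `t` is the transvection `x ↦ x + φ x • a` -/
def IsTvS (t : Matrix.SpecialLinearGroup (Fin N) F) (a : Fin N → F) (φ : Module.Dual F (Fin N → F)) : Prop :=
  a ≠ 0 ∧ φ ≠ 0 ∧ φ a = 0 ∧ ∀ x, slM t *ᵥ x = x + φ x • a

theorem transvection_mulVec (i j : Fin N) (c : F) (x : Fin N → F) :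
    Matrix.transvection i j c *ᵥ x = x + (c * x j) • Pi.single i 1 := by
  rw [Matrix.transvection, Matrix.add_mulVec, Matrix.one_mulVec]
  congr 1
  ext k
  simp only [Pi.smul_apply, smul_eq_mul, Pi.single_apply, Matrix.mulVec, dotProduct, Matrix.single_apply]
  by_cases hk : k = i
  · subst hk
    simp
  · have : ¬ i = k := fun h => hk h.symm
    simp [hk, this]

theorem IsTvS.ne_one {t : Matrix.SpecialLinearGroup (Fin N) F} {a : Fin N → F} {φ : Module.Dual F (Fin N → F)}
    (h : IsTvS t a φ) : t ≠ 1 := by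
  rintro rfl
  obtain ⟨x, hx⟩ : ∃ x, φ x ≠ 0 := by
    by_contra hcon
    push Not at hcon
    exact h.2.1 (LinearMap.ext hcon)
  have h1 := h.2.2.2 x
  rw [slM_one] at h1
  have h2 : φ x • a = 0 := by simpa using h1
  rcases smul_eq_zero.1 h2 with h3 | h3
  · exact hx h3
  · exact h.1 h3

theorem IsTvS.mul_self [CharP F 2] {t : Matrix.SpecialLinearGroup (Fin N) F} {a : Fin N → F}
    {φ : Module.Dual F (Fin N → F)} (h : IsTvS t a φ) : t * t = 1 := by
  apply sl_ext
  intro x
  rw [slM_mul, h.2.2.2, h.2.2.2, map_add, map_smul, h.2.2.1, slM_one]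
  have h2 : (2 : F) = 0 := CharTwo.two_eq_zero
  have : x + φ x • a + (φ x + φ x • (0 : F)) • a = x + ((2 : F) * φ x) • a := by
    rw [smul_zero]; module
  rw [this, h2, zero_mul, zero_smul, add_zero]

theorem IsTvS.orderOf [CharP F 2] {t : Matrix.SpecialLinearGroup (Fin N) F} {a : Fin N → F}
    {φ : Module.Dual F (Fin N → F)} (h : IsTvS t a φ) : orderOf t = 2 :=
  orderOf_eq_prime (by rw [pow_two]; exact h.mul_self) h.ne_one

theorem IsTvS.rank {t : Matrix.SpecialLinearGroup (Fin N) F} {a : Fin N → F}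
    {φ : Module.Dual F (Fin N → F)} (h : IsTvS t a φ) : (slM t - 1).rank = 1 := by
  have hr : LinearMap.range (slM t - 1).mulVecLin = Submodule.span F {a} := by
    apply le_antisymm
    · rintro _ ⟨x, rfl⟩
      rw [Matrix.mulVecLin_apply, Matrix.sub_mulVec, Matrix.one_mulVec, h.2.2.2, add_sub_cancel_left]
      exact Submodule.smul_mem _ _ (Submodule.mem_span_singleton_self a)
    · rw [Submodule.span_singleton_le_iff_mem]
      obtain ⟨x, hx⟩ : ∃ x, φ x ≠ 0 := by
        by_contra hcon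
        push Not at hcon
        exact h.2.1 (LinearMap.ext hcon)
      refine ⟨(φ x)⁻¹ • x, ?_⟩
      rw [Matrix.mulVecLin_apply, Matrix.sub_mulVec, Matrix.one_mulVec, h.2.2.2, add_sub_cancel_left, map_smul,
        smul_eq_mul, inv_mul_cancel₀ hx, one_smul]
  show finrank F (LinearMap.range (slM t - 1).mulVecLin) = 1
  rw [hr, finrank_span_singleton h.1]

theorem IsTvS.conj {t : Matrix.SpecialLinearGroup (Fin N) F} {a : Fin N → F}
    {φ : Module.Dual F (Fin N → F)} (h : IsTvS t a φ) (g : Matrix.SpecialLinearGroup (Fin N) F) :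
    IsTvS (g * t * g⁻¹) (slM g *ᵥ a) (φ.comp (Matrix.mulVecLin (slM g⁻¹))) := by
  refine ⟨?_, ?_, ?_, fun x => ?_⟩
  · intro h0
    apply h.1
    rw [← slM_inv_mul g a, h0, Matrix.mulVec_zero]
  · intro h0
    apply h.2.1
    apply LinearMap.ext
    intro x
    have := congrArg (fun f => f (slM g *ᵥ x)) h0
    simp only [LinearMap.comp_apply, Matrix.mulVecLin_apply, LinearMap.zero_apply] at this
    rwa [slM_inv_mul] at this
  · rw [LinearMap.comp_apply, Matrix.mulVecLin_apply, slM_inv_mul]; exact h.2.2.1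
  · rw [slM_mul, slM_mul, h.2.2.2, Matrix.mulVec_add, Matrix.mulVec_smul, slM_mul_inv]
    rfl

theorem isTvS_transvection {i j : Fin N} (hij : i ≠ j) (c : F) (hc : c ≠ 0)
    (t : Matrix.SpecialLinearGroup (Fin N) F) (ht : slM t = Matrix.transvection i j c) :
    IsTvS t (Pi.single i 1) (c • LinearMap.proj j) := by
  refine ⟨?_, ?_, ?_, fun x => ?_⟩
  · intro h0
    have := congrFun h0 i
    simp at this
  · intro h0
    have := congrArg (fun f : Module.Dual F (Fin N → F) => f (Pi.single j 1)) h0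
    simp at this
    exact hc this
  · simp [hij.symm]
  · rw [ht, transvection_mulVec]
    rfl

/-- the class of transvections -/
def tvClass (F : Type*) [Field F] (n : ℕ) : Set (Matrix.SpecialLinearGroup (Fin (n + 3)) F) :=
  {t | ∃ c : F, c ≠ 0 ∧ ∃ g : Matrix.SpecialLinearGroup (Fin (n + 3)) F,
    ((g⁻¹ * t * g : Matrix.SpecialLinearGroup (Fin (n + 3)) F) : Matrix (Fin (n + 3)) (Fin (n + 3)) F) =
      Matrix.transvection 0 1 c}

theorem exists_isTvS_of_mem {n : ℕ} {t : Matrix.SpecialLinearGroup (Fin (n + 3)) F} (h : t ∈ tvClass F n) :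
    ∃ a φ, IsTvS t a φ := by
  obtain ⟨c, hc, g, hg⟩ := h
  have h1 := (isTvS_transvection (by simp [Fin.ext_iff] : (0 : Fin (n + 3)) ≠ 1) c hc _ hg).conj g
  have h2 : g * (g⁻¹ * t * g) * g⁻¹ = t := by group
  rw [h2] at h1
  exact ⟨_, _, h1⟩

theorem mem_of_isTvS [Fintype F] [CharP F 2] {n : ℕ} {t : Matrix.SpecialLinearGroup (Fin (n + 3)) F}
    {a : Fin (n + 3) → F} {φ : Module.Dual F (Fin (n + 3) → F)} (h : IsTvS t a φ) : t ∈ tvClass F n := by
  have h01 : (0 : Fin (n + 3)) ≠ 1 := by simp [Fin.ext_iff]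
  have hT := isTvS_transvection h01 (1 : F) one_ne_zero (Matrix.SpecialLinearGroup.transvection h01 1) rfl
  have hc := (Cfsg.Agent.S2162.result (by omega) t (Matrix.SpecialLinearGroup.transvection h01 1) h.orderOf
    hT.orderOf).2 (by
      have e1 := h.rank
      have e2 := hT.rank
      exact e1.trans e2.symm)
  obtain ⟨g, hg⟩ := isConj_iff.1 hc
  refine ⟨1, one_ne_zero, g⁻¹, ?_⟩
  rw [inv_inv, hg]
  rfl

end Cfsg.Agent.Lib.Helper15
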