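import Mathlib
import Cfsg.Agent.Lib.Helper15.SLRoot1
import Cfsg.Agent.Lib.Helper15.SpDecNM

set_option autoImplicit false

namespace Cfsg.Agent.Lib.Helper15

open Module Matrix Cfsg

variable {F : Type*} [Field F] {N : ℕ} {d e : Matrix.SpecialLinearGroup (Fin N) F} {a b : Fin N → F}
  {φ ψ : Module.Dual F (Fin N → F)}

theorem IsTvS.mul_apply (hd : IsTvS d a φ) (he : IsTvS e b ψ) (x : Fin N → F) :
    slM (d * e) *ᵥ x = x + ψ x • b + (φ x + ψ x * φ b) • a := by
  rw [slM_mul, he.2.2.2, hd.2.2.2, map_add, map_smul, smul_eq_mul]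

theorem IsTvS.comm (hd : IsTvS d a φ) (he : IsTvS e b ψ) (h1 : φ b = 0) (h2 : ψ a = 0) : d * e = e * d := by
  apply sl_ext
  intro x
  rw [hd.mul_apply he, he.mul_apply hd, h1, h2]
  module

theorem IsTvS.sq_left [CharP F 2] (hd : IsTvS d a φ) (he : IsTvS e b ψ) (h1 : φ b ≠ 0) (h2 : ψ a = 0) :
    IsTvS ((d * e) ^ 2) a (φ b • ψ) := by
  have h02 : (2 : F) = 0 := CharTwo.two_eq_zero
  refine ⟨hd.1, smul_ne_zero h1 he.2.1, by simp [h2], fun x => ?_⟩
  rw [pow_two, slM_mul, hd.mul_apply he, hd.mul_apply he]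
  simp only [map_add, map_smul, smul_eq_mul, hd.2.2.1, he.2.2.1, h2, LinearMap.smul_apply]
  linear_combination (norm := module) h02 • (ψ x • b + (φ x + ψ x * φ b) • a)

theorem IsTvS.sq_right [CharP F 2] (hd : IsTvS d a φ) (he : IsTvS e b ψ) (h1 : φ b = 0) (h2 : ψ a ≠ 0) :
    IsTvS ((d * e) ^ 2) b (ψ a • φ) := by
  have h02 : (2 : F) = 0 := CharTwo.two_eq_zero
  refine ⟨he.1, smul_ne_zero h2 hd.2.1, by simp [h1], fun x => ?_⟩
  rw [pow_two, slM_mul, hd.mul_apply he, hd.mul_apply he]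
  simp only [map_add, map_smul, smul_eq_mul, hd.2.2.1, he.2.2.1, h1, LinearMap.smul_apply]
  linear_combination (norm := module) h02 • (ψ x • b + φ x • a)

theorem order_four_of_sq [CharP F 2] {g : Matrix.SpecialLinearGroup (Fin N) F} {c : Fin N → F}
    {χ : Module.Dual F (Fin N → F)} (h : IsTvS (g ^ 2) c χ) : orderOf g = 4 := by
  have h1 : orderOf g = 2 ^ (1 + 1) := by
    apply orderOf_eq_prime_pow
    · rw [pow_one]; exact h.ne_one
    · have := h.mul_self
      rw [← pow_add] at this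
      exact this
  rw [h1]; norm_num

theorem IsTvS.cube [CharP F 2] (hd : IsTvS d a φ) (he : IsTvS e b ψ) (h1 : φ b = 1) (h2 : ψ a = 1) :
    (d * e) ^ 3 = 1 := by
  have h02 : (2 : F) = 0 := CharTwo.two_eq_zero
  apply sl_ext
  intro x
  rw [pow_succ, pow_two, slM_mul, slM_mul, hd.mul_apply he, hd.mul_apply he, hd.mul_apply he, slM_one]
  simp only [map_add, map_smul, smul_eq_mul, hd.2.2.1, he.2.2.1, h1, h2]
  linear_combination (norm := module) h02 • ((2 * φ x + 4 * ψ x) • b + (4 * φ x + 6 * ψ x) • a)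

theorem IsTvS.odd_order [Fintype F] [CharP F 2] (hd : IsTvS d a φ) (he : IsTvS e b ψ) (h1 : φ b ≠ 0)
    (h2 : ψ a ≠ 0) : Odd (_root_.orderOf (d * e)) := by
  have h02 : (2 : F) = 0 := CharTwo.two_eq_zero
  by_contra hodd
  rw [Nat.not_odd_iff_even] at hodd
  obtain ⟨k, hk⟩ := hodd
  have hpos : 0 < _root_.orderOf (d * e) := orderOf_pos _
  obtain ⟨g, hg⟩ : ∃ g, g = d * e := ⟨_, rfl⟩
  rw [← hg] at hk hpos
  obtain ⟨z, hz⟩ : ∃ z, z = g ^ k := ⟨_, rfl⟩
  have hzz : z * z = 1 := by rw [hz, ← pow_add, ← hk, pow_orderOf_eq_one]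
  have hz1 : z ≠ 1 := by rw [hz]; exact pow_ne_one_of_lt_orderOf (by omega) (by omega)
  have hdd := hd.mul_self
  have hee := he.mul_self
  have hdi : d⁻¹ = d := inv_eq_of_mul_eq_one_left hdd
  have hei : e⁻¹ = e := inv_eq_of_mul_eq_one_left hee
  have hzi : z⁻¹ = z := inv_eq_of_mul_eq_one_left hzz
  have hgi : g⁻¹ = e * d := by rw [hg, _root_.mul_inv_rev, hdi, hei]
  have hdg : d * g * d⁻¹ = g⁻¹ := by
    rw [hgi, hdi, hg, ← mul_assoc, hdd, one_mul]
  have heg : e * g * e⁻¹ = g⁻¹ := by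
    rw [hgi, hei, hg, mul_assoc, mul_assoc, hee, mul_one]
  have hdz : d * z = z * d := by
    have : d * z * d⁻¹ = z := by rw [hz, ← conj_pow, hdg, inv_pow, ← hz, hzi]
    calc d * z = (d * z * d⁻¹) * d := by group
      _ = z * d := by rw [this]
  have hez : e * z = z * e := by
    have : e * z * e⁻¹ = z := by rw [hz, ← conj_pow, heg, inv_pow, ← hz, hzi]
    calc e * z = (e * z * e⁻¹) * e := by group
      _ = z * e := by rw [this]
  have hzz' : ∀ x, slM z *ᵥ (slM z *ᵥ x) = x := fun x => by rw [← slM_mul, hzz, slM_one]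
  have fixl : ∀ (c : Fin N → F) (l : F), c ≠ 0 → slM z *ᵥ c = l • c → slM z *ᵥ c = c := by
    intro c l hc hl
    have h3 := hzz' c
    rw [hl, Matrix.mulVec_smul, hl, smul_smul] at h3
    have h4 : (l * l - 1) • c = 0 := by rw [sub_smul, h3, one_smul, sub_self]
    have h5 : l * l - 1 = 0 := by
      rcases smul_eq_zero.1 h4 with h | h
      · exact h
      · exact absurd h hc
    have h6 : (l - 1) ^ 2 = 0 := by linear_combination h5 + (1 - l) * h02
    have h7 : l = 1 := sub_eq_zero.1 (pow_eq_zero_iff (by norm_num)|>.1 h6)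
    rw [hl, h7, one_smul]
  have hza : slM z *ᵥ a = a := by
    have h3 := congrArg (fun t => slM t *ᵥ b) hdz
    simp only [slM_mul] at h3
    rw [hd.2.2.2, hd.2.2.2 b, Matrix.mulVec_add, Matrix.mulVec_smul] at h3
    have h4 : φ b • (slM z *ᵥ a) = φ (slM z *ᵥ b) • a := (add_left_cancel h3).symm
    apply fixl a (φ (slM z *ᵥ b) / φ b) hd.1
    rw [div_eq_inv_mul, mul_smul, ← h4, smul_smul, inv_mul_cancel₀ h1, one_smul]
  have hzb : slM z *ᵥ b = b := by
    have h3 := congrArg (fun t => slM t *ᵥ a) hez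
    simp only [slM_mul] at h3
    rw [he.2.2.2, he.2.2.2 a, Matrix.mulVec_add, Matrix.mulVec_smul] at h3
    have h4 : ψ a • (slM z *ᵥ b) = ψ (slM z *ᵥ a) • b := (add_left_cancel h3).symm
    apply fixl b (ψ (slM z *ᵥ a) / ψ a) he.1
    rw [div_eq_inv_mul, mul_smul, ← h4, smul_smul, inv_mul_cancel₀ h2, one_smul]
  have hzK : ∀ x, φ x = 0 → ψ x = 0 → slM z *ᵥ x = x := by
    intro x hx1 hx2
    have : ∀ j : ℕ, slM (g ^ j) *ᵥ x = x := by
      intro j
      induction j with
      | zero => rw [pow_zero, slM_one]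
      | succ j ih =>
        rw [pow_succ, slM_mul, hg, hd.mul_apply he, hx1, hx2, ← hg]
        simp only [zero_smul, zero_mul, add_zero]
        exact ih
    rw [hz]; exact this k
  apply hz1
  apply sl_ext
  intro x
  rw [slM_one]
  have hx : x = (ψ x / ψ a) • a + (φ x / φ b) • b + (x - (ψ x / ψ a) • a - (φ x / φ b) • b) := by abel
  have hK := hzK (x - (ψ x / ψ a) • a - (φ x / φ b) • b) (by
    simp only [map_sub, map_smul, smul_eq_mul, hd.2.2.1]
    field_simp
    ring) (by
    simp only [map_sub, map_smul, smul_eq_mul, he.2.2.1]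
    field_simp
    ring)
  conv_lhs => rw [hx]
  rw [Matrix.mulVec_add, Matrix.mulVec_add, Matrix.mulVec_smul, Matrix.mulVec_smul, hza, hzb, hK]
  abel

theorem sl_root_involutions (F : Type*) [Field F] [Fintype F] [CharP F 2] (n : ℕ) :
    IsRootInvolutionClass (tvClass F n) ∧
      (Fintype.card F = 2 → IsThreeFourPlusTranspositionSet (tvClass F n)) := by
  have h01 : (0 : Fin (n + 3)) ≠ 1 := by simp
  have hset : IsRootInvolutionSet (tvClass F n) := by
    refine ⟨?_, ?_, ?_, ?_⟩
    · intro d hd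
      obtain ⟨a, φ, h⟩ := exists_isTvS_of_mem hd
      exact h.orderOf
    · rw [eq_top_iff, ← Cfsg.Agent.Lib.Helper14.SL_closure_transvection, Subgroup.closure_le]
      rintro _ ⟨i, j, hij, c, rfl⟩
      by_cases hc : c = 0
      · have : Matrix.SpecialLinearGroup.transvection hij c = 1 := by
          apply Subtype.ext
          rw [hc]
          simp
        rw [this]
        exact Subgroup.one_mem _
      · exact Subgroup.subset_closure (mem_of_isTvS (isTvS_transvection hij c hc _ rfl))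
    · intro d hd g
      obtain ⟨a, φ, h⟩ := exists_isTvS_of_mem hd
      exact mem_of_isTvS (h.conj g)
    · intro d hd e he
      obtain ⟨a, φ, hd⟩ := exists_isTvS_of_mem hd
      obtain ⟨b, ψ, he⟩ := exists_isTvS_of_mem he
      by_cases h1 : φ b = 0
      · by_cases h2 : ψ a = 0
        · exact Or.inl (hd.comm he h1 h2)
        · exact Or.inr (Or.inr ⟨order_four_of_sq (hd.sq_right he h1 h2), mem_of_isTvS (hd.sq_right he h1 h2)⟩)
      · by_cases h2 : ψ a = 0
        · exact Or.inr (Or.inr ⟨order_four_of_sq (hd.sq_left he h1 h2), mem_of_isTvS (hd.sq_left he h1 h2)⟩)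
        · exact Or.inr (Or.inl (hd.odd_order he h1 h2))
  refine ⟨⟨hset, ⟨Matrix.SpecialLinearGroup.transvection h01 1,
    mem_of_isTvS (isTvS_transvection h01 (1 : F) one_ne_zero _ rfl)⟩, ?_⟩, fun hq => ⟨hset, ?_⟩⟩
  · intro d hd e he
    obtain ⟨a, φ, hd⟩ := exists_isTvS_of_mem hd
    obtain ⟨b, ψ, he⟩ := exists_isTvS_of_mem he
    have hc := (Cfsg.Agent.S2162.result (by omega) d e hd.orderOf he.orderOf).2 (by
      have e1 := hd.rank
      have e2 := he.rank
      exact e1.trans e2.symm)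
    obtain ⟨g, hg⟩ := isConj_iff.1 hc
    exact ⟨g, hg.symm⟩
  · intro d hd e he hodd
    obtain ⟨a, φ, hd⟩ := exists_isTvS_of_mem hd
    obtain ⟨b, ψ, he⟩ := exists_isTvS_of_mem he
    by_cases h1 : φ b = 0
    · by_cases h2 : ψ a = 0
      · left
        have h3 : (d * e) ^ 2 = 1 := by
          rw [pow_two]
          calc d * e * (d * e) = d * (e * d) * e := by group
            _ = d * (d * e) * e := by rw [hd.comm he h1 h2]
            _ = (d * d) * (e * e) := by group
            _ = 1 := by rw [hd.mul_self, he.mul_self, one_mul]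
        have h4 := orderOf_dvd_of_pow_eq_one h3
        rcases (Nat.dvd_prime Nat.prime_two).1 h4 with h5 | h5
        · exact h5
        · rw [h5] at hodd
          exact absurd hodd (by decide)
      · rw [order_four_of_sq (hd.sq_right he h1 h2)] at hodd
        exact absurd hodd (by decide)
    · by_cases h2 : ψ a = 0
      · rw [order_four_of_sq (hd.sq_left he h1 h2)] at hodd
        exact absurd hodd (by decide)
      · have e1 : φ b = 1 := (card_two_cases hq _).resolve_left h1
        have e2 : ψ a = 1 := (card_two_cases hq _).resolve_left h2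
        exact (Nat.dvd_prime Nat.prime_three).1 (orderOf_dvd_of_pow_eq_one (hd.cube he e1 e2))

end Cfsg.Agent.Lib.Helper15
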