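import Mathlib
import Cfsg.Agent.Lib.Helper15.SU3T

set_option autoImplicit false

namespace Cfsg.Agent.Lib.Helper15

open Module Matrix Cfsg Cfsg.Agent.Lib.Helper14

variable {F : Type*} [Field F] [Fintype F] {n : ℕ}

theorem isT_of_rank_one (hF : Fintype.card F = 2 ^ 2) (A : ↥(SU n F 2)) (h : (suMat A - 1).rank = 1) :
    ∃ a, IsT A a := by
  set B := suMat A - 1 with hB
  have hfr : Module.finrank F (LinearMap.range B.mulVecLin) = 1 := h
  obtain ⟨⟨w, hwr⟩, hw0, hspan⟩ := finrank_eq_one_iff'.1 hfr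
  have hw0' : w ≠ 0 := fun h0 => hw0 (Subtype.ext h0)
  have hAx : ∀ x, suMat A *ᵥ x = x + B *ᵥ x := by
    intro x
    rw [hB, Matrix.sub_mulVec, Matrix.one_mulVec]; abel
  have hc : ∀ x, ∃ c : F, suMat A *ᵥ x = x + c • w := by
    intro x
    obtain ⟨c, hc⟩ := hspan ⟨B *ᵥ x, ⟨x, rfl⟩⟩
    refine ⟨c, ?_⟩
    have : c • w = B *ᵥ x := congrArg Subtype.val hc
    rw [this, hAx]
  choose c hc using hc
  have hrel : ∀ x y, c y ^ 2 * hermForm n F 2 x w + c x * hermForm n F 2 w y +
      c x * c y ^ 2 * hermForm n F 2 w w = 0 := by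
    intro x y
    have := suMat_pres A x y
    rw [hc x, hc y] at this
    simp only [hermForm_add_left, hermForm_add_right hF, hermForm_smul_left, hermForm_smul_right] at this
    linear_combination this
  obtain ⟨y₀, hy₀⟩ : ∃ y₀, c y₀ = 1 := by
    obtain ⟨y, hy⟩ := hwr
    refine ⟨y, ?_⟩
    have h1 := hc y
    rw [hAx] at h1
    have h2 : w = c y • w := by
      have : B *ᵥ y = w := hy
      rw [this] at h1
      exact add_left_cancel h1
    by_contra hne
    apply hw0'
    have : (1 - c y) • w = 0 := by rw [sub_smul, one_smul, ← h2, sub_self]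
    exact (smul_eq_zero.1 this).resolve_left (sub_ne_zero.2 (Ne.symm hne))
  set κ := hermForm n F 2 w y₀ + hermForm n F 2 w w with hκdef
  have h1 : ∀ x, hermForm n F 2 x w + c x * κ = 0 := by
    intro x
    have := hrel x y₀
    rw [hy₀] at this
    rw [hκdef]
    linear_combination this
  have hκ : κ ≠ 0 := by
    intro h0
    apply hw0'
    apply eq_zero_of_hermForm_right hF
    intro x
    have := h1 x
    rw [h0, mul_zero, add_zero] at this
    exact this
  have hce : ∀ x, c x = (-κ⁻¹) * hermForm n F 2 x w := by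
    intro x
    have := h1 x
    field_simp
    linear_combination this
  have he0 : -κ⁻¹ ≠ 0 := neg_ne_zero.2 (inv_ne_zero hκ)
  have hmat : suMat A = r1 2 (-κ⁻¹) w w := by
    apply Matrix.toLin'.injective
    apply LinearMap.ext
    intro x
    rw [Matrix.toLin'_apply, Matrix.toLin'_apply, hc, hce, r1_mulVec]
  have hdet : (suMat A).det = 1 := A.1.2
  rw [hmat, r1_det] at hdet
  have hN : hermForm n F 2 w w = 0 := by
    have : (-κ⁻¹) * hermForm n F 2 w w = 0 := by linear_combination hdet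
    exact (mul_eq_zero.1 this).resolve_left he0
  obtain ⟨y, hyw, -⟩ := exists_hyperbolic_partner hF w hw0' hN
  have h3 := hrel y y
  rw [hce y, hyw, hN, ← hermForm_swap hF y w, hyw] at h3
  have he : -κ⁻¹ = 1 := by
    have h4 : (-κ⁻¹) * (-κ⁻¹ + 1) = 0 := by linear_combination h3
    have h5 := (mul_eq_zero.1 h4).resolve_left he0
    linear_combination h5 - four_two hF
  exact ⟨w, hw0', hN, fun x => by rw [hc, hce, he, one_mul]⟩

omit [Fintype F] in
theorem rank_eq_one_of {q : ℕ} (A : ↥(SU n F q)) (hA1 : A ≠ 1) (u w : Fin n → F)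
    (h : suMat A - 1 = Matrix.vecMulVec u w) : (suMat A - 1).rank = 1 := by
  apply le_antisymm
  · rw [h]
    exact Matrix.rank_vecMulVec_le _ _
  · rw [Nat.one_le_iff_ne_zero]
    intro h0
    have h1 : Module.finrank F (LinearMap.range (suMat A - 1).mulVecLin) = 0 := h0
    rw [Submodule.finrank_eq_zero, LinearMap.range_eq_bot] at h1
    apply hA1
    apply su_ext
    intro x
    have h2 := congrArg (fun f => f x) h1
    simp only [Matrix.mulVecLin_apply, LinearMap.zero_apply, Matrix.sub_mulVec, Matrix.one_mulVec] at h2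
    have h3 : suMat (1 : ↥(SU n F q)) *ᵥ x = x := Matrix.one_mulVec x
    rw [h3]
    exact sub_eq_zero.1 h2

theorem rank_one_of_isT (hF : Fintype.card F = 2 ^ 2) {A : ↥(SU n F 2)} {a : Fin n → F} (hA : IsT A a) :
    (suMat A - 1).rank = 1 := by
  apply rank_eq_one_of A (hA.ne_one hF) ((1 : F) • a) (fun j => a j ^ 2)
  have hmat : suMat A = r1 2 1 a a := by
    apply Matrix.toLin'.injective
    apply LinearMap.ext
    intro x
    rw [Matrix.toLin'_apply, Matrix.toLin'_apply, hA.2.2, r1_mulVec, one_mul]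
  rw [hmat, r1, add_sub_cancel_left]

theorem su_three_transp (hF : Fintype.card F = 2 ^ 2) (hn : 4 ≤ n) :
    IsThreeTranspositionClass {g : ↥(SU n F 2) | (suMat g - 1).rank = 1} := by
  have hset : {g : ↥(SU n F 2) | (suMat g - 1).rank = 1} = {g | ∃ a, IsT g a} := by
    ext g
    exact ⟨isT_of_rank_one hF g, fun ⟨a, ha⟩ => rank_one_of_isT hF ha⟩
  rw [hset]
  obtain ⟨a₀, ha₀0, ha₀⟩ : ∃ a₀ : Fin n → F, a₀ ≠ 0 ∧ hermForm n F 2 a₀ a₀ = 0 := by
    have h1 : hermForm n F 2 (Pi.single (⟨0, by omega⟩ : Fin n) 1) (Pi.single (⟨0, by omega⟩ : Fin n) 1) = 1 := by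
      rw [hf_single_single hF, if_pos rfl]
    obtain ⟨x, hxv, hxx⟩ := exists_norm_perp_one hF (by omega) (Pi.single (⟨0, by omega⟩ : Fin n) 1)
      (by rw [h1]; exact one_ne_zero) (-1) (by rw [neg_pow_q hF, one_pow])
    refine ⟨Pi.single (⟨0, by omega⟩ : Fin n) 1 + x, ?_, ?_⟩
    · intro h0
      have := congrArg (fun t => hermForm n F 2 t (Pi.single (⟨0, by omega⟩ : Fin n) 1)) h0
      simp only [hermForm_add_left, h1, hxv, hermForm_zero_left] at this
      simp at this
    · simp only [hermForm_add_left, hermForm_add_right hF, h1, hxv, hxx, hermForm_eq_zero_symm hF _ _ hxv]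
      ring
  obtain ⟨d₀, hd₀⟩ := exists_isT hF a₀ ha₀0 ha₀
  refine ⟨⟨?_, ?_⟩, ⟨d₀, ⟨a₀, hd₀⟩, ?_⟩, ?_⟩
  · rintro d ⟨a, ha⟩
    exact orderOf_eq_prime (by rw [pow_two]; exact ha.mul_self hF) (ha.ne_one hF)
  · rintro d ⟨a, ha⟩ e ⟨b, hb⟩
    exact ha.mul_pow hF hb
  · ext g
    constructor
    · rintro ⟨a, ha⟩
      show IsConj d₀ g
      obtain ⟨x, hx, hxx⟩ := exists_hyperbolic_partner hF a₀ ha₀0 ha₀
      obtain ⟨u, hu, huu⟩ := exists_hyperbolic_partner hF a ha.1 ha.2.1
      obtain ⟨k, hk, ⟨α, hα0, hα⟩, -⟩ := su_hyp_trans hF a₀ x a u ha₀ hxx ha.2.1 huu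
        (by rw [hx]; exact one_ne_zero) (by rw [hu]; exact one_ne_zero)
      obtain ⟨K, hK⟩ := exists_suToGL k hk
      have hKm : suMat K = (k : Matrix (Fin n) (Fin n) F) := by rw [← hK]; rfl
      rw [isConj_iff]
      refine ⟨K, ?_⟩
      have h1 := hd₀.conj K
      rw [hKm, hα] at h1
      exact h1.unique (ha.smul hF α hα0)
    · intro hc
      obtain ⟨c, hc⟩ := isConj_iff.1 hc
      rw [← hc]
      exact ⟨_, hd₀.conj c⟩
  · rw [eq_top_iff, ← su_closure_transvections hF (by omega) (by omega), Subgroup.closure_le]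
    rintro A ⟨v, c, hv, hA⟩
    by_cases h1 : A = 1
    · rw [h1]; exact Subgroup.one_mem _
    · apply Subgroup.subset_closure
      apply isT_of_rank_one hF
      apply rank_eq_one_of A h1 (c • v) (fun j => v j ^ 2)
      have : suMat A = unitaryTransvection n 2 v c := hA
      rw [this, unitaryTransvection, add_sub_cancel_left, Matrix.smul_vecMulVec]

end Cfsg.Agent.Lib.Helper15
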