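import Mathlib
import Cfsg.Agent.Lib.Helper15.SU3T2
import Cfsg.Agent.Lib.Helper15.PSU1

set_option autoImplicit false

namespace Cfsg.Agent.Lib.Helper15

open Module Matrix Cfsg Cfsg.Agent.Lib.Helper14

variable {F : Type*} [Field F] [Fintype F] {n q : ℕ}

/-- decomposition of an involution as a product of commuting transvections -/
def IsDec (a : ↥(SU n F q)) (r : ℕ) (s : Fin r → Fin n → F) : Prop :=
  LinearIndependent F s ∧ (∀ i j, hermForm n F q (s i) (s j) = 0) ∧
    ∀ x, suMat a *ᵥ x = x + ∑ i, hermForm n F q x (s i) • s i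

theorem IsDec.rank (hF : Fintype.card F = q ^ 2) {a : ↥(SU n F q)} {r : ℕ} {s : Fin r → Fin n → F}
    (h : IsDec a r s) : (suMat a - 1).rank = r := by
  have hr : LinearMap.range (suMat a - 1).mulVecLin = Submodule.span F (Set.range s) := by
    apply le_antisymm
    · rintro _ ⟨x, rfl⟩
      rw [Matrix.mulVecLin_apply, Matrix.sub_mulVec, Matrix.one_mulVec, h.2.2, add_sub_cancel_left]
      exact Submodule.sum_mem _ (fun i _ => Submodule.smul_mem _ _ (Submodule.subset_span ⟨i, rfl⟩))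
    · rw [Submodule.span_le]
      rintro _ ⟨j, rfl⟩
      classical
      obtain ⟨z, hz⟩ := hermL_surjective hF s h.1 (Pi.single j 1)
      refine ⟨z, ?_⟩
      rw [Matrix.mulVecLin_apply, Matrix.sub_mulVec, Matrix.one_mulVec, h.2.2, add_sub_cancel_left]
      have : ∀ i, hermForm n F q z (s i) = (Pi.single j 1 : Fin r → F) i := fun i => congrFun hz i
      simp only [this, Pi.single_apply, ite_smul, one_smul, zero_smul, Finset.sum_ite_eq', Finset.mem_univ, if_true]
  show finrank F (LinearMap.range (suMat a - 1).mulVecLin) = r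
  rw [hr, finrank_span_eq_card h.1, Fintype.card_fin]

omit [Fintype F] in
theorem IsDec.conj_of_map {a b : ↥(SU n F q)} {r : ℕ} {s s' : Fin r → Fin n → F} (ha : IsDec a r s)
    (hb : IsDec b r s') (k : ↥(SU n F q)) (c : Fin r → F) (hc : ∀ i, c i * c i ^ q = 1)
    (hk : ∀ i, suMat k *ᵥ s i = c i • s' i) : k * a * k⁻¹ = b := by
  apply su_ext
  intro x
  rw [suMat_mul, suMat_mul, ha.2.2, Matrix.mulVec_add, suMat_mul_inv, hb.2.2, Matrix.mulVec_sum]
  congr 1
  apply Finset.sum_congr rfl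
  intro i _
  rw [Matrix.mulVec_smul, hk]
  have : hermForm n F q (suMat k⁻¹ *ᵥ x) (s i) = hermForm n F q x (c i • s' i) := by
    rw [← hk, ← suMat_pres k, suMat_mul_inv]
  rw [this, hermForm_smul_right, smul_smul]
  congr 1
  linear_combination (hermForm n F q x (s' i)) * hc i

theorem even_q_of_char_two [CharP F 2] (hF : Fintype.card F = q ^ 2) : ∃ m, q = 2 * m := by
  have h1 : ((Fintype.card F : ℕ) : F) = 0 := Nat.cast_card_eq_zero F
  rw [CharP.cast_eq_zero_iff F 2, hF] at h1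
  exact Nat.Prime.dvd_of_dvd_pow Nat.prime_two h1

theorem IsDec.isConj [CharP F 2] (hF : Fintype.card F = q ^ 2) {a b : ↥(SU n F q)} {r : ℕ}
    {s s' : Fin (r + 1) → Fin n → F} (ha : IsDec a (r + 1) s) (hb : IsDec b (r + 1) s') : IsConj a b := by
  classical
  obtain ⟨g, hg, hgs⟩ := gu_witt hF s s' ha.1 hb.1 (fun i j => by rw [ha.2.1, hb.2.1])
  obtain ⟨l, hl⟩ : ∃ l : F, l = (g : Matrix (Fin n) (Fin n) F).det := ⟨_, rfl⟩
  have hl1 : l ^ (q + 1) = 1 := by rw [hl]; exact det_pow_eq_one hF _ ((mem_GU_iff g).1 hg)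
  have hl0 : l ≠ 0 := by
    rintro rfl
    rw [zero_pow (by omega)] at hl1
    exact zero_ne_one hl1
  obtain ⟨m, hm⟩ := even_q_of_char_two (F := F) hF
  obtain ⟨μ, hμ⟩ : ∃ μ : F, μ = (l⁻¹) ^ (m + 1) := ⟨_, rfl⟩
  have hli : (l⁻¹) ^ (q + 1) = 1 := by rw [inv_pow, hl1, inv_one]
  have hμ2 : μ * μ * l = 1 := by
    have : μ * μ = (l⁻¹) ^ (q + 1) * l⁻¹ := by
      rw [hμ, ← pow_add, ← pow_succ]
      congr 1
      omega
    rw [this, hli, one_mul, inv_mul_cancel₀ hl0]
  have hμ1 : μ * μ ^ q = 1 := by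
    rw [← pow_succ', hμ, ← pow_mul, mul_comm, pow_mul, hli, one_pow]
  obtain ⟨z, hz⟩ := hermL_surjective hF s' hb.1 (Pi.single 0 1)
  have hz' : ∀ i, hermForm n F q z (s' i) = (Pi.single 0 1 : Fin (r + 1) → F) i := fun i => congrFun hz i
  obtain ⟨t, ht⟩ := exists_trace_eq hF 1 one_ne_zero (-hermForm n F q z z)
    (by rw [neg_pow_q hF, hermForm_self_pow hF])
  rw [one_pow, mul_one, mul_one] at ht
  obtain ⟨p, hp⟩ : ∃ p : Fin n → F, p = z + t • s' 0 := ⟨_, rfl⟩
  have hps : ∀ i, hermForm n F q p (s' i) = (Pi.single 0 1 : Fin (r + 1) → F) i := by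
    intro i
    rw [hp, hermForm_add_left, hermForm_smul_left, hb.2.1, mul_zero, add_zero, hz']
  have hp0 : hermForm n F q p (s' 0) = 1 := by rw [hps]; simp
  have h0z : hermForm n F q (s' 0) z = 1 := by rw [← hermForm_swap hF, hz']; simp
  have hpp : hermForm n F q p p = 0 := by
    rw [hp]
    simp only [hermForm_add_left, hermForm_add_right hF, hermForm_smul_left, hermForm_smul_right, hb.2.1, h0z,
      hz' 0, Pi.single_eq_same]
    linear_combination ht
  have h0p : hermForm n F q (s' 0) p = 1 := by rw [← hermForm_swap hF, hp0, one_pow]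
  have hab : (1 + (μ - 1) ^ q) * (1 + (μ - 1)) = 1 := by
    rw [sub_pow_q hF, one_pow]
    linear_combination hμ1
  obtain ⟨d, hd⟩ : ∃ d : GU n F q, d = guMk hF (r1 q (μ - 1) (s' 0) p * r1 q (μ - 1) p (s' 0))
    (hyp_preserves hF (s' 0) p (hb.2.1 0 0) hpp hp0 _ _ hab) := ⟨_, rfl⟩
  have hdm : ((d : GL (Fin n) F) : Matrix (Fin n) (Fin n) F) = r1 q (μ - 1) (s' 0) p * r1 q (μ - 1) p (s' 0) := by
    rw [hd]; rfl
  have hdet : ((d : GL (Fin n) F) : Matrix (Fin n) (Fin n) F).det = μ * μ := by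
    rw [hdm, Matrix.det_mul, r1_det, r1_det, h0p, hp0]; ring
  have hds : ∀ i, ((d : GL (Fin n) F) : Matrix (Fin n) (Fin n) F) *ᵥ s' i = (if i = 0 then μ else 1) • s' i := by
    intro i
    rw [hdm, ← Matrix.mulVec_mulVec, r1_mulVec (μ - 1) p (s' 0) (s' i), hb.2.1, mul_zero, zero_smul, add_zero,
      r1_mulVec, ← hermForm_swap hF, hps]
    by_cases hi : i = 0
    · subst hi
      rw [if_pos rfl, Pi.single_eq_same, one_pow]
      module
    · rw [if_neg hi, Pi.single_eq_of_ne hi, zero_pow (q_ne_zero hF)]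
      module
  have hk : (d : GL (Fin n) F) * g ∈ GU n F q ⊓ Geo.specialLinear (Fin n) F := by
    refine ⟨Subgroup.mul_mem _ d.2 hg, (mem_specialLinear_iff' _).2 ?_⟩
    rw [Units.val_mul, Matrix.det_mul, hdet, ← hl, hμ2]
  obtain ⟨K, hK⟩ := exists_su_of_gl _ hk
  refine isConj_iff.2 ⟨K, IsDec.conj_of_map ha hb K (fun i => if i = 0 then μ else 1) ?_ ?_⟩
  · intro i
    by_cases hi : i = 0
    · simp only [if_pos hi]; exact hμ1
    · simp only [if_neg hi]; simp
  · intro i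
    rw [hK, Units.val_mul, ← Matrix.mulVec_mulVec, hgs, hds]

end Cfsg.Agent.Lib.Helper15
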