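import Mathlib
import Cfsg.Agent.Lib.Helper15.SUInv1

set_option autoImplicit false

namespace Cfsg.Agent.Lib.Helper15

open Module Matrix Cfsg Cfsg.Agent.Lib.Helper14

variable {F : Type*} [Field F] [Fintype F] {n q : ℕ}

theorem inv_step [CharP F 2] (hF : Fintype.card F = q ^ 2) (a : ↥(SU n F q)) (haa : a * a = 1) (h1 : a ≠ 1) :
    ∃ (a₁ : ↥(SU n F q)) (s₀ x' : Fin n → F), a₁ * a₁ = 1 ∧ hermForm n F q s₀ s₀ = 0 ∧
      hermForm n F q s₀ x' = 1 ∧
      (∀ x, suMat a₁ *ᵥ x = suMat a *ᵥ x + hermForm n F q x s₀ • s₀) ∧ suMat a₁ *ᵥ s₀ = s₀ ∧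
      suMat a₁ *ᵥ x' = x' ∧ suMat a *ᵥ x' ≠ x' ∧ (∀ v, suMat a *ᵥ v = v → suMat a₁ *ᵥ v = v) := by
  have h2 : (2 : F) = 0 := CharTwo.two_eq_zero
  have haa' : ∀ x, suMat a *ᵥ (suMat a *ᵥ x) = x := fun x => by
    rw [← suMat_mul, haa]; exact Matrix.one_mulVec x
  have hadj : ∀ x y, hermForm n F q (suMat a *ᵥ x) y = hermForm n F q x (suMat a *ᵥ y) := fun x y => by
    conv_lhs => rw [← haa' y]
    rw [suMat_pres]
  obtain ⟨x, hx⟩ : ∃ x, hermForm n F q (suMat a *ᵥ x + x) x ≠ 0 := by
    by_contra hcon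
    push Not at hcon
    apply h1
    apply su_ext
    intro x
    have h0 : suMat a *ᵥ x + x = 0 := by
      apply eq_zero_of_hermForm_right hF
      intro y
      by_contra hb
      have hb' := herm_ne_symm hF hb
      obtain ⟨t, ht⟩ := exists_trace_eq hF _ hb' 1 (one_pow q)
      rw [hermForm_swap hF] at ht
      have h3 := hcon (x + t • y)
      have h4 := hcon x
      have h5 := hcon y
      simp only [Matrix.mulVec_add, Matrix.mulVec_smul, hermForm_add_left, hermForm_add_right hF,
        hermForm_smul_left, hermForm_smul_right] at h3 h4 h5 ht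
      rw [← hadj y x] at ht
      have : (1 : F) = 0 := by
        linear_combination h3 - h4 - t * t ^ q * h5 - ht
      exact one_ne_zero this
    have h3 : suMat (1 : ↥(SU n F q)) *ᵥ x = x := Matrix.one_mulVec x
    rw [h3]
    have : suMat a *ᵥ x = (suMat a *ᵥ x + x) - (2 : F) • x + x := by module
    rw [this, h0, h2]
    simp
  obtain ⟨γ, hγ⟩ : ∃ γ : F, γ = hermForm n F q (suMat a *ᵥ x + x) x := ⟨_, rfl⟩
  rw [← hγ] at hx
  have hγq : γ ^ q = γ := by
    rw [hγ, hermForm_swap hF, hermForm_add_right hF, hermForm_add_left, hadj]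
  obtain ⟨l, hl⟩ := exists_norm_eq hF (1 / γ) (by rw [div_pow, one_pow, hγq])
  obtain ⟨x', hx'⟩ : ∃ x' : Fin n → F, x' = l • x := ⟨_, rfl⟩
  obtain ⟨s₀, hs₀⟩ : ∃ s₀ : Fin n → F, s₀ = suMat a *ᵥ x' + x' := ⟨_, rfl⟩
  have hsx : hermForm n F q s₀ x' = 1 := by
    have : s₀ = l • (suMat a *ᵥ x + x) := by rw [hs₀, hx', Matrix.mulVec_smul, smul_add]
    rw [this, hx', hermForm_smul_left, hermForm_smul_right, ← hγ]
    rw [pow_succ] at hl
    field_simp at hl
    linear_combination hl
  have hxs : hermForm n F q x' s₀ = 1 := by rw [← hermForm_swap hF, hsx, one_pow]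
  have hss : hermForm n F q s₀ s₀ = 0 := by
    rw [hs₀]
    simp only [hermForm_add_left, hermForm_add_right hF, suMat_pres]
    rw [hadj x' x']
    linear_combination (hermForm n F q x' x' + hermForm n F q x' (suMat a *ᵥ x')) * h2
  have has : suMat a *ᵥ s₀ = s₀ := by
    rw [hs₀, Matrix.mulVec_add, haa', add_comm]
  have hc : (1 : F) + 1 ^ q = 0 := by rw [one_pow]; linear_combination h2
  obtain ⟨k, -, hk⟩ := exists_tv hF s₀ 1 hss hc
  obtain ⟨T, hT⟩ := exists_su_of_gl k (tv_mem_SU hF s₀ 1 hss hc k hk)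
  have hform : ∀ y, suMat (a * T) *ᵥ y = suMat a *ᵥ y + hermForm n F q y s₀ • s₀ := by
    intro y
    rw [suMat_mul, hT, hk, one_mul, Matrix.mulVec_add, Matrix.mulVec_smul, has]
  refine ⟨a * T, s₀, x', ?_, hss, hsx, hform, ?_, ?_, ?_, ?_⟩
  · apply su_ext
    intro y
    rw [suMat_mul (a * T), hform, hform, Matrix.mulVec_add, Matrix.mulVec_smul, haa', has, hermForm_add_left,
      hermForm_smul_left, hss, hadj, has]
    have h3 : suMat (1 : ↥(SU n F q)) *ᵥ y = y := Matrix.one_mulVec y
    rw [h3]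
    have : y + hermForm n F q y s₀ • s₀ + (hermForm n F q y s₀ + hermForm n F q y s₀ * 0) • s₀ =
        y + ((2 : F) * hermForm n F q y s₀) • s₀ := by module
    rw [this, h2, zero_mul, zero_smul, add_zero]
  · rw [hform, has, hss, zero_smul, add_zero]
  · rw [hform, hxs, one_smul, hs₀]
    have : suMat a *ᵥ x' + (suMat a *ᵥ x' + x') = (2 : F) • (suMat a *ᵥ x') + x' := by module
    rw [this, h2, zero_smul, zero_add]
  · intro h
    have : s₀ = 0 := by
      rw [hs₀, h]
      have : x' + x' = (2 : F) • x' := by module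
      rw [this, h2, zero_smul]
    rw [this, hermForm_zero_left] at hsx
    exact zero_ne_one hsx
  · intro v hv
    rw [hform, hv]
    have : hermForm n F q v s₀ = 0 := by
      rw [hs₀, hermForm_add_right hF, ← hadj, hv]
      linear_combination hermForm n F q v x' * h2
    rw [this, zero_smul, add_zero]

omit [Fintype F] in
theorem isDec_one : IsDec (1 : ↥(SU n F q)) 0 Fin.elim0 := by
  refine ⟨linearIndependent_empty_type, fun i => i.elim0, fun x => ?_⟩
  have h3 : suMat (1 : ↥(SU n F q)) *ᵥ x = x := Matrix.one_mulVec x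
  rw [h3]
  simp

omit [Fintype F] in
theorem mem_ker_sub_one (a : ↥(SU n F q)) (x : Fin n → F) :
    x ∈ LinearMap.ker (suMat a - 1).mulVecLin ↔ suMat a *ᵥ x = x := by
  rw [LinearMap.mem_ker, Matrix.mulVecLin_apply, Matrix.sub_mulVec, Matrix.one_mulVec, sub_eq_zero]

theorem exists_isDec [CharP F 2] (hF : Fintype.card F = q ^ 2) : ∀ (k : ℕ) (a : ↥(SU n F q)), a * a = 1 →
    n ≤ finrank F (LinearMap.ker (suMat a - 1).mulVecLin) + k →
    ∃ r, ∃ s : Fin r → Fin n → F, IsDec a r s := by
  intro k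
  induction k with
  | zero =>
    intro a _ hk
    have htop : LinearMap.ker (suMat a - 1).mulVecLin = ⊤ := by
      apply Submodule.eq_top_of_finrank_eq
      rw [finrank_fintype_fun_eq_card, Fintype.card_fin]
      have := Submodule.finrank_le (LinearMap.ker (suMat a - 1).mulVecLin)
      rw [finrank_fintype_fun_eq_card, Fintype.card_fin] at this
      omega
    have : a = 1 := by
      apply su_ext
      intro x
      have h3 : suMat (1 : ↥(SU n F q)) *ᵥ x = x := Matrix.one_mulVec x
      rw [h3, ← mem_ker_sub_one, htop]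
      trivial
    rw [this]
    exact ⟨0, _, isDec_one⟩
  | succ k ih =>
    intro a haa hk
    by_cases h1 : a = 1
    · rw [h1]
      exact ⟨0, _, isDec_one⟩
    have h2 : (2 : F) = 0 := CharTwo.two_eq_zero
    obtain ⟨a₁, s₀, x', h11, hss, hsx, hform, hfix, hfx', hax', hker⟩ := inv_step hF a haa h1
    have hlt : LinearMap.ker (suMat a - 1).mulVecLin < LinearMap.ker (suMat a₁ - 1).mulVecLin := by
      refine lt_of_le_of_ne (fun v hv => ?_) (fun he => ?_)
      · rw [mem_ker_sub_one] at hv ⊢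
        exact hker v hv
      · apply hax'
        rw [← mem_ker_sub_one, he, mem_ker_sub_one]
        exact hfx'
    have hlt' := Submodule.finrank_lt_finrank_of_lt hlt
    obtain ⟨r, s, hs⟩ := ih a₁ h11 (by omega)
    have hzero : ∀ y, suMat a₁ *ᵥ y = y → ∀ i, hermForm n F q y (s i) = 0 := by
      intro y hy i
      have h3 := hs.2.2 y
      rw [hy] at h3
      have h4 : ∑ i, hermForm n F q y (s i) • s i = 0 := by
        have := h3.symm
        rwa [add_eq_left] at this
      exact Fintype.linearIndependent_iff.1 hs.1 _ h4 i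
    have hs₀s := hzero s₀ hfix
    have hx's := hzero x' hfx'
    refine ⟨r + 1, Fin.cons s₀ s, ?_, ?_, ?_⟩
    · rw [linearIndependent_finCons]
      refine ⟨hs.1, fun hmem => ?_⟩
      have hle : Submodule.span F (Set.range s) ≤ LinearMap.ker (hermLin q x') := by
        rw [Submodule.span_le]
        rintro _ ⟨i, rfl⟩
        exact hermForm_eq_zero_symm hF _ _ (hx's i)
      have : hermForm n F q s₀ x' = 0 := hle hmem
      rw [hsx] at this
      exact one_ne_zero this
    · intro i j
      refine Fin.cases ?_ (fun i => ?_) i <;> refine Fin.cases ?_ (fun j => ?_) j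
      · simpa using hss
      · simpa using hs₀s j
      · simpa using hermForm_eq_zero_symm hF _ _ (hs₀s i)
      · simpa using hs.2.1 i j
    · intro x
      rw [Fin.sum_univ_succ]
      simp only [Fin.cons_zero, Fin.cons_succ]
      have h3 := hform x
      rw [hs.2.2] at h3
      have : suMat a *ᵥ x = (suMat a *ᵥ x + hermForm n F q x s₀ • s₀) + hermForm n F q x s₀ • s₀ -
          ((2 : F) * hermForm n F q x s₀) • s₀ := by module
      rw [this, ← h3, h2, zero_mul, zero_smul, sub_zero]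
      abel

theorem su_involution_conj [CharP F 2] (hF : Fintype.card F = q ^ 2) (a b : ↥(SU n F q))
    (ha : orderOf a = 2) (hb : orderOf b = 2) :
    (IsConj a b ↔ IsConj (a : Matrix.SpecialLinearGroup (Fin n) F) (b : Matrix.SpecialLinearGroup (Fin n) F)) ∧
    (IsConj a b ↔ (suMat a - 1).rank = (suMat b - 1).rank) := by
  have haa : a * a = 1 := by rw [← pow_two, ← ha]; exact pow_orderOf_eq_one a
  have hbb : b * b = 1 := by rw [← pow_two, ← hb]; exact pow_orderOf_eq_one b
  have ha1 : a ≠ 1 := by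
    rintro rfl
    rw [orderOf_one] at ha
    omega
  have k1 : IsConj a b → IsConj (a : Matrix.SpecialLinearGroup (Fin n) F)
      (b : Matrix.SpecialLinearGroup (Fin n) F) := by
    intro h
    obtain ⟨c, hc⟩ := isConj_iff.1 h
    exact isConj_iff.2 ⟨c, by rw [← hc]; rfl⟩
  have k2 : IsConj (a : Matrix.SpecialLinearGroup (Fin n) F) (b : Matrix.SpecialLinearGroup (Fin n) F) →
      (suMat a - 1).rank = (suMat b - 1).rank := by
    intro h
    obtain ⟨c, hc⟩ := isConj_iff.1 h
    have h1 : suMat b = (c : Matrix (Fin n) (Fin n) F) * suMat a *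
        ((c⁻¹ : Matrix.SpecialLinearGroup (Fin n) F) : Matrix (Fin n) (Fin n) F) := by
      show ((b : Matrix.SpecialLinearGroup (Fin n) F) : Matrix (Fin n) (Fin n) F) = _
      rw [← hc]; rfl
    have h2 : (c : Matrix (Fin n) (Fin n) F) *
        ((c⁻¹ : Matrix.SpecialLinearGroup (Fin n) F) : Matrix (Fin n) (Fin n) F) = 1 := by
      rw [← Matrix.SpecialLinearGroup.coe_mul, mul_inv_cancel]; rfl
    have h3 : suMat b - 1 = (c : Matrix (Fin n) (Fin n) F) * (suMat a - 1) *
        ((c⁻¹ : Matrix.SpecialLinearGroup (Fin n) F) : Matrix (Fin n) (Fin n) F) := by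
      rw [h1, mul_sub, sub_mul, mul_one, h2]
    rw [h3, Matrix.rank_mul_eq_left_of_isUnit_det _ _ (by rw [(c⁻¹).2]; exact isUnit_one),
      Matrix.rank_mul_eq_right_of_isUnit_det _ _ (by rw [c.2]; exact isUnit_one)]
  have k3 : (suMat a - 1).rank = (suMat b - 1).rank → IsConj a b := by
    intro h
    obtain ⟨r, s, hs⟩ := exists_isDec hF n a haa (by omega)
    obtain ⟨r', s', hs'⟩ := exists_isDec hF n b hbb (by omega)
    rw [hs.rank hF, hs'.rank hF] at h
    subst h
    have hr : r ≠ 0 := by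
      rintro rfl
      apply ha1
      apply su_ext
      intro x
      have h3 : suMat (1 : ↥(SU n F q)) *ᵥ x = x := Matrix.one_mulVec x
      rw [h3, hs.2.2]
      simp
    obtain ⟨r₀, rfl⟩ := Nat.exists_eq_succ_of_ne_zero hr
    exact hs.isConj hF hs'
  exact ⟨⟨k1, fun h => k3 (k2 h)⟩, ⟨fun h => k2 (k1 h), k3⟩⟩

end Cfsg.Agent.Lib.Helper15
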